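import Cfsg.Agent.H24.Ree7
import Cfsg.Agent.H22.LsA
import Mathlib.Analysis.Fourier.FiniteAbelian.PontryaginDuality

/-! Degree bounds from a Heisenberg subgroup. -/

set_option linter.unusedSectionVars false
set_option maxHeartbeats 400000

namespace H24
open LinearMap Module

section
variable {V : Type*} [AddCommGroup V] [Module ℂ V] [Module.Finite ℂ V] {M : Type*} [AddCommGroup M] [Fintype M]

/-- Fourier coefficients of a family of operators -/
noncomputable def fco (T : M → End ℂ V) (μ : AddChar M ℂ) : End ℂ V := ∑ m, μ (-m) • T m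

variable {T : M → End ℂ V}

theorem sum_fco (m : M) : ∑ μ : AddChar M ℂ, μ m • fco T μ = (Fintype.card M : ℂ) • T m := by
  classical
  simp only [fco, Finset.smul_sum, smul_smul, ← AddChar.map_add_eq_mul]
  rw [Finset.sum_comm]
  simp only [← Finset.sum_smul, AddChar.sum_apply_eq_ite, add_neg_eq_zero, ite_smul, zero_smul, Finset.sum_ite_eq,
    Finset.mem_univ, if_true]

variable (hT : ∀ m m', T (m + m') = T m * T m')
include hT

theorem mul_fco (μ : AddChar M ℂ) (m : M) : T m * fco T μ = μ m • fco T μ := by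
  simp only [fco, Finset.mul_sum, Finset.smul_sum, smul_smul, ← AddChar.map_add_eq_mul, mul_smul_comm, ← hT]
  exact Fintype.sum_equiv (Equiv.addLeft m) _ _ fun a => by simp

theorem fco_sq (μ : AddChar M ℂ) : fco T μ * fco T μ = (Fintype.card M : ℂ) • fco T μ := by
  conv_lhs => lhs; rw [fco]
  simp only [Finset.sum_mul, smul_mul_assoc, mul_fco hT, smul_smul, ← AddChar.map_add_eq_mul, neg_add_cancel,
    AddChar.map_zero_eq_one, one_smul, Finset.sum_const, Finset.card_univ, Nat.cast_smul_eq_nsmul]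

theorem exists_fco : ∃ n : AddChar M ℂ → ℕ, (∀ μ, trace ℂ V (fco T μ) = Fintype.card M * n μ ∧ (n μ = 0 → fco T μ = 0)) ∧
    ∀ m, trace ℂ V (T m) = ∑ μ, n μ * μ m := by
  have h0 : (Fintype.card M : ℂ) ≠ 0 := Nat.cast_ne_zero.2 Fintype.card_ne_zero
  choose n hn using fun μ => trace_of_sq h0 (fco_sq hT μ)
  refine ⟨n, hn, fun m => mul_left_cancel₀ h0 ?_⟩
  rw [← smul_eq_mul, ← map_smul, ← sum_fco, map_sum, Finset.mul_sum]
  exact Finset.sum_congr rfl fun μ _ => by rw [map_smul, (hn μ).1, smul_eq_mul]; ring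

end

theorem exists_lin {F M : Type*} [Field F] [Finite F] [AddCommGroup M] [Module F M] (μ : AddChar M ℂ) :
    ∃ φ : M →ₗ[F] F, ∀ m, φ m = 0 → ∀ t : F, μ (t • m) = 1 := by
  obtain ⟨ψ, hψ⟩ := (AddChar.exists_apply_ne_zero (a := (1 : F))).2 one_ne_zero
  choose φ hφ using fun m : M => H22.Ls.exists_shift ⟨1, hψ⟩ (f := fun t : F => μ (t • m)) (by simp)
    fun x y => by simp only [add_smul, AddChar.map_add_eq_mul]
  refine ⟨⟨⟨φ, fun a b => H22.Ls.shift_inj ⟨1, hψ⟩ fun t => ?_⟩, fun c a => H22.Ls.shift_inj ⟨1, hψ⟩ fun t => ?_⟩,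
    fun m h t => ?_⟩
  · rw [← hφ, smul_add, add_mul, AddChar.map_add_eq_mul, AddChar.map_add_eq_mul, hφ, hφ]
  · rw [← hφ, smul_smul, hφ]; congr 1; simp; ring
  · rw [hφ, show φ m = 0 from h]; simp

/-- a Heisenberg subgroup whose centre is a root group -/
structure Heis (F M G : Type*) [Field F] [AddCommGroup M] [Module F M] [Group G] where
  z : F → G
  x : M → G
  β : M → M → F
  z_add : ∀ a b, z (a + b) = z a * z b
  zx : ∀ a m, z a * x m = x m * z a
  x_zero : x 0 = 1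
  x_mul : ∀ m m', x m * x m' = x (m + m') * z (β m m')
  nd : ∀ m ≠ 0, ∀ t, ∃ m', β m' m - β m m' = t
  z_conj : ∀ t ≠ 0, IsConj (z t) (z 1)

namespace Heis
variable {F M G : Type*} [Field F] [Fintype F] [AddCommGroup M] [Module F M] [Fintype M] [Group G] (H : Heis F M G)

theorem z_zero : H.z 0 = 1 := by simpa using H.z_add 0 0

theorem conj {m : M} (hm : m ≠ 0) (t : F) : ∃ m', H.x m' * H.x m * (H.x m')⁻¹ = H.x m * H.z t := by
  obtain ⟨m', e⟩ := H.nd m hm t
  refine ⟨m', ?_⟩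
  rw [mul_inv_eq_iff_eq_mul, mul_assoc, H.zx, ← mul_assoc, H.x_mul, H.x_mul, mul_assoc, ← H.z_add, add_comm m, ← e]
  simp

theorem isConj {m : M} (hm : m ≠ 0) (s t : F) : IsConj (H.x m * H.z s) (H.x m * H.z t) := by
  have : ∀ t, IsConj (H.x m) (H.x m * H.z t) := fun t => isConj_iff.2 ((H.conj hm t).elim fun m' e => ⟨_, e⟩)
  exact (this s).symm.trans (this t)

variable {V : Type*} [AddCommGroup V] [Module ℂ V] [Module.Finite ℂ V] (ρ : Representation ℂ G V)

omit H in
theorem tr_conj {a b : G} (h : IsConj a b) : trace ℂ V (ρ a) = trace ℂ V (ρ b) := by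
  obtain ⟨c, rfl⟩ := isConj_iff.1 h
  rw [map_mul, trace_mul_comm, ← map_mul, inv_mul_cancel_left]

theorem card_le {μ : AddChar F ℂ} (hμ : μ ≠ 0) {e : ℕ} (h0 : e ≠ 0)
    (h : trace ℂ V (fco (fun t => ρ (H.z t)) μ) = Fintype.card F * e) : Fintype.card M ≤ e ^ 2 := by
  have hq : (Fintype.card F : ℂ) ≠ 0 := Nat.cast_ne_zero.2 Fintype.card_ne_zero
  let U : Submodule ℂ V :=
    { carrier := {w | ∀ t, ρ (H.z t) w = μ t • w}
      zero_mem' := by simp
      add_mem' := fun {a b} ha hb t => by rw [map_add, ha t, hb t, smul_add]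
      smul_mem' := fun c a ha t => by rw [map_smul, ha t, smul_comm] }
  have hp : IsProj U ((Fintype.card F : ℂ)⁻¹ • fco (fun t => ρ (H.z t)) μ) := ⟨fun w t => by
    have := congrArg (· w) (mul_fco (T := fun t => ρ (H.z t)) (fun a b => by rw [H.z_add, map_mul]) μ t)
    simp only [End.mul_apply, LinearMap.smul_apply] at this
    rw [LinearMap.smul_apply, map_smul, this, smul_comm], fun w hw => by
    have hw : ∀ t, ρ (H.z t) w = μ t • w := hw
    simp only [fco, LinearMap.smul_apply, LinearMap.sum_apply, hw, smul_smul, ← AddChar.map_add_eq_mul, neg_add_cancel,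
      AddChar.map_zero_eq_one, one_smul, Finset.sum_const, Finset.card_univ, ← Nat.cast_smul_eq_nsmul ℂ,
      inv_mul_cancel₀ hq]⟩
  have he : finrank ℂ U = e := by
    have := hp.trace
    rw [map_smul, h, smul_eq_mul, inv_mul_cancel_left₀ hq] at this
    exact_mod_cast this.symm
  obtain ⟨t, ht⟩ := AddChar.ne_zero_iff.1 hμ
  have hx : ∀ m, H.x m ∈ Subgroup.centralizer (Set.range H.z) := by rintro m _ ⟨a, rfl⟩; exact H.zx a m
  have hz : ∀ m, H.z m ∈ Subgroup.centralizer (Set.range H.z) := by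
    rintro m _ ⟨a, rfl⟩; rw [← H.z_add, add_comm, H.z_add]
  rw [← he, ← Nat.card_eq_fintype_card]
  refine H22.Ls.card_le_sq (ρ := ρ) (U := U) (fun e => h0 (by rw [← he, e, finrank_bot])) (Subgroup.centralizer (Set.range H.z))
    (fun g hg w hw a => ?_) H.x hx fun i j hij => ?_
  · rw [H22.Ls.rep_mul, hg _ ⟨a, rfl⟩, ← H22.Ls.rep_mul, hw a, map_smul]
  · obtain ⟨m', e⟩ := H.conj (sub_ne_zero.2 hij.symm) t
    have h1 : (H.x i)⁻¹ * H.x j = H.x (j - i) * H.z (-H.β i (j - i)) := by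
      rw [inv_mul_eq_iff_eq_mul, ← mul_assoc, H.x_mul, mul_assoc, ← H.z_add]; simp [H.z_zero]
    refine ⟨_, hx m', _, hz t, _, ht, fun w hw => hw t, ?_⟩
    rw [h1, mul_assoc (H.x _) (H.z _), ← H.z_add, add_comm, H.z_add, ← mul_assoc (H.x _) (H.z _), ← e]
    simp only [mul_assoc]
    congr 2
    rw [eq_inv_mul_iff_mul_eq, ← mul_assoc, ← H.zx, mul_inv_cancel_right]

theorem bound (h1 : ρ (H.z 1) ≠ 1) {ι : Type*} [Fintype ι] (L : ι → M) (h0 : ∀ i, L i ≠ 0)
    (hL : ∀ i, ∀ t : F, t ≠ 0 → ∃ s, IsConj (H.x (t • L i) * H.z s) (H.z 1))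
    (hp : ∀ φ : M →ₗ[F] F, ∃ i, φ (L i) = 0) : ∃ d e : ℕ, finrank ℂ V = d + (Fintype.card F - 1) * e ∧
      Fintype.card M ≤ e ^ 2 ∧ Fintype.card ι * (Fintype.card F - 1) * e + Fintype.card F * d ≤
        Fintype.card ι * Fintype.card F * d := by
  classical
  have hq : (Fintype.card F : ℂ) ≠ 0 := Nat.cast_ne_zero.2 Fintype.card_ne_zero
  have hz : ∀ a b, ρ (H.z (a + b)) = ρ (H.z a) * ρ (H.z b) := fun a b => by rw [H.z_add, map_mul]
  obtain ⟨n, hn, -⟩ := exists_fco (T := fun t => ρ (H.z t)) hz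
  set c := trace ℂ V (ρ (H.z 1)) with hc
  have hs : ∀ f : F → ℂ, ∑ t, f t * trace ℂ V (ρ (H.z t)) = f 0 * (finrank ℂ V - c) + (∑ t, f t) * c := fun f => by
    rw [Finset.sum_mul, ← sub_eq_iff_eq_add, ← Finset.sum_sub_distrib, Finset.sum_eq_single 0 _ (by simp)]
    · rw [H.z_zero, map_one, trace_one]; ring
    · intro t _ ht
      rw [tr_conj ρ (H.z_conj t ht), sub_self]
  have h2 : ∀ μ : AddChar F ℂ, (Fintype.card F * n μ : ℂ) = finrank ℂ V - c + (∑ t, μ t) * c := fun μ => by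
    rw [← (hn μ).1, fco, map_sum]
    simp only [map_smul, smul_eq_mul]
    rw [hs fun t => μ (-t), neg_zero, AddChar.map_zero_eq_one, one_mul, Fintype.sum_equiv (Equiv.neg F) (fun t => μ (-t)) μ fun _ => rfl]
  obtain ⟨μ, hμ, h3⟩ : ∃ μ, μ ≠ 0 ∧ n μ ≠ 0 := by
    by_contra! h
    have : ∀ t, (Fintype.card F : ℂ) • ρ (H.z t) = fco (fun t => ρ (H.z t)) 0 := fun t => by
      rw [← sum_fco (T := fun t => ρ (H.z t)), Finset.sum_eq_single 0 (fun μ _ hμ => by rw [(hn μ).2 (h μ hμ), smul_zero])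
        (by simp)]
      simp
    exact h1 (smul_right_injective _ hq (((this 1).trans (this 0).symm).trans (by rw [H.z_zero, map_one])))
  have h4 := h2 μ
  have h5 := h2 0
  rw [AddChar.sum_eq_zero_iff_ne_zero.2 hμ] at h4
  simp only [AddChar.zero_apply, Finset.sum_const, Finset.card_univ, nsmul_eq_mul, mul_one] at h5
  have h6 : c = n 0 - n μ := mul_left_cancel₀ hq (by linear_combination h4 - h5)
  have hq1 : ((Fintype.card F - 1 : ℕ) : ℂ) = Fintype.card F - 1 := by rw [Nat.cast_pred Fintype.card_pos]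
  refine ⟨n 0, n μ, ?_, H.card_le ρ hμ h3 (hn μ).1, ?_⟩
  · have : (finrank ℂ V : ℂ) = n 0 + (Fintype.card F - 1 : ℕ) * n μ := by rw [hq1]; linear_combination h6 - h4
    exact_mod_cast this
  set E := fco (fun t => ρ (H.z t)) 0 with hE
  have hE1 : ∀ t, ρ (H.z t) * E = E := fun t => by simpa using mul_fco (T := fun t => ρ (H.z t)) hz 0 t
  have hE2 : ∀ m, E * ρ (H.x m) = ρ (H.x m) * E := fun m => by
    simp only [hE, fco, Finset.sum_mul, Finset.mul_sum, smul_mul_assoc, mul_smul_comm, ← map_mul, H.zx]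
  obtain ⟨k, -, hk⟩ := exists_fco (T := fun m => (Fintype.card F : ℂ)⁻¹ • (ρ (H.x m) * E)) fun a b => by
    simp only [smul_mul_assoc, mul_smul_comm]
    rw [mul_assoc, ← mul_assoc E, hE2, mul_assoc, fco_sq hz, ← hE, mul_smul_comm, mul_smul_comm, ← mul_assoc, ← map_mul,
      H.x_mul, map_mul, mul_assoc, hE1, inv_smul_smul₀ hq]
  have h7 : (n 0 : ℂ) = ∑ μ, k μ := by
    have := hk 0
    simp only [H.x_zero, map_one, one_mul, map_smul, smul_eq_mul, AddChar.map_zero_eq_one, mul_one] at this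
    rw [hE, (hn 0).1, inv_mul_cancel_left₀ hq] at this
    exact_mod_cast this
  have h8 : ∀ i, ∑ t : F, ∑ μ, k μ * μ (t • L i) = n 0 + (Fintype.card F - 1) * c := fun i => by
    rw [← Finset.add_sum_erase _ _ (Finset.mem_univ (0 : F)), Finset.sum_congr (s₁ := Finset.univ.erase (0 : F)) rfl (g := fun _ => c)]
    · simp [h7, Finset.card_erase_of_mem, hq1]
    · intro t ht
      obtain ⟨s, hs⟩ := hL i t (Finset.ne_of_mem_erase ht)
      rw [← hk, hE, fco, Finset.mul_sum, map_smul, map_sum, Finset.sum_congr rfl (g := fun _ => c)]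
      · simp [hq]
      · intro a _
        rw [AddChar.zero_apply, one_smul, ← map_mul, hc]
        exact tr_conj ρ ((H.isConj (smul_ne_zero (Finset.ne_of_mem_erase ht) (h0 i)) _ _).trans hs)
  have h9 : ∀ μ : AddChar M ℂ, ∃ N : ℕ, 1 ≤ N ∧ ∑ i, ∑ t : F, μ (t • L i) = Fintype.card F * N := fun μ => by
    let ν : ι → AddChar F ℂ := fun i => μ.compAddMonoidHom ((LinearMap.toSpanSingleton F M (L i)).toAddMonoidHom)
    obtain ⟨φ, hφ⟩ := exists_lin (F := F) μ
    obtain ⟨i, hi⟩ := hp φ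
    refine ⟨(Finset.univ.filter fun i => ν i = 0).card, Finset.card_pos.2 ⟨i, by
      simp only [Finset.mem_filter, Finset.mem_univ, true_and]; ext t; exact hφ _ hi t⟩, ?_⟩
    rw [Finset.card_filter, Nat.cast_sum, Finset.mul_sum]
    refine Finset.sum_congr rfl fun i _ => (AddChar.sum_eq_ite (ν i)).trans ?_
    split_ifs <;> simp
  choose N hN using h9
  have h10 : (Fintype.card ι * (Fintype.card F - 1 : ℕ) * n μ + Fintype.card F * (∑ μ, k μ * N μ : ℕ) : ℂ) =
      Fintype.card ι * Fintype.card F * n 0 := by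
    have : ∑ i, ∑ t : F, ∑ μ, k μ * μ (t • L i) = Fintype.card F * (∑ μ, k μ * N μ : ℕ) := by
      push_cast
      simp only [Finset.sum_comm (s := (Finset.univ : Finset F)), Finset.sum_comm (s := (Finset.univ : Finset ι))
        (t := (Finset.univ : Finset (AddChar M ℂ))), ← Finset.mul_sum, (hN _).2]
      rw [Finset.mul_sum]
      exact Finset.sum_congr rfl fun _ _ => by ring
    rw [← this, hq1]
    simp only [h8, h6, Finset.sum_const, Finset.card_univ, nsmul_eq_mul]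
    ring
  have h11 : n 0 ≤ ∑ μ, k μ * N μ := by
    rw [show n 0 = ∑ μ, k μ by exact_mod_cast h7]
    exact Finset.sum_le_sum fun μ _ => Nat.le_mul_of_pos_right _ (hN μ).1
  refine le_trans (Nat.add_le_add_left (Nat.mul_le_mul_left _ h11) _) (le_of_eq ?_)
  exact_mod_cast h10

end Heis
end H24
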