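import Cfsg.Agent.H24.MD1
import Cfsg.Agent.H24.TwD4
import Cfsg.Agent.H24.InvChk

/-! The Heisenberg subgroup of `³D₄`. -/

set_option linter.unusedSectionVars false
set_option maxHeartbeats 400000

namespace H24
open St0 Cfsg.Lie Polynomial

section
variable {K G : Type*} [CommRing K] [Group G]

/-- the cocycle of an ordered product -/
def hcoc (N : ℕ → ℕ → ℤ) : List ℕ → (ℕ → K) → (ℕ → K) → K
  | [], _, _ => 0
  | r :: l, v, w => (l.map fun s => (N r s : K) * w r * v s).sum + hcoc N l v w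

variable (X : ℕ → K → G) (Z : K → G) (hZ : ∀ a b, Z (a + b) = Z a * Z b) (N : ℕ → ℕ → ℤ)

theorem heis_z {l : List ℕ} (h : ∀ r ∈ l, ∀ t a, Commute (Z a) (X r t)) (v : ℕ → K) (a : K) :
    Commute (Z a) (l.map fun r => X r (v r)).prod :=
  Commute.list_prod_right _ _ fun _ hx => by obtain ⟨r, hr, rfl⟩ := List.mem_map.1 hx; exact h r hr _ _

include hZ in
theorem heis_push {l : List ℕ} {r : ℕ} (h1 : ∀ s ∈ l, ∀ t u, X s u * X r t = X r t * X s u * Z (N r s * t * u))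
    (h : ∀ r ∈ l, ∀ t a, Commute (Z a) (X r t)) (v : ℕ → K) (t : K) :
    (l.map fun r => X r (v r)).prod * X r t =
      X r t * (l.map fun r => X r (v r)).prod * Z (l.map fun s => (N r s : K) * t * v s).sum := by
  induction l with
  | nil => have := hZ 0 0; simp_all
  | cons s l ih =>
    rw [List.forall_mem_cons] at h1 h
    simp only [List.map_cons, List.prod_cons, List.sum_cons]
    rw [mul_assoc, ih h1.2 h.2, ← mul_assoc, ← mul_assoc, ← mul_assoc, h1.1, mul_assoc (_ * _) (Z _), (heis_z X Z h.2 v _).eq, hZ]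
    simp only [mul_assoc]

include hZ in
theorem heis_mul {l : List ℕ} (h1 : l.Pairwise fun r s => ∀ t u, X s u * X r t = X r t * X s u * Z (N r s * t * u))
    (h2 : ∀ r t u, X r (t + u) = X r t * X r u) (h : ∀ r ∈ l, ∀ t a, Commute (Z a) (X r t)) (v w : ℕ → K) :
    (l.map fun r => X r (v r)).prod * (l.map fun r => X r (w r)).prod =
      (l.map fun r => X r (v r + w r)).prod * Z (hcoc N l v w) := by
  induction l with
  | nil => have := hZ 0 0; simp_all [hcoc]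
  | cons s l ih =>
    rw [List.forall_mem_cons] at h
    rw [List.pairwise_cons] at h1
    simp only [List.map_cons, List.prod_cons, hcoc]
    rw [mul_assoc, ← mul_assoc _ (X s _), heis_push X Z hZ N h1.1 h.2, mul_assoc (_ * _), (heis_z X Z h.2 w _).eq,
      add_comm _ (hcoc ..), hZ, h2, mul_assoc (X s _), ← mul_assoc _ _ (Z _), ih h1.2 h.2]
    simp only [mul_assoc]
end

section
variable {K : Type*} [Field K] [Fintype K] {q : ℕ} (hq1 : 1 < q) (hK : Fintype.card K = q ^ 3)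
include hq1 hK

theorem exists_tr3 : ∃ s : K, s + s ^ q + s ^ q ^ 2 ≠ 0 := by
  by_contra! h
  have h1 : q < q ^ 2 := by nlinarith
  have h2 : (X + X ^ q + X ^ q ^ 2 : K[X]).natDegree = q ^ 2 := by
    rw [natDegree_add_eq_right_of_natDegree_lt, natDegree_X_pow]
    refine lt_of_le_of_lt (natDegree_add_le_of_degree_le (natDegree_X_le.trans hq1.le) (natDegree_X_pow_le _)) ?_
    rwa [natDegree_X_pow]
  have := eq_zero_of_natDegree_lt_card_of_eval_eq_zero (X + X ^ q + X ^ q ^ 2 : K[X]) Function.injective_id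
    (by simpa using h) (by rw [h2, hK]; exact Nat.pow_lt_pow_right hq1 (by decide))
  rw [this, natDegree_zero] at h2
  omega

theorem exists_zero3 (g : K → K) (hg : ∀ u, g u ^ q = g u) {c0 a1 a2 a3 b1 b2 b3 c : K} (hc : c ≠ 0)
    (h : ∀ u, g u = c0 + a1 * u + a2 * u ^ q + a3 * u ^ q ^ 2 + b1 * u ^ (q + q ^ 2) + b2 * u ^ (q ^ 2 + 1) +
      b3 * u ^ (1 + q) + c * u ^ (1 + q + q ^ 2)) : ∃ u, g u = 0 := by
  by_contra! h0
  have h1 : q < q ^ 2 := by nlinarith
  set p : K[X] := C c0 + C a1 * X ^ 1 + C a2 * X ^ q + C a3 * X ^ q ^ 2 + C b1 * X ^ (q + q ^ 2) + C b2 * X ^ (q ^ 2 + 1) +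
      C b3 * X ^ (1 + q) + C c * X ^ (1 + q + q ^ 2) with hp
  have h2 : p.natDegree = 1 + q + q ^ 2 := by
    have a : ∀ (x : K) n, n ≤ q + q ^ 2 → (C x * X ^ n).natDegree ≤ q + q ^ 2 := fun x n h =>
      (natDegree_C_mul_X_pow_le _ _).trans h
    rw [hp, natDegree_add_eq_right_of_natDegree_lt, natDegree_C_mul_X_pow _ _ hc]
    rw [natDegree_C_mul_X_pow _ _ hc]
    refine lt_of_le_of_lt (b := q + q ^ 2) ?_ (by omega)
    iterate 6 refine natDegree_add_le_of_degree_le ?_ (a _ _ (by omega))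
    simp
  have h3 : (p ^ (q - 1)).natDegree = q ^ 3 - 1 := by
    rw [natDegree_pow, h2]
    obtain ⟨n, rfl⟩ : ∃ n, q = n + 1 := ⟨q - 1, by omega⟩
    exact Nat.eq_sub_of_add_eq (by simp only [Nat.add_sub_cancel]; ring)
  have h4 : q ^ 2 < q ^ 3 := Nat.pow_lt_pow_right hq1 (by decide)
  have := eq_zero_of_natDegree_lt_card_of_eval_eq_zero (p ^ (q - 1) - C 1) Function.injective_id (fun u => by
    have : eval u p = g u := by simp [hp, h]
    rw [eval_sub, eval_pow, id, this, eval_C, sub_eq_zero]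
    exact mul_left_cancel₀ (h0 u) (by rw [← pow_succ', Nat.sub_add_cancel hq1.le, hg, mul_one]))
    (by rw [natDegree_sub_C, h3, hK]; omega)
  rw [sub_eq_zero] at this
  rw [this, natDegree_C] at h3
  omega
end

namespace D4
variable {K : Type*} [Field K] (f : K →+* K) (hf : ∀ t, f (f (f t)) = t)

local notation "hT" => tabD4_chk
local notation "SS" => Tab.Chk.grp tabD4_chk K
local notation "xx" r => St0.x (St.toSt0 (Tab.Chk.grp tabD4_chk K)) (Tab.Chk.fin tabD4_chk r)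
local notation "GG" => Tw.G1 (z f hf) (O f hf)

/-- ordered products in the unipotent radical -/
noncomputable def Wq (a b1 b2 b3 c1 c2 c3 d : K) : chevD4.group K :=
  (xx 14) a * (((xx 19) b1 * ((xx 16) b2 * (xx 15) b3)) * (((xx 17) c1 * ((xx 20) c2 * (xx 21) c3)) * (xx 22) d))

/-- the structure constants -/
def Nq (r s : ℕ) : ℤ := if r = 14 ∧ s = 22 then -1 else if r + s = 36 then 1 else 0

theorem z_comm : ∀ r ∈ [14, 19, 16, 15, 17, 20, 21, 22], ∀ t a : K, Commute ((xx 23) a) ((xx r) t) := fun r hr t a =>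
  (hT).commute _ (by revert r; decide +kernel) _ _

theorem Wq_z (t a b1 b2 b3 c1 c2 c3 d : K) : (xx 23) t * Wq a b1 b2 b3 c1 c2 c3 d = Wq a b1 b2 b3 c1 c2 c3 d * (xx 23) t := by
  have h := z_comm (K := K)
  simp only [List.forall_mem_cons] at h
  obtain ⟨h1, h2, h3, h4, h5, h6, h7, h8, -⟩ := h
  exact ((h1 ..).mul_right (((h2 ..).mul_right ((h3 ..).mul_right (h4 ..))).mul_right
    (((h5 ..).mul_right ((h6 ..).mul_right (h7 ..))).mul_right (h8 ..)))).eq

theorem Wq_mul (a b1 b2 b3 c1 c2 c3 d a' b1' b2' b3' c1' c2' c3' d' : K) :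
    Wq a b1 b2 b3 c1 c2 c3 d * Wq a' b1' b2' b3' c1' c2' c3' d' =
      Wq (a + a') (b1 + b1') (b2 + b2') (b3 + b3') (c1 + c1') (c2 + c2') (c3 + c3') (d + d') *
        (xx 23) (b1' * c1 + b2' * c2 + b3' * c3 - a' * d) := by
  have H : [14, 19, 16, 15, 17, 20, 21, 22].Pairwise fun r s => r < tabD4.n ∧ s < tabD4.n ∧ s ≠ r ∧ s ≠ tabD4.neg r ∧
      gTerms tabD4.chain r s = if Nq r s = 0 then [] else [(23, -Nq r s, 1, 1)] := by decide +kernel
  let v : K → K → K → K → K → K → K → K → ℕ → K := fun a b1 b2 b3 c1 c2 c3 d r =>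
    [a, b3, b2, c1, 0, b1, c2, c3, d].getD (r - 14) 0
  have := heis_mul (fun r => xx r) (xx 23) ((SS).x_add _) Nq (H.imp fun {r s} h t u => by
    rw [(hT).comm_eq _ h]
    split_ifs with e <;> simp [e]) (fun _ => (SS).x_add _) z_comm (v a b1 b2 b3 c1 c2 c3 d) (v a' b1' b2' b3' c1' c2' c3' d')
  simp [v, hcoc, Nq] at this
  simp only [Wq, mul_assoc] at this ⊢
  rw [this]
  congr 9
  ring

theorem cj {a b c : ℕ} {e : ℤ} (H : a < tabD4.n ∧ b < tabD4.n ∧ b ≠ a ∧ b ≠ tabD4.neg a ∧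
    gTerms tabD4.chain a b = [(c, e, 1, 1)]) (u t : K) :
    MulAut.conj ((xx a) u)⁻¹ ((xx b) t) = (xx b) t * (xx c) (-(e * u * t)) := by
  rw [MulAut.conj_apply, inv_inv, mul_assoc, (hT).comm_eq _ H]
  simp [mul_assoc]

theorem conj_W (u v w t : K) : MulAut.conj ((xx 18) u * ((xx 13) v * (xx 12) w))⁻¹ ((xx 14) t) =
    Wq t (u * t) (-(v * t)) (-(w * t)) (v * w * t) (-(w * u * t)) (-(u * v * t)) (u * v * w * t) *
      (xx 23) (u * v * w * t * t) := by
  have : MulAut.conj ((xx 18) u * ((xx 13) v * (xx 12) w))⁻¹ ((xx 14) t) = Wq t 0 0 (-(w * t)) 0 0 0 0 *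
      Wq 0 0 (-(v * t)) 0 (v * w * t) 0 0 0 * Wq 0 (u * t) 0 0 0 (-(w * u * t)) (-(u * v * t)) (u * v * w * t) := by
    simp only [mul_inv_rev, map_mul, MulAut.mul_apply, cj (K := K) (a := 18) (b := 14) (c := 19) (e := -1) (by decide +kernel),
      cj (K := K) (a := 13) (b := 14) (c := 16) (e := 1) (by decide +kernel),
      cj (K := K) (a := 13) (b := 19) (c := 21) (e := 1) (by decide +kernel),
      cj (K := K) (a := 12) (b := 14) (c := 15) (e := 1) (by decide +kernel),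
      cj (K := K) (a := 12) (b := 16) (c := 17) (e := 1) (by decide +kernel),
      cj (K := K) (a := 12) (b := 19) (c := 20) (e := 1) (by decide +kernel),
      cj (K := K) (a := 12) (b := 21) (c := 22) (e := 1) (by decide +kernel), Wq, St0.x_zero, mul_one, one_mul, mul_assoc]
    push_cast
    ring_nf
  rw [this, Wq_mul, mul_assoc, Wq_z, ← mul_assoc, Wq_mul, mul_assoc, ← St0.x_add]
  ring_nf

theorem zσq {r s : ℕ} {e : ℤ} (H : r < tabD4.n ∧ morD4a.ph r = s ∧ morD4a.ep r = e) (t : K) :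
    (z f hf).σ ((xx r) t) = (xx s) (e * f t) := by
  have := (hT).td_τ morD4a_chk f Nat.cast_zero π hπ (surj f hf) H.1 t
  rw [ex1, pow_one, H.2.2] at this
  rw [Tw.σ_x, ← this]
  exact congrArg₂ _ ((hT).tw_ρ _ _ _ _ _ _ ⟨H.1, H.2.1⟩) rfl

theorem memx {r : ℕ} (H : Mv r r) {t : K} (ht : f t = t) : (xx r) t ∈ GG :=
  (sub f hf).x_mem (zρ f hf H) (by rwa [zτ f hf H])

theorem memx3 {a b c : ℕ} (H : ((a < tabD4.n ∧ morD4a.ph a = b ∧ morD4a.ep a = -1) ∧
    (b < tabD4.n ∧ morD4a.ph b = c ∧ morD4a.ep b = 1) ∧ (c < tabD4.n ∧ morD4a.ph c = a ∧ morD4a.ep c = -1)) ∧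
    tabD4.Cm a b ∧ tabD4.Cm a c ∧ tabD4.isP a = true ∧ tabD4.isP b = true ∧ tabD4.isP c = true) (t : K) :
    (xx a) t * ((xx b) (-f t) * (xx c) (-f (f t))) ∈ GG := by
  have p : ∀ r < tabD4.n, tabD4.isP r = true → ∀ t, (xx r) t ∈ (SS).U := fun r h1 h2 t =>
    (SS).x_mem_U (by rwa [← (hT).isP_iff, (hT).val_fin h1]) t
  refine (sub f hf).U_le ⟨mul_mem (p _ H.1.1.1 H.2.2.2.1 _) (mul_mem (p _ H.1.2.1.1 H.2.2.2.2.1 _)
    (p _ H.1.2.2.1 H.2.2.2.2.2 _)), ?_⟩
  refine (z f hf).mem_Fx.2 ?_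
  rw [map_mul, map_mul, zσq f hf H.1.1, zσq f hf H.1.2.1, zσq f hf H.1.2.2,
    (((hT).commute _ H.2.1 _ _).mul_right ((hT).commute _ H.2.2.1 _ _)).eq]
  simp [hf, mul_assoc]

/-- the fixed field -/
abbrev FF : Subfield K := f.eqLocusField (RingHom.id K)

include hf in
theorem tr_mem (s : K) : s + f s + f (f s) ∈ FF f := by
  simp only [RingHom.mem_eqLocusField, map_add, hf, RingHom.id_apply]; ring

include hf in
theorem nm_mem (s : K) : s * f s * f (f s) ∈ FF f := by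
  simp only [RingHom.mem_eqLocusField, map_mul, hf, RingHom.id_apply]; ring

theorem fx (a : FF f) : f a = a := a.2

/-- the trace to the fixed field -/
def tr3 : K →ₗ[FF f] FF f where
  toFun s := ⟨_, tr_mem f hf s⟩
  map_add' a b := Subtype.ext (by simp only [map_add, Subfield.coe_add]; ring)
  map_smul' a b := Subtype.ext (by simp only [Subfield.smul_def, smul_eq_mul, map_mul, fx, RingHom.id_apply, Subfield.coe_mul]; ring)

theorem coe_tr3 (s : K) : (tr3 f hf s : K) = s + f s + f (f s) := rfl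

variable (h0 : ∃ s, s + f s + f (f s) ≠ 0)
include h0

theorem tr3_surj {b : K} (hb : b ≠ 0) (t : FF f) : ∃ c, tr3 f hf (c * b) = t := by
  obtain ⟨s, hs⟩ := h0
  have : tr3 f hf s ≠ 0 := fun e => hs (congrArg Subtype.val e)
  exact ⟨(t / tr3 f hf s) • s / b, by rw [div_mul_cancel₀ _ hb, map_smul, smul_eq_mul, div_mul_cancel₀ _ this]⟩

theorem exists_tr [Finite K] (φ : K →ₗ[FF f] FF f) : ∃ c, ∀ u, φ u = tr3 f hf (c * u) := by
  let B : K →ₗ[FF f] Module.Dual (FF f) K := (LinearMap.mul (FF f) K).compr₂ (tr3 f hf)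
  have : Function.Injective B := (injective_iff_map_eq_zero _).2 fun b e => by
    by_contra hb
    obtain ⟨c, hc⟩ := tr3_surj f hf h0 hb 1
    have : tr3 f hf (b * c) = 0 := LinearMap.congr_fun e c
    rw [mul_comm, hc] at this
    exact one_ne_zero this
  obtain ⟨c, rfl⟩ := (LinearMap.injective_iff_surjective_of_finrank_eq_finrank Subspace.dual_finrank_eq.symm).1 this φ
  exact ⟨c, fun _ => rfl⟩

/-- the Heisenberg subgroup -/
noncomputable def heis : Heis (FF f) (FF f × K × K × FF f) GG where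
  z t := ⟨(xx 23) t, memx f hf (by decide +kernel) t.2⟩
  x m := ⟨Wq m.1 m.2.1 (-f m.2.1) (-f (f m.2.1)) m.2.2.1 (-f m.2.2.1) (-f (f m.2.2.1)) m.2.2.2,
    mul_mem (memx f hf (by decide +kernel) m.1.2) (mul_mem (memx3 f hf (by decide +kernel) _)
      (mul_mem (memx3 f hf (by decide +kernel) _) (memx f hf (by decide +kernel) m.2.2.2.2)))⟩
  β m m' := tr3 f hf (m'.2.1 * m.2.2.1) - m'.1 * m.2.2.2
  z_add a b := Subtype.ext ((SS).x_add ..)
  zx a m := Subtype.ext (Wq_z ..)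
  x_zero := Subtype.ext (by simp [Wq])
  x_mul m m' := Subtype.ext ((Wq_mul ..).trans (by simp [coe_tr3, add_comm]))
  nd := by
    rintro ⟨a, b, c, d⟩ hm t
    by_cases ha : a = 0
    · by_cases hd : d = 0
      · by_cases hb : b = 0
        · have hc : c ≠ 0 := by rintro rfl; exact hm (by rw [ha, hb, hd]; rfl)
          obtain ⟨s, hs⟩ := tr3_surj f hf h0 hc (-t)
          exact ⟨(0, s, 0, 0), by simp [hs]⟩
        · obtain ⟨s, hs⟩ := tr3_surj f hf h0 hb t
          exact ⟨(0, 0, s, 0), by simp [mul_comm b, hs]⟩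
      · exact ⟨(t / d, 0, 0, 0), by simp [hd]⟩
    · exact ⟨(0, 0, 0, -t / a), by simp [mul_div_cancel₀ _ ha]⟩
  z_conj t ht := (isConj_iff.2 ⟨⟨_, D4.h0 f hf t.2⟩, Subtype.ext (by
    have := (SS).h_conj ((hT).fin 14) ((hT).fin 23) (t := t) (by simpa using ht) 1
    rwa [(hT).A_fin (by decide) (by decide), show tabD4.A 14 23 = 1 by decide +kernel, zpow_one, mul_one] at this)⟩).symm

/-- the points -/
def pt : Option K → FF f × K × K × FF f
  | none => (0, 0, 0, 1)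
  | some u => (1, u, f u * f (f u), ⟨_, nm_mem f hf u⟩)

theorem pt_conj [Fintype K] (i : Option K) (t : FF f) (ht : t ≠ 0) :
    ∃ s, IsConj ((heis f hf h0).x (t • pt f hf i) * (heis f hf h0).z s) ((heis f hf h0).z 1) := by
  classical
  cases i with
  | none =>
    refine ⟨1, (isConj_iff.2 ⟨(⟨_, memx f hf (r := 9) (by decide +kernel) (-t).2⟩ : GG)⁻¹, Subtype.ext ?_⟩).symm⟩
    refine (cj (K := K) (a := 9) (b := 23) (c := 22) (e := 1) (by decide +kernel) _ _).trans ?_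
    rw [(z_comm 22 (by decide) _ _).eq]
    simp [heis, pt, Wq]
  | some u =>
    have h1 : IsConj ((heis f hf h0).x (t, 0, 0, 0) * (heis f hf h0).z 1) ((heis f hf h0).z 1) := by
      refine (isConj_iff.2 ⟨(⟨_, memx f hf (r := 1) (by decide +kernel) t.2⟩ : GG)⁻¹, Subtype.ext ?_⟩).symm
      refine (cj (K := K) (a := 1) (b := 23) (c := 14) (e := -1) (by decide +kernel) _ _).trans ?_
      rw [(z_comm 14 (by decide) _ _).eq]
      simp [heis, Wq]
    refine ⟨⟨_, nm_mem f hf u⟩ * t * t, IsConj.trans (IsConj.symm ?_)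
      (((heis f hf h0).isConj (m := (t, 0, 0, 0)) (by simpa using ht) 0 1).trans h1)⟩
    refine isConj_iff.2 ⟨(⟨_, (sub f hf).UK_le 1 ((U1 f hf _).2 ⟨u, rfl⟩)⟩ : GG)⁻¹, Subtype.ext ?_⟩
    refine Eq.trans ?_ ((conj_W u (f u) (f (f u)) t).trans ?_)
    · simp [heis, Wq, mul_assoc]
    · simp [heis, pt, Subfield.smul_def, fx, hf]
      ring_nf

omit h0 in
theorem pt_ne (i : Option K) : pt f hf i ≠ 0 := by cases i <;> simp [pt]

omit h0 in
theorem pt_zero [Fintype K] {q : ℕ} (hq1 : 1 < q) (hK : Fintype.card K = q ^ 3) (hq : ∀ t, f t = t ^ q)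
    (φ : (FF f × K × K × FF f) →ₗ[FF f] FF f) : ∃ i, φ (pt f hf i) = 0 := by
  have h0 : ∃ s, s + f s + f (f s) ≠ 0 := by simpa only [hq, ← pow_mul, ← sq] using exists_tr3 hq1 hK
  by_cases h : φ (0, 0, 0, 1) = 0
  · exact ⟨none, h⟩
  obtain ⟨a, ha⟩ := exists_tr f hf h0 (φ ∘ₗ LinearMap.inr _ _ _ ∘ₗ LinearMap.inl _ _ _)
  obtain ⟨b, hb⟩ := exists_tr f hf h0 (φ ∘ₗ LinearMap.inr _ _ _ ∘ₗ LinearMap.inr _ _ _ ∘ₗ LinearMap.inl _ _ _)
  obtain ⟨u, hu⟩ := exists_zero3 hq1 hK (fun u => φ (pt f hf (some u))) (fun u => by rw [← hq, fx])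
    (c0 := φ (1, 0, 0, 0)) (a1 := a) (a2 := f a) (a3 := f (f a)) (b1 := b) (b2 := f b) (b3 := f (f b))
    (c := φ (0, 0, 0, 1)) (by simpa using h) fun u => by
      have : pt f hf (some u) = (1, 0, 0, 0) + (0, u, 0) + (0, 0, f u * f (f u), 0) +
          (⟨_, nm_mem f hf u⟩ : FF f) • (0, 0, 0, 1) := by simp [pt]
      have h1 : φ (0, u, 0) = tr3 f hf (a * u) := ha u
      have h2 : φ (0, 0, f u * f (f u), 0) = tr3 f hf (b * (f u * f (f u))) := hb _
      simp only [this, map_add, map_smul, h1, h2, smul_eq_mul, Subfield.coe_add, Subfield.coe_mul, coe_tr3, map_mul, hf,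
        pow_add, sq, pow_mul, ← hq, pow_one]
      ring
  exact ⟨some u, Subtype.ext hu⟩

omit h0 in
theorem deg_ge [Fintype K] {q : ℕ} (hq1 : 1 < q) (hK : Fintype.card K = q ^ 3) (hq : ∀ t, f t = t ^ q)
    {V : Type*} [AddCommGroup V] [Module ℂ V] [Module.Finite ℂ V] (ρ : Representation ℂ GG V)
    (h : ∀ g, g ≠ 1 → ρ g ≠ 1) : (q - 1) * (q ^ 4 + q ^ 3 + 1) ≤ Module.finrank ℂ V := by
  classical
  have h0 : ∃ s, s + f s + f (f s) ≠ 0 := by simpa only [hq, ← pow_mul, ← sq] using exists_tr3 hq1 hK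
  have hF : Fintype.card (FF f) = q := by
    rw [← Nat.card_eq_fintype_card, ← (card_fixed K hq1 hK).2]
    exact Nat.card_congr (Equiv.subtypeEquivRight fun t => by rw [← hq]; rfl)
  obtain ⟨d, e, h1, h2, h3⟩ := (heis f hf h0).bound ρ (h _ fun e => one_ne_zero ((SS).x_eq_one_iff.1
    (congrArg Subtype.val e))) _ (pt_ne f hf) (pt_conj f hf h0) (pt_zero f hf hq1 hK hq)
  simp only [Fintype.card_prod, Fintype.card_option, hF, hK] at h1 h2 h3
  have h4 : q ^ 4 ≤ e := by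
    refine (Nat.pow_le_pow_iff_left two_ne_zero).1 (le_trans (le_of_eq ?_) h2)
    ring
  have h5 : (q ^ 3 + 1) * (q - 1) ≤ d := by
    refine Nat.le_of_mul_le_mul_right (c := q ^ 4) ?_ (by positivity)
    nlinarith [Nat.mul_le_mul_left ((q ^ 3 + 1) * (q - 1)) h4]
  nlinarith [Nat.mul_le_mul_left (q - 1) h4]

end D4
end H24
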