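import Cfsg.Agent.H24.MG3
import Cfsg.Agent.H24.Lift2
import Cfsg.Agent.H24.Aut1

/-! Representations of simply laced groups: weight spaces of root groups. -/

set_option autoImplicit false
set_option linter.unusedSectionVars false
set_option linter.unusedSimpArgs false
set_option maxHeartbeats 400000

namespace H24.ME
open Module MG
open MG.G2R (rm move move_ne)
open scoped Classical commutatorElement

variable {ι Φ : Type} [Fintype ι] [DecidableEq ι] [Fintype Φ] {R : CD ι Φ} {F : Type*} [Field F] [Fintype F]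
  {G : Type*} [Group G] (S : St R F G) {V : Type*} [AddCommGroup V] [Module ℂ V] [FiniteDimensional ℂ V]
  (ρ : Representation ℂ G V)

/-- the simply laced case -/
structure SL : Prop where
  hl : ∀ r, R.len r = 1
  h1 : ∀ r s, R.A r s = -1 → ∃ ε : F, ε ≠ 0 ∧ ∀ t u, ⁅S.x s u, S.x r t⁆ = S.x (R.w r s) (ε * t * u)

/-- weight spaces -/
def W (r : Φ) (μ : F) : Submodule ℂ V := Wt (fun t => ρ (S.x r t)) μ

/-- fixed points of a set of root groups -/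
def Fx (P : Φ → Prop) : Submodule ℂ V := ⨅ δ, ⨅ _ : P δ, W S ρ δ 0

/-- invariance under a root group -/
def Inv (U : Submodule ℂ V) (r : Φ) : Prop := ∀ t, ∀ v ∈ U, ρ (S.x r t) v ∈ U

variable {S ρ}

theorem mem_Fx {P : Φ → Prop} {v : V} : v ∈ Fx S ρ P ↔ ∀ δ, P δ → v ∈ W S ρ δ 0 := by simp [Fx]

theorem ev {r : Φ} {μ : F} {v : V} (h : v ∈ W S ρ r μ) (t : F) : ρ (S.x r t) v = ps F (μ * t) • v := h t

theorem fx {r : Φ} {v : V} (hv : v ∈ W S ρ r 0) (t : F) : ρ (S.x r t) v = v := by simp [ev hv]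

theorem of_fx {r : Φ} {v : V} (hv : ∀ t, ρ (S.x r t) v = v) : v ∈ W S ρ r 0 := fun t => by simp [hv]

theorem inj (g : G) {a b : V} (h : ρ g a = ρ g b) : a = b := by simpa [← rm] using congrArg (ρ g⁻¹) h

theorem hadd (r : Φ) (a b : F) : ρ (S.x r (a + b)) = ρ (S.x r a) * ρ (S.x r b) := by rw [S.x_add, map_mul]

theorem Inv.split {U : Submodule ℂ V} {r : Φ} (h : Inv S ρ U r) : finrank ℂ U = ∑ μ, finrank ℂ ↥(U ⊓ W S ρ r μ) :=
  MG.split (hadd r) (by rw [St0.x_zero, map_one]) h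

theorem Inv.inf {U U' : Submodule ℂ V} {r : Φ} (h : Inv S ρ U r) (h' : Inv S ρ U' r) : Inv S ρ (U ⊓ U') r :=
  fun t v hv => ⟨h t v hv.1, h' t v hv.2⟩

theorem Inv.exists {U : Submodule ℂ V} {r : Φ} (h : Inv S ρ U r) (h0 : finrank ℂ U ≠ 0) :
    ∃ a, finrank ℂ ↥(U ⊓ W S ρ r a) ≠ 0 := by
  by_contra! H
  exact h0 (by rw [h.split]; simp [H])

theorem rel {s : Φ} {μ : F} {g : G} {k : F → G} {v : V} (h : ∀ u, S.x s u * g = g * k u)
    (hv : ∀ u, ρ (k u) v = ps F (μ * u) • v) : ρ g v ∈ W S ρ s μ := fun u => by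
  simp only [← rm, h]; rw [rm, hv, map_smul]

theorem cnj {r s : Φ} {μ ν c : F} {g : G} {v : V} (h : ∀ u, g * S.x r u * g⁻¹ = S.x s (c * u)) (hc : c ≠ 0)
    (hv : v ∈ W S ρ r μ) (e : ν * c = μ) : ρ g v ∈ W S ρ s ν :=
  rel (k := fun u => S.x r (c⁻¹ * u)) (fun u => by rw [← eq_mul_inv_iff_mul_eq, h, mul_inv_cancel_left₀ hc]) fun u => by
    rw [ev hv, ← e, mul_assoc, mul_inv_cancel_left₀ hc]

variable (S ρ) in
theorem nm (r : Φ) : ∃ c : Φ → F, (∀ s, c s ≠ 0) ∧ ∀ s ν, ∀ v ∈ W S ρ s (ν * c s), ρ (S.n r 1) v ∈ W S ρ (R.w r s) ν := by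
  choose c h1 h2 using (S.n_rep r one_ne_zero).exists_conj
  exact ⟨c, h1, fun s ν v hv => cnj (h2 s) (h1 s) hv rfl⟩

theorem nm0 (r : Φ) {s : Φ} {v : V} (hv : v ∈ W S ρ (R.w r s) 0) : ρ (S.n r 1) v ∈ W S ρ s 0 := by
  obtain ⟨c, -, h⟩ := nm S ρ r
  have := h _ 0 v (by rwa [zero_mul])
  rwa [R.w_w] at this

theorem tm (r : Φ) {t : F} (ht : t ≠ 0) {s : Φ} {ν : F} {v : V} (hv : v ∈ W S ρ s (ν * t ^ R.A r s)) :
    ρ (S.h r t) v ∈ W S ρ s ν := cnj (S.h_conj r s ht) (zpow_ne_zero _ ht) hv rfl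

theorem rt_add {r s : Φ} (h : R.A r s = -1) (l : ι) : R.rt (R.w r s) l = R.rt s l + R.rt r l := by simp [R.rt_w, h]

theorem rt_sub {r s : Φ} (h : R.A r s = 1) (l : ι) : R.rt (R.w r s) l = R.rt s l - R.rt r l := by simp [R.rt_w, h]

theorem rt_ws {i l : ι} (h : l ≠ i) (s : Φ) : R.rt (R.w (R.sim i) s) l = R.rt s l := by
  simp [R.rt_w, R.rt_sim, h]

theorem dim_W (r : Φ) : finrank ℂ V = ∑ b, finrank ℂ (W S ρ r b) := by
  have := Inv.split (S := S) (ρ := ρ) (U := ⊤) (r := r) fun _ _ _ => trivial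
  rw [← finrank_top, this]
  exact Finset.sum_congr rfl fun b _ => by rw [top_inf_eq]

namespace SL
variable (H : SL S)
include H

theorem sy (r s : Φ) : R.A s r = R.A r s := (R.A_cases H.hl r s).1

theorem cases (r s : Φ) : s = r ∨ s = R.neg r ∨ R.A r s = 1 ∨ R.A r s = 0 ∨ R.A r s = -1 := (R.A_cases H.hl r s).2

theorem le_one {r s : Φ} (h : s ≠ r) : R.A r s ≤ 1 := by
  rcases H.cases r s with e | rfl | e | e | e
  · exact absurd e h
  · rw [R.A_neg_right, R.A_self]; omega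
  all_goals omega

theorem cm {s r : Φ} (h : 0 ≤ R.A r s) (μ : F) : Inv S ρ (W S ρ s μ) r := fun t _ hv =>
  rel (fun u => (S.commute_sl H.hl h t u).symm.eq) hv

theorem rl {r s : Φ} (h : R.A r s = -1) : ∃ ε : F, ε ≠ 0 ∧ ∀ t u,
    S.x s u * S.x r t = S.x r t * (S.x s u * S.x (R.w r s) (ε * t * u)) := by
  obtain ⟨ε, h0, e⟩ := H.h1 r s h
  refine ⟨ε, h0, fun t u => ?_⟩
  have h1 := S.commute_sl H.hl (r := r) (s := R.w r s) (by rw [R.A_w_right]; omega) t (ε * t * u)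
  have h2 := S.commute_sl H.hl (r := s) (s := R.w r s) (by rw [R.A_w, R.A_self, H.sy r s]; simp [h]) u (ε * t * u)
  rw [h2.eq, ← mul_assoc, h1.eq, ← e, commutatorElement_def]; group

theorem sh {r s : Φ} (h : R.A r s = -1) : ∃ ε : F, ε ≠ 0 ∧ ∀ t μ ν μ', μ' = μ + ε * t * ν → ∀ v ∈ W S ρ s μ,
    v ∈ W S ρ (R.w r s) ν → ρ (S.x r t) v ∈ W S ρ s μ' := by
  obtain ⟨ε, h0, e⟩ := H.rl h
  refine ⟨ε, h0, fun t μ ν μ' e' v h1 h2 => rel (e t) fun u => ?_⟩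
  simp only [rm, ev h1, ev h2, map_smul, smul_smul, ← ps_add, e']; congr 2; ring

theorem gen {r s : Φ} {μ : F} {v : V} (hv : v ∈ W S ρ s μ) (h1 : s ≠ R.neg r)
    (h2 : R.A r s = -1 → v ∈ W S ρ (R.w r s) 0) (t : F) : ρ (S.x r t) v ∈ W S ρ s μ := by
  by_cases h : R.A r s = -1
  · obtain ⟨ε, -, e⟩ := H.sh (ρ := ρ) h
    exact e t μ 0 μ (by simp) v hv (h2 h)
  refine H.cm ?_ μ t v hv
  rcases H.cases r s with rfl | e | e | e | e
  · rw [R.A_self]; omega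
  · exact absurd e h1
  all_goals omega

theorem inv_Fx {P : Φ → Prop} {r : Φ} (h : ∀ s, P s → s ≠ R.neg r ∧ (R.A r s = -1 → P (R.w r s))) :
    Inv S ρ (Fx S ρ P) r := fun t _ hv => mem_Fx.2 fun s hs =>
  H.gen (mem_Fx.1 hv s hs) (h s hs).1 (fun e => mem_Fx.1 hv _ ((h s hs).2 e)) t

/-- all weight spaces of `δ` in `U` have the same dimension -/
theorem heis {U : Submodule ℂ V} {r δ : Φ} {c : F} (hc : c ≠ 0) (h : R.A r δ = -1) (hU : U ≤ W S ρ (R.w r δ) c)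
    (h1 : Inv S ρ U r) (h2 : Inv S ρ U δ) : finrank ℂ U = Fintype.card F * finrank ℂ ↥(U ⊓ W S ρ δ 0) := by
  obtain ⟨ε, h0, e⟩ := H.sh (ρ := ρ) h
  have : ∀ a b, finrank ℂ ↥(U ⊓ W S ρ δ a) ≤ finrank ℂ ↥(U ⊓ W S ρ δ b) := fun a b =>
    move ρ (S.x r ((b - a) / (ε * c))) fun v hv => ⟨h1 _ v hv.1, e _ a c b (by field_simp; ring) v hv.2 (hU hv.1)⟩
  rw [h2.split]
  exact sum_const' fun a => (this _ _).antisymm (this _ _)

theorem heisL {β : Φ} {c : F} (hc : c ≠ 0) (L : Finset Φ) (h1 : ∀ δ ∈ L, R.A β δ = 1)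
    (h2 : ∀ δ ∈ L, ∀ δ' ∈ L, 0 ≤ R.A δ δ') :
    finrank ℂ (W S ρ β c) = Fintype.card F ^ L.card * finrank ℂ ↥(W S ρ β c ⊓ Fx S ρ (· ∈ L)) := by
  induction L using Finset.induction_on with
  | empty =>
    have : W S ρ β c ⊓ Fx S ρ (· ∈ (∅ : Finset Φ)) = W S ρ β c := inf_eq_left.2 fun v _ => mem_Fx.2 (by simp)
    rw [this]; simp
  | insert δ L hδ ih =>
    have e1 := h1 δ (by simp)
    have e2 : R.A δ β = 1 := (H.sy _ _).trans e1
    have e3 : R.A (R.w δ β) δ = -1 := by rw [H.sy, R.A_w_right, e2]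
    have e4 : R.w (R.w δ β) δ = β := R.rt_inj (funext fun l => by rw [rt_add e3, rt_sub e2]; ring)
    have : W S ρ β c ⊓ Fx S ρ (· ∈ insert δ L) = W S ρ β c ⊓ Fx S ρ (· ∈ L) ⊓ W S ρ δ 0 := by
      ext v; simp only [Submodule.mem_inf, mem_Fx, Finset.forall_mem_insert]; tauto
    rw [ih (fun a ha => h1 a (by simp [ha])) fun a ha b hb => h2 a (by simp [ha]) b (by simp [hb]), this,
      H.heis hc e3 (by rw [e4]; exact inf_le_left), Finset.card_insert_of_notMem hδ, pow_succ, mul_assoc]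
    · refine (H.cm (by rw [H.sy, R.A_w, R.A_self, e1, e2]; omega) c).inf fun t v hv => mem_Fx.2 fun a ha =>
        H.cm ?_ 0 t v (mem_Fx.1 hv a ha)
      have := H.le_one (r := a) (s := δ) (by rintro rfl; exact hδ ha)
      rw [H.sy, R.A_w, e2, H.sy β, h1 a (by simp [ha])]; omega
    · exact (H.cm (by omega) c).inf fun t v hv => mem_Fx.2 fun a ha =>
        H.cm (h2 δ (by simp) a (by simp [ha])) 0 t v (mem_Fx.1 hv a ha)

/-- two root groups normalizing a line -/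
theorem line {U : Submodule ℂ V} (hU : finrank ℂ U ≤ 1) {r s : Φ} (h : R.A r s = -1) (h1 : Inv S ρ U r)
    (h2 : Inv S ρ U s) : U ≤ W S ρ (R.w r s) 0 := fun v hv => of_fx fun t => by
  obtain ⟨ε, h0, e⟩ := H.rl h
  obtain ⟨y, hy⟩ := finrank_le_one_iff.1 hU
  obtain ⟨c, hc⟩ := hy ⟨v, hv⟩
  obtain ⟨a, ha⟩ := hy ⟨_, h1 (t / ε) y y.2⟩
  obtain ⟨b, hb⟩ := hy ⟨_, h2 1 y y.2⟩
  have hc := congrArg Subtype.val hc
  have ha := congrArg Subtype.val ha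
  have hb := congrArg Subtype.val hb
  simp only [Submodule.coe_smul] at ha hb hc
  have e1 : ρ (S.x s 1 * S.x r (t / ε)) v = ρ (S.x r (t / ε) * S.x s 1) v := by
    simp only [rm, ← hc, map_smul, ← ha, ← hb, smul_comm a b]
  rw [e, mul_one, mul_div_cancel₀ _ h0, ← mul_assoc, rm] at e1
  exact inj _ e1

end SL
end H24.ME
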