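import Cfsg.Agent.H24.ME1

/-! Representations of simply laced groups: the minimal case. -/

set_option autoImplicit false
set_option linter.unusedSectionVars false
set_option linter.unusedSimpArgs false
set_option maxHeartbeats 400000

namespace H24.ME
open Module MG
open MG.G2R (rm move move_ne)
open scoped Classical

variable {ι Φ : Type} [Fintype ι] [DecidableEq ι] [Fintype Φ] {R : CD ι Φ} {F : Type*} [Field F] [Fintype F]
  {G : Type*} [Group G] (S : St R F G) {V : Type*} [AddCommGroup V] [Module ℂ V] [FiniteDimensional ℂ V]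
  (ρ : Representation ℂ G V)

/-- the multiplicity space of a Heisenberg representation -/
def Lm (j : ι) (c : F) : Submodule ℂ V := W S ρ (R.sim j) c ⊓ Fx S ρ fun δ => R.A (R.sim j) δ = 1 ∧ 0 < R.rt δ j

/-- weight vectors of `β` fixed by the roots not below `β` -/
def T (β : Φ) (c : F) : Submodule ℂ V := W S ρ β c ⊓ Fx S ρ fun δ => R.Pos δ ∧ ¬ R.rt δ ≤ R.rt β

variable {S ρ}

theorem wt_zero {r : Φ} {c : F} (hc : c ≠ 0) {v : V} (h : v ∈ W S ρ r c) (h' : v ∈ W S ρ r 0) : v = 0 := by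
  have := (pj_wt (μ := c) h).symm.trans (pj_wt h')
  rw [if_pos rfl, if_neg hc.symm, zero_smul] at this
  exact (smul_eq_zero.1 this).resolve_left card_ne

theorem pos_one {δ : Φ} {j : ι} (h : R.Pos δ) (e : R.A (R.sim j) δ = 1) : 0 < R.rt δ j := by
  by_contra h0
  have h1 := h j
  have h2 := (R.not_pos_iff _).1 (R.not_pos_of_rt_neg (r := R.w (R.sim j) δ) (i := j) (by
    rw [rt_sub e, R.rt_sim]; simp; omega))
  refine R.rt_ne_zero δ (funext fun l => ?_)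
  by_cases hl : l = j
  · subst hl; simp; omega
  · exact le_antisymm (rt_ws hl δ ▸ h2 l) (h l)

theorem not_le_sim {δ : Φ} {j : ι} (h : R.Pos δ) (e : δ ≠ R.sim j) : ¬ R.rt δ ≤ R.rt (R.sim j) := fun h1 => by
  rcases R.reduced δ j fun l hl => le_antisymm (by simpa [R.rt_sim, hl] using h1 l) (h l) with h2 | rfl
  · exact e h2
  · exact R.not_pos_neg_sim j h

theorem T_le_Lm (j : ι) (c : F) : T S ρ (R.sim j) c ≤ Lm S ρ j c := fun _ hv => ⟨hv.1, mem_Fx.2 fun δ hδ =>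
  mem_Fx.1 hv.2 δ ⟨R.pos_of_rt_pos hδ.2, not_le_sim (R.pos_of_rt_pos hδ.2) (by
    rintro rfl; have := hδ.1; rw [R.A_self] at this; omega)⟩⟩

theorem ne_neg {r s : Φ} (hr : R.Pos r) (hs : R.Pos s) : s ≠ R.neg r := by
  rintro rfl; exact (R.pos_neg_iff r).1 hs hr

theorem W_tor {r s : Φ} (h : R.A r s = -1) {c c' : F} (hc : c ≠ 0) (hc' : c' ≠ 0) :
    finrank ℂ (W S ρ s c) ≤ finrank ℂ (W S ρ s c') :=
  move ρ _ fun v hv => tm r (div_ne_zero hc' hc) (by rw [h]; convert hv using 2; field_simp)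

theorem W_w {e : ℕ} (r : Φ) {s : Φ} (h : ∀ c, c ≠ 0 → finrank ℂ (W S ρ s c) = e) (c : F) (hc : c ≠ 0) :
    finrank ℂ (W S ρ (R.w r s) c) = e := by
  obtain ⟨a, h1, h2⟩ := nm S ρ r
  refine le_antisymm (le_of_le_of_eq (move ρ (S.n r 1) fun v hv => ?_) (h _ (div_ne_zero hc (h1 (R.w r s)))))
    ((h _ (mul_ne_zero hc (h1 s))).ge.trans (move ρ _ (h2 s c)))
  have := h2 _ (c / a (R.w r s)) v (by rwa [div_mul_cancel₀ _ (h1 _)])
  rwa [R.w_w] at this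

namespace SL
variable (H : SL S)
include H

theorem adj {i j : ι} (h : R.C i j ≠ 0) (hij : j ≠ i) : R.A (R.sim i) (R.sim j) = -1 := by
  rcases H.cases (R.sim i) (R.sim j) with e | e | e | e | e
  · exact absurd (R.sim_inj e) hij
  · exact absurd e (ne_neg (R.pos_sim i) (R.pos_sim j))
  · simpa [R.rt_sim, hij.symm] using pos_one (R.pos_sim j) e
  · exact absurd (R.A_sim_sim i j ▸ e) h
  · exact e

theorem w_comm {r s : Φ} (h : R.A r s = -1) : R.w s r = R.w r s :=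
  R.rt_inj (funext fun l => by rw [rt_add h, rt_add ((H.sy _ _).trans h), add_comm])

theorem dim_Lm (j : ι) {c : F} (hc : c ≠ 0) : finrank ℂ (W S ρ (R.sim j) c) =
    Fintype.card F ^ (Finset.univ.filter fun δ => R.A (R.sim j) δ = 1 ∧ 0 < R.rt δ j).card * finrank ℂ (Lm S ρ j c) := by
  rw [H.heisL hc (Finset.univ.filter fun δ => R.A (R.sim j) δ = 1 ∧ 0 < R.rt δ j) (by simp +contextual)]
  · rw [show (fun δ => δ ∈ Finset.univ.filter fun δ => R.A (R.sim j) δ = 1 ∧ 0 < R.rt δ j) =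
      fun δ => R.A (R.sim j) δ = 1 ∧ 0 < R.rt δ j from funext fun δ => by simp]; rfl
  simp only [Finset.mem_filter, Finset.mem_univ, true_and]
  intro a ha b hb
  rcases H.cases a b with rfl | e | e | e | e
  · rw [R.A_self]; omega
  · exact absurd e (ne_neg (R.pos_of_rt_pos ha.2) (R.pos_of_rt_pos hb.2))
  · omega
  · omega
  · have := H.le_one (r := R.sim j) (s := R.w a b) fun e' => by
      have := rt_add e j
      rw [e', R.rt_sim, Pi.single_eq_same] at this; omega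
    rw [R.A_w, e, ha.1, hb.1] at this; omega

theorem special {k : ι} (hD : ∀ δ, R.A (R.sim k) δ = 0 ∨ R.A (R.sim k) δ = -1 → 0 ≤ R.rt δ k → ∃ δ', R.A (R.sim k) δ' = 0 ∧
    R.A δ' δ = 1 ∧ 0 ≤ R.rt δ' k ∧ R.rt δ' k ≤ R.rt δ k) {c : F} (h : finrank ℂ (Lm S ρ k c) ≤ 1) :
    Lm S ρ k c ≤ T S ρ (R.sim k) c := by
  have hn : ∀ δ s, 0 ≤ R.rt δ k → 0 < R.rt s k → s ≠ R.neg δ := by
    rintro δ _ h1 h2 rfl; rw [R.rt_neg, Pi.neg_apply] at h2; omega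
  have hA : ∀ δ, R.A (R.sim k) δ = 0 → 0 ≤ R.rt δ k → Inv S ρ (Lm S ρ k c) δ := fun δ h1 h2 =>
    (H.cm (by rw [H.sy, h1]) c).inf (H.inv_Fx fun s hs => ⟨hn _ _ h2 hs.2, fun e =>
      ⟨by rw [R.A_w, h1, hs.1]; simp, by rw [rt_add e]; omega⟩⟩)
  have key : ∀ a, a = 0 ∨ a = -1 → (∀ δ, R.A (R.sim k) δ = a → 0 ≤ R.rt δ k → Inv S ρ (Lm S ρ k c) δ) →
      ∀ δ, R.A (R.sim k) δ = a → 0 ≤ R.rt δ k → Lm S ρ k c ≤ W S ρ δ 0 := fun a ha hI δ h1 h2 => by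
    obtain ⟨δ', e1, e2, e3, e4⟩ := hD δ (by omega) h2
    have := H.line h (r := δ') (s := R.w δ' δ) (by rw [R.A_w_right, e2]) (hA _ e1 e3)
      (hI _ (by rw [R.A_w, e1, h1]; simp) (by rw [rt_sub e2]; omega))
    rwa [R.w_w] at this
  have hB := key 0 (.inl rfl) hA
  have hC := key (-1) (.inr rfl) fun δ h1 h2 t v hv => by
    have h3 : R.A δ (R.sim k) = -1 := (H.sy _ _).trans h1
    have h4 : 0 < R.rt (R.sim k) k := by simp [R.rt_sim]
    refine ⟨H.gen hv.1 (hn _ _ h2 h4) (fun _ => mem_Fx.1 hv.2 _ ⟨by rw [R.A_w, h1, h3, R.A_self]; rfl, by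
      rw [rt_add h3]; omega⟩) t, mem_Fx.2 fun s hs => H.gen (mem_Fx.1 hv.2 s hs) (hn _ _ h2 hs.2) (fun e => ?_) t⟩
    exact hB _ (by rw [R.A_w, e, h1, hs.1]; rfl) (by rw [rt_add e]; omega) hv
  refine fun v hv => ⟨hv.1, mem_Fx.2 fun δ hδ => ?_⟩
  rcases H.cases (R.sim k) δ with rfl | e | e | e | e
  · exact absurd le_rfl hδ.2
  · exact absurd e (ne_neg (R.pos_sim k) hδ.1)
  · exact mem_Fx.1 hv.2 _ ⟨e, pos_one hδ.1 e⟩
  · exact hB _ e (hδ.1 k) hv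
  · exact hC _ e (hδ.1 k) hv

theorem tri {i j : ι} (h : R.A (R.sim i) (R.sim j) = -1) {δ : Φ} (hδ : R.Pos δ) : (∃ l, l ≠ i ∧ l ≠ j ∧ 0 < R.rt δ l) ∨
    δ = R.sim i ∨ δ = R.sim j ∨ δ = R.w (R.sim i) (R.sim j) := by
  by_contra! hc
  obtain ⟨h0, h1, h2, h3⟩ := hc
  have hij : i ≠ j := by rintro rfl; rw [R.A_self] at h; omega
  have e : R.rt δ = R.rt δ i • R.rt (R.sim i) + R.rt δ j • R.rt (R.sim j) := funext fun l => by
    by_cases hi : l = i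
    · subst hi; simp [R.rt_sim, hij]
    by_cases hj : l = j
    · subst hj; simp [R.rt_sim, hi]
    simpa [R.rt_sim, hi, hj] using le_antisymm (h0 l hi hj) (hδ l)
  have a1 := H.le_one h1
  have a2 := H.le_one h2
  have a3 := R.ht_pos hδ
  rw [RS.A_def, e, map_add, map_smul, map_smul, ← RS.A_def, ← RS.A_def] at a1 a2
  rw [RS.ht, e, map_add, map_smul, map_smul] at a3
  change 0 < _ • R.ht _ + _ • R.ht _ at a3
  simp only [R.A_self, h, H.sy (R.sim i) (R.sim j), R.ht_sim, smul_eq_mul] at a1 a2 a3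
  have := hδ i
  have := hδ j
  refine h3 (R.rt_inj ?_)
  rw [e, R.rt_w, h, show R.rt δ i = 1 by omega, show R.rt δ j = 1 by omega]; simp [add_comm]

theorem inv_O (i j : ι) {r : Φ} (hr : R.Pos r) : Inv S ρ (Fx S ρ fun δ => ∃ l, l ≠ i ∧ l ≠ j ∧ 0 < R.rt δ l) r :=
  H.inv_Fx fun s ⟨l, h1, h2, h3⟩ => ⟨ne_neg hr (R.pos_of_rt_pos h3), fun e => ⟨l, h1, h2, by
    have := hr l; rw [rt_add e]; omega⟩⟩

omit H in
theorem n_O {i j a : ι} (ha : a = i ∨ a = j) {v : V} (hv : v ∈ Fx S ρ fun δ => ∃ l, l ≠ i ∧ l ≠ j ∧ 0 < R.rt δ l) :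
    ρ (S.n (R.sim a) 1) v ∈ Fx S ρ fun δ => ∃ l, l ≠ i ∧ l ≠ j ∧ 0 < R.rt δ l := mem_Fx.2 fun s ⟨l, h1, h2, h3⟩ =>
  nm0 _ (mem_Fx.1 hv _ ⟨l, h1, h2, by rwa [rt_ws (by rcases ha with rfl | rfl <;> assumption)]⟩)

theorem edge {i j : ι} (h : R.A (R.sim i) (R.sim j) = -1) (hL : ∀ c, c ≠ 0 → finrank ℂ (Lm S ρ j c) ≤ 1)
    (hT : ∀ c, c ≠ 0 → finrank ℂ (T S ρ (R.sim j) c) ≠ 0) (c : F) (hc : c ≠ 0) : finrank ℂ (T S ρ (R.sim i) c) ≠ 0 := by
  obtain ⟨a, a0, ha⟩ := nm S ρ (R.sim i)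
  obtain ⟨b, b0, hb⟩ := nm S ρ (R.sim j)
  have h' : R.A (R.sim j) (R.sim i) = -1 := (H.sy _ _).trans h
  have hij : i ≠ j := by rintro rfl; rw [R.A_self] at h; omega
  set γ := R.w (R.sim i) (R.sim j) with hγ
  have e1 : R.w (R.sim j) (R.sim i) = γ := H.w_comm h
  have e2 : R.w (R.sim j) γ = R.sim i := by rw [← e1, R.w_w]
  have e3 : R.A (R.sim i) γ = 1 := by rw [R.A_w_right, h]; rfl
  have e4 : R.A (R.sim j) γ = 1 := by rw [← e1, R.A_w_right, h']; rfl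
  set O := Fx S ρ fun δ => ∃ l, l ≠ i ∧ l ≠ j ∧ 0 < R.rt δ l
  have h1 : finrank ℂ ↥(O ⊓ W S ρ γ (c * b γ)) ≠ 0 :=
    move_ne ρ (S.n (R.sim i) 1) (hT _ (mul_ne_zero (mul_ne_zero hc (b0 γ)) (a0 _))) fun v hv =>
      ⟨n_O (.inl rfl) (mem_Fx.2 fun δ ⟨l, l1, l2, l3⟩ => mem_Fx.1 hv.2 δ ⟨R.pos_of_rt_pos l3, fun e => by
        have := e l; simp [R.rt_sim, l2] at this; omega⟩), ha _ _ v hv.1⟩
  rw [H.heis (mul_ne_zero hc (b0 γ)) h' (by rw [e1]; exact inf_le_right)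
    ((H.inv_O i j (R.pos_sim j)).inf (H.cm (by omega) _)) ((H.inv_O i j (R.pos_sim i)).inf (H.cm (by omega) _))] at h1
  have h2 : finrank ℂ ↥(O ⊓ W S ρ γ 0 ⊓ W S ρ (R.sim i) c) ≠ 0 :=
    move_ne ρ (S.n (R.sim j) 1) (right_ne_zero_of_mul h1) fun v hv =>
      ⟨⟨n_O (.inr rfl) hv.1.1, nm0 _ (e2.symm ▸ hv.2)⟩, e2 ▸ hb _ _ v hv.1.2⟩
  obtain ⟨ν, hν⟩ := Inv.exists (S := S) (ρ := ρ) (U := O ⊓ W S ρ γ 0 ⊓ W S ρ (R.sim i) c) (r := R.sim j) (fun t v hv => ⟨((H.inv_O i j (R.pos_sim j)).inf (H.cm (by omega) _)) t v hv.1,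
    H.gen hv.2 (ne_neg (R.pos_sim j) (R.pos_sim i)) (fun _ => e1.symm ▸ hv.1.2) t⟩) h2
  by_cases h0 : ν = 0
  · subst h0
    refine fun e => hν (Nat.eq_zero_of_le_zero (le_of_le_of_eq (Submodule.finrank_mono (t := T S ρ (R.sim i) c)
      fun v hv => ⟨hv.1.2, mem_Fx.2 fun δ hδ => ?_⟩) e))
    rcases H.tri h hδ.1 with e | rfl | rfl | rfl
    exacts [mem_Fx.1 hv.1.1.1 _ e, absurd le_rfl hδ.2, hv.2, hv.1.1.2]
  have e5 : T S ρ (R.sim j) ν = Lm S ρ j ν := Submodule.eq_of_le_of_finrank_le (T_le_Lm j ν)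
    ((hL ν h0).trans (Nat.one_le_iff_ne_zero.2 (hT ν h0)))
  refine (hν ?_).elim
  rw [Submodule.finrank_eq_zero, Submodule.eq_bot_iff]
  refine fun v hv => wt_zero hc hv.1.2 ?_
  refine mem_Fx.1 (e5.ge (⟨hv.2, mem_Fx.2 fun δ hδ => ?_⟩ : v ∈ Lm S ρ j ν)).2 _
    ⟨R.pos_sim i, not_le_sim (R.pos_sim i) fun e => hij (R.sim_inj e)⟩
  rcases H.tri h (R.pos_of_rt_pos hδ.2) with e | rfl | rfl | rfl
  · exact mem_Fx.1 hv.1.1.1 _ e
  · omega
  · have := hδ.1; rw [R.A_self] at this; omega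
  · exact hv.1.1.2

theorem T_inv {β r : Φ} (hβ : R.Pos β) (hr : R.Pos r) (c : F) : Inv S ρ (T S ρ β c) r := fun t v hv => by
  refine ⟨H.gen hv.1 (ne_neg hr hβ) (fun e => mem_Fx.1 hv.2 _ ⟨fun l => ?_, fun h => ?_⟩) t,
    H.inv_Fx (fun s hs => ⟨ne_neg hr hs.1, fun e => ⟨fun l => ?_, fun h => hs.2 fun l => ?_⟩⟩) t v hv.2⟩
  · rw [rt_add e]; exact add_nonneg (hβ l) (hr l)
  · exact R.rt_ne_zero r (funext fun l => le_antisymm (by have := h l; rw [rt_add e] at this; simpa using this) (hr l))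
  · rw [rt_add e]; exact add_nonneg (hs.1 l) (hr l)
  · have h1 : R.rt (R.w r s) l ≤ R.rt β l := h l
    have := hr l
    rw [rt_add e] at h1
    show R.rt s l ≤ R.rt β l
    omega

theorem T_ge (hT : ∀ j c, c ≠ 0 → finrank ℂ (T S ρ (R.sim j) c) ≠ 0) : ∀ β, R.Pos β → ∀ c, c ≠ 0 →
    Fintype.card F ^ (R.ht β - 1).toNat ≤ finrank ℂ (T S ρ β c) := by
  refine R.pos_induction _ (fun i c hc => by simpa [R.ht_sim] using Nat.one_le_iff_ne_zero.2 (hT i c hc))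
    fun i r h1 h2 h3 h4 ih c hc => ?_
  have e : R.A (R.sim i) r = 1 := by have := H.le_one h2; omega
  have h5 := R.pos_s h1 h2
  have h6 := R.ht_pos h5
  have h7 := R.ht_s i r
  rw [← R.w_sim] at ih h5 h6 h7
  obtain ⟨a, a0, ha⟩ := nm S ρ (R.sim i)
  rw [H.heis hc (r := R.sim i) (δ := R.w (R.sim i) r) (by rw [R.A_w_right, e]) (by rw [R.w_w]; exact inf_le_left)
    (H.T_inv h1 (R.pos_sim i) c) (H.T_inv h1 h5 c), show (R.ht r - 1).toNat = (R.ht (R.w (R.sim i) r) - 1).toNat + 1 by omega,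
    pow_succ']
  refine Nat.mul_le_mul_left _ ((ih _ (mul_ne_zero hc (a0 _))).trans (move ρ (S.n (R.sim i) 1) fun v hv =>
    ⟨⟨by have := ha _ _ v hv.1; rwa [R.w_w] at this, mem_Fx.2 fun δ hδ => nm0 _ (mem_Fx.1 hv.2 _ ⟨?_, fun h => hδ.2 fun l => ?_⟩)⟩,
      nm0 _ (mem_Fx.1 hv.2 _ (by
        rw [R.w_w]; exact ⟨h1, fun h => by have := h i; rw [rt_sub e, R.rt_sim] at this; simp at this⟩))⟩))
  · rw [R.w_sim]
    refine R.pos_s hδ.1 ?_
    rintro rfl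
    refine hδ.2 fun l => ?_
    by_cases hl : l = i
    · subst hl; simp only [R.rt_sim, Pi.single_eq_same]; omega
    · simpa [R.rt_sim, hl] using h1 l
  · have h8 : R.rt (R.w (R.sim i) δ) l ≤ R.rt (R.w (R.sim i) r) l := h l
    show R.rt δ l ≤ R.rt r l
    by_cases hl : l = i
    · subst hl
      have : δ ≠ R.sim l := by
        rintro rfl
        refine hδ.2 fun m => ?_
        by_cases hm : m = l
        · subst hm; simp only [R.rt_sim, Pi.single_eq_same]; omega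
        · simpa [R.rt_sim, hm] using h1 m
      have := H.le_one this
      simp only [R.rt_w, e, R.rt_sim, Pi.sub_apply, Pi.smul_apply, Pi.single_eq_same, smul_eq_mul, mul_one] at h8
      omega
    · rwa [rt_ws hl, rt_ws hl] at h8

theorem chain (f : Φ → ℕ) (hT : ∀ β, R.Pos β → ∀ c, c ≠ 0 → f β ≤ finrank ℂ (T S ρ β c)) (s : Finset Φ)
    (h1 : ∀ δ ∈ s, R.Pos δ) (h2 : ∀ δ ∈ s, ∀ δ', R.ht δ < R.ht δ' → δ' ∈ s) :
    finrank ℂ (Fx S ρ (· ∈ s)) + ∑ β ∈ s, (Fintype.card F - 1) * f β ≤ finrank ℂ V := by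
  induction s using Finset.induction_on_min_value R.ht with
  | empty => simpa using Submodule.finrank_le _
  | insert a s ha hm ih =>
    have h3 : ∀ δ ∈ s, ∀ δ', R.ht δ < R.ht δ' → δ' ∈ s := fun δ hδ δ' h =>
      (Finset.mem_insert.1 (h2 δ (by simp [hδ]) δ' h)).resolve_left (by rintro rfl; have := hm δ hδ; omega)
    have pa := h1 a (by simp)
    refine le_trans ?_ (ih (fun δ hδ => h1 δ (by simp [hδ])) h3)
    rw [Finset.sum_insert ha, ← add_assoc, Inv.split (r := a) (U := Fx S ρ (· ∈ s)) (H.inv_Fx fun δ hδ =>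
      ⟨ne_neg pa (h1 δ (by simp [hδ])), fun e => h3 δ hδ _ ?_⟩)]
    · refine Nat.add_le_add_right (le_trans (Nat.add_le_add_right (Submodule.finrank_mono fun v hv => ?_) _)
        (sum_ge fun c hc => (hT a pa c hc).trans (Submodule.finrank_mono (t := Fx S ρ (· ∈ s) ⊓ W S ρ a c)
          fun v hv => ⟨mem_Fx.2 fun δ hδ =>
          mem_Fx.1 hv.2 δ ⟨h1 δ (by simp [hδ]), fun h => ha ?_⟩, hv.1⟩))) _
      · exact ⟨mem_Fx.2 fun δ hδ => mem_Fx.1 hv δ (by simp [hδ]), mem_Fx.1 hv a (by simp)⟩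
      · rwa [← R.rt_inj (funext fun l => (Finset.sum_eq_sum_iff_of_le fun l _ => h l).1
          (le_antisymm (Finset.sum_le_sum fun l _ => h l) (hm δ hδ)) l (Finset.mem_univ l))]
    · have := R.ht_pos pa
      simp only [R.ht_def, rt_add e, Finset.sum_add_distrib] at this ⊢
      omega

end SL
end H24.ME
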