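import Cfsg.Agent.H24.ME2
import Cfsg.Agent.H24.MD1
import Cfsg.Agent.H24.Torus

/-! Representations of simply laced groups: the dichotomy, and the action of the torus. -/

set_option autoImplicit false
set_option linter.unusedSectionVars false
set_option linter.unusedSimpArgs false
set_option maxHeartbeats 400000

namespace H24.ME
open Module MG
open MG.G2R (rm move move_ne adj adj')
open scoped Classical InnerProductSpace ComplexConjugate

variable {ι Φ : Type} [Fintype ι] [DecidableEq ι] [Fintype Φ] {R : CD ι Φ} {F : Type*} [Field F] [Fintype F]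
  {G : Type*} [Group G] (S : St R F G)

section
variable {V : Type*} [AddCommGroup V] [Module ℂ V] [FiniteDimensional ℂ V] (ρ : Representation ℂ G V)

/-- the minimal case -/
structure Mn : Prop where
  hL : ∀ j c, c ≠ 0 → finrank ℂ (Lm S ρ j c) ≤ 1
  hT : ∀ j c, c ≠ 0 → finrank ℂ (T S ρ (R.sim j) c) ≠ 0

/-- the fixed points of the unipotent subgroup -/
abbrev U0 : Submodule ℂ V := Fx S ρ R.Pos

/-- the generators of the Hecke algebra -/
noncomputable def Tk (i : ι) : End ℂ V := pj (fun t => ρ (S.x (R.sim i) t)) 0 * ρ (S.n (R.sim i) 1)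

variable {S ρ}

theorem SL.dich (H : SL S) (hc : ∃ r, ∀ i, R.rt r i ≠ 0) {k j : ι} (hj : R.A (R.sim j) (R.sim k) = -1)
    (hD : ∀ δ, R.A (R.sim k) δ = 0 ∨ R.A (R.sim k) δ = -1 → 0 ≤ R.rt δ k → ∃ δ', R.A (R.sim k) δ' = 0 ∧
      R.A δ' δ = 1 ∧ 0 ≤ R.rt δ' k ∧ R.rt δ' k ≤ R.rt δ k) {m : ℕ}
    (hm : ∀ j, (Finset.univ.filter fun δ => R.A (R.sim j) δ = 1 ∧ 0 < R.rt δ j).card = m) (h1 : ρ (S.x (R.sim k) 1) ≠ 1) :
    (Fintype.card F - 1) * (Fintype.card F + 1) * (Fintype.card F ^ m * 2) ≤ Fintype.card F * finrank ℂ V ∨ Mn S ρ := by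
  set e := finrank ℂ (W S ρ (R.sim k) 1)
  have hk : ∀ c, c ≠ 0 → finrank ℂ (W S ρ (R.sim k) c) = e := fun c hc =>
    (W_tor hj hc one_ne_zero).antisymm (W_tor hj one_ne_zero hc)
  have hE : ∀ i c, c ≠ 0 → finrank ℂ (W S ρ (R.sim i) c) = e := fun i =>
    R.conn hc {i | ∀ c, c ≠ 0 → finrank ℂ (W S ρ (R.sim i) c) = e} (i0 := k) hk (fun a ha b hab => by
      by_cases h : b = a
      · exact h ▸ ha
      have := W_w (R.sim a) (W_w (R.sim b) ha)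
      rwa [H.w_comm (H.adj hab h), R.w_w] at this) i
  have hq : 0 < Fintype.card F ^ m := pow_pos Fintype.card_pos _
  have hl : ∀ i c, c ≠ 0 → finrank ℂ (Lm S ρ i c) = finrank ℂ (Lm S ρ k 1) := fun i c h =>
    Nat.eq_of_mul_eq_mul_left hq (by rw [← hm i, ← H.dim_Lm i h, hm i, ← hm k, ← H.dim_Lm k one_ne_zero, hE i c h])
  have he : e = Fintype.card F ^ m * finrank ℂ (Lm S ρ k 1) := hm k ▸ H.dim_Lm k one_ne_zero
  have hV := dim_W (S := S) (ρ := ρ) (R.sim k)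
  rw [sum_split hk] at hV
  rcases Nat.lt_or_ge (finrank ℂ (Lm S ρ k 1)) 2 with h2 | h2
  · have h0 : finrank ℂ (Lm S ρ k 1) ≠ 0 := fun h0 => h1 (by
      rw [he, h0, mul_zero, mul_zero, add_zero] at hV
      ext v
      simpa using fx ((Submodule.eq_top_of_finrank_eq hV.symm).ge Submodule.mem_top) 1)
    have hL : ∀ j c, c ≠ 0 → finrank ℂ (Lm S ρ j c) ≤ 1 := fun j c h => by rw [hl j c h]; omega
    refine .inr ⟨hL, fun i => R.conn hc {i | ∀ c, c ≠ 0 → finrank ℂ (T S ρ (R.sim i) c) ≠ 0} (i0 := k)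
      (fun c h e => h0 (Nat.eq_zero_of_le_zero ((hl k c h).ge.trans (le_of_le_of_eq
        (Submodule.finrank_mono (H.special hD (hL k c h))) e)))) (fun a ha b hab => ?_) i⟩
    by_cases h : b = a
    · exact h ▸ ha
    exact H.edge ((H.sy _ _).trans (H.adj hab h)) (hL a) ha
  left
  have hγ := W_w (R.sim j) hk
  have a1 : R.A (R.w (R.sim j) (R.sim k)) (R.sim k) = 1 := by rw [H.sy, R.A_w, R.A_self, H.sy (R.sim j), hj]; rfl
  have h3 : (Fintype.card F - 1) * e ≤ Fintype.card F * finrank ℂ (W S ρ (R.sim k) 0) := by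
    rw [(H.cm (r := R.w (R.sim j) (R.sim k)) (by omega) 0).split, Finset.mul_sum]
    refine le_trans (Nat.le_add_left _ _) (sum_ge fun c h => ?_)
    rw [← hγ c h, H.heisL h {R.sim k} (by simpa using a1) (by simp [R.A_self]), Finset.card_singleton, pow_one]
    exact Nat.mul_le_mul_left _ (Submodule.finrank_mono fun v hv => ⟨mem_Fx.1 hv.2 _ (by simp), hv.1⟩)
  have h4 : Fintype.card F ^ m * 2 ≤ e := he ▸ Nat.mul_le_mul_left _ h2
  refine (Nat.mul_le_mul_left _ h4).trans ?_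
  rw [hV]; nlinarith

theorem H_W {g : G} (hg : g ∈ S.H) {s : Φ} {v : V} (hv : v ∈ W S ρ s 0) : ρ g v ∈ W S ρ s 0 := by
  obtain ⟨c, h0, h⟩ := (S.rep_of_mem_H hg).exists_conj s
  exact cnj h h0 hv (zero_mul _)

theorem H_Fx {g : G} (hg : g ∈ S.H) {P : Φ → Prop} {v : V} (hv : v ∈ Fx S ρ P) : ρ g v ∈ Fx S ρ P :=
  mem_Fx.2 fun s hs => H_W hg (mem_Fx.1 hv s hs)

theorem nm0' (r : Φ) {s : Φ} {v : V} (hv : v ∈ W S ρ (R.w r s) 0) : ρ (S.n r 1)⁻¹ v ∈ W S ρ s 0 := by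
  obtain ⟨c, -, h⟩ := (S.n_rep r one_ne_zero).exists_conj s
  exact rel (k := fun u => S.x (R.w r s) (c * u)) (fun u => by rw [← h]; group) fun u => by simp [fx hv]

theorem n_Y {i : ι} {v : V} (hv : v ∈ Fx S ρ fun δ => R.Pos δ ∧ ¬ R.rt δ ≤ R.rt (R.sim i)) :
    ρ (S.n (R.sim i) 1) v ∈ Fx S ρ fun δ => R.Pos δ ∧ ¬ R.rt δ ≤ R.rt (R.sim i) := mem_Fx.2 fun δ hδ => by
  have h1 : δ ≠ R.sim i := by rintro rfl; exact hδ.2 le_rfl
  have h2 : R.Pos (R.w (R.sim i) δ) := R.w_sim i ▸ R.pos_s hδ.1 h1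
  refine nm0 _ (mem_Fx.1 hv _ ⟨h2, not_le_sim h2 fun e => R.not_pos_neg_sim i ?_⟩)
  have := congrArg (R.w (R.sim i)) e
  rw [R.w_w, R.w_self] at this
  exact this ▸ hδ.1

theorem SL.inv_Y (H : SL S) (i : ι) : Inv S ρ (Fx S ρ fun δ => R.Pos δ ∧ ¬ R.rt δ ≤ R.rt (R.sim i)) (R.sim i) :=
  H.inv_Fx fun s hs => ⟨ne_neg (R.pos_sim i) hs.1, fun e => ⟨fun l => by
    rw [rt_add e]; exact add_nonneg (hs.1 l) (R.pos_sim i l), fun h => hs.2 fun l => by
      have h1 : R.rt (R.w (R.sim i) s) l ≤ R.rt (R.sim i) l := h l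
      have := R.pos_sim i l
      rw [rt_add e] at h1
      show R.rt s l ≤ R.rt (R.sim i) l
      omega⟩⟩

theorem SL.Tk_mem (H : SL S) {i : ι} {v : V} (hv : v ∈ Fx S ρ fun δ => R.Pos δ ∧ ¬ R.rt δ ≤ R.rt (R.sim i)) :
    Tk S ρ i v ∈ U0 S ρ := mem_Fx.2 fun δ hδ => by
  by_cases h : δ = R.sim i
  · exact h ▸ pj_mem (hadd _) 0 _
  · exact mem_Fx.1 (pj_inv (H.inv_Y i) 0 (n_Y hv)) δ ⟨hδ, not_le_sim hδ h⟩

theorem U0_le (i : ι) {v : V} (hv : v ∈ U0 S ρ) : v ∈ Fx S ρ fun δ => R.Pos δ ∧ ¬ R.rt δ ≤ R.rt (R.sim i) :=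
  mem_Fx.2 fun δ hδ => mem_Fx.1 hv δ hδ.1

variable (S ρ) in
/-- characters of the torus occurring in the fixed points -/
def Occ (t : Fˣ) (f : Φ → ℂ) : Prop := ∃ v ∈ U0 S ρ, v ≠ 0 ∧ ∀ r, ρ (S.h r t) v = f r • v

theorem Occ.mul (H : SL S) (h3 : S.R3) {t : Fˣ} {f : Φ → ℂ} (h : Occ S ρ t f) {r s : Φ} (e : R.A r s = 1) :
    f (R.w r s) * f r = f s ∧ f s ≠ 0 := by
  obtain ⟨v, -, h0, hv⟩ := h
  have hco : ∀ r i, R.co r i = R.rt r i := fun r i => by simpa [H.hl] using R.len_co r i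
  have : S.h s t = S.h r t * S.h (R.w r s) t := by
    simp only [S.h_eq_hh h3, ← map_mul]
    congr 1; funext i; simp only [hco, rt_sub e, Pi.mul_apply, ← zpow_add]; congr 1; ring
  refine ⟨smul_left_injective ℂ h0 ?_, fun e => h0 (inj (S.h s t) (by rw [hv, e, zero_smul, map_zero]))⟩
  simp only [← hv s, this, rm, hv, map_smul, smul_smul]

theorem exists_occ (h3 : S.R3) {t : Fˣ} {r : Φ} {v : V} (hv : v ∈ U0 S ρ) (h : ρ (S.h r t) v ≠ v) :
    ∃ f, Occ S ρ t f ∧ f r ≠ 1 := by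
  let T : Additive (ι → Fˣ) → End ℂ V := fun m => ρ (S.hh h3 m.toMul)
  have hT : ∀ m m', T (m + m') = T m * T m' := fun m m' => by simp [T]
  by_contra! H
  have h1 := congrArg (· v) (sum_fco (T := T) (.ofMul fun i => t ^ R.co r i))
  have h2 := congrArg (· v) (sum_fco (T := T) 0)
  simp only [LinearMap.sum_apply, LinearMap.smul_apply, AddChar.map_zero_eq_one, one_smul] at h1 h2
  rw [Finset.sum_congr rfl (g := fun μ => fco T μ v) fun μ _ => ?_, h2] at h1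
  · refine h (smul_right_injective V (r := (Fintype.card (Additive (ι → Fˣ)) : ℂ)) (by simp) ?_)
    simpa [T, S.h_eq_hh h3] using h1.symm
  by_cases h0 : fco T μ v = 0
  · simp [h0]
  rw [H (fun s => μ (.ofMul fun i => t ^ R.co s i)) ⟨_, ?_, h0, fun s => ?_⟩, one_smul]
  · simp only [fco, LinearMap.sum_apply, LinearMap.smul_apply]
    exact Submodule.sum_mem _ fun m _ => Submodule.smul_mem _ _ (H_Fx (S.hh_mem h3 _) hv)
  · rw [S.h_eq_hh h3]
    exact congrArg (· v) (mul_fco hT μ (.ofMul fun i => t ^ R.co s i))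
end

variable {S} {V : Type*} [NormedAddCommGroup V] [InnerProductSpace ℂ V] [FiniteDimensional ℂ V] {ρ : Representation ℂ G V}

theorem ext0 {U : Submodule ℂ V} {a b : V} (ha : a ∈ U) (hb : b ∈ U) (h : ∀ w ∈ U, ⟪w, a⟫_ℂ = ⟪w, b⟫_ℂ) : a = b := by
  rw [← sub_eq_zero, ← inner_self_eq_zero (𝕜 := ℂ), inner_sub_right, h _ (U.sub_mem ha hb), sub_self]

variable (hρ : ∀ g x y, ⟪ρ g x, ρ g y⟫_ℂ = ⟪x, y⟫_ℂ)
include hρ

theorem inner_pj {r : Φ} {μ : F} {z : V} (hz : z ∈ W S ρ r μ) (v : V) :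
    ⟪z, pj (fun t => ρ (S.x r t)) μ v⟫_ℂ = Fintype.card F * ⟪z, v⟫_ℂ := by
  rw [pj_apply, inner_sum, Finset.sum_congr rfl (g := fun _ => ⟪z, v⟫_ℂ) fun t _ => ?_]
  · simp
  rw [inner_smul_right, adj' hρ, ← St0.x_neg, ev hz, inner_smul_left, ← mul_assoc, mul_neg, neg_mul μ, mul_comm (ps F _),
    conj_ps, one_mul]

theorem orth {r : Φ} {μ ν : F} {z v : V} (hz : z ∈ W S ρ r μ) (hv : v ∈ W S ρ r ν) (h : ν ≠ μ) : ⟪z, v⟫_ℂ = 0 := by
  have := inner_pj hρ hz v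
  rw [pj_wt hv, if_neg h, zero_smul, inner_zero_right] at this
  exact (mul_eq_zero.1 this.symm).resolve_left card_ne

theorem inner_Tk {i : ι} {w : V} (hw : w ∈ W S ρ (R.sim i) 0) (v : V) :
    ⟪w, Tk S ρ i v⟫_ℂ = Fintype.card F * ⟪w, ρ (S.n (R.sim i) 1) v⟫_ℂ := inner_pj hρ hw _

theorem inner_x {r : Φ} {w : V} (hw : w ∈ W S ρ r 0) (t : F) (v : V) : ⟪w, ρ (S.x r t) v⟫_ℂ = ⟪w, v⟫_ℂ := by
  rw [adj' hρ, ← St0.x_neg, fx hw]

theorem Tk_apply (i : ι) (v : V) : Tk S ρ i v = ∑ t, ρ (S.x (R.sim i) t) (ρ (S.n (R.sim i) 1) v) := by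
  simp [Tk, pj_apply]

theorem Tk_ne {i : ι} {v : V} (hv : v ∈ U0 S ρ) (h : Tk S ρ i v = 0) : v = 0 := by
  have hi := R.pos_sim i
  have h1 : ∀ w ∈ U0 S ρ, ⟪w, ρ (S.n (R.sim i) 1) v⟫_ℂ = 0 := fun w hw => by
    simpa [h] using (inner_Tk hρ (mem_Fx.1 hw _ hi) v).symm
  have h2 := congrArg (fun z => ⟪ρ (S.n (R.sim i) 1) v, z⟫_ℂ) h
  obtain ⟨c, c0, hc⟩ := (S.n_rep (R.sim i) one_ne_zero).exists_conj (R.neg (R.sim i))
  simp only [Tk_apply hρ, inner_sum, inner_zero_right] at h2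
  rw [Finset.sum_eq_single 0 (fun t _ ht => ?_) (by simp)] at h2
  · rw [St0.x_zero, map_one, End.one_apply, hρ] at h2
    exact inner_self_eq_zero.1 h2
  rw [← mul_inv_cancel_left₀ c0 t, ← R.w_neg_self (R.sim i), ← hc, R.w_neg_self, ← rm, inv_mul_cancel_right, rm, hρ,
    St0.x_neg_eq, rm, rm, fx (mem_Fx.1 hv _ hi), inner_x hρ (mem_Fx.1 hv _ hi), St0.n_eq, rm, adj' hρ]
  exact h1 _ (H_Fx (inv_mem (S.h_mem (by simp [c0, ht]))) hv)

variable (H : SL S) (h3 : S.R3)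
include H h3

theorem Occ.w {t : Fˣ} {r : Φ} (hr : R.Pos r) : ∀ f, Occ S ρ t f → Occ S ρ t (f ∘ R.w r) := by
  have hs : ∀ i f, Occ S ρ t f → Occ S ρ t (f ∘ R.w (R.sim i)) := fun i f ⟨v, hv, h0, e⟩ => by
    have h1 := H.Tk_mem (U0_le i hv)
    refine ⟨_, h1, fun h => h0 (Tk_ne hρ hv h), fun r => ext0 (H_Fx (S.h_mem t.ne_zero) h1) (Submodule.smul_mem _ _ h1)
      fun w hw => ?_⟩
    have e1 := S.rep_conj_h h3 (S.n_rep (R.sim i) one_ne_zero) (R.w (R.sim i) r) t.ne_zero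
    rw [R.w_w] at e1
    rw [adj' hρ, inner_Tk hρ (H_W (inv_mem (S.h_mem t.ne_zero)) (mem_Fx.1 hw _ (R.pos_sim i))), ← adj' hρ, inner_smul_right,
      inner_Tk hρ (mem_Fx.1 hw _ (R.pos_sim i)), ← e1, ← rm, inv_mul_cancel_right, rm, e, map_smul, inner_smul_right]
    simp only [Function.comp]; ring
  refine R.pos_induction (fun r => ∀ f, Occ S ρ t f → Occ S ρ t (f ∘ R.w r)) hs (fun i r _ _ _ _ ih f hf => ?_) r hr
  have := hs i _ (ih _ (hs i f hf))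
  convert this using 1
  funext a
  simp only [Function.comp, R.w_sim, ← RS.Aut.conj_w (R.s_mem_Aut i) r]
  simp [← R.w_sim, R.w_w, Equiv.symm_apply_eq, (Equiv.symm_apply_eq _).2 (R.w_w (R.sim i) _).symm]

theorem torus (hc : ∃ r, ∀ i, R.rt r i ≠ 0) (k : ι)
    (hm : Fintype.card ι ≤ (Finset.univ.filter fun δ => R.A (R.sim k) δ = 1 ∧ 0 < R.rt δ k).card)
    (hs : ∀ r s, s ≠ r → s ≠ R.neg r → ∃ a, R.A r a = 1 ∧ R.A s a = 0) :
    Fintype.card ι ≤ finrank ℂ (U0 S ρ) ∨ ∀ r t, t ≠ 0 → ∀ v ∈ U0 S ρ, ρ (S.h r t) v = v := by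
  by_contra! hh
  obtain ⟨hh, r, t, ht, v, hv, h⟩ := hh
  lift t to Fˣ using ht.isUnit
  by_cases hk : ∀ f, Occ S ρ t f → f (R.sim k) = 1
  · have h1 : ∀ i f, Occ S ρ t f → f (R.sim i) = 1 := fun i => R.conn hc {i | ∀ f, Occ S ρ t f → f (R.sim i) = 1} (i0 := k) hk
      (fun a ha b hab f hf => by
        by_cases h : b = a
        · exact h ▸ ha f hf
        have e := (H.sy _ _).trans (H.adj hab h)
        have := (hf.mul H h3 (r := R.sim b) (s := R.w (R.sim b) (R.sim a)) (by rw [R.A_w_right, e]; rfl)).1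
        rwa [R.w_w, ha f hf, one_mul, show f (R.w (R.sim b) (R.sim a)) = 1 from ha _ (Occ.w hρ H h3 (R.pos_sim b) f hf)] at this) i
    have h2 : ∀ r, R.Pos r → ∀ f, Occ S ρ t f → f r = 1 := R.pos_induction _ h1 fun i r _ _ _ _ ih f hf => by
      simpa [← R.w_sim, R.w_w] using ih _ (Occ.w hρ H h3 (R.pos_sim i) f hf)
    obtain ⟨f, hf, e⟩ := exists_occ h3 hv h
    by_cases hr : R.Pos r
    · exact e (h2 r hr f hf)
    have hr' : R.Pos (R.neg r) := (R.pos_neg_iff r).2 hr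
    exact e (by simpa [R.w_self, R.neg_neg'] using h2 _ hr' _ (Occ.w hρ H h3 hr' f hf))
  push Not at hk
  obtain ⟨f, hf, hk⟩ := hk
  set L := Finset.univ.filter fun δ => R.A (R.sim k) δ = 1 ∧ 0 < R.rt δ k
  have hg : ∀ δ : L, ∃ a, R.Pos a ∧ f a ≠ 1 ∧ (a = δ ∨ R.w (R.sim k) a = δ) := fun ⟨δ, hδ⟩ => by
    have hδ := (Finset.mem_filter.1 hδ).2
    have p := R.pos_of_rt_pos hδ.2
    by_cases e : f δ = 1
    · refine ⟨R.w (R.sim k) δ, R.w_sim k ▸ R.pos_s p (by rintro rfl; have := hδ.1; rw [R.A_self] at this; omega),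
        fun e' => hk ?_, .inr (R.w_w _ _)⟩
      simpa [e, e'] using (hf.mul H h3 hδ.1).1
    · exact ⟨δ, p, e, .inl rfl⟩
  choose g g1 g2 g3 using hg
  choose y y1 y2 y3 using fun δ => Occ.w hρ H h3 (g1 δ) f hf
  have := (LinearIndependent.of_comp (v := fun δ => (⟨y δ, y1 δ⟩ : U0 S ρ)) (U0 S ρ).subtype
    (linearIndependent_of_ne_zero_of_inner_eq_zero y2 fun a b hab => ?_)).fintype_card_le_finrank
  · rw [Fintype.card_coe] at this; omega
  obtain ⟨σ, s1, s2⟩ := hs (g a) (g b) (fun e => hab (Subtype.ext (by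
    have ha := (Finset.mem_filter.1 a.2).2.1
    have hb := (Finset.mem_filter.1 b.2).2.1
    rcases g3 a with e1 | e1 <;> rcases g3 b with e2 | e2
    · rw [← e1, ← e2, e]
    · rw [← e2, R.A_w_right, e, e1, ha] at hb; omega
    · rw [← e1, R.A_w_right, ← e, e2, hb] at ha; omega
    · rw [← e1, ← e2, e]))) (ne_neg (g1 a) (g1 b))
  have e1 := hf.mul H h3 s1
  have e2 : R.w (g b) σ = σ := R.rt_inj (by simp [R.rt_w, s2])
  have e3 := hρ (S.h σ t) (y a) (y b)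
  have e4 := hρ (S.h σ t) (y a) (y a)
  simp only [y3, inner_smul_left, inner_smul_right, Function.comp, e2] at e3 e4
  change ⟪y a, y b⟫_ℂ = 0
  by_contra h0
  have e5 : f σ * conj (f (R.w (g a) σ)) = 1 := mul_right_cancel₀ h0 (by rw [mul_assoc, e3, one_mul])
  have e6 : f (R.w (g a) σ) * conj (f (R.w (g a) σ)) = 1 :=
    mul_right_cancel₀ (inner_self_ne_zero.2 (y2 a)) (by rw [mul_assoc, e4, one_mul])
  have e7 : f σ = f (R.w (g a) σ) := by linear_combination f (R.w (g a) σ) * e5 - f σ * e6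
  exact g2 a (mul_left_cancel₀ e1.2 (by rw [mul_one]; nth_rewrite 1 [e7]; exact e1.1))

end H24.ME
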