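import Cfsg.Agent.H24.ME3

/-! Representations of simply laced groups: the Hecke algebra in the minimal case. -/

set_option autoImplicit false
set_option linter.unusedSectionVars false
set_option linter.unusedSimpArgs false
set_option maxHeartbeats 400000

namespace H24.ME
open Module MG
open MG.G2R (rm move move_ne adj adj')
open scoped Classical InnerProductSpace ComplexConjugate

variable {ι Φ : Type} [Fintype ι] [DecidableEq ι] [Fintype Φ] {R : CD ι Φ} {F : Type*} [Field F] [Fintype F]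
  {G : Type*} [Group G] {S : St R F G} {V : Type*} [NormedAddCommGroup V] [InnerProductSpace ℂ V] [FiniteDimensional ℂ V]
  {ρ : Representation ℂ G V}

theorem Mn.eq (M : Mn S ρ) (j : ι) {c : F} (hc : c ≠ 0) : T S ρ (R.sim j) c = Lm S ρ j c :=
  Submodule.eq_of_le_of_finrank_le (T_le_Lm j c) ((M.hL j c hc).trans (Nat.one_le_iff_ne_zero.2 (M.hT j c hc)))

theorem Mn.ln (M : Mn S ρ) {j : ι} {c : F} (hc : c ≠ 0) {u v : V} (hu : u ∈ T S ρ (R.sim j) c) (h0 : u ≠ 0)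
    (hv : v ∈ T S ρ (R.sim j) c) : ∃ a : ℂ, v = a • u := by
  obtain ⟨a, ha⟩ := (finrank_eq_one_iff_of_nonzero' (⟨u, hu⟩ : T S ρ (R.sim j) c) fun e => h0 (congrArg Subtype.val e)).1
    (le_antisymm (M.eq j hc ▸ M.hL j c hc) (Nat.one_le_iff_ne_zero.2 (M.hT j c hc))) ⟨v, hv⟩
  exact ⟨a, (congrArg Subtype.val ha).symm⟩

theorem w_ng (r s : Φ) : R.w r (R.neg s) = R.neg (R.w r s) :=
  R.rt_inj (by rw [R.rt_w, R.rt_neg, R.rt_neg, R.rt_w, R.A_neg_right]; module)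

variable (hρ : ∀ g x y, ⟪ρ g x, ρ g y⟫_ℂ = ⟪x, y⟫_ℂ) (H : SL S) (M : Mn S ρ)
include hρ H M

theorem Tk_ne' {i j : ι} (h : R.A (R.sim i) (R.sim j) = -1) {c : F} (hc : c ≠ 0) {u : V} (hu : u ∈ T S ρ (R.sim i) c)
    (h0 : Tk S ρ i u = 0) : u = 0 := by
  obtain ⟨a, a0, ha⟩ := nm S ρ (R.sim i)
  obtain ⟨b, b0, hb⟩ := nm S ρ (R.sim j)
  have h' : R.A (R.sim j) (R.sim i) = -1 := (H.sy _ _).trans h
  have hij : i ≠ j := by rintro rfl; rw [R.A_self] at h; omega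
  set γ := R.w (R.sim i) (R.sim j) with hγ
  have e1 : R.w (R.sim j) (R.sim i) = γ := H.w_comm h
  have e2 : R.w (R.sim j) γ = R.sim i := by rw [← e1, R.w_w]
  have e2' : R.w (R.sim i) γ = R.sim j := R.w_w _ _
  have e3 : R.A (R.sim i) γ = 1 := by rw [R.A_w_right, h]; rfl
  have e4 : R.A (R.sim j) γ = 1 := by rw [← e1, R.A_w_right, h']; rfl
  have pγ : R.Pos γ := fun l => by rw [rt_add h]; exact add_nonneg (R.pos_sim j l) (R.pos_sim i l)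
  have pγ' : ¬ R.rt γ ≤ R.rt (R.sim i) := not_le_sim pγ fun e => by rw [e, R.A_self] at e3; omega
  have hA : ∀ t, t ≠ 0 → ∀ z ∈ Fx S ρ fun δ => R.Pos δ ∧ ¬ R.rt δ ≤ R.rt (R.sim i), pj (fun t => ρ (S.x (R.sim i) t)) 0 z = 0 →
      ⟪z, ρ (S.x (R.neg (R.sim j)) t) z⟫_ℂ = 0 := fun t ht z hz h1 => by
    obtain ⟨ε, ε0, e⟩ := H.sh (ρ := ρ) (r := R.neg (R.sim j)) (s := γ) (by rw [R.A_neg_left, e4])
    have h2 := sum_pj (T := fun t => ρ (S.x (R.sim i) t)) (by rw [St0.x_zero, map_one]) z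
    refine (mul_eq_zero.1 (?_ : (Fintype.card F : ℂ) * _ = 0)).resolve_left card_ne
    rw [← inner_smul_right, ← map_smul, ← h2, map_sum, inner_sum]
    refine Finset.sum_eq_zero fun μ _ => ?_
    by_cases hμ : μ = 0
    · simp [hμ, h1]
    exact orth hρ (mem_Fx.1 hz γ ⟨pγ, pγ'⟩) (e t 0 μ _ rfl _ (mem_Fx.1 (pj_inv (H.inv_Y i) μ hz) γ ⟨pγ, pγ'⟩)
      (by rw [R.w_neg, e2]; exact pj_mem (hadd _) μ z)) (by simp [ε0, ht, hμ])
  have hB : ⟪u, ρ (S.x (R.neg γ) 1) u⟫_ℂ = 0 := by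
    obtain ⟨κ, κ0, e⟩ := (S.n_rep (R.sim i) one_ne_zero).exists_conj (R.neg γ)
    have := hA (κ * 1) (by simpa using κ0) _ (n_Y hu.2) h0
    rwa [← e2', ← w_ng, ← e, ← rm, inv_mul_cancel_right, rm, hρ] at this
  set v := pj (fun t => ρ (S.x (R.neg (R.sim j)) t)) 0 u with hv
  have hv' : v = ∑ t, ρ (S.x (R.neg (R.sim j)) t) u := by simp [hv, pj_apply]
  have h1 : ⟪u, v⟫_ℂ = ⟪u, u⟫_ℂ := by
    rw [hv', inner_sum, Finset.sum_eq_single 0 (fun t _ ht => hA t ht u hu.2 (by rw [pj_wt hu.1, if_neg hc, zero_smul]))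
      (by simp), St0.x_zero, map_one, End.one_apply]
  have h2 : ⟪u, ρ (S.x (R.neg γ) 1) v⟫_ℂ = 0 := by
    obtain ⟨ε, ε0, e⟩ := H.rl (r := R.sim i) (s := R.neg γ) (by rw [R.A_neg_right, e3])
    rw [hv', map_sum, inner_sum]
    refine Finset.sum_eq_zero fun t _ => ?_
    have := e (t / ε) 1
    rw [w_ng, e2', mul_one, mul_div_cancel₀ _ ε0] at this
    rw [← hρ (S.x (R.sim i) (t / ε)), ← rm, ← rm, mul_assoc, ← this, rm, ev hu.1, map_smul, inner_smul_left, inner_smul_right,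
      hB, mul_zero, mul_zero]
  have h4 : v ∈ Fx S ρ fun δ => ∃ l, l ≠ i ∧ l ≠ j ∧ 0 < R.rt δ l := pj_inv (H.inv_Fx fun s ⟨l, l1, l2, l3⟩ =>
    ⟨by rw [R.neg_neg']; rintro rfl; simp [R.rt_sim, l2] at l3, fun _ => ⟨l, l1, l2, by rwa [R.w_neg, rt_ws l2]⟩⟩) 0
    (mem_Fx.2 fun δ ⟨l, l1, l2, l3⟩ => mem_Fx.1 hu.2 δ ⟨R.pos_of_rt_pos l3, fun e => by
      have := e l; simp [R.rt_sim, l1] at this; omega⟩)
  have h5 : v ∈ W S ρ (R.sim i) (c / b (R.sim i) / a γ * a γ * b (R.sim i)) := by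
    rw [div_mul_cancel₀ _ (a0 _), div_mul_cancel₀ _ (b0 _)]
    exact pj_inv (H.cm (by rw [R.A_neg_left, h']; omega) c) 0 hu.1
  have h6 : ρ (S.n (R.sim i) 1) (ρ (S.n (R.sim j) 1) v) ∈ Lm S ρ j (c / b (R.sim i) / a γ) := by
    have g1 := hb _ _ _ h5
    rw [e1] at g1
    have g2 := ha _ _ _ g1
    rw [e2'] at g2
    refine ⟨g2, mem_Fx.2 fun δ hδ => ?_⟩
    rcases H.tri h (R.pos_of_rt_pos hδ.2) with e | rfl | rfl | rfl
    · exact mem_Fx.1 (SL.n_O (.inl rfl) (SL.n_O (.inr rfl) h4)) _ e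
    · omega
    · have := hδ.1; rw [R.A_self] at this; omega
    · exact nm0 _ (nm0 _ (by rw [e2', R.w_self]; exact pj_mem (hadd _) 0 u))
  rw [← M.eq j (div_ne_zero (div_ne_zero hc (b0 _)) (a0 _))] at h6
  have h7 := nm0' (R.sim j) (s := R.neg γ) (nm0' (R.sim i) (by
    rw [w_ng, e2, R.w_neg_self]
    exact mem_Fx.1 h6.2 _ ⟨R.pos_sim i, not_le_sim (R.pos_sim i) fun e => hij (R.sim_inj e)⟩))
  simp only [← rm, inv_mul_cancel_left, inv_mul_cancel, map_one, End.one_apply] at h7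
  rw [fx h7, h1] at h2
  exact inner_self_eq_zero.1 h2

theorem Tk_orth {i j : ι} (h : R.A (R.sim j) (R.sim i) = 0) {u u' : V} (hu : u ∈ T S ρ (R.sim i) 1)
    (hu' : u' ∈ T S ρ (R.sim j) 1) : ⟪Tk S ρ j u', Tk S ρ i u⟫_ℂ = 0 := by
  by_cases h0 : u' = 0
  · simp [h0]
  have hij : j ≠ i := by rintro rfl; rw [R.A_self] at h; omega
  have h' : R.A (R.neg (R.sim i)) (R.sim j) = 0 := by rw [R.A_neg_left, H.sy, h, neg_zero]
  have h1 : Inv S ρ (T S ρ (R.sim j) 1) (R.neg (R.sim i)) := M.eq j one_ne_zero ▸ (H.cm h'.ge 1).inf (H.inv_Fx fun s hs =>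
    ⟨by rw [R.neg_neg']; rintro rfl; omega, fun e => ⟨by rw [R.A_w, R.A_neg_right, h, hs.1]; simp, by
      rw [R.w_neg, rt_ws hij]; exact hs.2⟩⟩)
  have h2 := H.T_inv (ρ := ρ) (R.pos_sim j) (R.pos_sim i) 1
  obtain ⟨a, ha⟩ := M.ln one_ne_zero hu' h0 (v := ρ (S.n (R.sim i) 1) u') (by
    rw [St0.n, rm, rm]; exact h2 _ _ (h1 _ _ (h2 _ _ hu')))
  have a0 : a ≠ 0 := by rintro rfl; exact h0 (inj _ (ha.trans (by simp)))
  have h3 : u' ∈ W S ρ (R.neg (R.sim i)) 0 := (Submodule.smul_mem_iff _ a0).1 (ha ▸ nm0 _ (by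
    rw [R.w_neg_self]; exact mem_Fx.1 hu'.2 _ ⟨R.pos_sim i, not_le_sim (R.pos_sim i) fun e => hij (R.sim_inj e).symm⟩))
  have c1 := H.cm (ρ := ρ) ((H.sy _ _).trans h').ge 0
  have c2 := H.cm (ρ := ρ) (r := R.neg (R.sim j)) (s := R.neg (R.sim i)) (by rw [R.A_neg_left, H.sy, h']; rfl) 0
  have h4 : Tk S ρ j u' ∈ W S ρ (R.neg (R.sim i)) 0 := pj_inv c1 0 (by
    rw [St0.n, rm, rm]; exact c1 _ _ (c2 _ _ (c1 _ _ h3)))
  obtain ⟨b, b0, hb⟩ := nm S ρ (R.sim i)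
  rw [inner_Tk hρ (mem_Fx.1 (H.Tk_mem hu'.2) _ (R.pos_sim i)), orth hρ h4 (R.w_self _ ▸ hb _ (b (R.sim i))⁻¹ u
    (by rw [inv_mul_cancel₀ (b0 _)]; exact hu.1)) (inv_ne_zero (b0 _)), mul_zero]

variable (h3 : S.R3) (hH : ∀ r t, t ≠ 0 → ∀ v ∈ U0 S ρ, ρ (S.h r t) v = v)
include h3 hH

omit M H in
theorem inner_h {r : Φ} {t : F} (ht : t ≠ 0) {w : V} (hw : w ∈ U0 S ρ) (v : V) : ⟪w, ρ (S.h r t) v⟫_ℂ = ⟪w, v⟫_ℂ := by
  rw [adj' hρ, S.h_inv h3 r ht, hH r _ (inv_ne_zero ht) w hw]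

omit hρ M H hH in
theorem n_n (r : Φ) : S.n r 1 * S.n r 1 = S.h r (-1) := by
  rw [St0.n_mul_n, St0.h_one, one_mul, S.h_inv h3 r (by simp), inv_neg_one]

omit M H in
theorem nn (r : Φ) {v : V} (hv : v ∈ U0 S ρ) : ρ (S.n r 1) (ρ (S.n r 1) v) = v := by
  rw [← rm, n_n h3, hH r _ (by simp) v hv]

theorem n_fix {i j : ι} (h : R.A (R.sim j) (R.sim i) = -1) {u v : V} (hu : u ∈ T S ρ (R.sim i) 1) (h0 : u ≠ 0)
    (hv : v ∈ U0 S ρ) (e : ⟪v, Tk S ρ i u⟫_ℂ = 0) : ρ (S.n (R.sim i) 1) v = v := by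
  have hi := R.pos_sim i
  set z := ρ (S.n (R.sim i) 1) v with hz
  rw [inner_Tk hρ (mem_Fx.1 hv _ hi), ← nn hρ h3 hH (R.sim i) hv, hρ, ← hz, mul_eq_zero, inner_eq_zero_symm] at e
  replace e := e.resolve_left card_ne
  have h1 : ∀ c, c ≠ 0 → pj (fun t => ρ (S.x (R.sim i) t)) c z = 0 := fun c hc => by
    have g1 : ρ (S.h (R.sim j) c) u ∈ T S ρ (R.sim i) c :=
      ⟨tm _ hc (by rw [h, zpow_neg_one, mul_inv_cancel₀ hc]; exact hu.1), H_Fx (S.h_mem hc) hu.2⟩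
    have g2 : ρ (S.h (R.sim j) c) z = z := by
      have e1 := S.rep_conj_h h3 (S.n_rep (R.sim i) one_ne_zero) (R.w (R.sim i) (R.sim j)) hc
      rw [R.w_w] at e1
      rw [← e1, hz, ← rm, inv_mul_cancel_right, rm, hH _ _ hc v hv]
    have g0 : ρ (S.h (R.sim j) c) u ≠ 0 := fun e => h0 (inj _ (e.trans (map_zero _).symm))
    obtain ⟨a, ha⟩ := M.ln hc g1 g0 ⟨pj_mem (hadd _) c z, pj_inv (H.inv_Y i) c (n_Y (U0_le i hv))⟩
    have := inner_pj hρ g1.1 z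
    rw [ha, ← g2, hρ, e, mul_zero, inner_smul_right, mul_eq_zero, inner_self_eq_zero] at this
    rw [ha, this.resolve_right g0, zero_smul]
  have h2 := sum_pj (T := fun t => ρ (S.x (R.sim i) t)) (by rw [St0.x_zero, map_one]) z
  rw [Finset.sum_eq_single 0 (fun c _ hc => h1 c hc) (by simp)] at h2
  have h4 : z ∈ W S ρ (R.sim i) 0 := (Submodule.smul_mem_iff _ card_ne).1 (h2 ▸ pj_mem (hadd _) 0 z)
  have h5 : v ∈ W S ρ (R.neg (R.sim i)) 0 := nn hρ h3 hH (R.sim i) hv ▸ nm0 _ (by rwa [R.w_neg_self])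
  rw [hz, St0.n, rm, rm, fx (mem_Fx.1 hv _ hi), fx h5, fx (mem_Fx.1 hv _ hi)]

omit M in
theorem Tk_sq {i : ι} {u : V} (hu : u ∈ T S ρ (R.sim i) 1) : Tk S ρ i (Tk S ρ i u) = -Tk S ρ i u := by
  have hi := R.pos_sim i
  have h1 := H.Tk_mem hu.2
  refine ext0 (H.Tk_mem (U0_le i h1)) (neg_mem h1) fun w hw => ?_
  have hw' := mem_Fx.1 hw _ hi
  have h2 : ρ (S.h (R.sim i) (-1)) u ∈ W S ρ (R.sim i) 1 := tm _ (by simp) (by simpa [R.A_self, zpow_ofNat] using hu.1)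
  have h4 : ∀ t, ⟪w, ρ (S.n (R.sim i) 1) (ρ (S.x (R.sim i) t) (ρ (S.n (R.sim i) 1) u))⟫_ℂ =
      ps F (-1 * t⁻¹) * ⟪w, ρ (S.n (R.sim i) 1) u⟫_ℂ - if t = 0 then ⟪w, ρ (S.n (R.sim i) 1) u⟫_ℂ else 0 := fun t => by
    split_ifs with ht
    · rw [ht, St0.x_zero, map_one, End.one_apply, ← rm, n_n h3, orth hρ hw' h2 one_ne_zero]; simp
    have e1 : S.n (R.sim i) 1 * S.x (R.sim i) t * S.n (R.sim i) 1 = S.x (R.neg (R.sim i)) (-t) * S.h (R.sim i) (-1) := by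
      have := S.n_conj_self (R.sim i) one_ne_zero t
      rw [one_pow, inv_one, neg_one_mul] at this
      rw [← this, ← n_n h3]; group
    have e2 := S.rep_conj_h h3 (S.n_rep (R.sim i) one_ne_zero) (R.sim i) (t := -1) (by simp)
    rw [← rm, ← rm, e1, rm, St0.x_neg_eq, rm, rm, inner_x hρ hw', ev h2, map_smul, inner_smul_right, St0.n_eq, rm,
      inner_h hρ h3 hH (by simpa using ht) hw, ← rm, eq_mul_inv_iff_mul_eq.1 e2.symm |>.symm, rm,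
      inner_h hρ h3 hH (by simp) hw]
    simp [inv_neg]
  have h5 : ∑ t : F, ps F (-1 * t⁻¹) = 0 := by
    rw [← Equiv.sum_comp (Equiv.inv F)]; simpa using sum_ps (F := F) (-1)
  rw [inner_Tk hρ hw', inner_neg_right, inner_Tk hρ hw', Tk_apply hρ, map_sum, inner_sum]
  simp only [h4, Finset.sum_sub_distrib, ← Finset.sum_mul, h5]
  simp

omit M in
theorem braid {i j : ι} (h : R.A (R.sim i) (R.sim j) = -1) {v w : V} (hv : v ∈ U0 S ρ) (hw : w ∈ U0 S ρ) :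
    ⟪w, Tk S ρ i (Tk S ρ j (Tk S ρ i v))⟫_ℂ = Fintype.card F ^ 3 * ⟪w, ρ (S.n (R.w (R.sim i) (R.sim j)) 1) v⟫_ℂ := by
  have pγ : R.Pos (R.w (R.sim i) (R.sim j)) := fun l => by rw [rt_add h]; exact add_nonneg (R.pos_sim j l) (R.pos_sim i l)
  obtain ⟨ha, c, c1, c2⟩ := S.n_rep (R.sim i) one_ne_zero
  have e := c2.conj_n ha c1 (R.sim j) 1
  rw [inner_Tk hρ (mem_Fx.1 hw _ (R.pos_sim i)), adj' hρ, inner_Tk hρ (nm0' _ (mem_Fx.1 hw _ pγ)), adj' hρ,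
    inner_Tk hρ (nm0' _ (nm0' _ (by rw [H.w_comm h, R.w_w]; exact mem_Fx.1 hw _ (R.pos_sim j)))), ← adj' hρ, ← adj' hρ, ← rm,
    eq_mul_inv_iff_mul_eq.1 e.symm |>.symm, rm, nn hρ h3 hH _ hv, St0.n_eq, rm, inner_h hρ h3 hH (by simp) hw]
  ring

end H24.ME
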