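import Cfsg.Agent.H24.ME4
import Cfsg.Agent.H24.Chr

/-! Representations of simply laced groups: the degree bound. -/

set_option autoImplicit false
set_option linter.unusedSectionVars false
set_option linter.unusedSimpArgs false
set_option maxHeartbeats 400000
set_option synthInstance.maxSize 1024

namespace H24.ME
open Module MG Cfsg Cfsg.Lie
open MG.G2R (rm move move_ne adj adj')
open scoped Classical InnerProductSpace ComplexConjugate commutatorElement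

section
variable {ι Φ : Type} [Fintype ι] [DecidableEq ι] [Fintype Φ] {R : CD ι Φ} {F : Type*} [Field F] [Fintype F]
  {G : Type*} [Group G] {S : St R F G}

/-- combinatorial hypotheses -/
structure Cb (R : CD ι Φ) (k : ι) (m : ℕ) : Prop where
  hc : ∃ r, ∀ i, R.rt r i ≠ 0
  nb : ∀ i, ∃ j, R.A (R.sim j) (R.sim i) = -1
  hD : ∀ δ, R.A (R.sim k) δ = 0 ∨ R.A (R.sim k) δ = -1 → 0 ≤ R.rt δ k → ∃ δ', R.A (R.sim k) δ' = 0 ∧
    R.A δ' δ = 1 ∧ 0 ≤ R.rt δ' k ∧ R.rt δ' k ≤ R.rt δ k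
  hm : ∀ j, (Finset.univ.filter fun δ => R.A (R.sim j) δ = 1 ∧ 0 < R.rt δ j).card = m
  le : Fintype.card ι ≤ m
  hs : ∀ r s, s ≠ r → s ≠ R.neg r → ∃ a, R.A r a = 1 ∧ R.A s a = 0
  th : ∀ i j, R.A (R.sim i) (R.sim j) = -1 → ∃ l, R.A (R.sim l) (R.sim j) = -1 ∧ R.A (R.sim l) (R.sim i) = 0 ∨
    R.A (R.sim l) (R.sim i) = -1 ∧ R.A (R.sim l) (R.sim j) = 0
  dom : ∃ θ, ∀ i, 0 < R.rt θ i ∧ 0 ≤ R.A (R.sim i) θ

section
variable {V : Type*} [NormedAddCommGroup V] [InnerProductSpace ℂ V] [FiniteDimensional ℂ V] {ρ : Representation ℂ G V}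
  (hρ : ∀ g x y, ⟪ρ g x, ρ g y⟫_ℂ = ⟪x, y⟫_ℂ) (H : SL S) (M : Mn S ρ) (h3 : S.R3)
  (hH : ∀ r t, t ≠ 0 → ∀ v ∈ U0 S ρ, ρ (S.h r t) v = v) {k : ι} {m : ℕ} (C : Cb R k m)
include hρ H M h3 hH C

theorem exists_y : ∃ y : ι → V, (∀ i, y i ∈ U0 S ρ ∧ ⟪y i, y i⟫_ℂ = 1 ∧ ∀ v ∈ U0 S ρ, Tk S ρ i v =
    (Fintype.card F : ℂ) • v - ((Fintype.card F + 1) * ⟪y i, v⟫_ℂ) • y i) ∧
    ∀ i j, R.A (R.sim j) (R.sim i) = 0 → ⟪y j, y i⟫_ℂ = 0 := by
  have : ∀ i, ∃ u ∈ T S ρ (R.sim i) 1, ⟪Tk S ρ i u, Tk S ρ i u⟫_ℂ = 1 := fun i => by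
    obtain ⟨u, hu, h0⟩ := (T S ρ (R.sim i) 1).exists_mem_ne_zero_of_ne_bot fun e =>
      M.hT i 1 one_ne_zero (by rw [e, finrank_bot])
    obtain ⟨j, hj⟩ := C.nb i
    have h1 : Tk S ρ i u ≠ 0 := fun e => h0 (Tk_ne' hρ H M ((H.sy _ _).trans hj) one_ne_zero hu e)
    refine ⟨(‖Tk S ρ i u‖⁻¹ : ℂ) • u, Submodule.smul_mem _ _ hu, ?_⟩
    have h2 : ‖(‖Tk S ρ i u‖⁻¹ : ℂ) • Tk S ρ i u‖ = 1 := norm_smul_inv_norm h1
    rw [map_smul, inner_self_eq_norm_sq_to_K, h2]; simp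
  choose u u1 u2 using this
  refine ⟨fun i => Tk S ρ i (u i), fun i => ⟨H.Tk_mem (u1 i).2, u2 i, fun v hv => ?_⟩, fun i j h => Tk_orth hρ H M h (u1 i) (u1 j)⟩
  obtain ⟨j, hj⟩ := C.nb i
  have h1 := (U0 S ρ).sub_mem hv ((U0 S ρ).smul_mem ⟪Tk S ρ i (u i), v⟫_ℂ (H.Tk_mem (u1 i).2))
  have h2 := n_fix hρ H M h3 hH hj (u1 i) (fun e => by simpa [e] using u2 i) h1 (by
    rw [inner_eq_zero_symm, inner_sub_right, inner_smul_right, u2, mul_one, sub_self])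
  have h4 : Tk S ρ i (v - ⟪Tk S ρ i (u i), v⟫_ℂ • Tk S ρ i (u i)) = _ :=
    (congrArg (pj (fun t => ρ (S.x (R.sim i) t)) 0) h2).trans (pj_wt (mem_Fx.1 h1 _ (R.pos_sim i)))
  rw [if_pos rfl, map_sub, map_smul, Tk_sq hρ H h3 hH (u1 i), sub_eq_iff_eq_add] at h4
  rw [h4]; module

theorem hecke : Fintype.card ι ≤ finrank ℂ (U0 S ρ) := by
  obtain ⟨y, h1, h2⟩ := exists_y hρ H M h3 hH C
  have y0 : ∀ i, y i ≠ 0 := fun i e => by simpa [e] using (h1 i).2.1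
  have q1 : (Fintype.card F : ℂ) + 1 ≠ 0 := Nat.cast_add_one_ne_zero _
  have hb : ∀ i j, R.A (R.sim i) (R.sim j) = -1 → ((Fintype.card F : ℂ) - (Fintype.card F + 1) ^ 2 * (⟪y j, y i⟫_ℂ * ⟪y i, y j⟫_ℂ)) •
      ((Fintype.card F : ℂ) + 1) • (y i - ⟪y j, y i⟫_ℂ • y j) = 0 := fun i j h => by
    have m := fun a v hv => H.Tk_mem (ρ := ρ) (U0_le a (v := v) hv)
    have e := ext0 (m i _ (m j _ (m i _ (h1 i).1))) (m j _ (m i _ (m j _ (h1 i).1))) fun w hw => by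
      rw [braid hρ H h3 hH h (h1 i).1 hw, braid hρ H h3 hH ((H.sy _ _).trans h) (h1 i).1 hw, H.w_comm h]
    simp only [(h1 _).2.2 _ (h1 _).1, map_sub, map_smul, (h1 _).2.1] at e
    rw [← sub_eq_zero] at e
    rw [← e]; module
  have k1 : ∀ i j, R.A (R.sim i) (R.sim j) = -1 → ⟪y j, y i⟫_ℂ ≠ 0 := fun i j h e => by
    simpa [e, card_ne, q1, y0] using hb i j h
  have k2 : ∀ i j, R.A (R.sim i) (R.sim j) = -1 → ‖⟪y i, y j⟫_ℂ‖ ≤ 12 / 25 := fun i j h => by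
    rcases smul_eq_zero.1 (hb i j h) with e | e
    · rw [sub_eq_zero, ← inner_conj_symm (y j), Complex.conj_mul'] at e
      have e : (Fintype.card F : ℝ) = (Fintype.card F + 1) ^ 2 * ‖⟪y i, y j⟫_ℂ‖ ^ 2 := by exact_mod_cast e
      have h2 : (2 : ℝ) ≤ Fintype.card F := by exact_mod_cast Fintype.one_lt_card
      by_contra! hc
      have : (12 / 25 : ℝ) ^ 2 < ‖⟪y i, y j⟫_ℂ‖ ^ 2 := by gcongr
      nlinarith
    have e := sub_eq_zero.1 ((smul_eq_zero.1 e).resolve_left q1)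
    obtain ⟨l, ⟨l1, l2⟩ | ⟨l1, l2⟩⟩ := C.th i j h
    · have := h2 i l l2
      rw [e, inner_smul_right, mul_eq_zero] at this
      exact (this.elim (k1 i j h) (k1 j l ((H.sy _ _).trans l1))).elim
    · exact (k1 i l ((H.sy _ _).trans l1) (by rw [e, inner_smul_right, h2 j l l2, mul_zero])).elim
  refine (LinearIndependent.of_comp (v := fun i => (⟨y i, (h1 i).1⟩ : U0 S ρ)) (U0 S ρ).subtype
    (Fintype.linearIndependent_iff.2 fun x hx a => ?_)).fintype_card_le_finrank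
  obtain ⟨θ, hθ⟩ := C.dom
  have t0 : ∀ i, (0 : ℝ) < R.rt θ i := fun i => by exact_mod_cast (hθ i).1
  obtain ⟨i, -, hi⟩ := Finset.univ.exists_max_image (fun i => ‖x i‖ / R.rt θ i) ⟨a, Finset.mem_univ a⟩
  set μ := ‖x i‖ / R.rt θ i with hμ
  have m0 : 0 ≤ μ := div_nonneg (norm_nonneg _) (t0 i).le
  have m1 : ∀ j, ‖x j‖ ≤ μ * R.rt θ j := fun j => (div_le_iff₀ (t0 j)).1 (hi j (Finset.mem_univ j))
  have m2 : ‖x i‖ = μ * R.rt θ i := (div_mul_cancel₀ _ (t0 i).ne').symm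
  have e1 := congrArg (fun v => ⟪y i, v⟫_ℂ) hx
  simp only [inner_sum, inner_smul_right, inner_zero_right, Function.comp, Submodule.subtype_apply] at e1
  rw [← Finset.add_sum_erase _ _ (Finset.mem_univ i), (h1 i).2.1, mul_one, add_eq_zero_iff_eq_neg] at e1
  have e2 : ‖x i‖ ≤ ∑ j ∈ Finset.univ.erase i, 12 / 25 * μ * -((R.C i j : ℝ) * R.rt θ j) := by
    rw [e1, norm_neg]
    refine norm_sum_le_of_le _ fun j hj => ?_
    by_cases h : R.C i j = 0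
    · rw [h2 j i (by rw [R.A_sim_sim, h]), h]; simp
    have h' := H.adj h (Finset.ne_of_mem_erase hj)
    rw [← R.A_sim_sim, h', norm_mul]
    have := mul_le_mul (m1 j) (k2 i j h') (norm_nonneg _) (mul_nonneg m0 (t0 j).le)
    push_cast; linarith
  have e3 := (hθ i).2
  rw [RS.A_def, R.Av_sim, R.wt_apply, ← Finset.add_sum_erase _ _ (Finset.mem_univ i), R.C_self] at e3
  have e3 : (0 : ℝ) ≤ 2 * R.rt θ i + ∑ j ∈ Finset.univ.erase i, (R.C i j : ℝ) * R.rt θ j := by exact_mod_cast e3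
  rw [← Finset.mul_sum, Finset.sum_neg_distrib, m2] at e2
  have e4 : μ = 0 := by
    by_contra h
    have := mul_pos (lt_of_le_of_ne m0 (Ne.symm h)) (t0 i)
    nlinarith [mul_nonneg m0 e3]
  simpa [e4] using m1 a
end

theorem main [Finite G] {V : Type*} [AddCommGroup V] [Module ℂ V] [FiniteDimensional ℂ V] (ρ : Representation ℂ G V)
    (H : SL S) (h3 : S.R3) {k : ι} {m : ℕ} (C : Cb R k m) (h1 : ρ (S.x (R.sim k) 1) ≠ 1) (N : ℕ) (c : ℕ → ℕ)
    (hc : ∀ a < N, (Finset.univ.filter fun β => 0 < R.ht β ∧ (R.ht β - 1).toNat = a).card = c a) :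
    (Fintype.card F - 1) * (Fintype.card F + 1) * (Fintype.card F ^ m * 2) ≤ Fintype.card F * finrank ℂ V ∨
      Fintype.card ι + ∑ a ∈ Finset.range N, c a * ((Fintype.card F - 1) * Fintype.card F ^ a) ≤ finrank ℂ V := by
  obtain ⟨j, hj⟩ := C.nb k
  refine (H.dich C.hc hj C.hD C.hm h1).imp_right fun M => ?_
  obtain ⟨b, hb⟩ := exists_core ρ
  letI : NormedAddCommGroup V := b.toNormedAddCommGroup
  letI : InnerProductSpace ℂ V := InnerProductSpace.ofCore b.toCore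
  have h2 : Fintype.card ι ≤ finrank ℂ (U0 S ρ) :=
    (torus hb H h3 C.hc k (C.le.trans (C.hm k).ge) C.hs).elim id fun hH => hecke hb H M h3 hH C
  refine le_trans (add_le_add (h2.trans (Submodule.finrank_mono fun v hv => mem_Fx.2 fun δ hδ => mem_Fx.1 hv δ ?_)) ?_)
    (H.chain _ (H.T_ge M.hT) (Finset.univ.filter fun β => 0 < R.ht β) (by simp [R.pos_iff_ht]) fun a ha b h => ?_)
  · simpa [R.pos_iff_ht] using hδ
  · refine le_trans (le_of_eq (Finset.sum_congr rfl fun a ha => ?_)) (Finset.sum_fiberwise_le_sum_of_sum_fiber_nonneg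
      (t := Finset.range N) (g := fun β => (R.ht β - 1).toNat) fun _ _ => Nat.zero_le _)
    rw [Finset.sum_congr rfl fun β hβ => by rw [(Finset.mem_filter.1 hβ).2], Finset.sum_const, Finset.filter_filter,
      hc a (Finset.mem_range.1 ha), smul_eq_mul]
  · simp only [Finset.mem_filter, Finset.mem_univ, true_and] at ha ⊢; omega
end

section
variable {D : ChevalleyDatum} {T : Tab} (h : T.Chk D)

theorem sl_tab {F : Type*} [Field F] [Fintype F] {G : Type*} [Group G] (S : St h.cd F G)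
    (hl : (allLt T.n fun r => Nat.beq (T.len r) 1) = true)
    (H : ∀ q ∈ T.reps, T.A q.1 q.2 = -1 → ∃ c ∈ [1, -1], (gTerms T.chain q.1 q.2).map Prod.snd = [(c, 1, 1)]) : SL S := by
  refine ⟨fun r => ?_, h.pair_induction _ (fun i r s ih H => ?_) fun r s hp H' => ?_⟩
  · simp only [allLt_iff, Nat.beq_eq] at hl
    change (T.len r : ℤ) = 1
    rw [hl r (h.lt_n r)]; rfl
  · obtain ⟨ε, h0, e⟩ := ih ((RS.Aut.A (h.rsys.s_mem_Aut i) r s).trans H)
    have h2 := S.n_rep_s i one_ne_zero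
    obtain ⟨a, ha, ea⟩ := h2.exists_conj r
    obtain ⟨b, hb, eb⟩ := h2.exists_conj s
    obtain ⟨d, hd, ed⟩ := h2.exists_conj (h.cd.w r s)
    refine ⟨ε * a * b / d, by positivity, fun t u => (MulAut.conj (S.n (h.cd.sim i) 1)).injective ?_⟩
    rw [MulAut.conj_apply, MulAut.conj_apply, conjugate_commutatorElement, ea, eb, ed]
    refine (e _ _).trans ?_
    congr 1
    · change h.cd.w (h.cd.s i r) (h.cd.s i s) = _
      rw [← RS.Aut.conj_w (h.cd.s_mem_Aut i)]; simp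
    · field_simp
  · obtain ⟨z, hz, e⟩ := H _ hp (h.A_eq r s ▸ H')
    obtain ⟨u, e', e2⟩ := List.map_eq_singleton_iff.1 e
    have e3 : h.cd.terms r s = [(h.fin u.1, z, 1, 1)] := by simp only [Tab.Chk.cd, e', ← e2]; rfl
    have e4 := (h.cd.terms_rt r s _ (e3 ▸ List.mem_singleton_self _)).1
    refine ⟨-z, by simp at hz; rcases hz with rfl | rfl <;> simp, fun t v => ?_⟩
    rw [S.comm_single (by rintro rfl; rw [RS.A_self] at H'; omega)
      (by rintro rfl; rw [RS.A_neg_right, RS.A_self] at H'; omega) e3]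
    congr 1
    exact h.cd.rt_inj (by rw [e4, RS.rt_w, H']; simp [add_comm])

include h in
theorem card_tab (p : ℕ → Prop) [DecidablePred p] :
    (Finset.univ.filter fun r : Fin D.nroots => p r).card = ∑ r ∈ Finset.range T.n, if p r then 1 else 0 := by
  rw [Finset.card_filter, Fin.sum_univ_eq_sum_range fun r => if p r then 1 else 0, h.hn]

theorem cb_tab (hc : T.chkConn = true) {k m : ℕ} (hk : k < D.rank) (hm : T.l ≤ m)
    (h1 : ∀ i < T.l, (∃ j < T.l, T.wtv (T.simple i) j = -1) ∧ (∑ r ∈ Finset.range T.n,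
      if T.wtv r i = 1 ∧ 0 < T.rtv r i then 1 else 0) = m ∧ (0 < T.rtv (T.n - 1) i ∧ 0 ≤ T.wtv (T.n - 1) i) ∧
      ∀ j < T.l, T.wtv (T.simple j) i = -1 → ∃ l < T.l, T.wtv (T.simple j) l = -1 ∧ T.wtv (T.simple i) l = 0 ∨
        T.wtv (T.simple i) l = -1 ∧ T.wtv (T.simple j) l = 0)
    (h2 : ∀ r < T.n, T.wtv r k = 0 ∨ T.wtv r k = -1 → 0 ≤ T.rtv r k → ∃ s < T.n, T.wtv s k = 0 ∧
      0 ≤ T.rtv s k ∧ T.rtv s k ≤ T.rtv r k ∧ T.A s r = 1)
    (h3 : ∀ q ∈ T.reps, q.2 ≠ q.1 → q.2 ≠ T.neg q.1 → ∃ a < T.n, T.A q.1 a = 1 ∧ T.A q.2 a = 0) : Cb h.cd ⟨k, hk⟩ m := by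
  have hA : ∀ i r, h.cd.A (h.cd.sim i) r = T.wtv r i := h.A_sim
  have hS : ∀ i j, h.cd.A (h.cd.sim i) (h.cd.sim j) = T.wtv (T.simple j) i := fun i j => by rw [hA, ← h.val_sim]; rfl
  have hn : T.n - 1 < T.n := by have := h.npos; have := h.hn; omega
  refine ⟨h.conn hc, fun i => ?_, fun r a b => ?_, fun j => ?_, by simpa [h.hl] using hm,
    h.pair_induction _ (fun i r s ih a b => ?_) fun r s hp a b => ?_, fun i j e => ?_, h.fin (T.n - 1), fun i => ?_⟩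
  · obtain ⟨j, hj, e⟩ := (h1 i (h.lt_l i)).1
    exact ⟨⟨j, h.hl ▸ hj⟩, (hS _ _).trans e⟩
  · obtain ⟨s, hs, e⟩ := h2 r (h.lt_n r) (by simpa only [hA] using a) b
    exact ⟨⟨s, h.hn ▸ hs⟩, (hA _ _).trans e.1, (h.A_eq _ _).trans e.2.2.2, e.2.1, e.2.2.1⟩
  · simp only [hA]
    exact (card_tab h fun r => T.wtv r j = 1 ∧ 0 < T.rtv r j).trans (h1 j (h.lt_l j)).2.1
  · obtain ⟨c, hc⟩ := ih (fun e => a ((h.rsys.s i).injective e)) fun e =>
      b ((h.rsys.s i).injective (e.trans (RS.Aut.neg (h.rsys.s_mem_Aut i) r).symm))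
    refine ⟨h.rsys.s i c, ?_⟩
    rw [← h.rsys.s_s i c] at hc
    exact ⟨(RS.Aut.A (h.rsys.s_mem_Aut i) _ _).symm.trans hc.1, (RS.Aut.A (h.rsys.s_mem_Aut i) _ _).symm.trans hc.2⟩
  · obtain ⟨c, hc, e⟩ := h3 _ hp (fun e => a (Fin.ext e)) fun e => b (Fin.ext (e.trans (h.val_fin (h.neg_lt r)).symm))
    exact ⟨⟨c, h.hn ▸ hc⟩, (h.A_eq _ _).trans e.1, (h.A_eq _ _).trans e.2⟩
  · obtain ⟨l, hl, e⟩ := (h1 i (h.lt_l i)).2.2.2 j (h.lt_l j) (hS i j ▸ e)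
    exact ⟨⟨l, h.hl ▸ hl⟩, by simpa only [hS] using e⟩
  · rw [hA, h.val_fin hn]
    exact ⟨by have := (h1 i (h.lt_l i)).2.2.1.1; rwa [← h.val_fin hn] at this, (h1 i (h.lt_l i)).2.2.1.2⟩

theorem ht_tab {N : ℕ} {c : ℕ → ℕ} (H : ∀ a < N, (∑ r ∈ Finset.range T.n,
      if 0 < sumLt T.l (T.rtv r) ∧ (sumLt T.l (T.rtv r) - 1).toNat = a then 1 else 0) = c a) :
    ∀ a < N, (Finset.univ.filter fun β => 0 < h.cd.ht β ∧ (h.cd.ht β - 1).toNat = a).card = c a := fun a ha => by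
  have : ∀ β, h.cd.ht β = sumLt T.l (T.rtv β) := fun β => by rw [h.sumLt_eq']; rfl
  simp only [this]
  exact (card_tab h fun r => 0 < sumLt T.l (T.rtv r) ∧ (sumLt T.l (T.rtv r) - 1).toNat = a).trans (H a ha)
end

theorem cbE6 : Cb tabE6_chk.cd ⟨1, by decide⟩ 10 :=
  cb_tab _ connE6 _ (by decide) (by decide +kernel) (by decide +kernel) (by decide +kernel)

theorem cbE8 : Cb tabE8_chk.cd ⟨7, by decide⟩ 28 :=
  cb_tab _ connE8 _ (by decide) (by decide +kernel) (by decide +kernel) (by decide +kernel)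

variable {F : Type*} [Field F] [Fintype F] {V : Type*} [AddCommGroup V] [Module ℂ V] [FiniteDimensional ℂ V]

theorem boundE6 {G : Type*} [Group G] [Finite G] (S : St tabE6_chk.cd F G) (h3 : S.R3) (ρ : Representation ℂ G V)
    (h : ∀ r, ρ (S.x r 1) ≠ 1) :
    Fintype.card F * (Fintype.card F ^ 6 + Fintype.card F ^ 3 + 1) * (Fintype.card F ^ 4 + 1) ≤ finrank ℂ V := by
  have := main ρ (sl_tab _ S slE6 (by decide +kernel)) h3 cbE6 (h _) 11 (fun a => [6, 5, 5, 5, 4, 3, 3, 2, 1, 1, 1].getD a 0)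
    (ht_tab _ (by decide +kernel))
  obtain ⟨p, hp⟩ := Nat.exists_eq_add_of_le' (Fintype.one_lt_card (α := F))
  rw [hp] at this ⊢
  rcases this with h | h
  · refine Nat.le_of_mul_le_mul_left (le_trans ?_ h) (by omega)
    rw [show p + Nat.succ 1 - 1 = p + 1 from rfl]; ring_nf; omega
  · refine le_trans (le_of_eq ?_) h
    rw [show p + Nat.succ 1 - 1 = p + 1 from rfl, Fintype.card_fin, show chevE6.rank = 6 from rfl]
    simp only [Finset.sum_range_succ, Finset.sum_range_zero, List.getD_cons_succ, List.getD_cons_zero]; ring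

theorem boundE8 {G : Type*} [Group G] [Finite G] (S : St tabE8_chk.cd F G) (h3 : S.R3) (ρ : Representation ℂ G V)
    (h : ∀ r, ρ (S.x r 1) ≠ 1) : Fintype.card F * (Fintype.card F ^ 12 + 1) * (Fintype.card F ^ 10 + 1) *
      (Fintype.card F ^ 6 + 1) ≤ finrank ℂ V := by
  have := main ρ (sl_tab _ S slE8 (by decide +kernel)) h3 cbE8 (h _) 29 (fun a => [8, 7, 7, 7, 7, 7, 7, 6, 6, 6, 6, 5, 5,
    4, 4, 4, 4, 3, 3, 2, 2, 2, 2, 1, 1, 1, 1, 1, 1].getD a 0) (ht_tab _ (by decide +kernel))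
  obtain ⟨p, hp⟩ := Nat.exists_eq_add_of_le' (Fintype.one_lt_card (α := F))
  rw [hp] at this ⊢
  rcases this with h | h
  · refine Nat.le_of_mul_le_mul_left (le_trans ?_ h) (by omega)
    rw [show p + Nat.succ 1 - 1 = p + 1 from rfl]; ring_nf; omega
  · refine le_trans (le_of_eq ?_) h
    rw [show p + Nat.succ 1 - 1 = p + 1 from rfl, Fintype.card_fin, show chevE8.rank = 8 from rfl]
    simp only [Finset.sum_range_succ, Finset.sum_range_zero, List.getD_cons_succ, List.getD_cons_zero]; ring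

end H24.ME
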