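import Cfsg.Agent.H24.ReeG
import Cfsg.Agent.H22.LsA

/-! Weight spaces of root groups in complex representations; relations in groups of type `G₂`. -/

set_option autoImplicit false
set_option linter.unusedSectionVars false
set_option linter.unusedSimpArgs false
set_option maxHeartbeats 400000

namespace H24.MG
open Module Cfsg Cfsg.Lie
open scoped Classical

section
variable (F : Type*) [Field F] [Fintype F]

/-- a fixed primitive additive character -/
noncomputable def ps : AddChar F ℂ := AddChar.FiniteField.primitiveChar_to_Complex F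

variable {F}

theorem ps_add (a b : F) : ps F (a + b) = ps F a * ps F b := AddChar.map_add_eq_mul _ _ _

theorem sum_ps (a : F) : ∑ t, ps F (a * t) = if a = 0 then (Fintype.card F : ℂ) else 0 := by
  have := AddChar.sum_mulShift a (AddChar.FiniteField.primitiveChar_to_Complex_isPrimitive F)
  simp only [mul_comm a]
  rw [ps, this]
  split_ifs <;> simp

theorem card_ne : (Fintype.card F : ℂ) ≠ 0 := Nat.cast_ne_zero.2 Fintype.card_ne_zero

theorem sum_split {f : F → ℕ} {k : ℕ} (h : ∀ a, a ≠ 0 → f a = k) : ∑ a, f a = f 0 + (Fintype.card F - 1) * k := by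
  rw [← Finset.add_sum_erase _ _ (Finset.mem_univ (0 : F)), Finset.sum_congr rfl fun a ha => h a (Finset.ne_of_mem_erase ha)]
  simp [Finset.card_erase_of_mem]

theorem sum_ge {f : F → ℕ} {k : ℕ} (h : ∀ a, a ≠ 0 → k ≤ f a) : f 0 + (Fintype.card F - 1) * k ≤ ∑ a, f a := by
  rw [← Finset.add_sum_erase _ _ (Finset.mem_univ (0 : F))]
  refine Nat.add_le_add_left (le_trans (le_of_eq ?_) (Finset.sum_le_sum fun a ha => h a (Finset.ne_of_mem_erase ha))) _
  simp [Finset.card_erase_of_mem]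

theorem sum_const' {f : F → ℕ} {k : ℕ} (h : ∀ a, f a = k) : ∑ a, f a = Fintype.card F * k := by simp [h]

variable {V : Type*} [AddCommGroup V] [Module ℂ V]

/-- weight spaces -/
def Wt (T : F → End ℂ V) (μ : F) : Submodule ℂ V where
  carrier := {v | ∀ t, T t v = ps F (μ * t) • v}
  zero_mem' := by simp
  add_mem' := fun {a b} ha hb t => by rw [map_add, ha t, hb t, smul_add]
  smul_mem' := fun c a ha t => by rw [map_smul, ha t, smul_comm]

/-- projections onto the weight spaces -/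
noncomputable def pj (T : F → End ℂ V) (μ : F) : End ℂ V := ∑ t, ps F (-μ * t) • T t

variable {T : F → End ℂ V}

theorem pj_apply (μ : F) (v : V) : pj T μ v = ∑ t, ps F (-μ * t) • T t v := by simp [pj, LinearMap.sum_apply]

theorem pj_mem (hT : ∀ a b, T (a + b) = T a * T b) (μ : F) (v : V) : pj T μ v ∈ Wt T μ := fun s => by
  simp only [pj_apply, map_sum, map_smul, Finset.smul_sum, smul_smul, ← ps_add, ← End.mul_apply, ← hT]
  exact Fintype.sum_equiv (Equiv.addLeft s) _ _ fun a => by simp; congr 2; ring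

theorem pj_inv {U : Submodule ℂ V} (hU : ∀ t, ∀ v ∈ U, T t v ∈ U) (μ : F) {v : V} (hv : v ∈ U) : pj T μ v ∈ U := by
  rw [pj_apply]; exact U.sum_mem fun t _ => U.smul_mem _ (hU t v hv)

theorem sum_pj (h0 : T 0 = 1) (v : V) : ∑ μ, pj T μ v = (Fintype.card F : ℂ) • v := by
  simp only [pj_apply]
  rw [Finset.sum_comm]
  have : ∀ t : F, ∑ μ, ps F (-μ * t) = if t = 0 then (Fintype.card F : ℂ) else 0 := fun t => by
    rw [← neg_eq_zero (a := t), ← sum_ps]; exact Finset.sum_congr rfl fun _ _ => by congr 1; ring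
  simp only [← Finset.sum_smul, this]
  simp [h0]

theorem pj_wt {μ ν : F} {v : V} (hv : v ∈ Wt T ν) : pj T μ v = (if ν = μ then (Fintype.card F : ℂ) else 0) • v := by
  have hv : ∀ t, T t v = ps F (ν * t) • v := hv
  simp only [pj_apply, hv, smul_smul, ← ps_add, ← Finset.sum_smul, ← add_mul, sum_ps, neg_add_eq_zero, eq_comm]

theorem split [FiniteDimensional ℂ V] (hT : ∀ a b, T (a + b) = T a * T b) (h0 : T 0 = 1) {U : Submodule ℂ V}
    (hU : ∀ t, ∀ v ∈ U, T t v ∈ U) : finrank ℂ U = ∑ μ, finrank ℂ ↥(U ⊓ Wt T μ) := by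
  rw [← finrank_pi_fintype ℂ]
  refine le_antisymm (LinearMap.finrank_le_finrank_of_injective (f := LinearMap.pi fun μ =>
    ((pj T μ).comp U.subtype).codRestrict _ fun v => ⟨pj_inv hU μ v.2, pj_mem hT μ _⟩) ?_)
    (LinearMap.finrank_le_finrank_of_injective (f := ∑ μ, (Submodule.inclusion inf_le_left).comp (LinearMap.proj μ)) ?_)
  · rw [injective_iff_map_eq_zero]
    intro v hv
    have : ∀ μ, pj T μ v = 0 := fun μ => congrArg Subtype.val (congrFun hv μ)
    have h1 := sum_pj h0 (v : V)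
    simp only [this, Finset.sum_const_zero] at h1
    exact Subtype.ext ((smul_eq_zero.1 h1.symm).resolve_left card_ne)
  · rw [injective_iff_map_eq_zero]
    intro v hv
    have h1 : ∑ μ, (v μ : V) = 0 := by simpa [LinearMap.sum_apply] using congrArg Subtype.val hv
    funext μ
    have h2 := congrArg (pj T μ) h1
    rw [map_sum, map_zero, Finset.sum_congr rfl fun ν _ => pj_wt (v ν).2.2] at h2
    simp only [ite_smul, zero_smul, Finset.sum_ite_eq', Finset.mem_univ, if_true] at h2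
    exact Subtype.ext ((smul_eq_zero.1 h2).resolve_left card_ne)
end

/-- coordinates of the roots -/
def ri (r : ℕ) : ℤ := [-3, -3, -2, -1, -1, 0, 0, 1, 1, 2, 3, 3].getD r 0
/-- coordinates of the roots -/
def rj (r : ℕ) : ℤ := [-2, -1, -1, -1, 0, -1, 1, 0, 1, 1, 1, 2].getD r 0
/-- reflections -/
def wr (r s : ℕ) : ℕ := (if r = 6 then [1, 0, 2, 4, 3, 6, 5, 8, 7, 9, 11, 10] else
  if r = 7 then [0, 5, 3, 2, 7, 1, 10, 4, 9, 8, 6, 11] else if r = 8 then [6, 1, 4, 8, 2, 11, 0, 9, 3, 7, 10, 5] else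
  if r = 10 then [5, 10, 7, 3, 9, 0, 11, 2, 8, 4, 1, 6] else [11, 6, 8, 9, 4, 10, 1, 7, 2, 3, 5, 0]).getD s 0
/-- commuting pairs -/
def cmL : List (ℕ × ℕ) := [(7, 10), (7, 11), (6, 11), (6, 9), (6, 8), (8, 10), (8, 11), (9, 10), (9, 11), (10, 11), (5, 10),
  (0, 5), (0, 1), (6, 1)]

/-- relations in a group of type `G₂` -/
structure G2R (F G : Type*) [Field F] [Group G] where
  x : ℕ → F → G
  add : ∀ r t u, x r (t + u) = x r t * x r u
  cm : ∀ r s, (r, s) ∈ cmL ∨ (s, r) ∈ cmL → ∀ t u, Commute (x r t) (x s u)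
  r79 : ∀ t u, x 9 u * x 7 t = x 7 t * (x 9 u * x 10 (-(3 * t * u)))
  r610 : ∀ t u, x 10 u * x 6 t = x 6 t * (x 10 u * x 11 (-(t * u)))
  r89 : ∀ t u, x 9 u * x 8 t = x 8 t * (x 9 u * x 11 (-(3 * t * u)))
  r78 : ∀ t u, x 8 u * x 7 t = x 7 t * (x 8 u * (x 9 (2 * t * u) * (x 10 (-(3 * t ^ 2 * u)) * x 11 (-(3 * t * u ^ 2)))))
  r76 : ∀ t u, x 6 u * x 7 t = x 7 t * (x 6 u * (x 8 (t * u) * (x 9 (t ^ 2 * u) * (x 10 (-(t ^ 3 * u)) *
    x 11 (-(t ^ 3 * u ^ 2))))))
  r67 : ∀ t u, x 7 u * x 6 t = x 6 t * (x 7 u * (x 8 (-(t * u)) * (x 9 (-(t * u ^ 2)) * (x 10 (t * u ^ 3) *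
    x 11 (-(2 * t ^ 2 * u ^ 3))))))
  r106 : ∀ t u, x 6 u * x 10 t = x 10 t * (x 6 u * x 11 (t * u))
  r511 : ∀ t u, x 11 u * x 5 t = x 5 t * (x 11 u * x 10 (-(t * u)))
  r010 : ∀ t u, x 10 u * x 0 t = x 0 t * (x 10 u * x 5 (t * u))
  r06 : ∀ t u, x 6 u * x 0 t = x 0 t * (x 6 u * x 1 (-(t * u)))
  r60 : ∀ t u, x 0 u * x 6 t = x 6 t * (x 0 u * x 1 (t * u))
  tor : ∀ c d : F, c ≠ 0 → d ≠ 0 → ∃ g, ∀ r < 12, ∀ u, g * x r u * g⁻¹ = x r (c ^ ri r * d ^ rj r * u)
  wey : ∀ r ∈ [6, 7, 8, 10, 11], ∀ t : F, t ≠ 0 → ∀ s < 12, ∃ c : F, c ≠ 0 ∧ ∀ u,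
    (x r t * x (11 - r) (-t⁻¹) * x r t) * x s u * (x r t * x (11 - r) (-t⁻¹) * x r t)⁻¹ = x (wr r s) (c * u)

section
variable (K : Type*) [Field K]
local notation "hT" => tabG2_chk
local notation "SS" => Tab.Chk.grp tabG2_chk K
local notation "xx" r => St0.x (St.toSt0 (Tab.Chk.grp tabG2_chk K)) (Tab.Chk.fin tabG2_chk r)

/-- the Chevalley group of type `G₂` -/
noncomputable def g2r : G2R K (chevG2.group K) where
  x r := xx r
  add r := (SS).x_add _
  cm r s h t u := by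
    have : ∀ p ∈ cmL, tabG2.Cm p.1 p.2 := by decide +kernel
    exact h.elim (fun h => (hT).commute _ (this _ h) t u) fun h => ((hT).commute _ (this _ h) u t).symm
  r79 t u := by
    rw [(hT).comm_eq _ (a := 7) (b := 9) (L := [(10, 3, 1, 1)]) (by decide +kernel)]; simp [mul_assoc]
  r610 t u := by
    rw [(hT).comm_eq _ (a := 6) (b := 10) (L := [(11, 1, 1, 1)]) (by decide +kernel)]; simp [mul_assoc]
  r89 t u := by
    rw [(hT).comm_eq _ (a := 8) (b := 9) (L := [(11, 3, 1, 1)]) (by decide +kernel)]; simp [mul_assoc]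
  r78 t u := by
    rw [(hT).comm_eq _ (a := 7) (b := 8) (L := [(9, -2, 1, 1), (10, -3, 2, 1), (11, 3, 1, 2)]) (by decide +kernel)]
    simp [mul_assoc]
  r76 t u := by
    rw [(hT).comm_eq _ (a := 7) (b := 6) (L := [(8, -1, 1, 1), (9, 1, 2, 1), (10, 1, 3, 1), (11, 1, 3, 2)])
      (by decide +kernel)]
    simp [Odd.neg_pow (by decide : Odd 3), mul_assoc]
  r67 t u := by
    rw [(hT).comm_eq _ (a := 6) (b := 7) (L := [(8, 1, 1, 1), (9, 1, 1, 2), (10, -1, 1, 3), (11, -2, 2, 3)])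
      (by decide +kernel)]
    simp [mul_assoc]
  r106 t u := by
    rw [(hT).comm_eq _ (a := 10) (b := 6) (L := [(11, -1, 1, 1)]) (by decide +kernel)]; simp [mul_assoc]
  r511 t u := by
    rw [(hT).comm_eq _ (a := 5) (b := 11) (L := [(10, 1, 1, 1)]) (by decide +kernel)]; simp [mul_assoc]
  r010 t u := by
    rw [(hT).comm_eq _ (a := 0) (b := 10) (L := [(5, -1, 1, 1)]) (by decide +kernel)]; simp [mul_assoc]
  r06 t u := by
    rw [(hT).comm_eq _ (a := 0) (b := 6) (L := [(1, 1, 1, 1)]) (by decide +kernel)]; simp [mul_assoc]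
  r60 t u := by
    rw [(hT).comm_eq _ (a := 6) (b := 0) (L := [(1, -1, 1, 1)]) (by decide +kernel)]; simp [mul_assoc]
  tor c d hc hd := by
    have H : ∀ r < 12, r < tabG2.n ∧ tabG2.A 7 r = 2 * ri r - 3 * rj r ∧ tabG2.A 6 r = 2 * rj r - ri r := by
      decide +kernel
    refine ⟨_, fun r hr u => (G2.conj_x ![Units.mk0 c hc ^ 2 * Units.mk0 d hd, Units.mk0 c hc ^ 3 * Units.mk0 d hd ^ 2]
      (H r hr) u).trans ?_⟩
    simp only [Matrix.cons_val_zero, Matrix.cons_val_one, Units.val_mul, Units.val_pow_eq_pow_val, Units.val_mk0]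
    simp only [mul_zpow, ← zpow_natCast, ← zpow_mul, ← mul_assoc]
    congr 2
    rw [mul_right_comm (c ^ _), ← zpow_add₀ hc, mul_assoc, ← zpow_add₀ hd]
    congr 2 <;> (push_cast; ring)
  wey r hr t ht s hs := by
    have H : ∀ r ∈ [6, 7, 8, 10, 11], (hT).cd.neg ((hT).fin r) = (hT).fin (11 - r) ∧ ∀ s < 12,
      (hT).cd.rt ((hT).fin (wr r s)) = (hT).cd.rt ((hT).fin s) - (hT).cd.A ((hT).fin r) ((hT).fin s) • (hT).cd.rt ((hT).fin r) := by
      decide +kernel
    have := ((SS).n_rep ((hT).fin r) ht).exists_conj ((hT).fin s)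
    rwa [St0.n, (H r hr).1, (hT).cd.rt_inj (((hT).cd.rt_w _ _).trans ((H r hr).2 s hs).symm)] at this
end

end H24.MG
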