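import Cfsg.Agent.H24.MG1

/-! Representations of groups of type `G₂`: the general reduction. -/

set_option autoImplicit false
set_option linter.unusedSectionVars false
set_option linter.unusedSimpArgs false
set_option maxHeartbeats 400000

namespace H24.MG
open Module
open scoped Classical

theorem exists_cube {F : Type*} [Field F] [Fintype F] (h : 4 < Fintype.card F) : ∃ c : F, c ≠ 0 ∧ c ^ 3 ≠ 1 := by
  by_contra! H
  have := Finset.card_le_card (s := Finset.univ) (t := insert (0 : F) (Polynomial.nthRoots 3 (1 : F)).toFinset) fun c _ => by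
    by_cases hc : c = 0 <;> simp [hc, H]
  have h1 := (Multiset.toFinset_card_le _).trans (Polynomial.card_nthRoots 3 (1 : F))
  have h2 := Finset.card_insert_le (0 : F) (Polynomial.nthRoots 3 (1 : F)).toFinset
  rw [Finset.card_univ] at this
  omega

namespace G2R
variable {F G : Type*} [Field F] [Fintype F] [Group G] (R : G2R F G) {V : Type*} [AddCommGroup V] [Module ℂ V]
  [FiniteDimensional ℂ V] (ρ : Representation ℂ G V)

theorem x_zero (r : ℕ) : R.x r 0 = 1 := by simpa using R.add r 0 0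

theorem x_neg (r : ℕ) (t : F) : R.x r (-t) = (R.x r t)⁻¹ :=
  eq_inv_of_mul_eq_one_left (by rw [← R.add, neg_add_cancel, x_zero])

/-- the Weyl elements -/
def n (r : ℕ) (t : F) : G := R.x r t * R.x (11 - r) (-t⁻¹) * R.x r t

/-- weight spaces of root groups -/
def W (r : ℕ) (μ : F) : Submodule ℂ V := Wt (fun t => ρ (R.x r t)) μ

/-- invariance under a root group -/
def Inv (U : Submodule ℂ V) (r : ℕ) : Prop := ∀ t, ∀ v ∈ U, ρ (R.x r t) v ∈ U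

variable {R ρ}

theorem ev {r : ℕ} {μ : F} {v : V} (h : v ∈ R.W ρ r μ) (t : F) : ρ (R.x r t) v = ps F (μ * t) • v := h t

theorem rm (g h : G) (v : V) : ρ (g * h) v = ρ g (ρ h v) := by rw [map_mul]; rfl

theorem hadd (r : ℕ) (a b : F) : ρ (R.x r (a + b)) = ρ (R.x r a) * ρ (R.x r b) := by rw [R.add, map_mul]

theorem Inv.split {U : Submodule ℂ V} {r : ℕ} (h : R.Inv ρ U r) : finrank ℂ U = ∑ μ, finrank ℂ ↥(U ⊓ R.W ρ r μ) :=
  MG.split (hadd r) (by rw [x_zero, map_one]) h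

variable (ρ) in
theorem move (g : G) {U U' : Submodule ℂ V} (h : ∀ v ∈ U, ρ g v ∈ U') : finrank ℂ U ≤ finrank ℂ U' :=
  LinearMap.finrank_le_finrank_of_injective (f := (ρ g).restrict h) fun a b e => Subtype.ext (by
    have := congrArg (fun v : U' => ρ g⁻¹ v) e
    simpa [← rm] using this)

theorem rel {s : ℕ} {μ : F} {g : G} {k : F → G} {v : V} (h : ∀ u, R.x s u * g = g * k u)
    (hv : ∀ u, ρ (k u) v = ps F (μ * u) • v) : ρ g v ∈ R.W ρ s μ := fun u => by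
  simp only [← rm, h]; rw [rm, hv, map_smul]

theorem cmm {s r : ℕ} {μ : F} {v : V} (hv : v ∈ R.W ρ s μ) (t : F) (h : (s, r) ∈ cmL ∨ (r, s) ∈ cmL := by decide) :
    ρ (R.x r t) v ∈ R.W ρ s μ := rel (fun u => (R.cm s r h u t).eq) hv

theorem slf {s : ℕ} {μ : F} {v : V} (hv : v ∈ R.W ρ s μ) (t : F) : ρ (R.x s t) v ∈ R.W ρ s μ := by
  rw [ev hv]; exact Submodule.smul_mem _ _ hv

theorem cnj {r s : ℕ} {μ ν c : F} {g : G} {v : V} (h : ∀ u, g * R.x r u * g⁻¹ = R.x s (c * u)) (hc : c ≠ 0)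
    (hv : v ∈ R.W ρ r μ) (e : ν * c = μ) : ρ g v ∈ R.W ρ s ν :=
  rel (k := fun u => R.x r (c⁻¹ * u)) (fun u => by rw [← eq_mul_inv_iff_mul_eq, h, mul_inv_cancel_left₀ hc]) fun u => by
    rw [ev hv, ← e, mul_assoc, mul_inv_cancel_left₀ hc]

variable (R ρ) in
theorem tor' {c d : F} (hc : c ≠ 0) (hd : d ≠ 0) : ∃ g, ∀ r < 12, ∀ μ ν, ν * (c ^ ri r * d ^ rj r) = μ →
    ∀ v ∈ R.W ρ r μ, ρ g v ∈ R.W ρ r ν := by
  obtain ⟨g, hg⟩ := R.tor c d hc hd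
  exact ⟨g, fun r hr μ ν e v hv => cnj (hg r hr) (by positivity) hv e⟩

variable (R ρ) in
theorem wey' (r : ℕ) {t : F} (ht : t ≠ 0) (hr : r ∈ [6, 7, 8, 10, 11] := by decide) : ∃ c : ℕ → F, (∀ s, c s ≠ 0) ∧
    ∀ s < 12, ∀ s', wr r s = s' → (∀ u, R.n r t * R.x s u * (R.n r t)⁻¹ = R.x s' (c s * u)) ∧
      ∀ μ, ∀ v ∈ R.W ρ s μ, ρ (R.n r t) v ∈ R.W ρ s' (μ / c s) := by
  have : ∀ s, ∃ c : F, c ≠ 0 ∧ (s < 12 → ∀ u, R.n r t * R.x s u * (R.n r t)⁻¹ = R.x (wr r s) (c * u)) := fun s =>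
    if hs : s < 12 then (R.wey r hr t ht s hs).imp fun _ h => ⟨h.1, fun _ => h.2⟩ else ⟨1, one_ne_zero, fun h => absurd h hs⟩
  choose c h1 h2 using this
  exact ⟨c, h1, fun s hs s' e => e ▸ ⟨h2 s hs, fun μ v hv => cnj (h2 s hs) (h1 s) hv (div_mul_cancel₀ _ (h1 s))⟩⟩

theorem Inv.le {U : Submodule ℂ V} {r : ℕ} (h : R.Inv ρ U r) (s : Finset F)
    (hs : ∀ a ∈ s, finrank ℂ ↥(U ⊓ R.W ρ r a) ≠ 0) : s.card ≤ finrank ℂ U := by
  rw [h.split, Finset.card_eq_sum_ones]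
  exact (Finset.sum_le_sum fun a ha => Nat.one_le_iff_ne_zero.2 (hs a ha)).trans
    (Finset.sum_le_sum_of_subset (Finset.subset_univ _))

theorem Inv.exists {U : Submodule ℂ V} {r : ℕ} (h : R.Inv ρ U r) (h0 : finrank ℂ U ≠ 0) :
    ∃ a, finrank ℂ ↥(U ⊓ R.W ρ r a) ≠ 0 := by
  by_contra! H
  exact h0 (by rw [h.split]; simp [H])

variable (ρ) in
theorem move_ne (g : G) {U U' : Submodule ℂ V} (h0 : finrank ℂ U ≠ 0) (h : ∀ v ∈ U, ρ g v ∈ U') : finrank ℂ U' ≠ 0 :=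
  fun e => h0 (by simpa [e] using move ρ g h)

theorem triv {r : ℕ} (h : finrank ℂ V ≤ finrank ℂ (R.W ρ r 0)) : ρ (R.x r 1) = 1 := by
  have := Submodule.eq_top_of_finrank_eq (h.antisymm' (Submodule.finrank_le _))
  ext v
  simpa using ev (this.ge Submodule.mem_top : v ∈ R.W ρ r 0) 1

theorem sh10 {a b : F} {v : V} (h : v ∈ R.W ρ 10 a) (h' : v ∈ R.W ρ 11 b) (t : F) :
    ρ (R.x 6 t) v ∈ R.W ρ 10 (a - t * b) := rel (R.r610 t) fun u => by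
  simp only [rm, ev h, ev h', map_smul, smul_smul, ← ps_add]; congr 2; ring

theorem sh9 {a b : F} {v : V} (h : v ∈ R.W ρ 9 a) (h' : v ∈ R.W ρ 10 b) (t : F) :
    ρ (R.x 7 t) v ∈ R.W ρ 9 (a - 3 * t * b) := rel (R.r79 t) fun u => by
  simp only [rm, ev h, ev h', map_smul, smul_smul, ← ps_add]; congr 2; ring

variable (R ρ) in
/-- weight spaces of the abelian normal subgroup `X₁₀ X₁₁` -/
abbrev A (a b : F) : Submodule ℂ V := R.W ρ 11 b ⊓ R.W ρ 10 a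

theorem A_inv6 (a : F) : R.Inv ρ (R.A ρ a 0) 6 := fun t _ hv => ⟨cmm hv.1 t, by simpa using sh10 hv.2 hv.1 t⟩

theorem A_inv9 (a b : F) : R.Inv ρ (R.A ρ a b) 9 := fun t _ hv => ⟨cmm hv.1 t, cmm hv.2 t⟩

theorem A_le {a a' : F} (ha : a ≠ 0) (ha' : a' ≠ 0) : finrank ℂ (R.A ρ a 0) ≤ finrank ℂ (R.A ρ a' 0) := by
  obtain ⟨g, hg⟩ := R.tor' ρ one_ne_zero (div_ne_zero ha ha')
  exact move ρ g fun v hv => ⟨hg 11 (by decide) 0 0 (by simp) v hv.1, hg 10 (by decide) _ _ (by simp [ri, rj]; field_simp) v hv.2⟩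

theorem A_eq {a b : F} (hb : b ≠ 0) : finrank ℂ (R.A ρ a b) = finrank ℂ (R.A ρ 1 0) := by
  obtain ⟨c, h1, h2⟩ := R.wey' ρ 6 one_ne_zero
  have e1 : finrank ℂ (R.A ρ a b) = finrank ℂ (R.A ρ 0 b) := le_antisymm
    (move ρ (R.x 6 (a / b)) fun v hv => ⟨cmm hv.1 _, by simpa [hb] using sh10 hv.2 hv.1 (a / b)⟩)
    (move ρ (R.x 6 (-a / b)) fun v hv => ⟨cmm hv.1 _, by simpa [hb] using sh10 hv.2 hv.1 (-a / b)⟩)
  refine e1.trans (le_antisymm (le_trans (move ρ (R.n 6 1) fun v hv => ?_) (A_le (div_ne_zero hb (h1 11)) one_ne_zero))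
    ((A_le one_ne_zero (mul_ne_zero hb (h1 10))).trans (move ρ (R.n 6 1) fun v hv => ?_)))
  · exact ⟨by simpa using (h2 10 (by decide) 11 rfl).2 _ v hv.2, (h2 11 (by decide) 10 rfl).2 _ v hv.1⟩
  · exact ⟨by simpa [h1] using (h2 10 (by decide) 11 rfl).2 _ v hv.2, by simpa using (h2 11 (by decide) 10 rfl).2 _ v hv.1⟩

theorem dim_W (r : ℕ) : finrank ℂ V = ∑ b, finrank ℂ (R.W ρ r b) := by
  have := Inv.split (R := R) (ρ := ρ) (U := ⊤) (r := r) fun _ _ _ => trivial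
  rw [← finrank_top, this]
  exact Finset.sum_congr rfl fun b _ => by rw [top_inf_eq]

theorem dim_A (b : F) : finrank ℂ (R.W ρ 11 b) = ∑ a, finrank ℂ (R.A ρ a b) := Inv.split fun t _ hv => cmm hv t

theorem dim_eq : finrank ℂ V = finrank ℂ (R.A ρ 0 0) + (Fintype.card F - 1) * finrank ℂ (R.A ρ 1 0) +
    (Fintype.card F - 1) * (Fintype.card F * finrank ℂ (R.A ρ 1 0)) := by
  rw [dim_W (R := R) (ρ := ρ) 11, sum_split fun b hb => (dim_A b).trans (sum_const' fun a => A_eq hb), dim_A,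
    sum_split fun a ha => (A_le ha one_ne_zero).antisymm (A_le one_ne_zero ha)]

theorem A_ne (h1 : ρ (R.x 11 1) ≠ 1) {a : F} (ha : a ≠ 0) : finrank ℂ (R.A ρ a 0) ≠ 0 := fun e => h1 (triv (by
  have := A_le (R := R) (ρ := ρ) one_ne_zero ha
  rw [dim_eq (R := R) (ρ := ρ), show finrank ℂ (R.A ρ 1 0) = 0 by omega]
  simpa using Submodule.finrank_mono (inf_le_left : R.A ρ 0 0 ≤ _)))

theorem A9_eq (h3 : (3 : F) ≠ 0) {a : F} (ha : a ≠ 0) (μ ν : F) :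
    finrank ℂ ↥(R.A ρ a 0 ⊓ R.W ρ 9 μ) ≤ finrank ℂ ↥(R.A ρ a 0 ⊓ R.W ρ 9 ν) :=
  move ρ (R.x 7 ((μ - ν) / (3 * a))) fun v hv => ⟨⟨cmm hv.1.1 _, cmm hv.1.2 _⟩, by
    have := sh9 hv.2 hv.1.2 ((μ - ν) / (3 * a))
    rwa [show μ - 3 * ((μ - ν) / (3 * a)) * a = ν by field_simp; ring] at this⟩

theorem A6_le {a a' : F} (ha : a ≠ 0) (ha' : a' ≠ 0) :
    finrank ℂ ↥(R.A ρ 0 0 ⊓ R.W ρ 6 a) ≤ finrank ℂ ↥(R.A ρ 0 0 ⊓ R.W ρ 6 a') := by
  obtain ⟨g, hg⟩ := R.tor' ρ one_ne_zero (div_ne_zero ha ha')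
  exact move ρ g fun v hv => ⟨⟨hg 11 (by decide) 0 0 (by simp) v hv.1.1, hg 10 (by decide) 0 0 (by simp) v hv.1.2⟩,
    hg 6 (by decide) _ _ (by simp [ri, rj]; field_simp) v hv.2⟩

theorem red (h3 : (3 : F) ≠ 0) (hq : 4 < Fintype.card F) (h1 : ρ (R.x 11 1) ≠ 1) :
    2 * Fintype.card F ≤ finrank ℂ (R.A ρ 1 0) ∨ (finrank ℂ (R.A ρ 1 0) = Fintype.card F ∧
      ∀ a : F, a ≠ 0 → finrank ℂ ↥(R.A ρ 0 0 ⊓ R.W ρ 6 a) ≠ 0) := by
  have e := (A_inv9 (R := R) (ρ := ρ) 1 0).split.trans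
    (sum_const' fun μ => (A9_eq h3 one_ne_zero μ 0).antisymm (A9_eq h3 one_ne_zero 0 μ))
  have h0 := A_ne h1 one_ne_zero
  by_cases h2 : 2 ≤ finrank ℂ ↥(R.A ρ 1 0 ⊓ R.W ρ 9 0)
  · exact Or.inl (by rw [e, mul_comm]; exact Nat.mul_le_mul_left _ h2)
  have h4 : finrank ℂ ↥(R.A ρ 1 0 ⊓ R.W ρ 9 0) ≠ 0 := fun h => h0 (by rw [e, h, mul_zero])
  refine Or.inr ⟨by rw [e, show finrank ℂ ↥(R.A ρ 1 0 ⊓ R.W ρ 9 0) = 1 by omega, mul_one], fun a ha => ?_⟩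
  have hi : R.Inv ρ (R.A ρ 1 0 ⊓ R.W ρ 9 0) 6 := fun t v hv => ⟨A_inv6 1 t v hv.1, cmm hv.2 t⟩
  obtain ⟨ν, hν⟩ := hi.exists h4
  obtain rfl : ν = 0 := by
    by_contra h
    obtain ⟨c, c0, c3⟩ := exists_cube hq
    obtain ⟨g, hg⟩ := R.tor' ρ c0 (inv_ne_zero (pow_ne_zero 3 c0))
    refine h2 (le_trans (by rw [Finset.card_pair (by simpa [h] using c3)]) (hi.le {ν, ν * c ^ 3} ?_))
    simp only [Finset.mem_insert, Finset.mem_singleton, forall_eq_or_imp, forall_eq]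
    exact ⟨hν, move_ne ρ g hν fun v hv => ⟨⟨⟨hg 11 (by decide) 0 0 (by simp) v hv.1.1.1,
      hg 10 (by decide) _ _ (by simp [ri, rj, c0]) v hv.1.1.2⟩, hg 9 (by decide) 0 0 (by simp) v hv.1.2⟩,
      hg 6 (by decide) _ _ (by simp [ri, rj, c0]) v hv.2⟩⟩
  obtain ⟨c, c1, c2⟩ := R.wey' ρ 7 one_ne_zero
  refine fun e => move_ne ρ (U' := R.A ρ 0 0 ⊓ R.W ρ 6 (1 / c 10)) (R.n 7 1) hν (fun v hv => ?_)
    (by simpa [e] using A6_le (R := R) (ρ := ρ) (one_div_ne_zero (c1 10)) ha)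
  exact ⟨⟨by simpa using (c2 11 (by decide) 11 rfl).2 _ v hv.1.1.1, by simpa using (c2 6 (by decide) 10 rfl).2 _ v hv.2⟩,
    (c2 10 (by decide) 6 rfl).2 _ v hv.1.1.2⟩

theorem bound2 (h3 : (3 : F) ≠ 0) (hq : 4 < Fintype.card F) (h1 : ρ (R.x 11 1) ≠ 1) :
    Fintype.card F ^ 3 + 1 ≤ finrank ℂ V ∨ (Fintype.card F ^ 3 - 1 ≤ finrank ℂ V ∧ (finrank ℂ (R.A ρ 1 0) = Fintype.card F ∧
      finrank ℂ ↥(R.A ρ 0 0 ⊓ R.W ρ 6 0) ≤ 1 ∧ ∀ a : F, a ≠ 0 → finrank ℂ ↥(R.A ρ 0 0 ⊓ R.W ρ 6 a) ≠ 0)) := by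
  have e := dim_eq (R := R) (ρ := ρ)
  obtain ⟨n, hn⟩ : ∃ n, Fintype.card F = n + 1 := ⟨Fintype.card F - 1, by omega⟩
  rcases red h3 hq h1 with h | h
  · rw [hn] at e h hq ⊢
    rw [Nat.add_sub_cancel] at e
    refine Or.inl (le_trans ?_ (e.ge.trans' (Nat.add_le_add (Nat.le_add_left _ _ |>.trans' (Nat.mul_le_mul_left _ h))
      (Nat.mul_le_mul_left _ (Nat.mul_le_mul_left _ h)))))
    nlinarith [Nat.zero_le (n ^ 2), Nat.zero_le (n ^ 3), mul_le_mul_left (show 4 ≤ n by omega) (n ^ 2)]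
  have h2 := (sum_ge fun a ha => Nat.one_le_iff_ne_zero.2 (h.2 a ha)).trans (A_inv6 (R := R) (ρ := ρ) 0).split.ge
  rw [h.1] at e
  rw [or_iff_not_imp_left]
  intro h4
  refine ⟨?_, h.1, ?_, h.2⟩ <;> rw [hn] at e h2 h4 <;> simp only [Nat.add_sub_cancel] at e h2
  · rw [hn, tsub_le_iff_right]; nlinarith
  · nlinarith

end G2R
end H24.MG
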