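import Cfsg.Agent.H24.MG2

/-! Representations of groups of type `G₂`: the case `q ≡ 1 mod 3`. -/

set_option autoImplicit false
set_option linter.unusedSectionVars false
set_option linter.unusedSimpArgs false
set_option maxHeartbeats 400000

namespace H24.MG
open Module
open scoped Classical InnerProductSpace ComplexConjugate

theorem exists_core {G W : Type*} [Group G] [Finite G] [AddCommGroup W] [Module ℂ W]
    [FiniteDimensional ℂ W] (ρ : Representation ℂ G W) : ∃ c : InnerProductSpace.Core ℂ W,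
    ∀ g x y, c.inner (ρ g x) (ρ g y) = c.inner x y := by
  have := Fintype.ofFinite G
  let B := Module.finBasis ℂ W
  let b : W →ₗ⋆[ℂ] W →ₗ[ℂ] ℂ := LinearMap.mk₂'ₛₗ _ _
    (fun x y => ∑ g : G, ∑ i, starRingEnd ℂ (B.repr (ρ g x) i) * B.repr (ρ g y) i)
    (by intros; simp [add_mul, Finset.sum_add_distrib])
    (by intros; simp [Finset.mul_sum, mul_assoc])
    (by intros; simp [mul_add, Finset.sum_add_distrib])
    (by intros; simp [Finset.mul_sum, mul_left_comm])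
  have hb0 : ∀ x y, b x y =
    ∑ g : G, ∑ i, starRingEnd ℂ (B.repr (ρ g x) i) * B.repr (ρ g y) i := fun _ _ => rfl
  have hb : ∀ g x y, b (ρ g x) (ρ g y) = b x y := by
    intro g x y
    simp only [hb0, H22.Ls.rep_mul]
    exact Fintype.sum_equiv (Equiv.mulRight g) _ _ fun _ => rfl
  have hre : ∀ x, b x x = ((∑ g : G, ∑ i, Complex.normSq (B.repr (ρ g x) i) : ℝ) : ℂ) := by
    intro x
    simp [hb0, Complex.normSq_eq_conj_mul_self]
  let c : InnerProductSpace.Core ℂ W :=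
    { inner := fun x y => b x y
      conj_inner_symm := by intro x y; simp [hb0, mul_comm]
      re_inner_nonneg := by
        intro x
        rw [hre, RCLike.re_to_complex, Complex.ofReal_re]
        exact Finset.sum_nonneg fun _ _ => Finset.sum_nonneg fun _ _ => Complex.normSq_nonneg _
      add_left := by intros; simp
      smul_left := by intros; simp
      definite := by
        intro x hx
        rw [hre, Complex.ofReal_eq_zero, Finset.sum_eq_zero_iff_of_nonneg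
          fun _ _ => Finset.sum_nonneg fun _ _ => Complex.normSq_nonneg _] at hx
        have h1 := hx 1 (Finset.mem_univ _)
        rw [Finset.sum_eq_zero_iff_of_nonneg fun _ _ => Complex.normSq_nonneg _] at h1
        exact B.ext_elem fun i => by simpa using h1 i (Finset.mem_univ _) }
  exact ⟨c, hb⟩

section
variable {F : Type*} [Field F] [Fintype F]

theorem ps_norm (a : F) : ‖ps F a‖ = 1 := AddChar.norm_apply _ _

theorem conj_ps (a : F) : conj (ps F a) * ps F a = 1 := by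
  rw [← Complex.normSq_eq_conj_mul_self, Complex.normSq_eq_norm_sq, ps_norm]; simp

theorem sum_ps' {f : F → ℂ} {a : ℂ} (h : ∀ t, t ≠ 0 → f t = a) (μ : F) :
    ∑ t, ps F (-μ * t) * f t = f 0 - a + if μ = 0 then Fintype.card F * a else 0 := by
  have : ∑ t, ps F (-μ * t) * (f t - a) = f 0 - a := by
    rw [Finset.sum_eq_single 0 (fun t _ ht => by rw [h t ht, sub_self, mul_zero]) (by simp)]; simp
  simp only [mul_sub, Finset.sum_sub_distrib, ← Finset.sum_mul, sum_ps, neg_eq_zero] at this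
  rw [← this]
  split_ifs <;> ring
end

variable {V : Type*} [NormedAddCommGroup V] [InnerProductSpace ℂ V] [FiniteDimensional ℂ V]

/-- `U` is spanned by `y`, a unit vector or zero -/
def Ln (U : Submodule ℂ V) (y : V) : Prop := y ∈ U ∧ (∀ v ∈ U, ∃ c : ℂ, v = c • y) ∧ (y = 0 ∨ ⟪y, y⟫_ℂ = 1)

theorem exists_unit {U : Submodule ℂ V} (h : finrank ℂ U ≠ 0) : ∃ x ∈ U, ‖x‖ = 1 := by
  obtain ⟨x, hx, h0⟩ := U.exists_mem_ne_zero_of_ne_bot fun e => h (by rw [e, finrank_bot])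
  exact ⟨(‖x‖⁻¹ : ℂ) • x, U.smul_mem _ hx, norm_smul_inv_norm h0⟩

theorem exists_ln {U : Submodule ℂ V} (h : finrank ℂ U ≤ 1) : ∃ y, Ln U y := by
  by_cases h0 : finrank ℂ U = 0
  · exact ⟨0, U.zero_mem, fun v hv => ⟨0, by simpa [Submodule.finrank_eq_zero.1 h0] using hv⟩, Or.inl rfl⟩
  obtain ⟨y, hy, h1⟩ := exists_unit h0
  refine ⟨y, hy, fun v hv => ?_, Or.inr (by simp [inner_self_eq_norm_sq_to_K, h1])⟩
  obtain ⟨c, hc⟩ := (finrank_eq_one_iff_of_nonzero' (⟨y, hy⟩ : U) fun e => by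
    rw [show y = 0 from congrArg Subtype.val e] at h1; simp at h1).1 (h.antisymm (Nat.one_le_iff_ne_zero.2 h0)) ⟨v, hv⟩
  exact ⟨c, (congrArg Subtype.val hc).symm⟩

namespace G2R
variable {F G : Type*} [Field F] [Fintype F] [Group G] {R : G2R F G} {ρ : Representation ℂ G V}

theorem cnj_inv {r s : ℕ} {μ c : F} {g : G} {v : V} (h : ∀ u, g * R.x r u * g⁻¹ = R.x s (c * u))
    (hv : v ∈ R.W ρ s μ) : ρ g⁻¹ v ∈ R.W ρ r (μ * c) :=
  rel (k := fun u => R.x s (c * u)) (fun u => by rw [← h]; group) fun u => by rw [ev hv, mul_assoc]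

theorem fx {r : ℕ} {v : V} (hv : v ∈ R.W ρ r 0) (t : F) : ρ (R.x r t) v = v := by simp [ev hv]

theorem inv5 : R.Inv ρ (R.A ρ 0 0) 5 := fun t _ hv =>
  ⟨rel (R.r511 t) fun u => by simp [rm, fx hv.1, fx hv.2], cmm hv.2 t⟩

variable (hρ : ∀ g x y, ⟪ρ g x, ρ g y⟫_ℂ = ⟪x, y⟫_ℂ)
include hρ

theorem adj (g : G) (x y : V) : ⟪ρ g x, y⟫_ℂ = ⟪x, ρ g⁻¹ y⟫_ℂ := by rw [← hρ g x, ← rm]; simp

theorem adj' (g : G) (x y : V) : ⟪x, ρ g y⟫_ℂ = ⟪ρ g⁻¹ x, y⟫_ℂ := by rw [adj hρ, inv_inv]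

theorem inner_pj {r : ℕ} {μ : F} {z : V} (hz : z ∈ R.W ρ r μ) (v : V) :
    ⟪z, pj (fun t => ρ (R.x r t)) μ v⟫_ℂ = Fintype.card F * ⟪z, v⟫_ℂ := by
  rw [pj_apply, inner_sum, Finset.sum_congr rfl (g := fun _ => ⟪z, v⟫_ℂ) fun t _ => ?_]
  · simp
  rw [inner_smul_right, adj' hρ, ← x_neg, ev hz, inner_smul_left, ← mul_assoc, mul_neg, neg_mul μ, mul_comm (ps F _),
    conj_ps, one_mul]

theorem orth {r : ℕ} {μ ν : F} {z v : V} (hz : z ∈ R.W ρ r μ) (hv : v ∈ R.W ρ r ν) (h : ν ≠ μ) : ⟪z, v⟫_ℂ = 0 := by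
  have := inner_pj hρ hz v
  rw [pj_wt hv, if_neg h, zero_smul, inner_zero_right] at this
  exact (mul_eq_zero.1 this.symm).resolve_left card_ne

theorem pj_eq {U : Submodule ℂ V} {r : ℕ} {y v : V} (hU : R.Inv ρ U r) (hy : Ln (U ⊓ R.W ρ r 0) y) (hv : v ∈ U) :
    pj (fun t => ρ (R.x r t)) 0 v = (Fintype.card F * ⟪y, v⟫_ℂ) • y := by
  obtain ⟨c, hc⟩ := hy.2.1 _ ⟨pj_inv hU 0 hv, pj_mem (hadd r) 0 v⟩
  rcases hy.2.2 with h | h
  · simp [hc, h]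
  · rw [← inner_pj hρ hy.1.2, hc, inner_smul_right, h, mul_one]

theorem inner_eq {U : Submodule ℂ V} {r : ℕ} {y v z : V} (hU : R.Inv ρ U r) (hy : Ln (U ⊓ R.W ρ r 0) y) (hv : v ∈ U)
    (hz : z ∈ R.W ρ r 0) : ⟪z, v⟫_ℂ = ⟪y, v⟫_ℂ * ⟪z, y⟫_ℂ := mul_left_cancel₀ (card_ne (F := F)) (by
  rw [← inner_pj hρ hz, pj_eq hρ hU hy hv, inner_smul_right, mul_assoc])

theorem ln_conj {U : Submodule ℂ V} {y : V} (hy : Ln U y) {g : G} (hg : ρ g y ∈ U) (k : G) :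
    ⟪y, ρ (g * k * g⁻¹) y⟫_ℂ = ⟪y, ρ k y⟫_ℂ := by
  obtain ⟨c, hc⟩ := hy.2.1 _ hg
  rcases hy.2.2 with h | h
  · simp [h]
  have h1 := hρ g y y
  rw [hc, inner_smul_left, inner_smul_right, h, mul_one] at h1
  have h2 : ρ (g * k) y = ρ (g * k * g⁻¹) (ρ g y) := by rw [← rm, inv_mul_cancel_right]
  rw [← hρ g y (ρ k y), ← rm g k, h2, hc, map_smul, inner_smul_left, inner_smul_right, ← mul_assoc, h1, one_mul]

theorem n_inner {r : ℕ} {v w : V} (hv : v ∈ R.W ρ r 0) (hw : w ∈ R.W ρ r 0) {t : F} :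
    ⟪w, ρ (R.n r (-t⁻¹)) v⟫_ℂ = ⟪w, ρ (R.x (11 - r) t) v⟫_ℂ := by
  rw [n, rm, rm, fx hv, adj' hρ, ← x_neg, fx hw]; simp

variable {y : V} (hy : Ln (R.A ρ 0 0 ⊓ R.W ρ 5 0) y)
include hy

theorem a_const {t : F} (ht : t ≠ 0) : ⟪y, ρ (R.x 0 t) y⟫_ℂ = ⟪y, ρ (R.x 0 1) y⟫_ℂ := by
  obtain ⟨g, hg⟩ := R.tor t⁻¹ t (inv_ne_zero ht) ht
  have : ∀ r < 12, y ∈ R.W ρ r 0 → ρ g y ∈ R.W ρ r 0 := fun r hr h => cnj (hg r hr) (by positivity) h (zero_mul _)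
  rw [← ln_conj hρ hy ⟨⟨this _ (by decide) hy.1.1.1, this _ (by decide) hy.1.1.2⟩, this _ (by decide) hy.1.2⟩ (R.x 0 1),
    hg 0 (by decide)]
  congr 3
  simp [ri, rj]; field_simp

theorem a_six {t : F} (ht : t ≠ 0) : ⟪y, ρ (R.x 6 t) y⟫_ℂ = ⟪y, ρ (R.x 0 1) y⟫_ℂ := by
  obtain ⟨c, c1, c2⟩ := R.wey' ρ 8 one_ne_zero
  rw [← a_const hρ hy (div_ne_zero ht (c1 0)), ← ln_conj hρ hy (g := R.n 8 1) ⟨⟨by
    simpa using (c2 5 (by decide) 11 rfl).2 _ y hy.1.2, by simpa using (c2 10 (by decide) 10 rfl).2 _ y hy.1.1.2⟩, by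
    simpa using (c2 11 (by decide) 5 rfl).2 _ y hy.1.1.1⟩ (R.x 0 _), (c2 0 (by decide) 6 rfl).1, mul_div_cancel₀ _ (c1 0)]

theorem hecke (h : ⟪y, y⟫_ℂ = 1) : ⟪y, ρ (R.x 0 1) y⟫_ℂ = 1 ∨ ⟪y, ρ (R.x 0 1) y⟫_ℂ = -(Fintype.card F : ℂ)⁻¹ := by
  obtain ⟨c, c1, c2⟩ := R.wey' ρ 11 (t := -(1 : F)⁻¹) (by simp)
  have hy' : Ln ((R.W ρ 5 0 ⊓ R.W ρ 10 0) ⊓ R.W ρ 0 0) (ρ (R.n 11 (-(1 : F)⁻¹)) y) := ⟨⟨⟨by
    simpa using (c2 10 (by decide) 5 rfl).2 _ y hy.1.1.2, by simpa using (c2 5 (by decide) 10 rfl).2 _ y hy.1.2⟩, by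
    simpa using (c2 11 (by decide) 0 rfl).2 _ y hy.1.1.1⟩, fun v hv => by
      obtain ⟨a, ha⟩ := hy.2.1 (ρ (R.n 11 (-(1 : F)⁻¹))⁻¹ v) ⟨⟨by simpa using cnj_inv (c2 11 (by decide) 0 rfl).1 hv.2,
        by simpa using cnj_inv (c2 10 (by decide) 5 rfl).1 hv.1.1⟩, by simpa using cnj_inv (c2 5 (by decide) 10 rfl).1 hv.1.2⟩
      exact ⟨a, by rw [← map_smul, ← ha, ← rm]; simp⟩, Or.inr (by rw [hρ, h])⟩
  have e := congrArg (⟪y, ·⟫_ℂ) (pj_eq hρ (U := R.W ρ 5 0 ⊓ R.W ρ 10 0) (fun t v hv => ⟨cmm hv.1 t, rel (R.r010 t) fun u => by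
    simp [rm, fx hv.1, fx hv.2]⟩) hy' ⟨hy.1.2, hy.1.1.2⟩)
  simp only [pj_apply, inner_sum, inner_smul_right] at e
  rw [sum_ps' fun t ht => a_const hρ hy ht, if_pos rfl, ← inner_conj_symm (ρ _ y), n_inner hρ hy.1.1.1 hy.1.1.1, x_zero,
    map_one, End.one_apply, h] at e
  set a := ⟪y, ρ (R.x 0 1) y⟫_ℂ
  have h2 : (Fintype.card F - 1 : ℂ) ≠ 0 := sub_ne_zero.2 (by exact_mod_cast Fintype.one_lt_card.ne')
  have h3 : conj a = a := by
    have := congrArg conj e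
    simp only [map_add, map_sub, map_mul, map_one, map_natCast, Complex.conj_conj] at this
    exact mul_left_cancel₀ h2 (by linear_combination this - e)
  rw [h3] at e
  have h4 : (a - 1) * (Fintype.card F * a + 1) = 0 := by linear_combination -e
  refine (mul_eq_zero.1 h4).imp sub_eq_zero.1 fun h => ?_
  have := card_ne (F := F)
  field_simp
  linear_combination h

theorem small {x : V} {μ : F} (hc : μ ≠ 0) (hx : x ∈ R.A ρ 0 0 ⊓ R.W ρ 6 μ) (h1 : ‖x‖ = 1) {t : F} (ht : t ≠ 0) :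
    ‖⟪x, ρ (R.x 0 t) x⟫_ℂ‖ ≤ (Fintype.card F + 1) / Fintype.card F ^ 3 := by
  obtain ⟨c, c1, c2⟩ := R.wey' ρ 11 (t := -t⁻¹) (by simpa using ht)
  have e1 := inner_eq hρ inv5 hy hx.1 (z := ρ (R.n 11 (-t⁻¹)) x) (by simpa using (c2 10 (by decide) 5 rfl).2 _ x hx.1.2)
  have e2 := inner_eq hρ inv5 hy hx.1 (z := ρ (R.n 11 (-t⁻¹))⁻¹ y)
    (by simpa using cnj_inv (c2 5 (by decide) 10 rfl).1 hy.1.1.2)
  rw [← adj' hρ _ y y, n_inner hρ hy.1.1.1 hy.1.1.1, a_const hρ hy ht] at e2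
  rw [← n_inner hρ (r := 11) hx.1.1 hx.1.1, norm_inner_symm, e1, adj hρ _ x y, norm_mul, norm_inner_symm x, e2, norm_mul,
    ← mul_assoc, ← sq]
  have q0 : (0 : ℝ) < Fintype.card F := by exact_mod_cast Fintype.card_pos
  rcases hy.2.2 with h | h
  · simp only [h, inner_zero_left, norm_zero, mul_zero]; positivity
  have e3 := inner_pj hρ hx.2 y
  have e4 := inner_pj hρ (pj_mem (hadd (R := R) (ρ := ρ) 6) μ y) y
  have e5 : ⟪y, pj (fun t => ρ (R.x 6 t)) μ y⟫_ℂ = 1 - ⟪y, ρ (R.x 0 1) y⟫_ℂ := by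
    simp only [pj_apply, inner_sum, inner_smul_right]
    rw [sum_ps' fun t ht => a_six hρ hy ht, if_neg hc, x_zero, map_one, End.one_apply, h, add_zero]
  rw [← inner_conj_symm _ y, e5, inner_self_eq_norm_sq_to_K] at e4
  have e6 := norm_inner_le_norm (𝕜 := ℂ) x (pj (fun t => ρ (R.x 6 t)) μ y)
  rw [e3, h1, one_mul, norm_mul, Complex.norm_natCast, norm_inner_symm] at e6
  have e7 := pow_le_pow_left₀ (by positivity) e6 2
  rcases hecke hρ hy h with h2 | h2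
  · rw [h2] at e4 ⊢
    have : ‖pj (fun t => ρ (R.x 6 t)) μ y‖ ^ 2 = 0 := by simpa using e4
    rw [this, mul_pow] at e7
    have := (mul_nonpos_iff_pos_imp_nonpos.1 e7).1 (by positivity)
    rw [norm_one, mul_one]
    exact this.trans (by positivity)
  · rw [h2] at e4 ⊢
    have : ‖pj (fun t => ρ (R.x 6 t)) μ y‖ ^ 2 = Fintype.card F + 1 := by
      apply Complex.ofReal_injective
      have := card_ne (F := F)
      push_cast
      refine e4.trans ?_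
      simp [mul_add, this]
    rw [this] at e7
    rw [norm_neg, norm_inv, Complex.norm_natCast, le_div_iff₀ (by positivity)]
    refine le_trans (le_of_eq ?_) e7
    field_simp

omit hy in
theorem all_wt (h0 : finrank ℂ ↥(R.A ρ 0 0 ⊓ R.W ρ 6 0) ≤ 1) {μ : F} (hc : μ ≠ 0)
    (h : finrank ℂ ↥(R.A ρ 0 0 ⊓ R.W ρ 6 μ) ≠ 0) (ν : F) : finrank ℂ ↥((R.W ρ 1 0 ⊓ R.W ρ 6 μ) ⊓ R.W ρ 0 ν) ≠ 0 := by
  obtain ⟨c, c1, c2⟩ := R.wey' ρ 6 one_ne_zero
  obtain ⟨y, hy⟩ := exists_ln (U := R.A ρ 0 0 ⊓ R.W ρ 5 0) ((move ρ (U' := R.A ρ 0 0 ⊓ R.W ρ 6 0) (R.n 6 1) fun v hv => ⟨⟨by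
    simpa using (c2 10 (by decide) 11 rfl).2 _ v hv.1.2, by simpa using (c2 11 (by decide) 10 rfl).2 _ v hv.1.1⟩, by
    simpa using (c2 5 (by decide) 6 rfl).2 _ v hv.2⟩).trans h0)
  obtain ⟨x, hx, h1⟩ := exists_unit h
  intro e
  have hP : pj (fun t => ρ (R.x 0 t)) ν (pj (fun t => ρ (R.x 1 t)) 0 x) = 0 := by
    rw [← Submodule.mem_bot ℂ, ← Submodule.finrank_eq_zero.1 e]
    refine ⟨pj_inv (U := R.W ρ 1 0 ⊓ R.W ρ 6 μ) (fun t v hv => ⟨cmm hv.1 t, rel (R.r06 t) fun u => by simp [rm, fx hv.1, ev hv.2]⟩) ν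
      ⟨pj_mem (hadd 1) 0 x, pj_inv (fun t v hv => cmm hv t) 0 hx.2⟩, pj_mem (hadd 0) ν _⟩
  have e1 : ∀ t, ⟪x, ρ (R.x 0 t) (pj (fun t => ρ (R.x 1 t)) 0 x)⟫_ℂ =
      if t = 0 then 1 else Fintype.card F * ⟪x, ρ (R.x 0 t) x⟫_ℂ := fun t => by
    simp only [pj_apply, map_sum, inner_sum, neg_zero, zero_mul, AddChar.map_zero_eq_one, one_smul]
    split_ifs with ht
    · rw [ht, x_zero, map_one, Finset.sum_eq_single 0 (fun s _ hs => ?_) (by simp)]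
      · simp [x_zero, inner_self_eq_norm_sq_to_K, h1]
      obtain ⟨d, d1, d2⟩ := R.wey' ρ 10 (t := -s⁻¹) (by simpa using hs)
      rw [End.one_apply, ← n_inner hρ (r := 10) hx.1.2 hx.1.2]
      exact orth hρ hx.2 (by simpa using (d2 11 (by decide) 6 rfl).2 _ x hx.1.1) hc.symm
    · rw [Finset.sum_congr rfl (g := fun _ => ⟪x, ρ (R.x 0 t) x⟫_ℂ) fun s _ => ?_]
      · simp
      obtain ⟨s, rfl⟩ : ∃ s', s = s' * t := ⟨s / t, (div_mul_cancel₀ s ht).symm⟩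
      rw [← rm, ← hρ (R.x 6 s), ← rm, ← R.r60, rm, ev hx.2, map_smul,
        inner_smul_left, inner_smul_right, ← mul_assoc, conj_ps, one_mul]
  have e2 := congrArg (⟪x, ·⟫_ℂ) hP
  simp only [pj_apply ν, inner_sum, inner_smul_right, e1, inner_zero_right] at e2
  rw [← Finset.add_sum_erase _ _ (Finset.mem_univ (0 : F)), if_pos rfl, mul_zero, AddChar.map_zero_eq_one, one_mul,
    add_eq_zero_iff_neg_eq] at e2
  have e3 := (congrArg norm e2).le.trans ((norm_sum_le _ _).trans (Finset.sum_le_card_nsmul _ _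
    ((Fintype.card F : ℝ) * ((Fintype.card F + 1) / Fintype.card F ^ 3)) fun t ht => by
      rw [if_neg (Finset.ne_of_mem_erase ht), norm_mul, ps_norm, one_mul, norm_mul, Complex.norm_natCast]
      exact mul_le_mul_of_nonneg_left (small hρ hy hc hx h1 (Finset.ne_of_mem_erase ht)) (by positivity)))
  have q0 : (0 : ℝ) < Fintype.card F := by exact_mod_cast Fintype.card_pos
  rw [Finset.card_erase_of_mem (Finset.mem_univ _), Finset.card_univ, nsmul_eq_mul, Nat.cast_pred Fintype.card_pos,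
    norm_neg, norm_one] at e3
  field_simp at e3
  nlinarith

omit hy in
theorem bound1 (h3 : (3 : F) ≠ 0) (hq : 4 < Fintype.card F) (h1 : ρ (R.x 11 1) ≠ 1) {ω : F} (o1 : ω ≠ 1)
    (o3 : ω ^ 3 = 1) : Fintype.card F ^ 3 + 1 ≤ finrank ℂ V := by
  refine (bound2 h3 hq h1).resolve_right fun ⟨_, h2, h4, h5⟩ => ?_
  obtain ⟨c, c1, c2⟩ := R.wey' ρ 6 one_ne_zero
  obtain ⟨d, d1, d2⟩ := R.wey' ρ 10 one_ne_zero
  have h6 : ∀ ν, finrank ℂ ↥(R.A ρ 1 0 ⊓ R.W ρ 6 ν) ≠ 0 := fun ν =>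
    move_ne ρ (R.n 6 1 * R.n 10 1) (all_wt hρ h4 (mul_ne_zero (c1 11) (d1 6)) (h5 _ (mul_ne_zero (c1 11) (d1 6)))
      (ν * c 5 * d 0)) fun v hv => by
      rw [rm]
      exact ⟨⟨by simpa using (c2 10 (by decide) 11 rfl).2 _ _ ((d2 1 (by decide) 10 rfl).2 _ v hv.1.1),
        by simpa [c1, d1] using (c2 11 (by decide) 10 rfl).2 _ _ ((d2 6 (by decide) 11 rfl).2 _ v hv.1.2)⟩,
        by simpa [c1, d1] using (c2 5 (by decide) 6 rfl).2 _ _ ((d2 0 (by decide) 5 rfl).2 _ v hv.2)⟩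
  obtain ⟨a, ha⟩ := (A_inv9 1 0).exists (A_ne h1 one_ne_zero)
  obtain ⟨ν, hν⟩ := Inv.exists (R := R) (ρ := ρ) (U := R.A ρ 1 0 ⊓ R.W ρ 9 1) (r := 6)
    (fun t v hv => ⟨A_inv6 1 t v hv.1, cmm hv.2 t⟩) fun e => ha (by simpa [e] using A9_eq (R := R) (ρ := ρ) h3 one_ne_zero a 1)
  have o0 : ω ≠ 0 := by rintro rfl; simp at o3
  obtain ⟨g, hg⟩ := R.tor' ρ o0 one_ne_zero
  have h7 : 2 ≤ finrank ℂ ↥(R.A ρ 1 0 ⊓ R.W ρ 6 ν) := by
    refine le_trans (by rw [Finset.card_pair o1.symm]) (Inv.le (R := R) (ρ := ρ) (r := 9) (U := R.A ρ 1 0 ⊓ R.W ρ 6 ν)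
      (fun t v hv => ⟨A_inv9 1 0 t v hv.1, cmm hv.2 t⟩) {1, ω} ?_)
    simp only [Finset.mem_insert, Finset.mem_singleton, forall_eq_or_imp, forall_eq]
    refine ⟨move_ne ρ 1 hν fun v hv => by simpa using ⟨⟨hv.1.1, hv.2⟩, hv.1.2⟩, move_ne ρ g hν fun v hv =>
      ⟨⟨⟨hg 11 (by decide) 0 0 (by simp) v hv.1.1.1, hg 10 (by decide) _ _ (by simpa [ri, rj] using o3) v hv.1.1.2⟩,
        hg 6 (by decide) _ _ (by simp [ri, rj]) v hv.2⟩, hg 9 (by decide) _ _ ?_ v hv.1.2⟩⟩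
    simp only [ri, rj, one_zpow, mul_one]
    exact (by rw [← o3]; simp; ring)
  have h8 := Finset.sum_lt_sum (s := Finset.univ) (f := fun _ : F => 1) (fun ν _ => Nat.one_le_iff_ne_zero.2 (h6 ν))
    ⟨ν, Finset.mem_univ _, h7⟩
  rw [← (A_inv6 1).split, h2] at h8
  simp at h8

end G2R
end H24.MG
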