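import Cfsg.Agent.H24.MG3

/-! Representations of groups of type `G₂` in characteristic three. -/

set_option autoImplicit false
set_option linter.unusedSectionVars false
set_option linter.unusedSimpArgs false
set_option maxHeartbeats 400000

namespace H24.MG
open Module Polynomial
open scoped Classical

theorem card_img {F : Type*} [Field F] [Fintype F] (ν : F) {c d : F} (h : c ≠ 0) :
    Fintype.card F ≤ 3 * (Finset.univ.image fun s : F => ν + s * c - s ^ 3 * d).card := by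
  refine Finset.card_le_mul_card_image _ 3 fun y _ => ?_
  have h1 : (C (ν - y) + C c * X - C d * X ^ 3 : F[X]) ≠ 0 := fun e => h (by simpa [coeff_X, coeff_C] using congrArg (coeff · 1) e)
  have h2 : (C (ν - y) + C c * X - C d * X ^ 3 : F[X]).natDegree ≤ 3 := by compute_degree
  refine le_trans (Finset.card_le_card fun s hs => ?_) ((Multiset.toFinset_card_le _).trans ((card_roots' _).trans h2))
  simp only [Finset.mem_filter, Finset.mem_univ, true_and] at hs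
  simp only [Multiset.mem_toFinset, mem_roots h1, IsRoot.def, eval_sub, eval_add, eval_mul, eval_C, eval_X, eval_pow]
  linear_combination hs

theorem card_sq {F : Type*} [Field F] [Fintype F] {d : F} (h : d ≠ 0) :
    Fintype.card F - 1 ≤ 2 * ((Finset.univ.erase 0).image fun s : F => d * s ^ 2).card := by
  rw [← Finset.card_univ, ← Finset.card_erase_of_mem (Finset.mem_univ (0 : F))]
  refine Finset.card_le_mul_card_image _ 2 fun y _ => ?_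
  refine le_trans (Finset.card_le_card fun s hs => ?_) ((Multiset.toFinset_card_le _).trans (card_nthRoots 2 (y / d)))
  simp only [Finset.mem_filter] at hs
  simp [← hs.2, h]

namespace G2R
variable {F G : Type*} [Field F] [Fintype F] [Group G] {R : G2R F G} {V : Type*} [AddCommGroup V] [Module ℂ V]
  [FiniteDimensional ℂ V] {ρ : Representation ℂ G V}

variable (R ρ) in
/-- weight spaces of the abelian normal subgroup `X₈ X₉ X₁₀ X₁₁` -/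
abbrev M (a b c d : F) : Submodule ℂ V := (R.A ρ c d ⊓ R.W ρ 9 b) ⊓ R.W ρ 8 a

variable (R ρ) in
/-- multiplicities -/
noncomputable abbrev m (a b c d : F) : ℕ := finrank ℂ (R.M ρ a b c d)

theorem M6 {a b c d : F} {v : V} (hv : v ∈ R.M ρ a b c d) (t : F) : ρ (R.x 6 t) v ∈ R.M ρ a b (c - t * d) d :=
  ⟨⟨⟨cmm hv.1.1.1 t, sh10 hv.1.1.2 hv.1.1.1 t⟩, cmm hv.1.2 t⟩, cmm hv.2 t⟩

theorem M_inv6 (a b c : F) : R.Inv ρ (R.M ρ a b c 0) 6 := fun t _ hv => by simpa using M6 hv t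

theorem Mt {s t : F} (hs : s ≠ 0) (ht : t ≠ 0) : ∃ g, (∀ a b c d, ∀ v ∈ R.M ρ (a * (s * t)) (b * (s ^ 2 * t))
    (c * (s ^ 3 * t)) (d * (s ^ 3 * t ^ 2)), ρ g v ∈ R.M ρ a b c d) ∧ (∀ a, ∀ v ∈ R.W ρ 6 (a * t), ρ g v ∈ R.W ρ 6 a) ∧
    ∀ a, ∀ v ∈ R.W ρ 7 (a * s), ρ g v ∈ R.W ρ 7 a := by
  obtain ⟨g, hg⟩ := R.tor' ρ hs ht
  exact ⟨g, fun a b c d v hv => ⟨⟨⟨hg 11 (by decide) _ _ (by simp [ri, rj]) v hv.1.1.1,
    hg 10 (by decide) _ _ (by simp [ri, rj]) v hv.1.1.2⟩, hg 9 (by decide) _ _ (by simp [ri, rj]) v hv.1.2⟩,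
    hg 8 (by decide) _ _ (by simp [ri, rj]) v hv.2⟩, fun a => hg 6 (by decide) _ _ (by simp [ri, rj]),
    fun a => hg 7 (by decide) _ _ (by simp [ri, rj])⟩

theorem mt {s t : F} (hs : s ≠ 0) (ht : t ≠ 0) {a b c d a' b' c' d' : F} (h1 : a' = a * (s * t)) (h2 : b' = b * (s ^ 2 * t))
    (h3 : c' = c * (s ^ 3 * t)) (h4 : d' = d * (s ^ 3 * t ^ 2)) : R.m ρ a' b' c' d' = R.m ρ a b c d := by
  obtain ⟨g, hg, -⟩ := Mt (R := R) (ρ := ρ) hs ht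
  obtain ⟨g', hg', -⟩ := Mt (R := R) (ρ := ρ) (inv_ne_zero hs) (inv_ne_zero ht)
  subst h1 h2 h3 h4
  refine (move ρ g (hg a b c d)).antisymm (move ρ g' fun v hv => hg' _ _ _ _ v ?_)
  convert hv <;> field_simp

theorem m6 (a b c : F) {d : F} (hd : d ≠ 0) : R.m ρ a b c d = R.m ρ a b 0 d := le_antisymm
  (move ρ (R.x 6 (c / d)) fun v hv => by simpa [hd] using M6 hv (c / d))
  (move ρ (R.x 6 (-c / d)) fun v hv => by simpa [hd] using M6 hv (-c / d))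

theorem mix {a c ν : F} {v : V} (hv : v ∈ R.M ρ a 0 c 0) (h : v ∈ R.W ρ 6 ν) (t : F) :
    ρ (R.x 7 t) v ∈ R.W ρ 6 (ν + t * a - t ^ 3 * c) := rel (R.r76 t) fun u => by
  simp only [rm, ev hv.2, ev hv.1.2, ev hv.1.1.1, ev hv.1.1.2, ev h, map_smul, smul_smul, ← ps_add]; congr 2; ring

theorem n7 : ∃ c : ℕ → F, (∀ s, c s ≠ 0) ∧ ∀ a b d e, ∀ v ∈ R.M ρ a b d 0 ⊓ R.W ρ 6 e,
    ρ (R.n 7 1) v ∈ R.M ρ (b / c 9) (a / c 8) (e / c 6) 0 ⊓ R.W ρ 6 (d / c 10) := by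
  obtain ⟨c, c1, c2⟩ := R.wey' ρ 7 one_ne_zero
  exact ⟨c, c1, fun a b d e v hv => ⟨⟨⟨⟨by simpa using (c2 11 (by decide) 11 rfl).2 _ v hv.1.1.1.1,
    (c2 6 (by decide) 10 rfl).2 _ v hv.2⟩, (c2 8 (by decide) 9 rfl).2 _ v hv.1.2⟩, (c2 9 (by decide) 8 rfl).2 _ v hv.1.1.2⟩,
    (c2 10 (by decide) 6 rfl).2 _ v hv.1.1.1.2⟩⟩

variable (h3 : (3 : F) = 0)
include h3

theorem two_ne : (2 : F) ≠ 0 := fun h => one_ne_zero (by linear_combination h3 - h : (1 : F) = 0)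

theorem M7 {a b c d : F} {v : V} (hv : v ∈ R.M ρ a b c d) (t : F) : ρ (R.x 7 t) v ∈ R.M ρ (a + 2 * t * b) b c d :=
  ⟨⟨⟨cmm hv.1.1.1 t, cmm hv.1.1.2 t⟩, by simpa [h3] using sh9 hv.1.2 hv.1.1.2 t⟩, rel (R.r78 t) fun u => by
    simp only [rm, ev hv.2, ev hv.1.2, h3, zero_mul, neg_zero, x_zero, map_one, End.one_apply, map_smul, smul_smul,
      ← ps_add]; congr 2; ring⟩

theorem M_inv7 (a c d : F) : R.Inv ρ (R.M ρ a 0 c d) 7 := fun t _ hv => by simpa using M7 h3 hv t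

theorem m7 (a c d : F) {b : F} (hb : b ≠ 0) : R.m ρ a b c d = R.m ρ 0 b c d := by
  have := two_ne h3
  refine le_antisymm (move ρ (R.x 7 (-a / (2 * b))) fun v hv => ?_) (move ρ (R.x 7 (a / (2 * b))) fun v hv => ?_)
  · convert M7 h3 hv (-a / (2 * b)); field_simp; ring
  · convert M7 h3 hv (a / (2 * b)); field_simp; ring

theorem W9_8 {b : F} {v : V} (h : v ∈ R.W ρ 9 b) (t : F) : ρ (R.x 8 t) v ∈ R.W ρ 9 b :=
  rel (R.r89 t) fun u => by simp [h3, x_zero, ev h]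

theorem dim_Y (b c d : F) : finrank ℂ ↥(R.A ρ c d ⊓ R.W ρ 9 b) = ∑ a, R.m ρ a b c d :=
  Inv.split fun t _ hv => ⟨⟨cmm hv.1.1 t, cmm hv.1.2 t⟩, W9_8 h3 hv.2 t⟩

omit h3 in
theorem dim_Y' (a b d : F) : finrank ℂ ↥((R.W ρ 11 d ⊓ R.W ρ 9 b) ⊓ R.W ρ 8 a) = ∑ c, R.m ρ a b c d := by
  rw [Inv.split (R := R) (ρ := ρ) (r := 10) (U := (R.W ρ 11 d ⊓ R.W ρ 9 b) ⊓ R.W ρ 8 a) fun t _ hv => ⟨⟨cmm hv.1.1 t, cmm hv.1.2 t⟩, cmm hv.2 t⟩]
  exact Finset.sum_congr rfl fun c _ => by rw [inf_right_comm _ (R.W ρ 8 a), inf_right_comm _ (R.W ρ 9 b)]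

theorem o1 (a c : F) {b d : F} (hb : b ≠ 0) (hd : d ≠ 0) : R.m ρ a b c d = R.m ρ 0 1 0 1 := by
  rw [m7 h3 _ _ _ hb, m6 _ _ _ hd]
  exact mt (s := b ^ 2 / d) (t := d ^ 2 / b ^ 3) (by positivity) (by positivity) (by simp) (by field_simp) (by simp)
    (by field_simp)

theorem o2 (a : F) {b c : F} (hb : b ≠ 0) (hc : c ≠ 0) : R.m ρ a b c 0 = R.m ρ 0 1 1 0 := by
  rw [m7 h3 _ _ _ hb]
  exact mt (s := c / b) (t := b ^ 3 / c ^ 2) (by positivity) (by positivity) (by simp) (by field_simp) (by field_simp)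
    (by simp)

theorem o3 (a : F) {b : F} (hb : b ≠ 0) : R.m ρ a b 0 0 = R.m ρ 0 1 0 0 := by
  rw [m7 h3 _ _ _ hb]
  exact mt one_ne_zero hb (by simp) (by simp) (by simp) (by simp)

omit h3

theorem o2' (c : F) {a d : F} (ha : a ≠ 0) (hd : d ≠ 0) : R.m ρ a 0 c d = R.m ρ 1 0 0 1 := by
  rw [m6 _ _ _ hd]
  exact mt (s := d / a ^ 2) (t := a ^ 3 / d) (by positivity) (by positivity) (by field_simp) (by simp) (by simp)
    (by field_simp)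

theorem o3' (c : F) {d : F} (hd : d ≠ 0) : R.m ρ 0 0 c d = R.m ρ 0 0 0 1 := by
  rw [m6 _ _ _ hd]
  exact mt (s := d) (t := d⁻¹) hd (by positivity) (by simp) (by simp) (by simp) (by field_simp)

theorem o5 {a : F} (ha : a ≠ 0) : R.m ρ a 0 0 0 = R.m ρ 1 0 0 0 := mt one_ne_zero ha (by simp) (by simp) (by simp) (by simp)

theorem o5' {a : F} (ha : a ≠ 0) : R.m ρ 0 0 a 0 = R.m ρ 0 0 1 0 := mt one_ne_zero ha (by simp) (by simp) (by simp) (by simp)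

theorem y7 : ∃ c : ℕ → F, (∀ s, c s ≠ 0) ∧ ∀ a b d, ∑ e, R.m ρ a b e d ≤ ∑ e, R.m ρ (b / c 9) (a / c 8) e (d / c 11) := by
  obtain ⟨c, c1, c2⟩ := R.wey' ρ 7 one_ne_zero
  refine ⟨c, c1, fun a b d => ?_⟩
  rw [← dim_Y', ← dim_Y']
  exact move ρ (R.n 7 1) fun v hv => ⟨⟨(c2 11 (by decide) 11 rfl).2 _ v hv.1.1, (c2 8 (by decide) 9 rfl).2 _ v hv.2⟩,
    (c2 9 (by decide) 8 rfl).2 _ v hv.1.2⟩

include h3

theorem y6 : ∃ c : ℕ → F, (∀ s, c s ≠ 0) ∧ ∀ a b d, ∑ e, R.m ρ e a b d ≤ ∑ e, R.m ρ e (a / c 9) (d / c 11) (b / c 10) := by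
  obtain ⟨c, c1, c2⟩ := R.wey' ρ 6 one_ne_zero
  refine ⟨c, c1, fun a b d => ?_⟩
  rw [← dim_Y h3, ← dim_Y h3]
  exact move ρ (R.n 6 1) fun v hv => ⟨⟨(c2 10 (by decide) 11 rfl).2 _ v hv.1.2, (c2 11 (by decide) 10 rfl).2 _ v hv.1.1⟩,
    (c2 9 (by decide) 9 rfl).2 _ v hv.2⟩

theorem m2_eq : R.m ρ 0 1 1 0 = R.m ρ 0 1 0 1 := by
  obtain ⟨c, c1, c2⟩ := y6 (R := R) (ρ := ρ) h3
  have h1 := c2 1 1 0
  have h2 := c2 1 0 1
  simp only [zero_div, o1 h3 _ _ (one_div_ne_zero (c1 9)) (one_div_ne_zero (c1 10)), o2 h3 _ one_ne_zero one_ne_zero,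
    o1 h3 _ _ one_ne_zero one_ne_zero, o2 h3 _ (one_div_ne_zero (c1 9)) (one_div_ne_zero (c1 11)), Finset.sum_const,
    smul_eq_mul, Finset.card_univ] at h1 h2
  exact Nat.eq_of_mul_eq_mul_left Fintype.card_pos (h1.antisymm h2)

theorem m2_eq' : R.m ρ 1 0 0 1 = R.m ρ 0 1 0 1 := by
  obtain ⟨c, c1, c2⟩ := y7 (R := R) (ρ := ρ)
  have h1 := c2 1 0 1
  have h2 := c2 0 1 1
  simp only [zero_div, o1 h3 _ _ (one_div_ne_zero (c1 8)) (one_div_ne_zero (c1 11)), o2' _ one_ne_zero one_ne_zero,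
    o1 h3 _ _ one_ne_zero one_ne_zero, o2' _ (one_div_ne_zero (c1 9)) (one_div_ne_zero (c1 11)), Finset.sum_const,
    smul_eq_mul, Finset.card_univ] at h1 h2
  exact Nat.eq_of_mul_eq_mul_left Fintype.card_pos (h1.antisymm h2)

theorem S_le {a : F} (ha : a ≠ 0) : ∑ e, R.m ρ a 0 e 0 ≤ R.m ρ 0 1 0 0 + (Fintype.card F - 1) * R.m ρ 0 1 0 1 := by
  obtain ⟨c, c1, c2⟩ := y7 (R := R) (ρ := ρ)
  have h1 := c2 a 0 0
  simp only [zero_div] at h1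
  rwa [sum_split (f := fun e => R.m ρ 0 (a / c 8) e 0) fun e he => o2 h3 0 (div_ne_zero ha (c1 8)) he,
    o3 h3 _ (div_ne_zero ha (c1 8)), m2_eq h3] at h1

theorem S_ge : ∃ a, a ≠ 0 ∧ R.m ρ 0 1 0 0 + (Fintype.card F - 1) * R.m ρ 0 1 0 1 ≤ ∑ e, R.m ρ a 0 e 0 := by
  obtain ⟨c, c1, c2⟩ := y7 (R := R) (ρ := ρ)
  have h1 := c2 0 1 0
  simp only [zero_div] at h1
  rw [sum_split (f := fun e => R.m ρ 0 1 e 0) fun e he => o2 h3 0 one_ne_zero he, m2_eq h3] at h1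
  exact ⟨_, one_div_ne_zero (c1 9), h1⟩

theorem S_le' : ∑ e, R.m ρ e 0 1 0 ≤ R.m ρ 0 0 0 1 + (Fintype.card F - 1) * R.m ρ 0 1 0 1 := by
  obtain ⟨c, c1, c2⟩ := y6 (R := R) (ρ := ρ) h3
  have h1 := c2 0 1 0
  simp only [zero_div] at h1
  rwa [sum_split (f := fun e => R.m ρ e 0 0 (1 / c 10)) fun e he => o2' 0 he (one_div_ne_zero (c1 10)),
    o3' _ (one_div_ne_zero (c1 10)), m2_eq' h3] at h1

theorem S_ge' : ∃ a, a ≠ 0 ∧ R.m ρ 0 0 0 1 + (Fintype.card F - 1) * R.m ρ 0 1 0 1 ≤ ∑ e, R.m ρ e 0 a 0 := by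
  obtain ⟨c, c1, c2⟩ := y6 (R := R) (ρ := ρ) h3
  have h1 := c2 0 0 1
  simp only [zero_div] at h1
  rw [sum_split (f := fun e => R.m ρ e 0 0 1) fun e he => o2' 0 he one_ne_zero, m2_eq' h3] at h1
  exact ⟨_, one_div_ne_zero (c1 11), h1⟩

theorem dim3 {n : ℕ} (hn : Fintype.card F = n + 1) : finrank ℂ V = ∑ a, ∑ c, R.m ρ a 0 c 0 +
    n * ((n + 1) * (R.m ρ 0 1 0 0 + R.m ρ 0 0 0 1) + n * (n + 1) * (n + 3) * R.m ρ 0 1 0 1) := by
  have e : ∀ c d, finrank ℂ (R.A ρ c d) = ∑ b, ∑ a, R.m ρ a b c d := fun c d => by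
    rw [(A_inv9 c d).split]; simp only [dim_Y h3]
  rw [dim_W (R := R) (ρ := ρ) 11]
  simp only [dim_A, e]
  rw [sum_split (k := (n + 1) * (R.m ρ 0 0 0 1 + n * R.m ρ 0 1 0 1 + n * ((n + 1) * R.m ρ 0 1 0 1))) fun d hd => ?_,
    Finset.sum_comm, sum_split (k := (n + 1) * (R.m ρ 0 1 0 0 + n * R.m ρ 0 1 0 1)) fun b hb => ?_, Finset.sum_comm, hn]
  · simp only [Nat.add_sub_cancel]; ring
  · rw [Finset.sum_comm, ← hn]
    refine sum_const' fun a => ?_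
    rw [sum_split (f := fun c => R.m ρ a b c 0) fun c hc => o2 h3 a hb hc, hn, m2_eq h3, o3 h3 _ hb, Nat.add_sub_cancel]
  · rw [← hn]
    refine sum_const' fun c => ?_
    rw [sum_split (f := fun b => ∑ a, R.m ρ a b c d) fun b hb => sum_const' fun a => o1 h3 a c hb hd,
      sum_split (f := fun a => R.m ρ a 0 c d) fun a ha => o2' c ha hd, o3' c hd, m2_eq' h3, hn, Nat.add_sub_cancel]

theorem orb {a c : F} (h : R.m ρ a 0 c 0 ≠ 0) : ∃ ν, ∀ s,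
    finrank ℂ ↥(R.M ρ a 0 c 0 ⊓ R.W ρ 6 (ν + s * a - s ^ 3 * c)) ≠ 0 := by
  obtain ⟨ν, hν⟩ := (M_inv6 a 0 c).exists h
  exact ⟨ν, fun s => move_ne ρ (R.x 7 s) hν fun v hv => ⟨M_inv7 h3 a c 0 s v hv.1, mix hv.1 hv.2 s⟩⟩

theorem orb_le {a c : F} (h : R.m ρ a 0 c 0 ≠ 0) : ∃ ν,
    (Finset.univ.image fun s : F => ν + s * a - s ^ 3 * c).card ≤ R.m ρ a 0 c 0 := by
  obtain ⟨ν, hν⟩ := orb h3 h
  exact ⟨ν, (M_inv6 a 0 c).le _ (Finset.forall_mem_image.2 fun s _ => hν s)⟩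

variable (hq : 9 ≤ Fintype.card F)
include hq

theorem m1_ne {a c : F} (ha : a ≠ 0) (h : R.m ρ a 0 c 0 ≠ 0) : R.m ρ 0 1 0 1 ≠ 0 := by
  obtain ⟨ν, hν⟩ := orb h3 h
  obtain ⟨y, h1, h2⟩ := Finset.exists_mem_ne (s := Finset.univ.image fun s : F => ν + s * a - s ^ 3 * c)
    (by have := card_img ν (d := c) ha; omega) 0
  obtain ⟨s, -, rfl⟩ := Finset.mem_image.1 h1
  obtain ⟨d, d1, d2⟩ := n7 (R := R) (ρ := ρ)
  rw [← m2_eq h3, ← o2 h3 (0 / d 9) (div_ne_zero ha (d1 8)) (div_ne_zero h2 (d1 6))]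
  exact move_ne ρ _ (hν s) fun v hv => (d2 _ _ _ _ v hv).1

theorem S_big {a c : F} (ha : a ≠ 0) (hc : c ≠ 0) (h : R.m ρ a 0 c 0 ≠ 0) {b : F} (hb : b ≠ 0) :
    3 * (Fintype.card F - 1) ≤ 2 * ∑ e, R.m ρ b 0 e 0 := by
  obtain ⟨ν, hν⟩ := orb_le h3 h
  have h1 := card_img ν (d := c) ha
  have h2 := card_sq (d := c * (b / a)) (by positivity)
  have h4 := (Finset.card_nsmul_le_sum ((Finset.univ.erase 0).image fun s : F => c * (b / a) * s ^ 2)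
    (fun e => R.m ρ b 0 e 0) 3 (Finset.forall_mem_image.2 fun s hs => ?_)).trans
    (Finset.sum_le_sum_of_subset (Finset.subset_univ _))
  · rw [smul_eq_mul] at h4; omega
  have := Finset.ne_of_mem_erase hs
  rw [mt (a := a) (b := 0) (c := c) (d := 0) this (t := b / a / s) (by positivity) (by field_simp) (by simp)
    (by field_simp) (by simp)]
  omega

omit hq in
theorem m0_ge (h1 : R.m ρ 1 0 0 0 ≠ 0) (h2 : R.m ρ 0 0 1 0 ≠ 0) (h4 : 3 ≤ Fintype.card F) :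
    2 * (Fintype.card F - 1) ≤ R.m ρ 0 0 0 0 := by
  have i7 : ∀ a, R.Inv ρ (R.M ρ 0 0 0 0 ⊓ R.W ρ 6 a) 7 := fun a t v hv =>
    ⟨M_inv7 h3 0 0 0 t v hv.1, by simpa using mix hv.1 hv.2 t⟩
  set k : F → F → ℕ := fun a b => finrank ℂ ↥((R.M ρ 0 0 0 0 ⊓ R.W ρ 6 a) ⊓ R.W ρ 7 b) with hk
  have e : R.m ρ 0 0 0 0 = ∑ a, ∑ b, k a b := by
    rw [m, (M_inv6 0 0 0).split]; exact Finset.sum_congr rfl fun a _ => (i7 a).split
  have ht : ∀ a b s t : F, s ≠ 0 → t ≠ 0 → k (a * t) (b * s) ≠ 0 → k a b ≠ 0 := fun a b s t hs ht h => by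
    obtain ⟨g, g1, g2, g3⟩ := Mt (R := R) (ρ := ρ) hs ht
    exact move_ne ρ g h fun v hv => ⟨⟨g1 0 0 0 0 v (by simpa using hv.1.1), g2 a v hv.1.2⟩, g3 b v hv.2⟩
  obtain ⟨a, ha, b, hb⟩ : ∃ a, a ≠ 0 ∧ ∃ b, k a b ≠ 0 := by
    obtain ⟨ν, hν⟩ := orb h3 h2
    obtain ⟨s, hs⟩ : ∃ s : F, s ^ 3 = ν := Finite.surjective_of_injective (f := fun s : F => s ^ 3) (fun x y e => sub_eq_zero.1
      (pow_eq_zero_iff three_ne_zero |>.1 (by linear_combination e + (y ^ 2 * x - x ^ 2 * y) * h3))) ν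
    obtain ⟨d, d1, d2⟩ := n7 (R := R) (ρ := ρ)
    exact ⟨_, one_div_ne_zero (d1 10), (i7 _).exists (move_ne ρ _ (hν s) fun v hv => by simpa [hs] using d2 _ _ _ _ v hv)⟩
  obtain ⟨b', hb', a', ha'⟩ : ∃ b, b ≠ 0 ∧ ∃ a, k a b ≠ 0 := by
    obtain ⟨l, hl⟩ := (M_inv7 h3 1 0 0).exists h1
    have h5 : finrank ℂ ↥(R.M ρ 1 0 0 0 ⊓ R.W ρ 7 0) ≠ 0 := move_ne ρ (R.x 6 l) hl fun v hv =>
      ⟨M_inv6 1 0 0 l v hv.1, rel (R.r67 l) fun u => by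
        simp only [rm, ev hv.2, ev hv.1.2, ev hv.1.1.2, ev hv.1.1.1.1, ev hv.1.1.1.2, map_smul, smul_smul, ← ps_add]
        congr 2; ring⟩
    obtain ⟨c, c1, c2⟩ := R.wey' ρ 6 one_ne_zero
    have h6 : finrank ℂ ↥(R.M ρ 0 0 0 0 ⊓ R.W ρ 7 (1 / c 8)) ≠ 0 := move_ne ρ (R.n 6 1) h5 fun v hv =>
      ⟨⟨⟨⟨by simpa using (c2 10 (by decide) 11 rfl).2 _ v hv.1.1.1.2, by
        simpa using (c2 11 (by decide) 10 rfl).2 _ v hv.1.1.1.1⟩, by simpa using (c2 9 (by decide) 9 rfl).2 _ v hv.1.1.2⟩,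
        by simpa using (c2 7 (by decide) 8 rfl).2 _ v hv.2⟩, (c2 8 (by decide) 7 rfl).2 _ v hv.1.2⟩
    obtain ⟨a, ha⟩ := Inv.exists (R := R) (ρ := ρ) (r := 6) (U := R.M ρ 0 0 0 0 ⊓ R.W ρ 7 (1 / c 8)) (fun t v hv =>
      ⟨M_inv6 0 0 0 t v hv.1, rel (R.r67 t) fun u => by
        simp only [rm, ev hv.2, ev hv.1.2, ev hv.1.1.2, ev hv.1.1.1.1, ev hv.1.1.1.2, zero_mul, AddChar.map_zero_eq_one,
          one_smul]⟩) h6
    exact ⟨_, one_div_ne_zero (c1 8), a, by rwa [inf_right_comm] at ha⟩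
  rw [e]
  by_cases h : ∃ a b, a ≠ 0 ∧ b ≠ 0 ∧ k a b ≠ 0
  · obtain ⟨a, b, ha, hb, h⟩ := h
    refine le_trans ?_ (sum_ge (k := Fintype.card F - 1) fun x hx => le_trans ?_ (sum_ge (k := 1) fun y hy =>
      Nat.one_le_iff_ne_zero.2 (ht x y (b / y) (a / x) (by positivity) (by positivity) (by
        rwa [mul_div_cancel₀ _ hx, mul_div_cancel₀ _ hy]))))
    · exact le_add_left (Nat.mul_le_mul_right _ (by omega))
    · omega
  push Not at h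
  obtain rfl : b = 0 := by_contra fun e => hb (h a b ha e)
  obtain rfl : a' = 0 := by_contra fun e => ha' (h a' b' e hb')
  have h5 := sum_ge (f := fun a => ∑ b, k a b) (k := 1) fun x hx => (Nat.one_le_iff_ne_zero.2 (ht x 0 1 (a / x) one_ne_zero
    (by positivity) (by rwa [mul_div_cancel₀ _ hx, zero_mul]))).trans (Finset.single_le_sum (fun _ _ => Nat.zero_le _)
      (Finset.mem_univ 0))
  have h6 := sum_ge (f := k 0) (k := 1) fun y hy => Nat.one_le_iff_ne_zero.2 (ht 0 y (b' / y) 1 (by positivity) one_ne_zero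
    (by rwa [mul_div_cancel₀ _ hy, zero_mul]))
  omega

theorem bound3 (h1 : ρ (R.x 9 1) ≠ 1) : Fintype.card F ^ 4 + Fintype.card F ^ 2 ≤ finrank ℂ V + 2 := by
  obtain ⟨n, hn⟩ : ∃ n, Fintype.card F = n + 1 := ⟨Fintype.card F - 1, by omega⟩
  have e := dim3 (R := R) (ρ := ρ) h3 hn
  obtain ⟨a, ha, g1⟩ := S_ge (R := R) (ρ := ρ) h3
  have h4 : R.m ρ 0 1 0 1 ≠ 0 := fun h => h1 (triv (by
    have h5 : R.m ρ 0 1 0 0 = 0 := by
      rw [Finset.sum_eq_zero fun c _ => by_contra fun h' => m1_ne h3 hq ha h' h] at g1; omega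
    have h6 : ∀ b, b ≠ 0 → finrank ℂ (R.W ρ 9 b) = 0 := fun b hb => by
      rw [Inv.split (R := R) (ρ := ρ) (r := 11) fun t v hv => cmm hv t]
      refine Finset.sum_eq_zero fun d _ => ?_
      rw [Inv.split (R := R) (ρ := ρ) (r := 10) (U := R.W ρ 9 b ⊓ R.W ρ 11 d) fun t v hv => ⟨cmm hv.1 t, cmm hv.2 t⟩]
      refine Finset.sum_eq_zero fun c _ => ?_
      rw [inf_assoc, inf_comm, dim_Y h3]
      refine Finset.sum_eq_zero fun a _ => ?_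
      by_cases hd : d = 0
      · by_cases hc : c = 0
        · rw [hd, hc, o3 h3 a hb, h5]
        · rw [hd, o2 h3 a hb hc, m2_eq h3, h]
      · rw [o1 h3 a c hb hd, h]
    rw [dim_W (R := R) (ρ := ρ) 9, sum_split h6]; simp))
  have hn8 : 8 ≤ n := by omega
  by_cases h5 : 2 ≤ R.m ρ 0 1 0 1
  · rw [e, hn]
    have := Nat.mul_le_mul_left (n * (n * (n + 1) * (n + 3))) h5
    nlinarith [Nat.mul_le_mul_left (n ^ 3) hn8, Nat.mul_le_mul_left (n ^ 2) hn8, Nat.mul_le_mul_left n hn8,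
      Nat.zero_le (∑ a, ∑ c, R.m ρ a 0 c 0), Nat.zero_le (n * (n + 1) * (R.m ρ 0 1 0 0 + R.m ρ 0 0 0 1))]
  have h6 : R.m ρ 0 1 0 1 = 1 := by omega
  have g2 := S_le (R := R) (ρ := ρ) h3 ha
  have g3 := S_le' (R := R) (ρ := ρ) h3
  obtain ⟨a', ha', g4⟩ := S_ge' (R := R) (ρ := ρ) h3
  rw [h6, hn, Nat.add_sub_cancel, mul_one] at g1 g2 g3 g4
  rw [h6] at e
  by_cases h : ∃ a c, a ≠ 0 ∧ c ≠ 0 ∧ R.m ρ a 0 c 0 ≠ 0
  · obtain ⟨b, c, hb, hc, h⟩ := h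
    have h7 := fun b' => S_big h3 hq hb hc h (b := b')
    have h8 := sum_ge (f := fun a => ∑ c, R.m ρ a 0 c 0) (k := n + 4) fun x hx => by have := h7 x hx; omega
    have h9 : 4 ≤ R.m ρ 0 1 0 0 := by have := h7 a ha; omega
    rw [hn, Nat.add_sub_cancel] at h8
    rw [e, hn]
    have := Nat.mul_le_mul_left (n * (n + 1)) h9
    nlinarith [Nat.mul_le_mul_left n hn8, Nat.zero_le (∑ c, R.m ρ 0 0 c 0), Nat.zero_le (n * (n + 1) * R.m ρ 0 0 0 1)]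
  push Not at h
  have s1 : ∀ a, a ≠ 0 → ∑ c, R.m ρ a 0 c 0 = R.m ρ 1 0 0 0 := fun a ha => by
    rw [sum_split (f := fun c => R.m ρ a 0 c 0) fun c hc => h a c ha hc, o5 ha]; simp
  have s2 : ∀ c, c ≠ 0 → ∑ a, R.m ρ a 0 c 0 = R.m ρ 0 0 1 0 := fun c hc => by
    rw [sum_split (f := fun a => R.m ρ a 0 c 0) fun a ha => h a c ha hc, o5' hc]; simp
  rw [s1 a ha] at g1 g2
  rw [s2 _ one_ne_zero] at g3
  rw [s2 _ ha'] at g4
  obtain ⟨ν, k1⟩ := orb_le h3 (show R.m ρ 1 0 0 0 ≠ 0 by omega)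
  obtain ⟨ν', k2⟩ := orb_le h3 (show R.m ρ 0 0 1 0 ≠ 0 by omega)
  rw [Finset.card_image_of_injective _ fun x y e => by simpa using e, Finset.card_univ, hn] at k1
  rw [Finset.card_image_of_injective _ fun x y e => sub_eq_zero.1 (pow_eq_zero_iff three_ne_zero |>.1
    (by linear_combination (y ^ 2 * x - x ^ 2 * y) * h3 - e)), Finset.card_univ, hn] at k2
  have k3 := m0_ge h3 (show R.m ρ 1 0 0 0 ≠ 0 by omega) (by omega) (by omega)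
  rw [sum_split s1, sum_split (f := fun c => R.m ρ 0 0 c 0) fun c hc => o5' hc] at e
  rw [hn, Nat.add_sub_cancel] at e k3
  rw [e, hn]
  have := Nat.mul_le_mul_left (n * (n + 1)) (show 2 ≤ R.m ρ 0 1 0 0 + R.m ρ 0 0 0 1 by omega)
  nlinarith [Nat.mul_le_mul_left n k1, Nat.mul_le_mul_left n k2]

end G2R

theorem arith {q k : ℕ} (hq : 9 ≤ q) (h3 : q % 3 = 0) (h1 : q ^ 4 + q ^ 2 ≤ k + 2) (h2 : k ∣ q ^ 6 * (q ^ 2 - 1) * (q ^ 6 - 1)) :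
    q ^ 4 + q ^ 2 + 1 ≤ k := by
  by_contra h
  have h4 := Int.natCast_dvd_natCast.2 h2
  obtain ⟨r, rfl⟩ := Nat.dvd_of_mod_eq_zero h3
  rw [Nat.cast_mul, Nat.cast_mul, Nat.cast_sub (Nat.one_le_pow _ _ (by omega)),
    Nat.cast_sub (Nat.one_le_pow _ _ (by omega))] at h4
  push_cast at h4
  have hr : (3 : ℤ) ≤ r := by omega
  obtain ⟨x, hx⟩ : ∃ x : ℤ, x = r ^ 2 := ⟨_, rfl⟩
  have hx9 : 9 ≤ x := by nlinarith
  have e : ((3 * r : ℤ) ^ 6 * ((3 * r) ^ 2 - 1) * ((3 * r) ^ 6 - 1)) = (9 * x) ^ 3 * (9 * x - 1) * ((9 * x) ^ 3 - 1) := by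
    rw [hx]; ring
  have e' : (((3 * r) ^ 4 + (3 * r) ^ 2 : ℕ) : ℤ) = (9 * x) ^ 2 + 9 * x := by rw [hx]; push_cast; ring
  rw [e] at h4
  obtain h5 | h5 | h5 : (k : ℤ) = (9 * x + 2) * (9 * x - 1) ∨ (k : ℤ) = (9 * x) ^ 2 + 9 * x - 1 ∨
      (k : ℤ) = (9 * x + 1) * (9 * x) := by
    have : (9 * x + 2) * (9 * x - 1) = (9 * x) ^ 2 + 9 * x - 2 := by ring
    have : (9 * x + 1) * (9 * x) = (9 * x) ^ 2 + 9 * x := by ring
    omega
  · rw [h5, mul_right_comm] at h4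
    have h6 := (Int.dvd_of_mul_dvd_mul_right (by omega) h4)
    rw [show (9 * x) ^ 3 * ((9 * x) ^ 3 - 1) = (9 * x + 2) * ((9 * x) ^ 5 - 2 * (9 * x) ^ 4 + 4 * (9 * x) ^ 3 - 9 * (9 * x) ^ 2 +
      18 * (9 * x) - 36) + 72 by ring, dvd_add_right (dvd_mul_right _ _)] at h6
    have := Int.le_of_dvd (by norm_num) h6
    omega
  · rw [h5] at h4
    have c1 : IsCoprime ((9 * x) ^ 2 + 9 * x - 1) (9 * x) := ⟨-1, 9 * x + 1, by ring⟩
    rw [mul_assoc] at h4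
    have h6 := (c1.pow_right (n := 3)).dvd_of_dvd_mul_left h4
    rw [show (9 * x - 1) * ((9 * x) ^ 3 - 1) = ((9 * x) ^ 2 + 9 * x - 1) * ((9 * x) ^ 2 - 2 * (9 * x) + 3) - (6 * (9 * x) - 4) by
      ring, dvd_sub_right (dvd_mul_right _ _)] at h6
    have := Int.le_of_dvd (by omega) h6
    nlinarith
  · rw [h5] at h4
    have h6 := (dvd_mul_right _ _).trans h4
    rw [show (9 * x) ^ 3 * (9 * x - 1) * ((9 * x) ^ 3 - 1) = (9 * x + 1) * ((9 * x) ^ 6 - 2 * (9 * x) ^ 5 + 2 * (9 * x) ^ 4 -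
      2 * (9 * x) ^ 3 + (9 * x) ^ 2 * 4 - (9 * x) ^ 3 - 4 * (9 * x) + 4) - 4 by ring,
      dvd_sub_right (dvd_mul_right _ _)] at h6
    have := Int.le_of_dvd (by omega) h6
    omega

theorem main {F G : Type*} [Field F] [Fintype F] [Group G] [Finite G] (R : G2R F G) {V : Type*} [AddCommGroup V] [Module ℂ V]
    [FiniteDimensional ℂ V] (ρ : Representation ℂ G V) (h : 2 < Fintype.card F → ∀ r ∈ [9, 11], ρ (R.x r 1) ≠ 1) :
    (Fintype.card F % 3 = 1 → 4 < Fintype.card F → Fintype.card F ^ 3 + 1 ≤ finrank ℂ V) ∧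
    (Fintype.card F % 3 = 2 → 2 < Fintype.card F → Fintype.card F ^ 3 - 1 ≤ finrank ℂ V) ∧
    (Fintype.card F % 3 = 0 → 3 < Fintype.card F → 9 ≤ Fintype.card F ∧
      Fintype.card F ^ 4 + Fintype.card F ^ 2 ≤ finrank ℂ V + 2) := by
  have h3 : (3 : F) = 0 ↔ 3 ∣ Fintype.card F := by
    have : Fact (Nat.Prime 3) := ⟨Nat.prime_three⟩
    rw [← prime_dvd_char_iff_dvd_card, ← Nat.cast_ofNat, ringChar.spec]
    obtain ⟨p, hp⟩ := CharP.exists F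
    rw [ringChar.eq F p]
    have := CharP.char_is_prime F p
    rw [Nat.prime_dvd_prime_iff_eq this Nat.prime_three, Nat.prime_dvd_prime_iff_eq Nat.prime_three this, eq_comm]
  refine ⟨fun h1 h2 => ?_, fun h1 h2 => ?_, fun h1 h2 => ?_⟩
  · obtain ⟨c, hb⟩ := exists_core ρ
    letI : NormedAddCommGroup V := c.toNormedAddCommGroup
    letI : InnerProductSpace ℂ V := InnerProductSpace.ofCore c.toCore
    have : Fact (Nat.Prime 3) := ⟨Nat.prime_three⟩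
    obtain ⟨ω, hω⟩ := exists_prime_orderOf_dvd_card (G := Fˣ) 3 (by rw [Fintype.card_units]; omega)
    exact G2R.bound1 hb (by rw [Ne, h3]; omega) h2 (h (by omega) 11 (by simp)) (ω := ω)
      (fun e => by rw [Units.val_eq_one.1 e] at hω; simp at hω) (by rw [← hω, ← Units.val_pow_eq_pow_val, pow_orderOf_eq_one, Units.val_one])
  · rcases G2R.bound2 (by rw [Ne, h3]; omega) (by omega) (h h2 11 (by simp)) with h | h
    · omega
    · exact h.1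
  · have h4 := h3.2 (by omega)
    have h9 : 9 ≤ Fintype.card F := by
      have : CharP F 3 := (CharP.charP_iff_prime_eq_zero Nat.prime_three).2 (by exact_mod_cast h4)
      obtain ⟨n, -, e⟩ := FiniteField.card F 3
      rw [e] at h2 ⊢
      exact Nat.pow_le_pow_right (n := 3) (i := 2) (by decide) ((Nat.pow_lt_pow_iff_right (by decide)).1 (show 3 ^ 1 < _ from h2) : 2 ≤ (n : ℕ))
    exact ⟨h9, G2R.bound3 h4 h9 (h (by omega) 9 (by simp))⟩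

end H24.MG
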