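import Cfsg.Agent.H24.ME2

/-! Representations of twisted groups: weight spaces of root groups. -/

set_option autoImplicit false
set_option linter.unusedSectionVars false
set_option linter.unusedSimpArgs false
set_option maxHeartbeats 400000

namespace H24.MT
open Module MG
open MG.G2R (rm move move_ne)
open ME (rt_add rt_sub rt_ws ne_neg pos_one not_le_sim)
open scoped Classical

variable {ι Φ : Type} [Fintype ι] [DecidableEq ι] [Fintype Φ]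

/-- relations in a twisted group -/
structure TR (R : CD ι Φ) (σ : Φ → Φ) (π : ι → ι) {K : Type*} [Field K] (f : K →+* K) (G : Type*) [Group G] where
  Y : Φ → K → G
  hl : ∀ r, R.len r = 1
  ff : ∀ t, f (f t) = t
  nf : ∃ a, f a ≠ a
  σσ : ∀ r, σ (σ r) = r
  Aσ : ∀ r s, R.A (σ r) (σ s) = R.A r s
  rtσ : ∀ r l, R.rt (σ r) l = R.rt r (π l)
  htσ : ∀ r, R.ht (σ r) = R.ht r
  σs : ∀ i, σ (R.sim i) = R.sim (π i)
  A0 : ∀ r, σ r ≠ r → R.A r (σ r) = 0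
  quad : ∀ r s, R.A r s = -1 → R.A r (σ s) = -1 → σ r = r ∨ σ s = s
  add : ∀ r t u, Y r (t + u) = Y r t * Y r u
  Yσ : ∀ r t, ∃ t', Y r t = Y (σ r) t'
  cm : ∀ r s, 0 ≤ R.A r s → 0 ≤ R.A r (σ s) → ∀ t u, Commute (Y r t) (Y s u)
  r1 : ∀ r s, R.A r s = -1 → 0 ≤ R.A r (σ s) → ∃ ε : K, ε ≠ 0 ∧ ∀ t u,
    Y s u * Y r t = Y r t * (Y s u * Y (R.w r s) (ε * t * u))
  r2 : ∀ r s, σ r = r → σ s = s → R.A r s = -1 → ∃ ε : K, ε ≠ 0 ∧ ∀ t u,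
    Y s u * Y r t = Y r t * (Y s u * Y (R.w r s) (ε * (t + f t) * u))
  r3 : ∀ r s, σ r = r → σ s ≠ s → R.A r s = -1 → ∀ t u, ∃ a b,
    Y s u * Y r t = Y r t * (Y s u * (Y (R.w r s) a * Y (R.w (σ s) (R.w r s)) b))
  ker : ∀ r t, σ r = r → t + f t = 0 → Y r t = 1
  n1 : ∀ r, σ r = r → ∃ g, ∀ s, ∃ c : K, c ≠ 0 ∧ ∀ u, g * Y s u * g⁻¹ = Y (R.w r s) (c * u)
  n2 : ∀ r, σ r ≠ r → ∃ g, ∀ s, ∃ c : K, c ≠ 0 ∧ ∀ u, g * Y s u * g⁻¹ = Y (R.w r (R.w (σ r) s)) (c * u)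
  hh : ∀ r, σ r = r → ∀ a, a ≠ 0 → f a = a → ∃ g, ∀ s u, g * Y s u * g⁻¹ = Y s (a ^ R.A r s * u)

section
variable {K : Type*} [Field K] [Fintype K] (f : K →+* K)

/-- the fixed field -/
noncomputable def F0 : Finset K := Finset.univ.filter fun a => f a = a

variable {f} (ff : ∀ t, f (f t) = t) (nf : ∃ a, f a ≠ a)
include ff nf

theorem exists_tr {a : K} (ha : f a = a) : ∃ t, t + f t = a := by
  obtain ⟨b, hb⟩ : ∃ b, b + f b ≠ 0 := by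
    by_contra! h
    obtain ⟨c, hc⟩ := nf
    have h1 := h 1
    rw [map_one] at h1
    exact hc (by linear_combination h c - c * h1)
  refine ⟨a * b / (b + f b), ?_⟩
  rw [map_div₀, map_mul, map_add, ff, ha, add_comm (f b)]; field_simp

theorem ann {μ ν : K} (h1 : ∀ u, u + f u = 0 → ps K (μ * u) = 1) (h2 : ∀ u, u + f u = 0 → ps K (ν * u) = 1) (h0 : ν ≠ 0) :
    f (μ / ν) = μ / ν := by
  by_contra h
  set w := μ / ν with hw
  have e0 : w - f w ≠ 0 := sub_ne_zero.2 (Ne.symm h)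
  have := sum_ps (F := K) (w - f w)
  rw [if_neg e0, Finset.sum_congr rfl (g := fun _ => 1) fun z _ => ?_] at this
  · simp at this
  set a := (z / ν - f (z / ν)) / (w - f w) with ha
  have a1 : f a = a := by
    rw [ha, map_div₀, map_sub, map_sub, ff, ff, ← neg_div_neg_eq, neg_sub, neg_sub]
  have a2 : f (z / ν - a * w) = z / ν - a * w := by
    rw [map_sub, map_mul, a1, ha]; field_simp; ring
  have : (w - f w) * z = μ * (a * (w - f w)) + ν * ((z / ν - a * w) * (w - f w)) := by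
    rw [show μ = w * ν by rw [hw, div_mul_cancel₀ _ h0]]; field_simp; ring
  rw [this, ps_add, h1, h2, one_mul]
  · rw [map_mul, a2, map_sub f w, ff]; ring
  · rw [map_mul, a1, map_sub f w, ff]; ring
end

variable {R : CD ι Φ} {σ : Φ → Φ} {π : ι → ι} {K : Type*} [Field K] [Fintype K] {f : K →+* K} {G : Type*} [Group G]
  (S : TR R σ π f G) {V : Type*} [AddCommGroup V] [Module ℂ V] [FiniteDimensional ℂ V] (ρ : Representation ℂ G V)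

namespace TR

/-- weight spaces -/
def W (r : Φ) (μ : K) : Submodule ℂ V := Wt (fun t => ρ (S.Y r t)) μ

/-- fixed points of a set of root groups -/
def Fx (P : Φ → Prop) : Submodule ℂ V := ⨅ δ, ⨅ _ : P δ, S.W ρ δ 0

/-- invariance under a root group -/
def Inv (U : Submodule ℂ V) (r : Φ) : Prop := ∀ t, ∀ v ∈ U, ρ (S.Y r t) v ∈ U

theorem Y_zero (r : Φ) : S.Y r 0 = 1 := by simpa using S.add r 0 0

include S in
theorem sy (r s : Φ) : R.A s r = R.A r s := (R.A_cases S.hl r s).1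

include S in
theorem cases (r s : Φ) : s = r ∨ s = R.neg r ∨ R.A r s = 1 ∨ R.A r s = 0 ∨ R.A r s = -1 := (R.A_cases S.hl r s).2

include S in
theorem le_one {r s : Φ} (h : s ≠ r) : R.A r s ≤ 1 := by
  rcases S.cases r s with e | rfl | e | e | e
  · exact absurd e h
  · rw [R.A_neg_right, R.A_self]; omega
  all_goals omega

include S in
theorem ge_or {r s : Φ} (h : s ≠ R.neg r) : 0 ≤ R.A r s ∨ R.A r s = -1 := by
  rcases S.cases r s with rfl | e | e | e | e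
  · rw [R.A_self]; omega
  · exact absurd e h
  all_goals omega

include S in
theorem Aσ' (r s : Φ) : R.A (σ r) s = R.A r (σ s) := by rw [← S.Aσ, S.σσ]

include S in
theorem A_fix {r : Φ} (h : σ r = r) (s : Φ) : R.A r (σ s) = R.A r s := by rw [← S.Aσ', h]

include S in
theorem posσ {r : Φ} (h : R.Pos r) : R.Pos (σ r) := fun l => S.rtσ r l ▸ h _

include S in
theorem w_comm {r s : Φ} (h : R.A r s = -1) : R.w s r = R.w r s :=
  R.rt_inj (funext fun l => by rw [rt_add h, rt_add ((S.sy _ _).trans h), add_comm])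

include S in
theorem σw (r s : Φ) : σ (R.w r s) = R.w (σ r) (σ s) :=
  R.rt_inj (funext fun l => by simp [S.rtσ, R.rt_w, S.Aσ])

variable {S ρ}

theorem mem_Fx {P : Φ → Prop} {v : V} : v ∈ S.Fx ρ P ↔ ∀ δ, P δ → v ∈ S.W ρ δ 0 := by simp [Fx]

theorem ev {r : Φ} {μ : K} {v : V} (h : v ∈ S.W ρ r μ) (t : K) : ρ (S.Y r t) v = ps K (μ * t) • v := h t

theorem fx {r : Φ} {v : V} (hv : v ∈ S.W ρ r 0) (t : K) : ρ (S.Y r t) v = v := by simp [ev hv]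

theorem of_fx {r : Φ} {v : V} (hv : ∀ t, ρ (S.Y r t) v = v) : v ∈ S.W ρ r 0 := fun t => by simp [hv]

theorem Wσ {r : Φ} {v : V} (hv : v ∈ S.W ρ (σ r) 0) : v ∈ S.W ρ r 0 := of_fx fun t => by
  obtain ⟨t', e⟩ := S.Yσ r t
  rw [e, fx hv]

theorem hadd (r : Φ) (a b : K) : ρ (S.Y r (a + b)) = ρ (S.Y r a) * ρ (S.Y r b) := by rw [S.add, map_mul]

theorem Inv.split {U : Submodule ℂ V} {r : Φ} (h : S.Inv ρ U r) : finrank ℂ U = ∑ μ, finrank ℂ ↥(U ⊓ S.W ρ r μ) :=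
  MG.split (hadd r) (by rw [Y_zero, map_one]) h

theorem Inv.inf {U U' : Submodule ℂ V} {r : Φ} (h : S.Inv ρ U r) (h' : S.Inv ρ U' r) : S.Inv ρ (U ⊓ U') r :=
  fun t v hv => ⟨h t v hv.1, h' t v hv.2⟩

theorem Inv.exists {U : Submodule ℂ V} {r : Φ} (h : S.Inv ρ U r) (h0 : finrank ℂ U ≠ 0) :
    ∃ a, finrank ℂ ↥(U ⊓ S.W ρ r a) ≠ 0 := by
  by_contra! H
  exact h0 (by rw [h.split]; simp [H])

theorem Inv.ge {U : Submodule ℂ V} {r : Φ} (h : S.Inv ρ U r) {c : K} (hc : c ≠ 0) {k : ℕ}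
    (hk : ∀ a, a ≠ 0 → f a = a → k ≤ finrank ℂ ↥(U ⊓ S.W ρ r (c * a))) :
    finrank ℂ ↥(U ⊓ S.W ρ r 0) + ((F0 f).card - 1) * k ≤ finrank ℂ U := by
  have h0 : (0 : K) ∈ F0 f := by simp [F0]
  rw [h.split]
  refine le_trans ?_ (Finset.sum_le_sum_of_subset (Finset.subset_univ ((F0 f).image (c * ·))))
  rw [Finset.sum_image fun a _ b _ e => mul_left_cancel₀ hc e, ← Finset.add_sum_erase _ _ h0, mul_zero,
    ← Finset.card_erase_of_mem h0]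
  exact Nat.add_le_add_left (Finset.card_nsmul_le_sum _ _ _ fun a ha =>
    hk a (Finset.ne_of_mem_erase ha) (by simpa [F0] using Finset.mem_of_mem_erase ha)) _

theorem rel {s : Φ} {μ : K} {g : G} {k : K → G} {v : V} (h : ∀ u, S.Y s u * g = g * k u)
    (hv : ∀ u, ρ (k u) v = ps K (μ * u) • v) : ρ g v ∈ S.W ρ s μ := fun u => by
  simp only [← rm, h]; rw [rm, hv, map_smul]

theorem cnj {r s : Φ} {μ ν c : K} {g : G} {v : V} (h : ∀ u, g * S.Y r u * g⁻¹ = S.Y s (c * u)) (hc : c ≠ 0)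
    (hv : v ∈ S.W ρ r μ) (e : ν * c = μ) : ρ g v ∈ S.W ρ s ν :=
  rel (k := fun u => S.Y r (c⁻¹ * u)) (fun u => by rw [← eq_mul_inv_iff_mul_eq, h, mul_inv_cancel_left₀ hc]) fun u => by
    rw [ev hv, ← e, mul_assoc, mul_inv_cancel_left₀ hc]

variable (ρ) in
theorem nm {w : Φ → Φ} (h : ∃ g, ∀ s, ∃ c : K, c ≠ 0 ∧ ∀ u, g * S.Y s u * g⁻¹ = S.Y (w s) (c * u)) (hw : ∀ s, w (w s) = s) :
    ∃ g, (∀ s μ, μ ≠ 0 → ∃ ν, ν ≠ 0 ∧ ∀ v ∈ S.W ρ (w s) μ, ρ g v ∈ S.W ρ s ν) ∧ ∀ s, ∀ v ∈ S.W ρ (w s) 0, ρ g v ∈ S.W ρ s 0 := by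
  obtain ⟨g, hg⟩ := h
  refine ⟨g, fun s μ hμ => ?_, fun s v hv => ?_⟩ <;> obtain ⟨c, c0, e⟩ := hg (w s) <;> rw [hw] at e
  · exact ⟨μ / c, div_ne_zero hμ c0, fun v hv => cnj e c0 hv (div_mul_cancel₀ _ c0)⟩
  · exact cnj e c0 hv (zero_mul _)

variable (ρ) in
theorem tor {r s : Φ} (hr : σ r = r) (h : R.A r s = -1) (c : K) {a : K} (a0 : a ≠ 0) (ha : f a = a) (P : Φ → Prop) :
    finrank ℂ ↥(S.W ρ s c ⊓ S.Fx ρ P) ≤ finrank ℂ ↥(S.W ρ s (c * a) ⊓ S.Fx ρ P) := by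
  obtain ⟨g, hg⟩ := S.hh r hr a a0 ha
  exact move ρ g fun v hv => ⟨cnj (hg s) (zpow_ne_zero _ a0) hv.1 (by rw [h]; field_simp),
    mem_Fx.2 fun δ hδ => cnj (hg δ) (zpow_ne_zero _ a0) (mem_Fx.1 hv.2 δ hδ) (zero_mul _)⟩

theorem cmm {s r : Φ} (h : 0 ≤ R.A r s) (h' : 0 ≤ R.A r (σ s)) (μ : K) : S.Inv ρ (S.W ρ s μ) r := fun t _ hv =>
  rel (fun u => (S.cm r s h h' t u).symm.eq) hv

variable (R σ) in
/-- the roots occurring in a commutator -/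
def Sm (r s δ : Φ) : Prop := (∀ l, R.rt δ l = R.rt s l + R.rt r l) ∨ (∀ l, R.rt δ l = R.rt s l + R.rt (σ r) l) ∨
  (σ δ = δ ∧ σ s ≠ s ∧ ∀ l, R.rt δ l = R.rt s l + R.rt (σ s) l + R.rt r l) ∨
  σ δ = δ ∧ σ r ≠ r ∧ ∀ l, R.rt δ l = R.rt s l + R.rt r l + R.rt (σ r) l

include S in
theorem trip {r s : Φ} (hr : σ r = r) (hs : σ s ≠ s) (h : R.A r s = -1) : σ (R.w (σ s) (R.w r s)) = R.w (σ s) (R.w r s) ∧
    ∀ l, R.rt (R.w (σ s) (R.w r s)) l = R.rt s l + R.rt (σ s) l + R.rt r l := by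
  have e : R.A (σ s) (R.w r s) = -1 := by rw [R.A_w, S.sy s, S.A0 s hs, S.sy r, S.A_fix hr, h]; rfl
  have : ∀ l, R.rt (R.w (σ s) (R.w r s)) l = R.rt s l + R.rt (σ s) l + R.rt r l := fun l => by
    rw [rt_add e, rt_add h]; ring
  refine ⟨R.rt_inj (funext fun l => ?_), this⟩
  rw [S.rtσ, this, this, ← S.rtσ, ← S.rtσ, ← S.rtσ, S.σσ, hr]; ring

theorem gen {r s : Φ} {μ : K} {v : V} (hv : v ∈ S.W ρ s μ) (h1 : s ≠ R.neg r) (h2 : s ≠ R.neg (σ r))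
    (h3 : ∀ δ, Sm R σ r s δ → v ∈ S.W ρ δ 0) (t : K) : ρ (S.Y r t) v ∈ S.W ρ s μ := by
  have key : ∀ r t, R.A r s = -1 → 0 ≤ R.A r (σ s) → v ∈ S.W ρ (R.w r s) 0 → ρ (S.Y r t) v ∈ S.W ρ s μ :=
    fun r t a b h => let ⟨ε, _, e⟩ := S.r1 r s a b; rel (e t) fun u => by rw [rm, fx h, ev hv]
  rcases S.ge_or h1 with a | a <;> rcases S.ge_or h2 with b | b
  · exact cmm a (S.Aσ' r s ▸ b) μ t v hv
  · obtain ⟨t', e⟩ := S.Yσ r t
    exact e ▸ key _ _ b (by rwa [S.Aσ]) (h3 _ (.inr (.inl (rt_add b))))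
  · exact key _ _ a (S.Aσ' r s ▸ b) (h3 _ (.inl (rt_add a)))
  have h4 := h3 _ (.inl (rt_add a))
  by_cases hs : σ s = s
  · by_cases hr : σ r = r
    · obtain ⟨ε, -, e⟩ := S.r2 r s hr hs a
      exact rel (e t) fun u => by rw [rm, fx h4, ev hv]
    have a' := (S.sy _ _).trans a
    have h5 := S.trip hs hr a'
    intro u
    obtain ⟨x, y, e⟩ := S.r3 s r hs hr a' u t
    have := congrArg (fun g => ρ g v) e
    simp only [rm] at this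
    rw [fx (h3 _ (.inr (.inr (.inr ⟨h5.1, hr, fun l => by rw [h5.2]; ring⟩)))), S.w_comm a, fx h4, ev hv, map_smul] at this
    exact this.symm
  have hr := (S.quad r s a (S.Aσ' r s ▸ b)).resolve_right hs
  have h5 := S.trip hr hs a
  intro u
  obtain ⟨x, y, e⟩ := S.r3 r s hr hs a t u
  change ρ _ _ = _
  rw [← rm, e, rm, rm, rm, fx (h3 _ (.inr (.inr (.inl ⟨h5.1, hs, h5.2⟩)))), fx h4, ev hv, map_smul]

theorem inv_Fx {P : Φ → Prop} {r : Φ} (h : ∀ s, P s → s ≠ R.neg r ∧ s ≠ R.neg (σ r) ∧ ∀ δ, Sm R σ r s δ → P δ) :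
    S.Inv ρ (S.Fx ρ P) r := fun t _ hv => mem_Fx.2 fun s hs =>
  gen (mem_Fx.1 hv s hs) (h s hs).1 (h s hs).2.1 (fun δ e => mem_Fx.1 hv _ ((h s hs).2.2 δ e)) t

theorem heisS {U : Submodule ℂ V} {r δ : Φ} {c : K} (hc : c ≠ 0) (h : R.A r δ = -1) (h' : 0 ≤ R.A r (σ δ))
    (hU : U ≤ S.W ρ (R.w r δ) c) (h1 : S.Inv ρ U r) (h2 : S.Inv ρ U δ) :
    finrank ℂ U = Fintype.card K * finrank ℂ ↥(U ⊓ S.W ρ δ 0) := by
  obtain ⟨ε, h0, e⟩ := S.r1 r δ h h'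
  have : ∀ a b, finrank ℂ ↥(U ⊓ S.W ρ δ a) ≤ finrank ℂ ↥(U ⊓ S.W ρ δ b) := fun a b =>
    move ρ (S.Y r ((b - a) / (ε * c))) fun v hv => ⟨h1 _ v hv.1, rel (e _) fun u => by
      simp only [rm, ev hv.2, ev (hU hv.1), map_smul, smul_smul, ← ps_add]; congr 2; field_simp; ring⟩
  rw [h2.split]
  exact sum_const' fun a => (this _ _).antisymm (this _ _)

theorem heisL {U : Submodule ℂ V} {r δ : Φ} {c : K} (hc : c ≠ 0) (hr : σ r = r) (hδ : σ δ = δ) (h : R.A r δ = -1)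
    (hU : U ≤ S.W ρ (R.w r δ) c) (h1 : S.Inv ρ U r) (h2 : S.Inv ρ U δ) :
    (F0 f).card * finrank ℂ ↥(U ⊓ S.W ρ δ 0) ≤ finrank ℂ U ∧ (finrank ℂ U ≠ 0 → finrank ℂ ↥(U ⊓ S.W ρ δ 0) ≠ 0) := by
  obtain ⟨ε, h0, e⟩ := S.r2 r δ hr hδ h
  have key : ∀ μ a, f a = a → finrank ℂ ↥(U ⊓ S.W ρ δ μ) ≤ finrank ℂ ↥(U ⊓ S.W ρ δ (μ + c * ε * a)) := fun μ a ha => by
    obtain ⟨t, rfl⟩ := exists_tr S.ff S.nf ha
    exact move ρ (S.Y r t) fun v hv => ⟨h1 _ v hv.1, rel (e _) fun u => by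
      simp only [rm, ev hv.2, ev (hU hv.1), map_smul, smul_smul, ← ps_add]; congr 2; ring⟩
  refine ⟨le_trans (le_of_eq ?_) (h2.ge (mul_ne_zero hc h0) fun a _ ha => zero_add (c * ε * a) ▸ key 0 a ha), fun hU0 => ?_⟩
  · have : 1 ≤ (F0 f).card := Finset.card_pos.2 ⟨0, by simp [F0]⟩
    obtain ⟨p, hp⟩ := Nat.exists_eq_add_of_le' this
    rw [hp, Nat.add_sub_cancel]; ring
  obtain ⟨μ, hμ⟩ := h2.exists hU0
  have an : ∀ μ, finrank ℂ ↥(U ⊓ S.W ρ δ μ) ≠ 0 → ∀ u, u + f u = 0 → ps K (μ * u) = 1 := fun μ h u hu => by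
    obtain ⟨v, hv, v0⟩ := (U ⊓ S.W ρ δ μ).exists_mem_ne_zero_of_ne_bot fun e => h (by rw [e, finrank_bot])
    have := ev hv.2 u
    rw [S.ker δ u hδ hu, map_one, End.one_apply] at this
    exact smul_left_injective ℂ v0 (this.symm.trans (one_smul _ _).symm)
  have h3 := ann S.ff S.nf (an μ hμ) (ν := c * ε) (fun u hu => by
    have := an _ (fun e => hμ (Nat.eq_zero_of_le_zero (e ▸ key μ 1 (map_one f)))) u hu
    rwa [add_mul, ps_add, an μ hμ u hu, one_mul, mul_one] at this) (mul_ne_zero hc h0)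
  have := key μ (-(μ / (c * ε))) (by rw [map_neg, h3])
  rw [show μ + c * ε * -(μ / (c * ε)) = 0 by field_simp; ring] at this
  omega

theorem heisA {β : Φ} (hβ : σ β = β) {c : K} (hc : c ≠ 0) {q : ℕ} (hq : (F0 f).card = q) (hK : Fintype.card K = q ^ 2)
    (L : Finset Φ) (h1 : ∀ δ ∈ L, R.A β δ = 1) (h2 : ∀ δ ∈ L, ∀ δ' ∈ L, 0 ≤ R.A δ δ' ∧ 0 ≤ R.A δ (σ δ') ∧ (σ δ' = δ → δ' = δ)) :
    q ^ (∑ δ ∈ L, if σ δ = δ then 1 else 2) * finrank ℂ ↥(S.W ρ β c ⊓ S.Fx ρ (· ∈ L)) ≤ finrank ℂ (S.W ρ β c) ∧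
      (finrank ℂ (S.W ρ β c) ≠ 0 → finrank ℂ ↥(S.W ρ β c ⊓ S.Fx ρ (· ∈ L)) ≠ 0) := by
  induction L using Finset.induction_on with
  | empty =>
    have : S.W ρ β c ⊓ S.Fx ρ (· ∈ (∅ : Finset Φ)) = S.W ρ β c := inf_eq_left.2 fun v _ => mem_Fx.2 (by simp)
    rw [this]; simp
  | insert δ L hδ ih =>
    have e1 := h1 δ (by simp)
    have e2 : R.A δ β = 1 := (S.sy _ _).trans e1
    have e3 : R.A (R.w δ β) δ = -1 := by rw [S.sy, R.A_w_right, e2]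
    have e4 : R.w (R.w δ β) δ = β := R.rt_inj (funext fun l => by rw [rt_add e3, rt_sub e2]; ring)
    have : S.W ρ β c ⊓ S.Fx ρ (· ∈ insert δ L) = S.W ρ β c ⊓ S.Fx ρ (· ∈ L) ⊓ S.W ρ δ 0 := by
      ext v; simp only [Submodule.mem_inf, mem_Fx, Finset.forall_mem_insert]; tauto
    have ih := ih (fun a ha => h1 a (by simp [ha])) fun a ha b hb => h2 a (by simp [ha]) b (by simp [hb])
    have e5 : R.A (R.w δ β) β = 1 := by rw [S.sy, R.A_w, R.A_self, e1, e2]; rfl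
    have i1 : S.Inv ρ (S.W ρ β c ⊓ S.Fx ρ (· ∈ L)) (R.w δ β) := by
      refine (cmm (by omega) (by rw [hβ]; omega) c).inf fun t v hv => mem_Fx.2 fun a ha => cmm ?_ ?_ 0 t v (mem_Fx.1 hv a ha)
      · have := S.le_one (r := a) (s := δ) (by rintro rfl; exact hδ ha)
        rw [S.sy, R.A_w, e2, S.sy β, h1 a (by simp [ha])]; omega
      · have := S.le_one (r := σ a) (s := δ) fun e => hδ ((h2 δ (by simp) a (by simp [ha])).2.2 e.symm ▸ ha)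
        rw [S.sy, R.A_w, e2, S.sy β, S.A_fix hβ, h1 a (by simp [ha])]; omega
    have i2 : S.Inv ρ (S.W ρ β c ⊓ S.Fx ρ (· ∈ L)) δ := (cmm (by omega) (by rw [hβ]; omega) c).inf fun t v hv =>
      mem_Fx.2 fun a ha => cmm (h2 δ (by simp) a (by simp [ha])).1 (h2 δ (by simp) a (by simp [ha])).2.1 0 t v (mem_Fx.1 hv a ha)
    rw [this, Finset.sum_insert hδ, pow_add, mul_comm (q ^ _), mul_assoc]
    split_ifs with h
    · have := heisL hc (by rw [S.σw, h, hβ]) h e3 (by rw [e4]; exact inf_le_left) i1 i2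
      rw [hq] at this
      exact ⟨(Nat.mul_le_mul_left _ (by simpa using this.1)).trans ih.1, fun h0 => this.2 (ih.2 h0)⟩
    · have := heisS hc e3 (by rw [S.sy, R.A_w, e2, S.sy β, S.A_fix hβ, e1, S.sy δ, S.A0 δ h]; omega)
        (by rw [e4]; exact inf_le_left) i1 i2
      rw [hK] at this
      exact ⟨this ▸ ih.1, fun h0 => right_ne_zero_of_mul (this ▸ ih.2 h0)⟩

/-- two root groups normalizing a line -/
theorem line {U : Submodule ℂ V} (hU : finrank ℂ U ≤ 1) {r s : Φ} (h : R.A r s = -1)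
    (h' : 0 ≤ R.A r (σ s) ∨ σ r = r ∧ σ s = s) (h1 : S.Inv ρ U r) (h2 : S.Inv ρ U s) : U ≤ S.W ρ (R.w r s) 0 :=
    fun v hv => of_fx fun t => by
  obtain ⟨a, b, e⟩ : ∃ a b, S.Y s b * S.Y r a = S.Y r a * (S.Y s b * S.Y (R.w r s) t) := by
    rcases h' with h' | h'
    · obtain ⟨ε, h0, e⟩ := S.r1 r s h h'
      exact ⟨1, t / ε, by rw [e, mul_one, mul_div_cancel₀ _ h0]⟩
    · obtain ⟨ε, h0, e⟩ := S.r2 r s h'.1 h'.2 h
      obtain ⟨a, ha⟩ := exists_tr S.ff S.nf (map_one f)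
      exact ⟨a, t / ε, by rw [e, ha, mul_one, mul_div_cancel₀ _ h0]⟩
  obtain ⟨y, hy⟩ := finrank_le_one_iff.1 hU
  obtain ⟨c, hc⟩ := hy ⟨v, hv⟩
  obtain ⟨a', ha⟩ := hy ⟨_, h1 a y y.2⟩
  obtain ⟨b', hb⟩ := hy ⟨_, h2 b y y.2⟩
  have hc := congrArg Subtype.val hc
  have ha := congrArg Subtype.val ha
  have hb := congrArg Subtype.val hb
  simp only [Submodule.coe_smul] at ha hb hc
  have e1 : ρ (S.Y s b * S.Y r a) v = ρ (S.Y r a * S.Y s b) v := by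
    simp only [rm, ← hc, map_smul, ← ha, ← hb, smul_comm a' b']
  rw [e, ← mul_assoc, rm] at e1
  exact ME.inj _ e1

end TR
end H24.MT
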