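import Cfsg.Agent.H24.MT1

/-! Representations of twisted groups: the minimal case. -/

set_option autoImplicit false
set_option linter.unusedSectionVars false
set_option linter.unusedSimpArgs false
set_option maxHeartbeats 400000

namespace H24.MT.TR
open Module MG
open MG.G2R (rm move move_ne)
open ME (rt_add rt_sub rt_ws ne_neg pos_one not_le_sim)
open scoped Classical

variable {ι Φ : Type} [Fintype ι] [DecidableEq ι] [Fintype Φ]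
  {R : CD ι Φ} {σ : Φ → Φ} {π : ι → ι} {K : Type*} [Field K] [Fintype K] {f : K →+* K} {G : Type*} [Group G]
  (S : TR R σ π f G) {V : Type*} [AddCommGroup V] [Module ℂ V] [FiniteDimensional ℂ V] (ρ : Representation ℂ G V)

/-- the multiplicity space of a Heisenberg representation -/
def Lm (j : ι) (c : K) : Submodule ℂ V := S.W ρ (R.sim j) c ⊓ S.Fx ρ fun δ => R.A (R.sim j) δ = 1 ∧ 0 < R.rt δ j

/-- weight vectors of `β` fixed by the roots not below `β` -/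
def T (β : Φ) (c : K) : Submodule ℂ V := S.W ρ β c ⊓ S.Fx ρ fun δ => R.Pos δ ∧ ¬ R.rt δ ≤ R.rt β

include S in
theorem Sm_k {k : ι} (hk : π k = k) {r s δ : Φ} (h : Sm R σ r s δ) :
    (R.A (R.sim k) δ = R.A (R.sim k) s + R.A (R.sim k) r ∧ R.rt δ k = R.rt s k + R.rt r k) ∨
    (σ s ≠ s ∧ R.A (R.sim k) δ = 2 * R.A (R.sim k) s + R.A (R.sim k) r ∧ R.rt δ k = 2 * R.rt s k + R.rt r k) ∨
    σ δ = δ ∧ σ r ≠ r ∧ R.A (R.sim k) δ = R.A (R.sim k) s + 2 * R.A (R.sim k) r ∧ R.rt δ k = R.rt s k + 2 * R.rt r k := by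
  have h1 : ∀ r, R.Av (R.sim k) (R.rt (σ r)) = R.A (R.sim k) r := S.A_fix (by rw [S.σs, hk])
  have h2 : ∀ r, R.rt (σ r) k = R.rt r k := fun r => by rw [S.rtσ, hk]
  rcases h with e | e | ⟨-, a, e⟩ | ⟨a, b, e⟩
  · exact .inl ⟨by rw [RS.A_def, show R.rt δ = R.rt s + R.rt r from funext e, map_add]; rfl, e k⟩
  · exact .inl ⟨by rw [RS.A_def, show R.rt δ = R.rt s + R.rt (σ r) from funext e, map_add, h1]; rfl, by rw [e, h2]⟩
  · exact .inr (.inl ⟨a, by rw [RS.A_def, show R.rt δ = R.rt s + R.rt (σ s) + R.rt r from funext e, map_add, map_add, h1, two_mul]; rfl,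
      by rw [e, h2]; ring⟩)
  · exact .inr (.inr ⟨a, b, by
      rw [RS.A_def, show R.rt δ = R.rt s + R.rt r + R.rt (σ r) from funext e, map_add, map_add, h1, two_mul, add_assoc]; rfl,
      by rw [e, h2]; ring⟩)

include S in
theorem Sm_le {r s δ : Φ} (hr : R.Pos r) (hs : R.Pos s) (h : Sm R σ r s δ) : (∀ l, R.rt s l ≤ R.rt δ l) ∧ R.ht s < R.ht δ := by
  have h1 := R.ht_pos hr
  have h2 := R.ht_pos hs
  have h3 := S.htσ r
  have h4 := S.htσ s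
  simp only [R.ht_def] at *
  rcases h with e | e | ⟨-, -, e⟩ | ⟨-, -, e⟩ <;> refine ⟨fun l => ?_, by simp only [e, Finset.sum_add_distrib]; omega⟩ <;>
    have := hr l <;> have := S.posσ hr l <;> have := S.posσ hs l <;> rw [e] <;> omega

variable {S ρ}

theorem wt_zero {r : Φ} {c : K} (hc : c ≠ 0) {v : V} (h : v ∈ S.W ρ r c) (h' : v ∈ S.W ρ r 0) : v = 0 := by
  have := (pj_wt (μ := c) h).symm.trans (pj_wt h')
  rw [if_pos rfl, if_neg hc.symm, zero_smul] at this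
  exact (smul_eq_zero.1 this).resolve_left card_ne

theorem special {k : ι} (hk : π k = k) (hD1 : ∀ δ, σ δ = δ → R.A (R.sim k) δ = -1 → 0 < R.rt δ k → ∃ δ', σ δ' = δ' ∧
      R.A (R.sim k) δ' = 0 ∧ R.A δ' δ = 1 ∧ 0 ≤ R.rt δ' k ∧ R.rt δ' k ≤ R.rt δ k)
    (hD : ∀ δ, R.A (R.sim k) δ = 0 ∨ R.A (R.sim k) δ = -1 → 0 ≤ R.rt δ k → ∃ δ', R.A (R.sim k) δ' = 0 ∧
      R.A δ' δ = 1 ∧ 0 ≤ R.rt δ' k ∧ R.rt δ' k ≤ R.rt δ k ∧ (R.A δ' (σ δ') ≤ R.A δ' (σ δ) ∨ σ δ' = δ' ∧ σ δ = δ))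
    {c : K} (h : finrank ℂ (S.Lm ρ k c) ≤ 1) : S.Lm ρ k c ≤ S.T ρ (R.sim k) c := by
  have hβ : σ (R.sim k) = R.sim k := by rw [S.σs, hk]
  have h4 : R.rt (R.sim k) k = 1 := by simp [R.rt_sim]
  have hn : ∀ δ s, 0 ≤ R.rt δ k → 0 < R.rt s k → s ≠ R.neg δ ∧ s ≠ R.neg (σ δ) := fun δ s h1 h2 => by
    constructor <;> rintro rfl <;> simp only [R.rt_neg, Pi.neg_apply, S.rtσ, hk] at h2 <;> omega
  have hA : ∀ δ, R.A (R.sim k) δ = 0 → 0 ≤ R.rt δ k → S.Inv ρ (S.Lm ρ k c) δ := fun δ h1 h2 =>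
    (cmm (by rw [S.sy, h1]) (by rw [hβ, S.sy, h1]) c).inf (inv_Fx fun s hs => ⟨(hn _ _ h2 hs.2).1, (hn _ _ h2 hs.2).2, fun a e => by
      rcases S.Sm_k hk e with e | e | e
      · omega
      · have := S.le_one (r := R.sim k) (s := a) (by rintro rfl; omega)
        omega
      · omega⟩)
  have key : ∀ δ δ', R.A (R.sim k) δ' = 0 → R.A δ' δ = 1 → 0 ≤ R.rt δ' k →
      (R.A δ' (σ δ') ≤ R.A δ' (σ δ) ∨ σ δ' = δ' ∧ σ δ = δ) → (∀ a, R.A (R.sim k) a = R.A (R.sim k) δ →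
        R.rt a k = R.rt δ k - R.rt δ' k → (σ δ' = δ' ∧ σ δ = δ → σ a = a) → S.Inv ρ (S.Lm ρ k c) a) →
      S.Lm ρ k c ≤ S.W ρ δ 0 := fun δ δ' e1 e2 e3 e4 hI => by
    have e5 : σ δ' = δ' ∧ σ δ = δ → σ (R.w δ' δ) = R.w δ' δ := fun e => by rw [S.σw, e.1, e.2]
    have := line h (r := δ') (s := R.w δ' δ) (by rw [R.A_w_right, e2])
      (e4.imp (fun e => by rw [S.σw, R.A_w, S.Aσ, e2]; omega) fun e => ⟨e.1, e5 e⟩) (hA _ e1 e3)
      (hI _ (by rw [R.A_w, e1]; simp) (rt_sub e2 k) e5)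
    rwa [R.w_w] at this
  have hB : ∀ δ, R.A (R.sim k) δ = 0 → 0 ≤ R.rt δ k → S.Lm ρ k c ≤ S.W ρ δ 0 := fun δ h1 h2 => by
    obtain ⟨δ', e1, e2, e3, e4, e5⟩ := hD δ (.inl h1) h2
    exact key δ δ' e1 e2 e3 e5 fun a a1 a2 _ => hA a (a1.trans h1) (by omega)
  have hC : ∀ δ, R.A (R.sim k) δ = -1 → 0 ≤ R.rt δ k → (σ δ ≠ δ → ∀ a, σ a = a → R.A (R.sim k) a = -1 → 0 < R.rt a k →
      S.Lm ρ k c ≤ S.W ρ a 0) → S.Inv ρ (S.Lm ρ k c) δ := fun δ h1 h2 hF t v hv => by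
    refine ⟨gen hv.1 (hn _ _ h2 (by omega)).1 (hn _ _ h2 (by omega)).2 (fun a e => ?_) t, mem_Fx.2 fun s hs =>
      gen (mem_Fx.1 hv.2 s hs) (hn _ _ h2 hs.2).1 (hn _ _ h2 hs.2).2 (fun a e => ?_) t⟩
    · have := R.A_self (R.sim k)
      rcases S.Sm_k hk e with e | e | e
      · exact mem_Fx.1 hv.2 _ (by omega)
      · exact absurd hβ e.1
      · exact hB _ (by omega) (by omega) hv
    · rcases S.Sm_k hk e with e | e | e
      · exact hB _ (by omega) (by omega) hv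
      · exact mem_Fx.1 hv.2 _ (by omega)
      · exact hF e.2.1 _ e.1 (by omega) (by omega) hv
  have hF : ∀ a, σ a = a → R.A (R.sim k) a = -1 → 0 < R.rt a k → S.Lm ρ k c ≤ S.W ρ a 0 := fun δ h0 h1 h2 => by
    obtain ⟨δ', e0, e1, e2, e3, e4⟩ := hD1 δ h0 h1 h2
    exact key δ δ' e1 e2 e3 (.inr ⟨e0, h0⟩) fun a a1 a2 a3 => hC a (a1.trans h1) (by omega) fun h => absurd (a3 ⟨e0, h0⟩) h
  refine fun v hv => ⟨hv.1, mem_Fx.2 fun δ hδ => ?_⟩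
  rcases S.cases (R.sim k) δ with rfl | e | e | e | e
  · exact absurd le_rfl hδ.2
  · exact absurd e (ne_neg (R.pos_sim k) hδ.1)
  · exact mem_Fx.1 hv.2 _ ⟨e, pos_one hδ.1 e⟩
  · exact hB _ e (hδ.1 k) hv
  · obtain ⟨δ', e1, e2, e3, e4, e5⟩ := hD δ (.inr e) (hδ.1 k)
    exact key δ δ' e1 e2 e3 e5 (fun a a1 a2 _ => hC a (a1.trans e) (by omega) fun _ => hF) hv

variable (S) in
include S in
theorem tri {i j : ι} (h : R.A (R.sim i) (R.sim j) = -1) {δ : Φ} (hδ : R.Pos δ) : (∃ l, l ≠ i ∧ l ≠ j ∧ 0 < R.rt δ l) ∨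
    δ = R.sim i ∨ δ = R.sim j ∨ δ = R.w (R.sim i) (R.sim j) := by
  by_contra! hc
  obtain ⟨h0, h1, h2, h3⟩ := hc
  have hij : i ≠ j := by rintro rfl; rw [R.A_self] at h; omega
  have e : R.rt δ = R.rt δ i • R.rt (R.sim i) + R.rt δ j • R.rt (R.sim j) := funext fun l => by
    by_cases hi : l = i
    · subst hi; simp [R.rt_sim, hij]
    by_cases hj : l = j
    · subst hj; simp [R.rt_sim, hi]
    simpa [R.rt_sim, hi, hj] using le_antisymm (h0 l hi hj) (hδ l)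
  have a1 := S.le_one h1
  have a2 := S.le_one h2
  have a3 := R.ht_pos hδ
  rw [RS.A_def, e, map_add, map_smul, map_smul, ← RS.A_def, ← RS.A_def] at a1 a2
  rw [RS.ht, e, map_add, map_smul, map_smul] at a3
  change 0 < _ • R.ht _ + _ • R.ht _ at a3
  simp only [R.A_self, h, S.sy (R.sim i) (R.sim j), R.ht_sim, smul_eq_mul] at a1 a2 a3
  have := hδ i
  have := hδ j
  refine h3 (R.rt_inj ?_)
  rw [e, R.rt_w, h, show R.rt δ i = 1 by omega, show R.rt δ j = 1 by omega]; simp [add_comm]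

theorem inv_O (i j : ι) {r : Φ} (hr : R.Pos r) : S.Inv ρ (S.Fx ρ fun δ => ∃ l, l ≠ i ∧ l ≠ j ∧ 0 < R.rt δ l) r :=
  inv_Fx fun _ ⟨l, h1, h2, h3⟩ => ⟨ne_neg hr (R.pos_of_rt_pos h3), ne_neg (S.posσ hr) (R.pos_of_rt_pos h3), fun _ e =>
    ⟨l, h1, h2, h3.trans_le ((S.Sm_le hr (R.pos_of_rt_pos h3) e).1 l)⟩⟩

theorem edge {i j : ι} (hi : π i = i) (hj : π j = j) (h : R.A (R.sim i) (R.sim j) = -1)
    (hL : ∀ c, S.Lm ρ j c ≤ S.T ρ (R.sim j) c ∨ c = 0) {c : K} (hc : c ≠ 0) (hT : finrank ℂ (S.T ρ (R.sim j) c) ≠ 0) :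
    ∃ c, c ≠ 0 ∧ finrank ℂ (S.T ρ (R.sim i) c) ≠ 0 := by
  have si : σ (R.sim i) = R.sim i := by rw [S.σs, hi]
  have sj : σ (R.sim j) = R.sim j := by rw [S.σs, hj]
  obtain ⟨a, ha, a0⟩ := nm ρ (S.n1 _ si) (R.w_w _)
  obtain ⟨b, hb, b0⟩ := nm ρ (S.n1 _ sj) (R.w_w _)
  have h' : R.A (R.sim j) (R.sim i) = -1 := (S.sy _ _).trans h
  have hij : i ≠ j := by rintro rfl; rw [R.A_self] at h; omega
  set γ := R.w (R.sim i) (R.sim j) with hγ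
  have sγ : σ γ = γ := by rw [S.σw, si, sj]
  have e1 : R.w (R.sim j) (R.sim i) = γ := S.w_comm h
  have e2 : R.w (R.sim j) γ = R.sim i := by rw [← e1, R.w_w]
  have e3 : R.A (R.sim i) γ = 1 := by rw [R.A_w_right, h]; rfl
  have e4 : R.A (R.sim j) γ = 1 := by rw [← e1, R.A_w_right, h']; rfl
  set O := S.Fx ρ fun δ => ∃ l, l ≠ i ∧ l ≠ j ∧ 0 < R.rt δ l
  obtain ⟨c1, c10, hc1⟩ := ha γ c hc
  obtain ⟨c2, c20, hc2⟩ := hb (R.sim i) c1 c10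
  rw [R.w_w] at hc1
  rw [e1] at hc2
  have h1 : finrank ℂ ↥(O ⊓ S.W ρ γ c1) ≠ 0 := move_ne ρ a hT fun v hv =>
    ⟨mem_Fx.2 fun δ ⟨l, l1, l2, l3⟩ => a0 _ _ (mem_Fx.1 hv.2 _ ⟨R.pos_of_rt_pos (i := l) (by rwa [rt_ws l1]), fun e => by
      have := e l; simp [R.rt_sim, l2, rt_ws l1] at this; omega⟩), hc1 v hv.1⟩
  have i1 : ∀ c, S.Inv ρ (O ⊓ S.W ρ γ c) (R.sim j) := fun c =>
    (inv_O i j (R.pos_sim j)).inf (cmm (by omega) (by rw [sγ]; omega) _)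
  have h1 := (heisL c10 sj si h' (by rw [e1]; exact inf_le_right) (i1 c1)
    ((inv_O i j (R.pos_sim i)).inf (cmm (by omega) (by rw [sγ]; omega) _))).2 h1
  have h2 : finrank ℂ ↥(O ⊓ S.W ρ γ 0 ⊓ S.W ρ (R.sim i) c2) ≠ 0 := move_ne ρ b h1 fun v hv =>
    ⟨⟨mem_Fx.2 fun δ ⟨l, l1, l2, l3⟩ => b0 _ _ (mem_Fx.1 hv.1.1 _ ⟨l, l1, l2, by rwa [rt_ws l2]⟩),
      b0 _ _ (by rw [e2]; exact hv.2)⟩, hc2 v hv.1.2⟩
  obtain ⟨ν, hν⟩ := Inv.exists (S := S) (ρ := ρ) (U := O ⊓ S.W ρ γ 0 ⊓ S.W ρ (R.sim i) c2) (r := R.sim j) (fun t v hv =>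
    ⟨i1 0 t v hv.1, gen hv.2 (ne_neg (R.pos_sim j) (R.pos_sim i)) (by rw [sj]; exact ne_neg (R.pos_sim j) (R.pos_sim i))
      (fun δ e => by
        have : (∀ l, R.rt δ l = R.rt (R.sim i) l + R.rt (R.sim j) l) → v ∈ S.W ρ δ 0 := fun e => by
          rw [show δ = γ from R.rt_inj (funext fun l => by rw [e, ← e1, rt_add h'])]; exact hv.1.2
        rcases e with e | e | e | e
        exacts [this e, this (sj ▸ e), absurd si e.2.1, absurd sj e.2.1]) t⟩) h2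
  rcases hL ν with e5 | rfl
  · by_cases h0 : ν = 0
    · subst h0
      refine ⟨c2, c20, fun e => hν (Nat.eq_zero_of_le_zero (le_of_le_of_eq (Submodule.finrank_mono (t := S.T ρ (R.sim i) c2)
        fun v hv => ⟨hv.1.2, mem_Fx.2 fun δ hδ => ?_⟩) e))⟩
      rcases S.tri h hδ.1 with e | rfl | rfl | rfl
      exacts [mem_Fx.1 hv.1.1.1 _ e, absurd le_rfl hδ.2, hv.2, hv.1.1.2]
    refine (hν ?_).elim
    rw [Submodule.finrank_eq_zero, Submodule.eq_bot_iff]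
    refine fun v hv => wt_zero c20 hv.1.2 ?_
    refine mem_Fx.1 (e5 (⟨hv.2, mem_Fx.2 fun δ hδ => ?_⟩ : v ∈ S.Lm ρ j ν)).2 _
      ⟨R.pos_sim i, not_le_sim (R.pos_sim i) fun e => hij (R.sim_inj e)⟩
    rcases S.tri h (R.pos_of_rt_pos hδ.2) with e | rfl | rfl | rfl
    · exact mem_Fx.1 hv.1.1.1 _ e
    · omega
    · have := hδ.1; rw [R.A_self] at this; omega
    · exact hv.1.1.2
  · refine ⟨c2, c20, fun e => hν (Nat.eq_zero_of_le_zero (le_of_le_of_eq (Submodule.finrank_mono (t := S.T ρ (R.sim i) c2)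
      fun v hv => ⟨hv.1.2, mem_Fx.2 fun δ hδ => ?_⟩) e))⟩
    rcases S.tri h hδ.1 with e | rfl | rfl | rfl
    exacts [mem_Fx.1 hv.1.1.1 _ e, absurd le_rfl hδ.2, hv.2, hv.1.1.2]

theorem T_inv {β r : Φ} (hβ : R.Pos β) (hr : R.Pos r) (c : K) : S.Inv ρ (S.T ρ β c) r := fun t v hv => by
  refine ⟨gen hv.1 (ne_neg hr hβ) (ne_neg (S.posσ hr) hβ) (fun δ e => ?_) t,
    inv_Fx (fun s hs => ⟨ne_neg hr hs.1, ne_neg (S.posσ hr) hs.1, fun δ e => ?_⟩) t v hv.2⟩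
  · have := S.Sm_le hr hβ e
    exact mem_Fx.1 hv.2 _ ⟨fun l => (hβ l).trans (this.1 l), fun h => this.2.not_ge (Finset.sum_le_sum fun l _ => h l)⟩
  · have := S.Sm_le hr hs.1 e
    exact ⟨fun l => (hs.1 l).trans (this.1 l), fun h => hs.2 fun l => (this.1 l).trans (h l)⟩

omit S in
theorem sim_le {i : ι} {r : Φ} (h : R.Pos r) (h' : 0 < R.rt r i) : R.rt (R.sim i) ≤ R.rt r := fun l => by
  by_cases hl : l = i
  · subst hl; simp only [R.rt_sim, Pi.single_eq_same]; omega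
  · simpa [R.rt_sim, hl] using h l

include S in
theorem w_below {i : ι} {r δ : Φ} (h : R.Pos r) (h' : 0 < R.rt r i) (e : R.A (R.sim i) r = 1)
    (hδ : R.Pos δ ∧ ¬ R.rt δ ≤ R.rt r) : R.Pos (R.w (R.sim i) δ) ∧ ¬ R.rt (R.w (R.sim i) δ) ≤ R.rt (R.w (R.sim i) r) := by
  have h1 : δ ≠ R.sim i := by rintro rfl; exact hδ.2 (sim_le h h')
  refine ⟨R.w_sim i ▸ R.pos_s hδ.1 h1, fun h => hδ.2 fun l => ?_⟩
  have h8 : R.rt (R.w (R.sim i) δ) l ≤ R.rt (R.w (R.sim i) r) l := h l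
  show R.rt δ l ≤ R.rt r l
  by_cases hl : l = i
  · subst hl
    have := S.le_one h1
    simp only [R.rt_w, e, R.rt_sim, Pi.sub_apply, Pi.smul_apply, Pi.single_eq_same, smul_eq_mul, mul_one] at h8
    omega
  · rwa [rt_ws hl, rt_ws hl] at h8

theorem T_ge {q : ℕ} (hq : (F0 f).card = q) (hK : Fintype.card K = q ^ 2)
    (hT : ∀ j, π j = j → ∃ c, c ≠ 0 ∧ finrank ℂ (S.T ρ (R.sim j) c) ≠ 0) (n : ℕ) : ∀ β, R.Pos β → σ β = β → R.ht β ≤ n →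
    ∃ c, c ≠ 0 ∧ q ^ (R.ht β - 1).toNat ≤ finrank ℂ (S.T ρ β c) := by
  induction n with
  | zero => intro r hr _ h; have := R.ht_pos hr; omega
  | succ n ih =>
  intro r h1 sr hn
  obtain ⟨i, h3, h4⟩ := R.exists_A_pos h1
  by_cases h2 : r = R.sim i
  · subst h2
    simpa [R.ht_sim, Nat.one_le_iff_ne_zero] using hT i (R.sim_inj ((S.σs i).symm.trans sr))
  have e : R.A (R.sim i) r = 1 := by have := S.le_one h2; omega
  have h5 := R.pos_s h1 h2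
  have h6 := R.ht_pos h5
  have h7 := R.ht_s i r
  rw [← R.w_sim] at h5 h6 h7
  have nle : ∀ j, R.A (R.sim j) r = 1 → ∀ a, R.rt a j ≤ R.rt (R.w (R.sim j) r) j → ¬ R.rt r ≤ R.rt a := fun j e a h1 h2 => by
    have h2 : R.rt r j ≤ R.rt a j := h2 j
    rw [rt_sub e, R.rt_sim, Pi.single_eq_same] at h1; omega
  by_cases si : σ (R.sim i) = R.sim i
  · obtain ⟨c, c0, hc⟩ := ih _ h5 (by rw [S.σw, si, sr]) (by omega)
    obtain ⟨a, ha, a0⟩ := nm ρ (S.n1 _ si) (R.w_w _)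
    obtain ⟨c', c0', hc'⟩ := ha r c c0
    refine ⟨c', c0', le_trans ?_ (heisL c0' si (δ := R.w (R.sim i) r) (by rw [S.σw, si, sr]) (by rw [R.A_w_right, e])
      (by rw [R.w_w]; exact inf_le_left) (T_inv h1 (R.pos_sim i) c') (T_inv h1 h5 c')).1⟩
    rw [show (R.ht r - 1).toNat = (R.ht (R.w (R.sim i) r) - 1).toNat + 1 by omega, pow_succ', hq]
    exact Nat.mul_le_mul_left _ (hc.trans (move ρ a fun v hv => ⟨⟨hc' v hv.1, mem_Fx.2 fun δ hδ =>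
      a0 _ _ (mem_Fx.1 hv.2 _ (S.w_below h1 h4 e hδ))⟩, a0 _ _ (mem_Fx.1 hv.2 _ (by
        rw [R.w_w]; exact ⟨h1, nle i e _ le_rfl⟩))⟩))
  have z := S.A0 _ si
  have hij : π i ≠ i := fun e => si (by rw [S.σs, e])
  obtain ⟨a, ha, a0⟩ := nm ρ (S.n2 _ si) fun s => R.rt_inj (by
    simp only [R.rt_w, R.A_w, R.A_self, z, S.sy (R.sim i) (σ (R.sim i))]; module)
  have e' : R.A (R.sim (π i)) r = 1 := by rw [← S.σs, S.Aσ', sr, e]
  rw [S.σs] at z ha a0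
  have h4' : 0 < R.rt r (π i) := by rwa [← S.rtσ, sr]
  have g1 : R.Pos (R.w (R.sim (π i)) r) := R.w_sim _ ▸ R.pos_s h1 (by rintro rfl; rw [R.A_self] at e'; omega)
  have g2 : R.A (R.sim i) (R.w (R.sim (π i)) r) = 1 := by rw [R.A_w, e, z]; simp
  have g3 : 0 < R.rt (R.w (R.sim (π i)) r) i := by rwa [rt_ws hij.symm]
  have g4 : R.Pos (R.w (R.sim i) (R.w (R.sim (π i)) r)) :=
    R.w_sim i ▸ R.pos_s g1 (fun e => by rw [e, R.A_self] at g2; omega)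
  have g5 := R.ht_s i (R.w (R.sim (π i)) r)
  have g6 := R.ht_s (π i) r
  have g7 := R.ht_pos g4
  rw [← R.w_sim] at g5 g6
  obtain ⟨c, c0, hc⟩ := ih _ g4 (by
    rw [S.σw, S.σw, sr, ← S.σs, S.σσ]
    exact R.rt_inj (by simp only [S.σs, R.rt_w, R.A_w, z, S.sy (R.sim i) (R.sim (π i))]; module)) (by omega)
  obtain ⟨c', c0', hc'⟩ := ha r c c0
  refine ⟨c', c0', ?_⟩
  rw [heisS c0' (r := R.sim i) (δ := R.w (R.sim i) r) (by rw [R.A_w_right, e]) (by rw [S.σw, S.σs, sr, g2]; omega)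
    (by rw [R.w_w]; exact inf_le_left) (T_inv h1 (R.pos_sim i) c') (T_inv h1 h5 c'), hK,
    show (R.ht r - 1).toNat = 2 + (R.ht (R.w (R.sim i) (R.w (R.sim (π i)) r)) - 1).toNat by omega, pow_add]
  refine Nat.mul_le_mul_left _ (hc.trans (move ρ a fun v hv => ⟨⟨hc' v hv.1, mem_Fx.2 fun δ hδ =>
    a0 _ _ (mem_Fx.1 hv.2 _ (S.w_below g1 g3 g2 (S.w_below h1 h4' e' hδ)))⟩, a0 _ _ (mem_Fx.1 hv.2 _ ?_)⟩))
  rw [show R.w (R.sim i) (R.w (R.sim (π i)) (R.w (R.sim i) r)) = R.w (R.sim (π i)) r from R.rt_inj (by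
    simp only [R.rt_w, R.A_w, R.A_self, z, S.sy (R.sim i) (R.sim (π i))]; module)]
  refine ⟨g1, fun h => ?_⟩
  have : R.rt _ i ≤ R.rt _ i := h i
  rw [rt_sub g2, R.rt_sim, Pi.single_eq_same] at this; omega

theorem chain (g : Φ → ℕ) (hT : ∀ β, R.Pos β → σ β = β → ∃ c, c ≠ 0 ∧ g β ≤ finrank ℂ (S.T ρ β c))
    (hn : ∀ β, σ β = β → ∃ r, σ r = r ∧ R.A r β = -1) (s : Finset Φ)
    (h1 : ∀ δ ∈ s, R.Pos δ) (h2 : ∀ δ ∈ s, ∀ δ', R.ht δ < R.ht δ' → δ' ∈ s) :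
    finrank ℂ (S.Fx ρ (· ∈ s)) + ∑ β ∈ s, (if σ β = β then ((F0 f).card - 1) * g β else 0) ≤ finrank ℂ V := by
  induction s using Finset.induction_on_min_value R.ht with
  | empty => simpa using Submodule.finrank_le _
  | insert a s ha hm ih =>
    have h3 : ∀ δ ∈ s, ∀ δ', R.ht δ < R.ht δ' → δ' ∈ s := fun δ hδ δ' h =>
      (Finset.mem_insert.1 (h2 δ (by simp [hδ]) δ' h)).resolve_left (by rintro rfl; have := hm δ hδ; omega)
    have pa := h1 a (by simp)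
    refine le_trans ?_ (ih (fun δ hδ => h1 δ (by simp [hδ])) h3)
    rw [Finset.sum_insert ha, ← add_assoc]
    refine Nat.add_le_add_right ?_ _
    split_ifs with sa
    swap
    · exact Submodule.finrank_mono fun v hv => mem_Fx.2 fun δ hδ => mem_Fx.1 hv δ (by simp [hδ])
    obtain ⟨c, c0, hc⟩ := hT a pa sa
    obtain ⟨r, sr, hr⟩ := hn a sa
    refine le_trans (Nat.add_le_add_right (Submodule.finrank_mono (t := S.Fx ρ (· ∈ s) ⊓ S.W ρ a 0) fun v hv =>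
      ⟨mem_Fx.2 fun δ hδ => mem_Fx.1 hv δ (by simp [hδ]), mem_Fx.1 hv a (by simp)⟩) _) (Inv.ge (inv_Fx fun δ hδ =>
        ⟨ne_neg pa (h1 δ (by simp [hδ])), ne_neg (S.posσ pa) (h1 δ (by simp [hδ])), fun _ e =>
          h3 δ hδ _ (S.Sm_le pa (h1 δ (by simp [hδ])) e).2⟩) c0 fun b b0 hb => hc.trans ((tor ρ sr hr c b0 hb _).trans
      (Submodule.finrank_mono (t := S.Fx ρ (· ∈ s) ⊓ S.W ρ a (c * b)) fun v hv => ⟨mem_Fx.2 fun δ hδ =>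
          mem_Fx.1 hv.2 δ ⟨h1 δ (by simp [hδ]), fun h => ha ?_⟩, hv.1⟩)))
    rwa [← R.rt_inj (funext fun l => (Finset.sum_eq_sum_iff_of_le fun l _ => h l).1
      (le_antisymm (Finset.sum_le_sum fun l _ => h l) (hm δ hδ)) l (Finset.mem_univ l))]

end H24.MT.TR
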