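import Cfsg.Agent.H24.MT2
import Cfsg.Agent.H24.TwE6

/-! Representations of twisted groups: the degree bound. -/

set_option autoImplicit false
set_option linter.unusedSectionVars false
set_option linter.unusedSimpArgs false
set_option maxHeartbeats 400000

namespace H24.MT
open Module MG
open ME (rt_add rt_sub rt_ws ne_neg)
open scoped Classical

variable {ι Φ : Type} [Fintype ι] [DecidableEq ι] [Fintype Φ] {R : CD ι Φ} {K : Type*} [Field K] [Fintype K]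
  {f : K →+* K} {G : Type*} [Group G]

theorem TR.main {σ : Φ → Φ} {π : ι → ι} (S : TR R σ π f G) {V : Type*} [AddCommGroup V] [Module ℂ V] [FiniteDimensional ℂ V]
    (ρ : Representation ℂ G V) {q : ℕ} (hq : (F0 f).card = q) (hK : Fintype.card K = q ^ 2) {k : ι} (hk : π k = k)
    (hD1 : ∀ δ, σ δ = δ → R.A (R.sim k) δ = -1 → 0 < R.rt δ k → ∃ δ', σ δ' = δ' ∧
      R.A (R.sim k) δ' = 0 ∧ R.A δ' δ = 1 ∧ 0 ≤ R.rt δ' k ∧ R.rt δ' k ≤ R.rt δ k)
    (hD : ∀ δ, R.A (R.sim k) δ = 0 ∨ R.A (R.sim k) δ = -1 → 0 ≤ R.rt δ k → ∃ δ', R.A (R.sim k) δ' = 0 ∧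
      R.A δ' δ = 1 ∧ 0 ≤ R.rt δ' k ∧ R.rt δ' k ≤ R.rt δ k ∧ (R.A δ' (σ δ') ≤ R.A δ' (σ δ) ∨ σ δ' = δ' ∧ σ δ = δ))
    (hj : ∀ j, π j = j → j = k ∨ R.A (R.sim j) (R.sim k) = -1) (hn : ∀ β, σ β = β → ∃ r, σ r = r ∧ R.A r β = -1)
    (o : Φ → ℕ) (ho : Function.Injective o) {m : ℕ} (hm : (∑ δ, if R.A (R.sim k) δ = 1 ∧ 0 < R.rt δ k ∧ o δ ≤ o (σ δ) then
      if σ δ = δ then 1 else 2 else 0) = m) (h1 : ∃ t, ρ (S.Y (R.sim k) t) ≠ 1) (N : ℕ) (c : ℕ → ℕ)
    (hc : ∀ a < N, (Finset.univ.filter fun β => σ β = β ∧ 0 < R.ht β ∧ (R.ht β - 1).toNat = a).card = c a) :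
    (q - 1) * (q ^ m * 2) ≤ finrank ℂ V ∨ ∑ a ∈ Finset.range N, c a * ((q - 1) * q ^ a) ≤ finrank ℂ V := by
  have hβ : σ (R.sim k) = R.sim k := by rw [S.σs, hk]
  have pw : ∀ a b, R.A (R.sim k) a = 1 ∧ 0 < R.rt a k → R.A (R.sim k) b = 1 ∧ 0 < R.rt b k → 0 ≤ R.A a b := fun a b ha hb => by
    refine (S.ge_or (ne_neg (R.pos_of_rt_pos ha.2) (R.pos_of_rt_pos hb.2))).resolve_right fun e => ?_
    have := S.le_one (r := R.sim k) (s := R.w a b) fun e' => by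
      have := rt_add e k
      rw [e', R.rt_sim, Pi.single_eq_same] at this; omega
    rw [R.A_w, e, ha.1, hb.1] at this; omega
  have sL : ∀ a, R.A (R.sim k) a = 1 ∧ 0 < R.rt a k → R.A (R.sim k) (σ a) = 1 ∧ 0 < R.rt (σ a) k := fun a ha => by
    rwa [S.A_fix hβ, S.rtσ, hk]
  have hH : ∀ c, c ≠ 0 → q ^ m * finrank ℂ (S.Lm ρ k c) ≤ finrank ℂ (S.W ρ (R.sim k) c) ∧
      (finrank ℂ (S.W ρ (R.sim k) c) ≠ 0 → finrank ℂ (S.Lm ρ k c) ≠ 0) := fun c hc => by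
    have := TR.heisA (S := S) (ρ := ρ) hβ hc hq hK (Finset.univ.filter fun δ => R.A (R.sim k) δ = 1 ∧ 0 < R.rt δ k ∧ o δ ≤ o (σ δ))
      (by simp +contextual) fun a ha b hb => by
        have ha := (Finset.mem_filter.1 ha).2
        have hb := (Finset.mem_filter.1 hb).2
        refine ⟨pw _ _ ⟨ha.1, ha.2.1⟩ ⟨hb.1, hb.2.1⟩, pw _ _ ⟨ha.1, ha.2.1⟩ (sL _ ⟨hb.1, hb.2.1⟩), fun e => ho ?_⟩
        subst e
        rw [S.σσ] at ha; omega
    rw [Finset.sum_filter, hm] at this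
    have e : S.W ρ (R.sim k) c ⊓ S.Fx ρ (· ∈ Finset.univ.filter fun δ => R.A (R.sim k) δ = 1 ∧ 0 < R.rt δ k ∧ o δ ≤ o (σ δ)) =
        S.Lm ρ k c := by
      refine congrArg _ (le_antisymm (fun v hv => TR.mem_Fx.2 fun δ hδ => ?_) fun v hv => TR.mem_Fx.2 fun δ hδ =>
        TR.mem_Fx.1 hv δ ⟨(Finset.mem_filter.1 hδ).2.1, (Finset.mem_filter.1 hδ).2.2.1⟩)
      rcases le_total (o δ) (o (σ δ)) with h | h
      · exact TR.mem_Fx.1 hv δ (by simp [hδ, h])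
      · exact TR.Wσ (TR.mem_Fx.1 hv _ (by simp [sL δ hδ, S.σσ, h]))
    rwa [e] at this
  have i0 : S.Inv ρ ⊤ (R.sim k) := fun _ _ _ => trivial
  obtain ⟨r, sr, hr⟩ := hn _ hβ
  by_cases h2 : ∃ c, c ≠ 0 ∧ 2 ≤ finrank ℂ (S.Lm ρ k c)
  · obtain ⟨c, c0, h2⟩ := h2
    have := i0.ge c0 (k := q ^ m * 2) fun a a0 ha => by
      rw [top_inf_eq]
      exact (Nat.mul_le_mul_left _ (h2.trans (TR.tor ρ sr hr c a0 ha _))).trans (hH _ (mul_ne_zero c0 a0)).1
    rw [finrank_top, hq] at this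
    exact .inl (le_trans (Nat.le_add_left _ _) this)
  right
  push Not at h2
  have hL : ∀ c, S.Lm ρ k c ≤ S.T ρ (R.sim k) c ∨ c = 0 := fun c => or_iff_not_imp_right.2 fun hc =>
    TR.special hk hD1 hD (Nat.lt_succ_iff.1 (h2 c hc))
  obtain ⟨b, b0, hb⟩ : ∃ b, b ≠ 0 ∧ finrank ℂ (S.W ρ (R.sim k) b) ≠ 0 := by
    by_contra! H
    obtain ⟨t, ht⟩ := h1
    have := i0.split
    rw [sum_split (k := 0) fun a ha => by rw [top_inf_eq, H a ha], top_inf_eq, finrank_top, mul_zero, add_zero] at this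
    exact ht (LinearMap.ext fun v => TR.fx ((Submodule.eq_top_of_finrank_eq this.symm).ge Submodule.mem_top) t)
  have hT : finrank ℂ (S.T ρ (R.sim k) b) ≠ 0 := fun e => (hH b b0).2 hb
    (Nat.eq_zero_of_le_zero (le_of_le_of_eq (Submodule.finrank_mono ((hL b).resolve_right b0)) e))
  refine le_trans (le_trans ?_ (Nat.le_add_left _ _)) (TR.chain (S := S) (ρ := ρ) (fun β => q ^ (R.ht β - 1).toNat)
    (fun β h1 h2 => TR.T_ge hq hK (fun j h => (hj j h).elim (fun e => e ▸ ⟨b, b0, hT⟩) fun e => TR.edge h hk e hL b0 hT) _ β h1 h2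
      (Int.self_le_toNat _)) hn (Finset.univ.filter fun β => 0 < R.ht β) (by simp [R.pos_iff_ht]) fun a ha b h => ?_)
  · rw [← Finset.sum_filter, hq]
    refine le_trans (le_of_eq (Finset.sum_congr rfl fun a ha => ?_)) (Finset.sum_fiberwise_le_sum_of_sum_fiber_nonneg
      (t := Finset.range N) (g := fun β => (R.ht β - 1).toNat) fun _ _ => Nat.zero_le _)
    rw [Finset.sum_congr rfl fun β hβ => by rw [(Finset.mem_filter.1 hβ).2], Finset.sum_const, Finset.filter_filter,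
      Finset.filter_filter, ← hc a (Finset.mem_range.1 ha), smul_eq_mul]
    congr 2
    exact Finset.filter_congr fun _ _ => by tauto
  · simp only [Finset.mem_filter, Finset.mem_univ, true_and] at ha ⊢; omega

variable [DecidableEq Φ] {S : St R K G} (z : Tw S) {M : Subgroup G}

theorem prin {g a κ : G} (hg : z.σ g = g) (e : a * g = g * (a * κ)) : a * z.σ a * g = g * (a * κ * z.σ a * z.σ κ) := by
  have : z.σ a * g = g * (z.σ a * z.σ κ) := by simpa only [map_mul, hg] using congrArg z.σ e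
  rw [mul_assoc, this, ← mul_assoc, e]; group

/-- the root elements of a twisted group -/
noncomputable def ofTw (H : ME.SL S) (ff : ∀ t, f (f t) = t) (nf : ∃ a, f a ≠ a) (hM : M ≤ z.Fx)
    (mem : ∀ r t, S.x r t * z.σ (S.x r t) ∈ M) (σσ : ∀ r, z.ρ (z.ρ r) = r) (ττ : ∀ r t, z.τ (z.ρ r) (z.τ r t) = t)
    (τf : ∀ r t, z.ρ r = r → z.τ r t = f t) (Aσ : ∀ r s, R.A (z.ρ r) (z.ρ s) = R.A r s)
    (rtσ : ∀ r l, R.rt (z.ρ r) l = R.rt r (z.π l)) (A0 : ∀ r, z.ρ r ≠ r → R.A r (z.ρ r) = 0)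
    (quad : ∀ r s, R.A r s = -1 → R.A r (z.ρ s) = -1 → z.ρ r = r ∨ z.ρ s = s) : TR R z.ρ z.π f M :=
  have A1 : ∀ r, 0 ≤ R.A r (z.ρ r) := fun r => if h : z.ρ r = r then by rw [h, R.A_self]; omega else (A0 r h).ge
  have Aσ' : ∀ r s, R.A (z.ρ r) s = R.A r (z.ρ s) := fun r s => by rw [← Aσ, σσ]
  have c1 : ∀ r s, 0 ≤ R.A r (z.ρ s) → ∀ t u, Commute (S.x r t) (z.σ (S.x s u)) := fun r s h t u => by
    rw [z.σ_x]; exact S.commute_sl H.hl h _ _
  have yf : ∀ r t, z.ρ r = r → S.x r t * z.σ (S.x r t) = S.x r (t + f t) := fun r t h => by rw [z.σ_x, h, τf r t h, S.x_add]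
  have xm : ∀ r a, z.ρ r = r → f a = a → S.x r a ∈ M := fun r a h ha => by
    obtain ⟨t, rfl⟩ := exists_tr ff nf ha
    exact yf r t h ▸ mem r t
  have nm : ∀ r a, z.ρ r = r → f a = a → S.n r a ∈ M := fun r a h ha =>
    M.mul_mem (M.mul_mem (xm r a h ha) (xm _ _ (by rw [z.ρ_neg, h]) (by rw [map_neg, map_inv₀, ha]))) (xm r a h ha)
  have cj : ∀ g ∈ M, ∀ s u s' u', g * S.x s u * g⁻¹ = S.x s' u' →
      g * (S.x s u * z.σ (S.x s u)) * g⁻¹ = S.x s' u' * z.σ (S.x s' u') := fun g hg s u s' u' e => by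
    rw [← e, map_mul, map_mul, map_inv, z.mem_Fx.1 (hM hg)]; group
  { Y := fun r t => ⟨_, mem r t⟩
    hl := H.hl
    ff := ff
    nf := nf
    σσ := σσ
    Aσ := Aσ
    rtσ := rtσ
    htσ := fun r => by simp only [R.ht_def, rtσ]; exact Equiv.sum_comp z.π (R.rt r)
    σs := z.ρ_sim
    A0 := A0
    quad := quad
    add := fun r t u => Subtype.ext (by
      simp only [Subgroup.coe_mul, S.x_add, map_mul]
      exact (c1 r r (A1 r) u t).mul_mul_mul_comm _ _)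
    Yσ := fun r t => ⟨z.τ r t, Subtype.ext (by
      simp only [z.σ_x, σσ, ττ]; simpa only [z.σ_x] using (c1 r r (A1 r) t t).eq)⟩
    cm := fun r s h h' t u => Subtype.ext (((S.commute_sl H.hl h t u).mul_right (c1 r s h' t u)).mul_left
      ((c1 s r (by rw [H.sy, Aσ']; exact h') u t).symm.mul_right ((S.commute_sl H.hl h t u).map z.σ))).eq
    r1 := fun r s h h' => (H.rl h).imp fun ε e => ⟨e.1, fun t u => Subtype.ext (by
      simp only [Subgroup.coe_mul]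
      have a1 := c1 s r (by rw [H.sy, Aσ']; exact h') u t
      have a2 := c1 (R.w r s) r (by
        have := A1 r; rw [H.sy, R.A_w, h, H.sy r (z.ρ r), Aσ']; omega) (ε * t * u) t
      have a3 := c1 (R.w r s) s (by
        have := A1 s; rw [H.sy, R.A_w, h, H.sy r (z.ρ s), H.sy s (z.ρ s)]; omega) (ε * t * u) u
      rw [prin z (z.mem_Fx.1 (hM (mem r t))) (κ := S.x (R.w r s) (ε * t * u)) (by
        rw [← mul_assoc, e.2, mul_assoc, (a1.mul_left a2).eq, ← mul_assoc]), mul_assoc (S.x s u), a3.eq]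
      group)⟩
    r2 := fun r s hr hs h => (H.rl h).imp fun ε e => ⟨e.1, fun t u => Subtype.ext (by
      simp only [Subgroup.coe_mul]
      have a3 := c1 (R.w r s) s (by rw [hs, H.sy, R.A_w, h, R.A_self, H.sy r s, h]; omega) (ε * (t + f t) * u) u
      rw [prin z (z.mem_Fx.1 (hM (mem r t))) (κ := S.x (R.w r s) (ε * (t + f t) * u)) (by rw [yf r t hr, e.2]),
        mul_assoc (S.x s u), a3.eq]
      group)⟩
    r3 := fun r s hr hs h t u => by
      obtain ⟨ε, -, e⟩ := H.rl h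
      have a1 : R.A (z.ρ s) (R.w r s) = -1 := by rw [R.A_w, H.sy s, A0 s hs, H.sy r, ← Aσ', hr, h]; rfl
      obtain ⟨ε', -, e'⟩ := H.rl a1
      have a0 : ∀ l, R.rt (R.w (z.ρ s) (R.w r s)) l = R.rt s l + R.rt r l + R.rt (z.ρ s) l := fun l => by
        rw [rt_add a1, rt_add h]
      have a2 : z.ρ (R.w (z.ρ s) (R.w r s)) = R.w (z.ρ s) (R.w r s) := R.rt_inj (funext fun l => by
        rw [rtσ, a0, a0, ← rtσ, ← rtσ, ← rtσ, σσ, hr]; ring)
      have a3 := c1 (R.w (z.ρ s) (R.w r s)) (R.w r s) (by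
        rw [← Aσ', a2, H.sy, R.A_w, R.A_self, H.sy (z.ρ s), a1]; omega) (ε' * z.τ s u * (ε * (t + f t) * u)) (ε * (t + f t) * u)
      have a4 : S.x s u * z.σ (S.x s u) * (S.x r t * z.σ (S.x r t)) = S.x r t * z.σ (S.x r t) * (S.x s u * z.σ (S.x s u) *
          (S.x (R.w r s) (ε * (t + f t) * u) * z.σ (S.x (R.w r s) (ε * (t + f t) * u)) *
            S.x (R.w (z.ρ s) (R.w r s)) (ε' * z.τ s u * (ε * (t + f t) * u)))) := by
        rw [prin z (z.mem_Fx.1 (hM (mem r t))) (κ := S.x (R.w r s) (ε * (t + f t) * u)) (by rw [yf r t hr, e]),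
          mul_assoc (S.x s u), z.σ_x s, e', mul_assoc (S.x (R.w r s) _), ← a3.eq]
        group
      have a5 : S.x (R.w (z.ρ s) (R.w r s)) (ε' * z.τ s u * (ε * (t + f t) * u)) ∈ M := by
        have := M.mul_mem (mem s u) (mem r t)
        rw [a4, M.mul_mem_cancel_left (mem r t), M.mul_mem_cancel_left (mem s u), M.mul_mem_cancel_left (mem _ _)] at this
        exact this
      have a6 := z.mem_Fx.1 (hM a5)
      rw [z.σ_x, a2, τf _ _ a2] at a6
      obtain ⟨b, hb⟩ := exists_tr ff nf (S.x_inj _ a6)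
      exact ⟨_, b, Subtype.ext (by simp only [Subgroup.coe_mul]; rw [a4, yf _ b a2, hb])⟩
    ker := fun r t h e => Subtype.ext (by simp only [yf r t h, e, St0.x_zero, Subgroup.coe_one])
    n1 := fun r h => ⟨⟨_, nm r 1 h (map_one f)⟩, fun s => ((S.n_rep r one_ne_zero).exists_conj s).imp fun c e =>
      ⟨e.1, fun u => Subtype.ext (cj _ (nm r 1 h (map_one f)) _ _ _ _ (e.2 u))⟩⟩
    n2 := fun r h => by
      have a1 := c1 r r (A0 r h).ge
      have a2 := c1 r (R.neg r) (by rw [z.ρ_neg, R.A_neg_right, A0 r h]; rfl)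
      have a3 := c1 (R.neg r) r (by rw [R.A_neg_left, A0 r h]; rfl)
      have : S.n r 1 * S.n (z.ρ r) (z.τ r 1) ∈ M := by
        have := M.mul_mem (M.mul_mem (mem r 1) (mem (R.neg r) (-1⁻¹))) (mem r 1)
        rw [(a3 _ _).symm.mul_mul_mul_comm, ((a1 _ _).symm.mul_left (a2 _ _).symm).mul_mul_mul_comm, ← map_mul, ← map_mul] at this
        rw [← z.σ_n]; exact this
      exact ⟨⟨_, this⟩, fun s => (((S.n_rep r one_ne_zero).mul (S.n_rep _ (z.τ_ne r one_ne_zero))).exists_conj s).imp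
        fun c e => ⟨e.1, fun u => Subtype.ext (cj _ this _ _ _ _ (e.2 u))⟩⟩
    hh := fun r h a a0 ha =>
      have := M.mul_mem (nm r a h ha) (nm r (-1) h (by rw [map_neg, map_one]))
      ⟨⟨S.h r a, this⟩, fun s u => Subtype.ext (cj _ this _ _ _ _ (S.h_conj r s a0 u))⟩ }

end H24.MT
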