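import Cfsg.Agent.H24.MT3
import Cfsg.Agent.H24.ME5

/-! The degree bound for `²E₆(q)`. -/

set_option autoImplicit false
set_option linter.unusedSectionVars false
set_option linter.unusedSimpArgs false
set_option maxHeartbeats 400000
set_option synthInstance.maxSize 1024

namespace H24.MT
open Module MG Cfsg Cfsg.Lie
open scoped Classical

theorem step {k a b c r u v : ℤ} {n : ℕ} (h : k ∣ a * b ^ n * c) (e : r = u * k + v * b) : k ∣ a * (r ^ n * c) := by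
  have h1 : k ∣ r ^ n - (v * b) ^ n := (Dvd.intro_left u (by rw [e]; ring)).trans (sub_dvd_pow_sub_pow _ _ n)
  have : a * (r ^ n * c) = a * c * (r ^ n - (v * b) ^ n) + v ^ n * (a * b ^ n * c) := by rw [mul_pow]; ring
  rw [this]
  exact dvd_add (h1.mul_left _) (h.mul_left _)

theorem dv1 (q : ℤ) (h : (q ^ 11 + (-1) * q ^ 8 + q ^ 7 + q ^ 5 + (-1) * q ^ 4 + q + (-1)) ∣ q ^ 36 * (q ^ 2 - 1) * (q ^ 5 + 1) * (q ^ 6 - 1) * (q ^ 8 - 1) * (q ^ 9 + 1) *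
    (q ^ 12 - 1)) : (q ^ 11 + (-1) * q ^ 8 + q ^ 7 + q ^ 5 + (-1) * q ^ 4 + q + (-1)) ∣ (q ^ 4 + (-1) * q ^ 2 + (1)) ^ 1 * 33882912 := by
  have h : (q ^ 11 + (-1) * q ^ 8 + q ^ 7 + q ^ 5 + (-1) * q ^ 4 + q + (-1)) ∣ (q ^ 4 + (-1) * q ^ 2 + (1)) ^ 1 * (q) ^ 36 * (q + (-1)) ^ 4 * (q + (1)) ^ 6 * (q ^ 2 + q + (1)) ^ 2 * (q ^ 2 + (1)) ^ 2 * (q ^ 2 + (-1) * q + (1)) ^ 3 * (q ^ 4 + (1)) ^ 1 * (q ^ 4 + (-1) * q ^ 3 + q ^ 2 + (-1) * q + (1)) ^ 1 * (q ^ 6 + (-1) * q ^ 3 + (1)) ^ 1 * 1 := by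
    convert h using 1; ring
  have h := step h (r := 1) (u := ((-1)))
    (v := (q ^ 5 + q)) (by ring)
  have h := step h (r := 1) (u := ((-1) * q ^ 3 + (-1) * q))
    (v := (q ^ 10 + q ^ 9 + q ^ 8 + (-1) * q ^ 5 + (1))) (by ring)
  have h := step h (r := 1) (u := ((-1)))
    (v := (q ^ 7 + (-1) * q ^ 4 + q)) (by ring)
  have h := step h (r := 2) (u := ((1)))
    (v := ((-1) * q ^ 9 + (-1) * q ^ 8 + (2) * q ^ 6 + q ^ 5 + (-1) * q ^ 4 + (-3) * q ^ 3 + (-1) * q ^ 2 + (2) * q + (3))) (by ring)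
  have h := step h (r := 3) (u := ((-1)))
    (v := (q ^ 9 + (-1) * q ^ 7 + (-1) * q ^ 6 + (2) * q ^ 5 + q ^ 4 + (-1) * q ^ 3 + (-2) * q ^ 2 + q + (2))) (by ring)
  have h := step h (r := 2) (u := ((-1)))
    (v := (q ^ 9 + (-1) * q ^ 8 + q ^ 5 + (-1) * q ^ 4 + q ^ 3 + (-1) * q ^ 2 + (1))) (by ring)
  have h := step h (r := 7) (u := ((-1)))
    (v := (q ^ 10 + (-1) * q ^ 9 + q ^ 8 + (-2) * q ^ 7 + (3) * q ^ 6 + (-3) * q ^ 5 + (4) * q ^ 4 + (-5) * q ^ 3 + (5) * q ^ 2 + (-5) * q + (6))) (by ring)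
  have h := step h (r := 1) (u := ((1)))
    (v := ((-1) * q ^ 10 + (-1) * q ^ 9 + (-1) * q ^ 8 + (-1) * q ^ 6 + (-1) * q ^ 5 + (-2) * q ^ 4 + (-1) * q ^ 3 + (-1) * q ^ 2 + (-1) * q + (-2))) (by ring)
  have h := step h (r := 1) (u := ((-1)))
    (v := (q ^ 10 + (-1) * q ^ 7 + q ^ 6 + q ^ 4 + (-1) * q ^ 3 + (1))) (by ring)
  convert h using 2; norm_num

theorem dv2 (q : ℤ) (h : (q ^ 11 + (-1) * q ^ 8 + q ^ 7 + q ^ 5 + (-1) * q ^ 4 + q + (-2)) ∣ q ^ 36 * (q ^ 2 - 1) * (q ^ 5 + 1) * (q ^ 6 - 1) * (q ^ 8 - 1) * (q ^ 9 + 1) *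
    (q ^ 12 - 1)) : (q ^ 11 + (-1) * q ^ 8 + q ^ 7 + q ^ 5 + (-1) * q ^ 4 + q + (-2)) ∣ (q + (-1)) ^ 4 * 114139228956077850624 := by
  have h : (q ^ 11 + (-1) * q ^ 8 + q ^ 7 + q ^ 5 + (-1) * q ^ 4 + q + (-2)) ∣ (q + (-1)) ^ 4 * (q) ^ 36 * (q + (1)) ^ 6 * (q ^ 2 + q + (1)) ^ 2 * (q ^ 2 + (1)) ^ 2 * (q ^ 2 + (-1) * q + (1)) ^ 3 * (q ^ 4 + (1)) ^ 1 * (q ^ 4 + (-1) * q ^ 3 + q ^ 2 + (-1) * q + (1)) ^ 1 * (q ^ 4 + (-1) * q ^ 2 + (1)) ^ 1 * (q ^ 6 + (-1) * q ^ 3 + (1)) ^ 1 * 1 := by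
    convert h using 1; ring
  have h := step h (r := 2) (u := ((-1)))
    (v := (q ^ 5 + q)) (by ring)
  have h := step h (r := 1) (u := ((-1)))
    (v := (q ^ 7 + q ^ 5 + (-1) * q ^ 4 + q ^ 3 + (-1) * q ^ 2 + q + (-1))) (by ring)
  have h := step h (r := 11) (u := ((-1) * q ^ 3 + (-1) * q ^ 2 + (-3) * q + (-5)))
    (v := (q ^ 10 + (2) * q ^ 9 + (4) * q ^ 8 + (7) * q ^ 7 + (4) * q ^ 6 + (-3) * q ^ 5 + (-5) * q ^ 4 + (1))) (by ring)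
  have h := step h (r := 2) (u := ((-1)))
    (v := (q ^ 7 + (-1) * q ^ 4 + q)) (by ring)
  have h := step h (r := 1) (u := ((1)))
    (v := ((-1) * q ^ 9 + (-1) * q ^ 8 + (2) * q ^ 6 + q ^ 5 + (-1) * q ^ 4 + (-3) * q ^ 3 + (-1) * q ^ 2 + (2) * q + (3))) (by ring)
  have h := step h (r := 4) (u := ((-1)))
    (v := (q ^ 9 + (-1) * q ^ 7 + (-1) * q ^ 6 + (2) * q ^ 5 + q ^ 4 + (-1) * q ^ 3 + (-2) * q ^ 2 + q + (2))) (by ring)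
  have h := step h (r := 3) (u := ((-1)))
    (v := (q ^ 9 + (-1) * q ^ 8 + q ^ 5 + (-1) * q ^ 4 + q ^ 3 + (-1) * q ^ 2 + (1))) (by ring)
  have h := step h (r := 8) (u := ((-1)))
    (v := (q ^ 10 + (-1) * q ^ 9 + q ^ 8 + (-2) * q ^ 7 + (3) * q ^ 6 + (-3) * q ^ 5 + (4) * q ^ 4 + (-5) * q ^ 3 + (5) * q ^ 2 + (-5) * q + (6))) (by ring)
  have h := step h (r := 2) (u := ((-1)))
    (v := (q ^ 10 + (-1) * q ^ 7 + q ^ 6 + q ^ 4 + (-1) * q ^ 3 + (1))) (by ring)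
  convert h using 2; norm_num

theorem small : ∀ q < 740, 2 ≤ q → ∀ j ∈ [1, 2], ¬ q ^ 11 + q ^ 7 + q ^ 5 + q - q ^ 8 - q ^ 4 - j ∣
    q ^ 36 * (q ^ 2 - 1) * (q ^ 5 + 1) * (q ^ 6 - 1) * (q ^ 8 - 1) * (q ^ 9 + 1) * (q ^ 12 - 1) := by decide +kernel

theorem arith {q k : ℕ} (hq : 2 ≤ q) (h : (q - 1) * (q ^ 10 * 2) ≤ k ∨ ∑ a ∈ Finset.range 11,
      [2, 1, 1, 1, 2, 1, 1, 0, 1, 1, 1].getD a 0 * ((q - 1) * q ^ a) ≤ k)
    (hd : k ∣ q ^ 36 * (q ^ 2 - 1) * (q ^ 5 + 1) * (q ^ 6 - 1) * (q ^ 8 - 1) * (q ^ 9 + 1) * (q ^ 12 - 1)) :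
    q * (q ^ 6 - q ^ 3 + 1) * (q ^ 4 + 1) ≤ k := by
  have p1 : ∀ n, 1 ≤ q ^ n := fun n => Nat.one_le_pow _ _ (by omega)
  have p2 : q ^ 3 ≤ q ^ 6 := Nat.pow_le_pow_right (by omega) (by omega)
  by_contra! hk
  have hs := small q
  simp only [Finset.sum_range_succ, Finset.sum_range_zero, List.getD_cons_succ, List.getD_cons_zero] at h
  have e1 : (q * (q ^ 6 - q ^ 3 + 1) * (q ^ 4 + 1) : ℕ) + q ^ 8 + q ^ 4 = q ^ 11 + q ^ 7 + q ^ 5 + q := by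
    zify [p2]; ring
  obtain ⟨p, rfl⟩ := Nat.exists_eq_add_of_le' hq
  rw [show p + 2 - 1 = p + 1 from rfl] at h
  have h : (p + 2) ^ 11 + (p + 2) ^ 7 + (p + 2) ^ 5 + (p + 2) ≤ k + 2 + (p + 2) ^ 8 + (p + 2) ^ 4 := by
    rcases h with h | h <;> ring_nf at h ⊢ <;> omega
  generalize p + 2 = q at *
  by_cases h7 : q < 740
  · rcases (by omega : k = q ^ 11 + q ^ 7 + q ^ 5 + q - q ^ 8 - q ^ 4 - 1 ∨ k = q ^ 11 + q ^ 7 + q ^ 5 + q - q ^ 8 - q ^ 4 - 2)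
      with rfl | rfl
    exacts [hs h7 hq 1 (by simp) hd, hs h7 hq 2 (by simp) hd]
  zify [p1] at hd
  obtain ⟨p, rfl⟩ := Nat.exists_eq_add_of_le' (not_lt.1 h7)
  have p0 : (0 : ℤ) ≤ p := by positivity
  rcases (by omega : k + 1 + (p + 740) ^ 8 + (p + 740) ^ 4 = (p + 740) ^ 11 + (p + 740) ^ 7 + (p + 740) ^ 5 + (p + 740) ∨
    k + 2 + (p + 740) ^ 8 + (p + 740) ^ 4 = (p + 740) ^ 11 + (p + 740) ^ 7 + (p + 740) ^ 5 + (p + 740)) with e | e <;> zify at e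
  · have := Int.le_of_dvd (mul_pos (pow_pos (by push_cast; nlinarith [sq_nonneg (((p : ℤ) + 740) ^ 2 - 1)]) _) (by norm_num))
      (dv1 ((p + 740 : ℕ) : ℤ) (by convert hd using 1; push_cast; linarith))
    push_cast at this
    ring_nf at this
    have : ∀ n, (0 : ℤ) ≤ p ^ n := fun n => by positivity
    linarith [this 2, this 3, this 4, this 5, this 6, this 7, this 8, this 9, this 10, this 11]
  · have := Int.le_of_dvd (mul_pos (pow_pos (by push_cast; linarith) _) (by norm_num))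
      (dv2 ((p + 740 : ℕ) : ℤ) (by convert hd using 1; push_cast; linarith))
    push_cast at this
    ring_nf at this
    have : ∀ n, (0 : ℤ) ≤ p ^ n := fun n => by positivity
    linarith [this 2, this 3, this 4, this 5, this 6, this 7, this 8, this 9, this 10, this 11]

local notation "hT" => tabE6_chk
local notation "ph" => MorTab.ph morE6

theorem c1 : ∀ r < tabE6.n, ph r < tabE6.n ∧ ph (ph r) = r ∧ morE6.ep (ph r) = morE6.ep r ∧ (ph r = r → morE6.ep r = 1) ∧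
    (∀ l : Fin chevE6.rank, tabE6.rtv (ph r) l = tabE6.rtv r (E6.π l)) ∧ (ph r ≠ r → tabE6.A r (ph r) = 0) ∧
    (ph r = r → ∃ s < tabE6.n, ph s = s ∧ tabE6.A s r = -1) ∧ ∀ s < tabE6.n,
      tabE6.A (ph r) (ph s) = tabE6.A r s ∧ (tabE6.A r s = -1 → tabE6.A r (ph s) = -1 → ph r = r ∨ ph s = s) := by
  decide +kernel

theorem c2 : ∀ r < tabE6.n, (ph r = r → tabE6.wtv r 1 = -1 → 0 < tabE6.rtv r 1 → ∃ s < tabE6.n, ph s = s ∧
      tabE6.wtv s 1 = 0 ∧ tabE6.A s r = 1 ∧ 0 ≤ tabE6.rtv s 1 ∧ tabE6.rtv s 1 ≤ tabE6.rtv r 1) ∧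
    (tabE6.wtv r 1 = 0 ∨ tabE6.wtv r 1 = -1 → 0 ≤ tabE6.rtv r 1 → ∃ s < tabE6.n, tabE6.wtv s 1 = 0 ∧ tabE6.A s r = 1 ∧
      0 ≤ tabE6.rtv s 1 ∧ tabE6.rtv s 1 ≤ tabE6.rtv r 1 ∧ (tabE6.A s (ph s) ≤ tabE6.A s (ph r) ∨ ph s = s ∧ ph r = r)) := by
  decide +kernel

/-- the special node -/
def k1 : Fin chevE6.rank := ⟨1, by decide⟩

theorem c3 : E6.π k1 = k1 ∧ ∀ j : Fin chevE6.rank, E6.π j = j → j = k1 ∨ tabE6.wtv ((hT).cd.sim k1) j = -1 := by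
  decide +kernel

theorem bound {K : Type*} [Field K] [Fintype K] {q : ℕ} (hq : IsPrimePow q) (hK : Fintype.card K = q ^ 2)
    {V : Type*} [AddCommGroup V] [Module ℂ V] [FiniteDimensional ℂ V] (ρ : Representation ℂ (twistedE6 K q) V)
    (hρ : ρ.ker = ⊥) : (q - 1) * (q ^ 10 * 2) ≤ finrank ℂ V ∨ ∑ a ∈ Finset.range 11,
      [2, 1, 1, 1, 2, 1, 1, 0, 1, 1, 1].getD a 0 * ((q - 1) * q ^ a) ≤ finrank ℂ V := by
  obtain ⟨f, hf, hq'⟩ := E6.exists_f hq hK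
  have hF : (F0 f).card = q := by
    rw [← (card_fixed K hq.one_lt hK).2, Nat.card_eq_fintype_card, Fintype.card_subtype, F0]
    simp only [hq']
  have nf : ∃ a, f a ≠ a := by
    by_contra! h
    have := hq.one_lt
    rw [F0, Finset.filter_true_of_mem fun a _ => h a, Finset.card_univ, hK] at hF
    nlinarith
  set z := E6.z f hf
  have v : ∀ r, (z.ρ r : ℕ) = ph r := fun r => by
    rw [← (hT).fin_val r, E6.zρ f hf ⟨(hT).lt_n r, rfl⟩, (hT).val_fin (c1 r ((hT).lt_n r)).1, (hT).fin_val]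
  have e : ∀ r s, z.ρ r = s ↔ ph r = s := fun r s => by rw [Fin.ext_iff, v]
  have τ : ∀ r t, z.τ r t = morE6.ep r * f t := fun r t => by
    have := (hT).td_τ morE6_chk f Nat.cast_zero E6.π E6.hπ (E6.surj f hf) ((hT).lt_n r) t
    rwa [(hT).fin_val, E6.ex1, pow_one] at this
  have hA : ∀ r s, (hT).cd.A r s = tabE6.A r s := (hT).A_eq
  have hS : ∀ i r, (hT).cd.A ((hT).cd.sim i) r = tabE6.wtv r i := (hT).A_sim
  have H := ME.sl_tab hT ((hT).grp K) slE6 (by decide +kernel)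
  have σσ : ∀ r, z.ρ (z.ρ r) = r := fun r => by rw [e, v]; exact (c1 r ((hT).lt_n r)).2.1
  have ττ : ∀ r t, z.τ (z.ρ r) (z.τ r t) = t := fun r t => by
    rw [τ, τ, v, (c1 r ((hT).lt_n r)).2.2.1, map_mul, hf]
    rcases morE6.ep_eq r with h | h <;> simp [h]
  have A0 : ∀ r, z.ρ r ≠ r → (hT).cd.A r (z.ρ r) = 0 := fun r h => by
    rw [hA, v]; exact (c1 r ((hT).lt_n r)).2.2.2.2.2.1 (mt (e r r).2 h)
  have mem : ∀ r t, ((hT).grp K).x r t * z.σ (((hT).grp K).x r t) ∈ z.G1 (E6.O f hf) := fun r t => by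
    have : ((hT).grp K).x r t * z.σ (((hT).grp K).x r t) ∈ z.Fx := by
      rw [z.mem_Fx, map_mul, z.σ_x, z.σ_x, σσ, ττ]
      refine (((hT).grp K).commute_sl H.hl ?_ _ _).symm.eq
      by_cases h : z.ρ r = r
      · rw [h, RS.A_self]; omega
      · exact (A0 r h).ge
    by_cases h : (hT).cd.Pos r
    · exact (E6.sub f hf).U_le ⟨mul_mem (((hT).grp K).x_mem h t) (z.σ_mem_U (((hT).grp K).x_mem h t)), this⟩
    · exact (E6.sub f hf).V_le ⟨mul_mem (((hT).grp K).x_mem h t) (z.σ_mem_V (((hT).grp K).x_mem h t)), this⟩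
  let S := ofTw z H hf nf (E6.sub f hf).le_Fx mem σσ ττ
    (fun r t h => by rw [τ, (c1 r ((hT).lt_n r)).2.2.2.1 ((e r r).1 h), Int.cast_one, one_mul])
    (fun r s => by rw [hA, hA, v, v]; exact ((c1 r ((hT).lt_n r)).2.2.2.2.2.2.2 s ((hT).lt_n s)).1)
    (fun r l => by
      change tabE6.rtv (z.ρ r) l = _
      rw [v]; exact (c1 r ((hT).lt_n r)).2.2.2.2.1 l) A0
    fun r s => by rw [hA, hA, v, e, e]; exact ((c1 r ((hT).lt_n r)).2.2.2.2.2.2.2 s ((hT).lt_n s)).2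
  let φ : z.G1 (E6.O f hf) →* twistedE6 K q := ((chevE6.group K).subtype.comp (Subgroup.subtype _)).codRestrict _ fun g => by
    rw [E6.gen_eq f hf hq']; exact ⟨g, g.2, rfl⟩
  refine S.main (ρ.comp φ) hF hK (k := k1) c3.1 (fun r a b c => ?_)
    (fun r a b => ?_) (fun j h => ?_) (fun r h => ?_) Fin.val Fin.val_injective ?_ ?_ _ _ fun a ha => ?_
  · obtain ⟨s, hs, h⟩ := (c2 r ((hT).lt_n r)).1 ((e r r).1 a) ((hS k1 r).symm.trans b) c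
    exact ⟨⟨s, hs⟩, (e _ _).2 h.1, (hS _ _).trans h.2.1, (hA _ _).trans h.2.2.1, h.2.2.2⟩
  · obtain ⟨s, hs, h⟩ := (c2 r ((hT).lt_n r)).2 (by rwa [hS] at a) b
    exact ⟨⟨s, hs⟩, (hS _ _).trans h.1, (hA _ _).trans h.2.1, h.2.2.1, h.2.2.2.1, by simpa only [hA, v, e] using h.2.2.2.2⟩
  · rw [hS]
    exact c3.2 j h
  · obtain ⟨s, hs, h⟩ := (c1 r ((hT).lt_n r)).2.2.2.2.2.2.1 ((e r r).1 h)
    exact ⟨⟨s, hs⟩, (e _ _).2 h.1, (hA _ _).trans h.2⟩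
  · simp only [hS, v, e]
    refine (Fin.sum_univ_eq_sum_range (fun r => if tabE6.wtv r 1 = 1 ∧ 0 < tabE6.rtv r 1 ∧ r ≤ ph r then
      if ph r = r then 1 else 2 else 0) _).trans ?_
    rw [(hT).hn]; decide +kernel
  · obtain ⟨t, ht⟩ := exists_tr hf nf (map_one f)
    refine ⟨t, fun h => one_ne_zero (α := K) (((hT).grp K).sep.x_eq_one (r := (hT).cd.sim k1) ?_)⟩
    have h1 : ((hT).grp K).x ((hT).cd.sim k1) t * z.σ (((hT).grp K).x ((hT).cd.sim k1) t) = 1 :=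
      Subtype.ext (congrArg (Subtype.val : twistedE6 K q → _) (Subgroup.mem_bot.1 (hρ.le h)))
    have h2 : z.ρ ((hT).cd.sim k1) = (hT).cd.sim k1 := (z.ρ_sim _).trans (congrArg _ c3.1)
    rwa [z.σ_x, h2, τ, (c1 _ ((hT).lt_n _)).2.2.2.1 ((e _ _).1 h2), Int.cast_one, one_mul, ← St0.x_add, ht] at h1
  · have : ∀ β, (hT).cd.ht β = sumLt tabE6.l (tabE6.rtv β) := fun β => by rw [(hT).sumLt_eq']; rfl
    simp only [this, e]
    refine (ME.card_tab hT fun r => ph r = r ∧ 0 < sumLt tabE6.l (tabE6.rtv r) ∧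
      (sumLt tabE6.l (tabE6.rtv r) - 1).toNat = a).trans ?_
    revert a; decide +kernel

end H24.MT
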