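import Cfsg.Agent.H24.Ree2

/-! Groups of Ree type: generation and automorphisms. -/

set_option linter.unusedSectionVars false
set_option maxHeartbeats 400000

namespace H24
open Subgroup H4
open scoped MatrixGroups

theorem card_ringEquiv' {F : Type*} [Field F] [Fintype F] {p n : ℕ} (hp : p.Prime) (hF : Fintype.card F = p ^ n) :
    Nat.card (F ≃+* F) = n := by
  have : Fact p.Prime := ⟨hp⟩
  have : CharP F p := charP_of_card_eq_prime_pow hF
  let := ZMod.algebra F p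
  have h1 : Module.finrank (ZMod p) F = n := by
    have h := Module.card_eq_pow_finrank (K := ZMod p) (V := F)
    rw [hF, ZMod.card] at h
    exact (Nat.pow_right_injective hp.two_le h).symm
  rw [← h1, ← IsGalois.card_aut_eq_finrank]
  refine Nat.card_congr ⟨fun σ => AlgEquiv.ofRingEquiv (f := σ) fun x => ?_, fun σ => σ.toRingEquiv,
    fun _ => rfl, fun _ => rfl⟩
  exact congrArg (fun f : ZMod p →+* F => f x)
    (Subsingleton.elim ((σ : F →+* F).comp (algebraMap (ZMod p) F)) (algebraMap (ZMod p) F))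

theorem exists_cube_ne {K : Type*} [Field K] [Fintype K] (h : 3 < Fintype.card K) : ∃ y : K, y ^ 3 ≠ y := by
  by_contra hn
  push Not at hn
  have := Nat.le_of_dvd (by norm_num) ((FiniteField.forall_pow_eq_one_iff K 2).1 fun u => Units.ext
    (mul_left_cancel₀ u.ne_zero (by rw [Units.val_pow_eq_pow_val, Units.val_one]; linear_combination hn u)))
  omega

namespace Ree
variable {K : Type*} [Field K] {G : Type*} [Group G] (R : Ree K G)

theorem s_ne_self {y : K} (hy : y ^ 3 ≠ y) : R.s y ≠ y := fun e => hy (by rw [← R.ss, e, e])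

theorem wt_one {t : K} (ht : t ≠ 0) : (t ^ 2 * R.s t) ^ 2 / R.s (t ^ 2 * R.s t) = t := by
  have := R.s_ne ht
  rw [map_mul, map_pow, R.ss]; field_simp

theorem wt_two {d : K} (hd : d ≠ 0) : R.s (d * R.s d) / (d * R.s d) = d ^ 2 := by
  have := R.s_ne hd
  rw [map_mul, R.ss]; field_simp

theorem wt_inj {t t' : K} (e : t ^ 2 * R.s t = t' ^ 2 * R.s t') : t = t' := by
  by_cases ht : t = 0
  · by_contra h
    exact mul_ne_zero (pow_ne_zero 2 (ht ▸ Ne.symm h)) (R.s_ne (ht ▸ Ne.symm h)) (by rw [← e, ht]; simp)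
  · have ht' : t' ≠ 0 := by rintro rfl; simp [ht] at e
    rw [← R.wt_one ht, e, R.wt_one ht']

theorem x_split (t u v : K) : R.x t u v = R.x t 0 0 * (R.x 0 u 0 * R.x 0 0 v) := by simp [x_mul]

theorem U_le_of {y : K} (hy : y ^ 3 ≠ y) {M : Subgroup G} (hM : ∀ l, ∀ g ∈ M, R.h l * g * (R.h l)⁻¹ ∈ M)
    {t u v : K} (ht : t ≠ 0) (hx : R.x t u v ∈ M) : R.U ≤ M := by
  have h1 : ∀ t', t' ≠ 0 → ∃ u v, R.x t' u v ∈ M := fun t' ht' => by
    have h0 := div_ne_zero ht' ht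
    have := hM (Units.mk0 _ (mul_ne_zero (pow_ne_zero 2 h0) (R.s_ne h0))) _ hx
    rw [h_x, Units.val_mk0, R.wt_one h0, div_mul_cancel₀ _ ht] at this
    exact ⟨_, _, this⟩
  have h3 : ∀ v, R.x 0 0 v ∈ M := fun v => by
    obtain ⟨u', v', h⟩ := h1 1 one_ne_zero
    by_cases hv : v = 0
    · rw [hv, x_zero]; exact one_mem _
    have := hM (Units.mk0 _ (neg_ne_zero.2 hv)) _ (pow_mem h 3)
    rw [x_cube, h_x] at this
    simpa using this
  have h2 : ∀ u, R.x 0 u 0 ∈ M := fun u => by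
    obtain ⟨u1, v1, a1⟩ := h1 1 one_ne_zero
    obtain ⟨u2, v2, a2⟩ := h1 y (by rintro rfl; simp at hy)
    have a3 := mul_mem a1 a2
    rw [x_comm, M.mul_mem_cancel_left (mul_mem a2 a1), x_split, x_zero, one_mul, M.mul_mem_cancel_right (h3 _), map_one,
      mul_one, one_mul] at a3
    have h0 := sub_ne_zero.2 (R.s_ne_self hy).symm
    by_cases hu : u = 0
    · rw [hu, x_zero]; exact one_mem _
    obtain ⟨d, hd⟩ := R.pm (u / (y - R.s y))
    have hd0 : d ≠ 0 := by rintro rfl; exact div_ne_zero hu h0 (by simpa [eq_comm] using hd)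
    have := hM (Units.mk0 _ (mul_ne_zero hd0 (R.s_ne hd0))) _ a3
    rw [h_x, Units.val_mk0, R.wt_two hd0, mul_zero, mul_zero] at this
    rcases hd with hd | hd
    · rwa [hd, div_mul_cancel₀ _ h0] at this
    · replace this := inv_mem this
      rw [x_inv, ← neg_mul, hd, div_mul_cancel₀ _ h0] at this
      simpa using this
  rintro _ ⟨t, u, v, rfl⟩
  by_cases ht : t = 0
  · rw [x_split, ht, x_zero, one_mul]; exact mul_mem (h2 _) (h3 _)
  · obtain ⟨u', v', h⟩ := h1 t ht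
    rw [x_split, M.mul_mem_cancel_right (mul_mem (h2 _) (h3 _))] at h ⊢
    exact h

theorem eq_top_of {M : Subgroup G} (h : R.U ≤ M) (hn : R.n ∈ M) : M = ⊤ :=
  R.gen M (fun _ _ _ => h (R.x_mem ..)) fun _ _ _ => mul_mem (mul_mem hn (h (R.x_mem ..))) (inv_mem hn)

theorem exists_conj_mul {y : K} (hy : y ^ 3 ≠ y) :
    ∃ l t u v, t ≠ 0 ∧ R.h l * R.x 1 0 0 * (R.h l)⁻¹ * (R.x 1 0 0)⁻¹ = R.x t u v := by
  have h0 : y ≠ 0 := by rintro rfl; simp at hy
  refine ⟨Units.mk0 _ (mul_ne_zero (pow_ne_zero 2 h0) (R.s_ne h0)), _, _, _, ?_, by rw [h_x, x_inv, x_mul]⟩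
  rw [Units.val_mk0, R.wt_one h0, mul_one, ← sub_eq_add_neg, sub_ne_zero]
  rintro rfl; simp at hy

include R in
theorem perfect {y : K} (hy : y ^ 3 ≠ y) : _root_.commutator G = ⊤ := by
  obtain ⟨l, t, u, v, ht, e⟩ := R.exists_conj_mul hy
  have := R.U_le_of hy (M := _root_.commutator G) (fun l g hg => Normal.conj_mem inferInstance g hg _) ht
    (by rw [← e]; exact commutator_mem_commutator (mem_top (R.h l)) (mem_top (R.x 1 0 0)))
  exact R.gen _ (fun _ _ _ => this (R.x_mem ..)) fun _ _ _ => Normal.conj_mem inferInstance _ (this (R.x_mem ..)) _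

include R in
theorem two_gen [Finite K] {y : K} (hy : y ^ 3 ≠ y) : ∃ a b : G, closure {a, b} = ⊤ := by
  obtain ⟨l₀, h₀⟩ := IsCyclic.exists_generator (α := Kˣ)
  refine ⟨R.h l₀, R.x 1 0 0 * R.n, ?_⟩
  set M := closure {R.h l₀, R.x 1 0 0 * R.n}
  have h1 : ∀ l, R.h l ∈ M := fun l => by
    obtain ⟨i, rfl⟩ := h₀ l
    rw [map_zpow]; exact zpow_mem (subset_closure (by simp)) _
  have h2 : R.x 1 0 0 * R.n ∈ M := subset_closure (by simp)
  obtain ⟨l, t, u, v, ht, e⟩ := R.exists_conj_mul hy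
  have h3 := R.U_le_of hy (M := M) (fun l g hg => mul_mem (mul_mem (h1 l) hg) (inv_mem (h1 l))) ht (by
    have := mul_mem (mul_mem (mul_mem (h1 l) h2) (h1 l)) (inv_mem h2)
    rw [mul_assoc (R.h l), mul_assoc _ R.n, nh, map_inv] at this
    rw [← e]; simpa [mul_assoc] using this)
  exact R.eq_top_of h3 ((M.mul_mem_cancel_left (h3 (R.x_mem ..))).1 h2)

theorem hom_ext {G' : Type*} [Group G'] {f g : G →* G'} (h : ∀ t u v, f (R.x t u v) = g (R.x t u v))
    (hn : f R.n = g R.n) : f = g :=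
  MonoidHom.eq_of_eqOn_top fun k _ => (R.eq_top_of (M := f.eqLocus g) (by rintro _ ⟨t, u, v, rfl⟩; exact h t u v) hn).ge
    (mem_top k)

/-- automorphisms normalizing the two opposite unipotent radicals -/
structure Good (α : G →* G) : Prop where
  inj : Function.Injective α
  U : ∀ u ∈ R.U, α u ∈ R.U
  n : ∃ c, α R.n = R.n * R.h c

variable {R}

theorem Good.h {α : G →* G} (A : R.Good α) (l : Kˣ) : ∃ l', α (R.h l) = R.h l' := by
  have key : ∀ l, α (R.h l) ∈ R.B := fun l => R.mem_B_of_conj (A.U _ (R.x_mem 0 0 1))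
    (by simp [map_eq_one_iff _ A.inj, x_eq_one]) (by
      rw [← map_inv, ← map_mul, ← map_mul]; exact R.U_le (A.U _ (R.h_conj_mem l (R.x_mem ..))))
  obtain ⟨u, hu, l', e⟩ := key l
  obtain ⟨c, hc⟩ := A.n
  have h1 := key l⁻¹
  rw [← R.n_h, ← Ree.n, map_mul, map_mul, map_inv, e, hc] at h1
  have := R.eq_one_of_n (R.h_conj_mem c hu) (by
    have h2 := mul_mem h1 (R.h_mem l')
    rw [R.n_inv]
    rwa [show R.n * R.h c * (u * R.h l') * (R.n * R.h c)⁻¹ * R.h l' =
      R.n * (R.h c * u * (R.h c)⁻¹) * ((R.h c * R.h l') * (R.h c)⁻¹ * (R.n⁻¹ * R.h l')) by group, h_comm, R.n_inv, nh,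
      map_inv, mul_inv_cancel_right, mul_inv_cancel_left] at h2)
  exact ⟨l', by rw [e, (by simpa using this : u = 1), one_mul]⟩

theorem Good.comp {α β : G →* G} (A : R.Good α) (B : R.Good β) : R.Good (α.comp β) :=
  ⟨A.inj.comp B.inj, fun u hu => A.U _ (B.U u hu), by
    obtain ⟨c, hc⟩ := A.n
    obtain ⟨d, hd⟩ := B.n
    obtain ⟨e, he⟩ := A.h d
    exact ⟨c * e, by rw [MonoidHom.comp_apply, hd, map_mul, hc, he, map_mul, mul_assoc]⟩⟩

variable (R) in
theorem good_h (l : Kˣ) : R.Good (MulAut.conj (R.h l)).toMonoidHom :=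
  ⟨(MulAut.conj (R.h l)).injective, fun _ hu => R.h_conj_mem l hu, l⁻¹ * l⁻¹, by
    simp [hn, mul_assoc]⟩

theorem Good.a {α : G →* G} (A : R.Good α) : α R.a = R.a := by
  obtain ⟨l, e⟩ := A.h (-1)
  have : l ^ 2 = 1 := R.h_inj (by rw [map_pow, ← e, ← map_pow, ← map_pow]; simp)
  rcases eq_of_sq this with rfl | rfl
  · exact absurd (A.inj (e.trans ((map_one _).trans (map_one _).symm))) R.a_ne
  · exact e

theorem Good.x1 {α : G →* G} (A : R.Good α) (u v : K) : ∃ u' v', α (R.x 0 u v) = R.x 0 u' v' := by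
  obtain ⟨t', u', v', e⟩ := A.U _ (R.x_mem 0 u v)
  have := congrArg (· ^ 3) e
  simp only [← map_pow, x_cube, map_zero, mul_zero, neg_zero, x_zero, map_one] at this
  rw [← x_zero R] at this
  rw [R.wt_inj (t := t') (t' := 0) (by simpa using (R.x_inj this).2.2)] at e
  exact ⟨u', v', e⟩

theorem Good.x2 {α : G →* G} (A : R.Good α) (u : K) : ∃ u', α (R.x 0 u 0) = R.x 0 u' 0 :=
  (R.fix_a (A.U _ (R.x_mem ..))).1 (by
    rw [← A.a, ← map_inv, ← map_mul, ← map_mul, (R.fix_a (R.x_mem ..)).2 ⟨u, rfl⟩])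

theorem Good.x3 {α : G →* G} (A : R.Good α) (v : K) : ∃ v', α (R.x 0 0 v) = R.x 0 0 v' := by
  obtain ⟨u', v', e⟩ := A.x1 0 v
  have h1 : R.a * R.x 0 0 v * R.a⁻¹ * R.x 0 0 v = 1 := by simp [a_x, x_mul, x_zero]
  have h2 := congrArg α h1
  rw [map_mul, map_mul, map_mul, map_inv, A.a, e, a_x, x_mul, map_one, x_eq_one] at h2
  exact ⟨v', by rw [e, mul_left_cancel₀ R.two_ne (by simpa [two_mul] using h2.2.1 : 2 * u' = 2 * 0)]⟩

theorem Good.field [Finite K] {α : G →* G} (A : R.Good α) :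
    ∃ (φ : K ≃+* K) (c : Kˣ), ∀ v, α (R.x 0 0 v) = R.x 0 0 (c * φ v) := by
  choose γ hγ using A.x3
  have h0 : ∀ v, γ v = 0 ↔ v = 0 := fun v => by
    have := map_eq_one_iff _ A.inj (x := R.x 0 0 v)
    simpa [hγ, x_eq_one] using this
  have h1 := mt (h0 1).1 one_ne_zero
  have ha : ∀ v v', γ (v + v') = γ v + γ v' := fun v v' => by
    have := map_mul α (R.x 0 0 v) (R.x 0 0 v')
    simpa using (R.x_inj (by simpa [x_mul, hγ] using this)).2.2
  have hm : ∀ v v', γ (v * v') * γ 1 = γ v * γ v' := fun v v' => by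
    by_cases hv : v = 0
    · simp [hv, (h0 0).2 rfl]
    obtain ⟨l, e⟩ := A.h (Units.mk0 v hv)
    have : ∀ w, γ (v * w) = l * γ w := fun w => by
      have := congrArg α (R.h_x (Units.mk0 v hv) 0 0 w)
      rw [map_mul, map_mul, map_inv, e, hγ, h_x, mul_zero, mul_zero, mul_zero, mul_zero, hγ] at this
      exact (R.x_inj this).2.2.symm
    rw [this, show γ v = l * γ 1 by rw [← this, mul_one]]; ring
  let φ : K →+* K := ⟨⟨⟨fun v => γ v / γ 1, div_self h1⟩, fun v v' => by field_simp; linear_combination hm v v'⟩,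
    by simp [(h0 0).2 rfl], fun v v' => by simp [ha, add_div]⟩
  exact ⟨RingEquiv.ofBijective φ (Finite.injective_iff_bijective.1 φ.injective), Units.mk0 _ h1, fun v => by
    rw [hγ]; exact R.x_congr rfl rfl (mul_div_cancel₀ _ h1).symm⟩

theorem Good.eq_id {y : K} (hy : y ^ 3 ≠ y) {α : G →* G} (A : R.Good α) (hZ : ∀ v, α (R.x 0 0 v) = R.x 0 0 v) :
    α = MonoidHom.id G := by
  have hH : ∀ l, α (R.h l) = R.h l := fun l => by
    obtain ⟨l', e⟩ := A.h l
    have := congrArg α (R.h_x l 0 0 1)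
    rw [map_mul, map_mul, map_inv, e, hZ, h_x, mul_zero, mul_zero, mul_zero, mul_zero, hZ, mul_one, mul_one] at this
    rw [e, Units.ext (R.x_inj this).2.2]
  have h1 : ∀ t, ∃ u v, α (R.x t 0 0) = R.x t u v := fun t => by
    obtain ⟨t', u', v', e⟩ := A.U _ (R.x_mem t 0 0)
    have := congrArg (· ^ 3) e
    simp only [← map_pow, x_cube, hZ] at this
    rw [← R.wt_inj (neg_injective (R.x_inj this).2.2)] at e
    exact ⟨u', v', e⟩
  choose δ ε h1 using h1
  have h2 : ∀ u, α (R.x 0 u 0) = R.x 0 u 0 := fun u => by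
    obtain ⟨u', e⟩ := A.x2 u
    have := congrArg α (R.x_comm 1 0 0 0 u 0)
    simp only [map_mul, map_zero, map_one, zero_mul, mul_zero, sub_zero, one_mul, add_zero, e, h1, hZ, ne_eq,
      OfNat.ofNat_ne_zero, not_false_eq_true, zero_pow, sub_self] at this
    rw [R.x_comm, mul_left_cancel_iff] at this
    rw [e, (by simpa using (R.x_inj this).2.2 : u' = u)]
  have h3 : ∀ t u v, α (R.x t u v) = R.x t (δ t + u) (ε t + v) := fun t u v => by
    rw [x_split, map_mul, map_mul, h1, h2, hZ]; simp [x_mul]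
  have h4 : ∀ t t', δ (t + t') = δ t + δ t' ∧ ε (t + t') = ε t + ε t' - t' * δ t := fun t t' => by
    have := map_mul α (R.x t 0 0) (R.x t' 0 0)
    rw [x_mul, h3, h1, h1, x_mul] at this
    exact ⟨by linear_combination (R.x_inj this).2.1, by linear_combination (R.x_inj this).2.2⟩
  have h5 : ∀ t, δ t = 0 := fun t => by
    have := congrArg α (R.a_x t 0 0)
    rw [map_mul, map_mul, map_inv, A.a, h1, a_x, neg_zero, h1] at this
    refine mul_left_cancel₀ R.two_ne ?_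
    linear_combination (R.x_inj this).2.1 - (h4 t (-t)).1 - (h4 0 0).1 + congrArg δ (add_neg_cancel t) +
      congrArg δ (add_zero 0)
  have h6 : ∀ t, ε t = t ^ 2 * R.s t * ε 1 := fun t => by
    by_cases ht : t = 0
    · rw [ht]; linear_combination -(h4 0 0).2 + congrArg ε (add_zero 0)
    have := congrArg α (R.h_x (Units.mk0 _ (mul_ne_zero (pow_ne_zero 2 ht) (R.s_ne ht))) 1 0 0)
    rw [map_mul, map_mul, map_inv, hH, h1, h_x, mul_zero, mul_zero, Units.val_mk0, R.wt_one ht, mul_one, h1] at this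
    exact (R.x_inj this).2.2.symm
  have h7 : ε 1 = 0 := by
    have e1 := (h4 y 1).2
    have e2 := (h4 (-y) 1).2
    rw [h5, h6 (y + 1), h6 y, map_add, map_one] at e1
    rw [h5, h6 (-y + 1), h6 (-y), map_add, map_one, map_neg] at e2
    refine mul_left_cancel₀ (sub_ne_zero.2 (R.s_ne_self hy)) ?_
    linear_combination e2 - e1 + (y + R.s y) * ε 1 * R.three
  have hU : ∀ u ∈ R.U, α u = u := by
    rintro _ ⟨t, u, v, rfl⟩
    rw [h3, h5, h6, h7]; simp
  obtain ⟨c, hc⟩ := A.n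
  have h8 : R.n * R.x 0 0 1 * R.n⁻¹ ∉ R.B := fun h => by simpa [x_eq_one] using R.eq_one_of_n (R.x_mem ..) h
  obtain ⟨u, hu, _, ⟨u', hu', l, rfl⟩, e⟩ := (R.decomp _).resolve_left h8
  have e' := congrArg α e
  simp only [map_mul, map_inv, hc, hU _ hu, hU _ hu', hZ, hH] at e'
  have h9 := R.eq_one_of_n (mul_mem (inv_mem (R.x_mem 0 0 1)) (R.h_conj_mem c (R.x_mem 0 0 1))) (by
    rw [show R.n * ((R.x 0 0 1)⁻¹ * (R.h c * R.x 0 0 1 * (R.h c)⁻¹)) * R.n⁻¹ =
      (R.n * R.x 0 0 1 * R.n⁻¹)⁻¹ * (R.n * R.h c * R.x 0 0 1 * (R.n * R.h c)⁻¹) by group, e', e]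
    simpa [mul_assoc] using mul_mem (inv_mem (mul_mem (R.U_le hu') (R.h_mem l)))
      (mul_mem (R.h_mem c) (mul_mem (R.U_le hu') (R.h_mem l))))
  rw [inv_mul_eq_one, h_x] at h9
  obtain rfl : c = 1 := Units.ext (by simpa using (R.x_inj h9).2.2.symm)
  exact R.hom_ext (fun _ _ _ => hU _ (R.x_mem ..)) (by simpa using hc)

variable (R) [Fintype K] [Finite G] {m q a b c d : ℕ} (N : ReeNum m q a b c d) (hK : Fintype.card K = q)
include N hK

theorem exists_good (α : MulAut G) : ∃ k, R.Good (MulAut.conj k * α).toMonoidHom := by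
  obtain ⟨k, hk⟩ := R.conj_U N hK ((R.isPGroup_U N hK).map α.toMonoidHom)
  have h1 : ∀ u ∈ R.U, (MulAut.conj k * α) u ∈ R.U := fun u hu => hk _ ⟨u, hu, rfl⟩
  generalize e : MulAut.conj k * α = β at h1
  have h2 : β R.n ∉ R.B := fun h => by
    have h3 : R.U.map β.toMonoidHom = R.U := eq_of_le_of_card_ge (by rintro _ ⟨u, hu, rfl⟩; exact h1 u hu)
      (card_map_of_injective β.injective).ge
    obtain ⟨u, hu, e⟩ := h3.ge (R.B_conj h (h1 _ (R.x_mem 0 0 1)))
    rw [← map_inv, ← map_mul, ← map_mul] at e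
    exact one_ne_zero (R.x_eq_one.1 (R.eq_one_of_n (R.x_mem ..) (R.U_le (β.injective e ▸ hu)))).2.2
  obtain ⟨u, hu, b, hb, e'⟩ := (R.decomp _).resolve_left h2
  obtain ⟨u', hu', l, e''⟩ := mul_mem hb (R.U_le hu)
  have h4 : (MulAut.conj u⁻¹ * β) R.n = R.n * (u' * R.h l) := by simp [e', ← e'', mul_assoc]
  refine ⟨u⁻¹ * k, ?_⟩
  rw [map_mul, mul_assoc, e]
  refine ⟨MulEquiv.injective _, fun g hg => R.B_conj (inv_mem (R.U_le hu)) (h1 g hg), l, h4.trans ?_⟩
  have h5 := congrArg (MulAut.conj u⁻¹ * β) R.n_sq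
  rw [map_mul, map_one, h4] at h5
  rw [R.eq_one_of_n hu' (by
    rw [show R.n * u' * R.n⁻¹ = R.n * (u' * R.h l) * (R.n * (u' * R.h l)) * (u' * R.h l)⁻¹ * (R.n⁻¹ * (R.h l)⁻¹ * R.n⁻¹)
      by group, h5, R.n_inv, ← map_inv, nh, mul_assoc _ R.n, n_sq, mul_one, one_mul]
    exact mul_mem (inv_mem (mul_mem (R.U_le hu') (R.h_mem _))) (R.h_mem _)), one_mul]

theorem card_out {y : K} (hy : y ^ 3 ≠ y)
    (hF : ∀ φ : K →+* K, ∃ α : G →* G, (∀ t u v, α (R.x t u v) = R.x (φ t) (φ u) (φ v)) ∧ α R.n = R.n) :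
    Nat.card (MulAut G ⧸ (MulAut.conj : G →* MulAut G).range) = Nat.card (K ≃+* K) := by
  choose F h1 h2 using hF
  have h3 : ∀ φ : K ≃+* K, (F φ.symm).comp (F φ) = MonoidHom.id G := fun φ =>
    R.hom_ext (fun t u v => by simp [h1]) (by simp [h2])
  let E : (K ≃+* K) → MulAut G := fun φ => MonoidHom.toMulEquiv (F φ) (F φ.symm) (h3 φ) (h3 φ.symm)
  have hE : ∀ φ g, E φ g = F φ g := fun _ _ => rfl
  refine (Nat.card_eq_of_bijective (fun φ => (E φ : MulAut G ⧸ (MulAut.conj : G →* MulAut G).range))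
    ⟨fun φ φ' h => ?_, fun x => ?_⟩).symm
  · obtain ⟨g, hg⟩ := QuotientGroup.eq.1 h
    have key : ∀ v, E φ g * R.x 0 0 (φ v) * (E φ g)⁻¹ = R.x 0 0 (φ' v) := fun v => by
      have := congrArg (fun β : MulAut G => β (R.x 0 0 v)) (eq_inv_mul_iff_mul_eq.1 hg)
      simpa [hE, h1] using this
    obtain ⟨_, ⟨t, u, v, rfl⟩, l, e⟩ := R.mem_B_of_conj (R.x_mem ..) (by simp [x_eq_one])
      (key 1 ▸ R.U_le (R.x_mem ..))
    have key' : ∀ w, l * φ w = φ' w := fun w => by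
      have := key w
      rw [e, show ∀ p r s : G, p * r * s * (p * r)⁻¹ = p * (r * s * r⁻¹) * p⁻¹ from fun _ _ _ => by group, h_x,
        mul_inv_eq_iff_eq_mul, x_mul, x_mul] at this
      simpa [add_comm] using (R.x_inj this).2.2
    have := key' 1
    rw [map_one, map_one, mul_one] at this
    exact RingEquiv.ext fun w => by rw [← key', this, one_mul]
  · obtain ⟨α, rfl⟩ := QuotientGroup.mk_surjective x
    obtain ⟨k, A⟩ := R.exists_good N hK α⁻¹
    obtain ⟨φ, l, e⟩ := A.field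
    have B : R.Good (F φ.symm) := ⟨(E φ.symm).injective, by rintro _ ⟨t, u, v, rfl⟩; exact h1 .. ▸ R.x_mem .., 1,
      by simp [h2]⟩
    have := (B.comp ((R.good_h l⁻¹).comp A)).eq_id hy fun v => by
      rw [MonoidHom.comp_apply, MonoidHom.comp_apply, e, MulEquiv.coe_toMonoidHom, MulAut.conj_apply, h_x, h1]; simp
    refine ⟨φ.symm, QuotientGroup.eq.2 ⟨R.h l⁻¹ * k, ?_⟩⟩
    rw [eq_inv_mul_iff_mul_eq, ← mul_inv_eq_one]
    ext g
    simpa [hE, mul_assoc] using DFunLike.congr_fun this g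

end Ree
end H24
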