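import Cfsg.Agent.H24.Ree5
import Cfsg.Agent.H26.SzMult

/-! Groups of Ree type: central extensions. -/

set_option linter.unusedSectionVars false
set_option maxHeartbeats 400000

namespace H24
open Subgroup H4 H26.SzModel
open scoped MatrixGroups commutatorElement IsMulCommutative

section
variable {F A : Type*} [Field F] [Group A] (f : F → F → A)

theorem form_one (w : F → F) (h1 : ∀ a a' b, f (a + a') b = f a b * f a' b)
    (h2 : ∀ a b b', f a (b + b') = f a b * f a b') (h : ∀ a b, b ≠ 0 → f a b = f (w b * a) 1) {y : F} (hb : y ≠ 0)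
    (hb' : y + 1 ≠ 0) (hne : w (y + 1) ≠ w y + 1) (a b : F) : f a b = 1 := by
  have k2 : ∀ a, f a 1 = 1 := fun a => by
    obtain ⟨c, rfl⟩ : ∃ c, a = (w (y + 1) - (w y + 1)) * c := ⟨_, (mul_inv_cancel_left₀ (sub_ne_zero.2 hne) a).symm⟩
    have := h2 c y 1
    rw [h _ _ hb', h _ _ hb, ← h1, ← sub_add_cancel (w (y + 1) * c) (w y * c + c), h1, mul_eq_right] at this
    rw [← this]; congr 1; ring
  by_cases hb : b = 0
  · rw [hb]; simpa using h2 a 0 0
  · rw [h _ _ hb, k2]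

theorem hom_one (g : F → A) (h2 : (2 : F) ≠ 0) (h1 : ∀ a a', g (a + a') = g a * g a') (h : ∀ a, g (-a) = g a) (a : F) :
    g a = 1 := by
  have := h1 (a / 2) (-(a / 2))
  rw [h, ← h1, add_neg_cancel, ← two_mul, mul_div_cancel₀ _ h2] at this
  rw [← this]; simpa using h1 0 0

theorem form_one' (h3 : (3 : F) = 0) {y : F} (hy : y ^ 3 ≠ y) (h1 : ∀ a a' b, f (a + a') b = f a b * f a' b)
    (h2 : ∀ a b b', f a (b + b') = f a b * f a b') (h : ∀ t a b, t ≠ 0 → f (t * a) (t * b) = f a b) (a b : F) :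
    f a b = 1 := by
  have h0 : y ≠ 0 := by rintro rfl; simp at hy
  have h0' : y + 1 ≠ 0 := fun e => hy (by linear_combination (y ^ 2 - y) * e)
  refine form_one f (·⁻¹) h1 h2 (fun a b hb => by rw [← h b⁻¹ a b (inv_ne_zero hb), inv_mul_cancel₀ hb]) h0 h0'
    (fun e => hy ?_) a b
  field_simp at e
  have : y - 1 = 0 := pow_eq_zero_iff two_ne_zero |>.1 (by linear_combination -e - y * h3)
  linear_combination (y ^ 2 + y) * this
end

section
variable {G Γ : Type*} [Group G] [Group Γ]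

/-- a central extension with a section -/
structure CExt (π : Γ →* G) where
  l : G → Γ
  hl : ∀ g, π (l g) = g
  hc : π.ker ≤ center Γ

namespace CExt
variable {π : Γ →* G} (E : CExt π)

/-- the commutator of lifts -/
def c (x y : G) : Γ := ⁅E.l x, E.l y⁆

theorem c_eq (x y : Γ) : ⁅x, y⁆ = E.c (π x) (π y) := comm_congr E.hc (E.hl _).symm (E.hl _).symm
theorem π_c (x y : G) : π (E.c x y) = ⁅x, y⁆ := by rw [c, map_commutatorElement, hl, hl]
theorem c_left (x x' y : G) : E.c (x * x') y = E.l x * E.c x' y * (E.l x)⁻¹ * E.c x y := by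
  rw [c.eq_1 E x', c.eq_1 E x, ← comm_left, c_eq E, map_mul, hl, hl, hl]
theorem c_right (x y y' : G) : E.c x (y * y') = E.c x y * (E.l y * E.c x y' * (E.l y)⁻¹) := by
  rw [c.eq_1 E x y, c.eq_1 E x y', ← comm_right, c_eq E, map_mul, hl, hl, hl]
theorem c_conj (g x y : G) : E.c (g * x * g⁻¹) (g * y * g⁻¹) = E.l g * E.c x y * (E.l g)⁻¹ := by
  rw [c.eq_1 E x, ← comm_conj, c_eq E]; simp [hl]
theorem c_central {x y : G} (h : x * y = y * x) (g : Γ) : g * E.c x y * g⁻¹ = E.c x y :=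
  comm_central E.hc (by rw [hl, hl, h]) g
theorem c_swap (x y : G) : E.c x y = (E.c y x)⁻¹ := (commutatorElement_inv _ _).symm
theorem c_left' {x' y : G} (h : E.c x' y = 1) (x : G) : E.c (x * x') y = E.c x y := by simp [c_left, h]
theorem c_right' {x y' : G} (h : E.c x y' = 1) (y : G) : E.c x (y * y') = E.c x y := by simp [c_right, h]
theorem conj_eq (g w : Γ) : g * w * g⁻¹ = E.c (π g) (π w) * w := by rw [← c_eq]; group
theorem c_one (x : G) : E.c 1 x = 1 := by simpa [E.c_central (x := 1) (y := x) (by simp)] using E.c_left 1 1 x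
theorem c_self (x : G) : E.c x x = 1 := commutatorElement_self _

end CExt
end

namespace Ree
variable {K : Type*} [Field K] {G : Type*} [Group G] (R : Ree K G) {Γ : Type*} [Group Γ] {π : Γ →* G} (E : CExt π)

theorem x_comm1 (u v u' v' : K) : R.x 0 u v * R.x 0 u' v' = R.x 0 u' v' * R.x 0 u v := by simp [x_mul, add_comm]
theorem x_comm3 (t u v v' : K) : R.x t u v * R.x 0 0 v' = R.x 0 0 v' * R.x t u v := by simp [x_mul, add_comm]
theorem x_add1 (u v u' v' : K) : R.x 0 (u + u') (v + v') = R.x 0 u v * R.x 0 u' v' := by simp [x_mul]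
theorem x_add (t t' : K) : ∃ u v, R.x (t + t') 0 0 = R.x t' 0 0 * R.x t 0 0 * R.x 0 u v :=
  ⟨t' * R.s t, t' ^ 2 * R.s t - t' * t * R.s t, by
    rw [x_mul, x_mul, map_zero]; exact R.x_congr (by ring) (by ring) (by ring)⟩

theorem c_a {g : G} (hg : g ∈ centralizer {R.a}) : E.c R.a g = 1 := by
  have hc : ∀ g ∈ centralizer {R.a}, ∀ k, k * E.c R.a g * k⁻¹ = E.c R.a g := fun g hg =>
    E.c_central (mem_centralizer_singleton_iff.1 hg).symm
  let χ : centralizer {R.a} →* Γ := MonoidHom.mk' (fun g => E.c R.a g) fun g g' => by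
    rw [coe_mul, E.c_right, hc _ g'.2]
  have key : ∀ k : SL(2, K), k ^ 3 = 1 → k ∈ (χ.comp (R.ψ.codRestrict _ fun k => R.L_le ⟨k, rfl⟩)).ker := fun k hk => by
    have h1 := congrArg (χ.comp (R.ψ.codRestrict _ fun k => R.L_le ⟨k, rfl⟩)) hk
    have h2 := E.c_left R.a R.a (R.ψ k)
    rw [a_sq, E.c_one, hc _ (R.L_le ⟨k, rfl⟩)] at h2
    rw [map_pow, map_one, pow_succ, sq] at h1
    exact (one_mul _).symm.trans ((congrArg (· * _) h2).trans h1)
  have hL : ∀ g ∈ R.L, E.c R.a g = 1 := by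
    rintro _ ⟨k, rfl⟩
    exact (sl2_eq_top_of_upT_loT (fun t => key _ (by rw [upT_pow]; simp [R.three, upT_zero]))
      fun t => key _ (by rw [loT_pow]; simp [R.three, loT_zero])).ge (mem_top k)
  rcases R.mem_cent_a.1 hg with h | h
  · exact hL g h
  · rw [← E.c_right' (E.c_self _), hL _ h]

variable {y : K} (hy : y ^ 3 ≠ y)
include hy

theorem c11 (u v u' v' : K) : E.c (R.x 0 u v) (R.x 0 u' v') = 1 := by
  have cc := fun u v u' v' => E.c_central (R.x_comm1 u v u' v')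
  have l1 : ∀ u v u' v' u'' v'', E.c (R.x 0 (u + u') (v + v')) (R.x 0 u'' v'') =
      E.c (R.x 0 u v) (R.x 0 u'' v'') * E.c (R.x 0 u' v') (R.x 0 u'' v'') := fun u v _ _ _ _ => by
    rw [add_comm u, add_comm v, x_add1, E.c_left, cc]
  have l2 : ∀ u v u' v' u'' v'', E.c (R.x 0 u'' v'') (R.x 0 (u + u') (v + v')) =
      E.c (R.x 0 u'' v'') (R.x 0 u v) * E.c (R.x 0 u'' v'') (R.x 0 u' v') := fun _ _ _ _ _ _ => by
    rw [x_add1, E.c_right, cc]
  have l3 : ∀ (l : Kˣ) u v u' v', E.c (R.x 0 (R.s l / l * u) (l * v)) (R.x 0 (R.s l / l * u') (l * v')) =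
      E.c (R.x 0 u v) (R.x 0 u' v') := fun l u v u' v' => by
    rw [← cc u v u' v' (E.l (R.h l)), ← E.c_conj, h_x, h_x, mul_zero]
  have k1 := form_one' (fun a b => E.c (R.x 0 0 a) (R.x 0 0 b)) R.three hy (fun _ _ _ => by simpa using l1 0 _ 0 _ 0 _)
    (fun _ _ _ => by simpa using l2 0 _ 0 _ 0 _) fun t a b ht => by simpa using l3 (Units.mk0 t ht) 0 a 0 b
  have k2 := fun a => hom_one (fun b => E.c (R.x 0 a 0) (R.x 0 0 b)) R.two_ne
    (fun _ _ => by simpa using l2 0 _ 0 _ _ 0) fun b => by simpa using l3 (-1) a 0 0 b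
  have k3 := form_one' (fun a b => E.c (R.x 0 a 0) (R.x 0 b 0)) R.three hy (fun _ _ _ => by simpa using l1 _ 0 _ 0 _ 0)
    (fun _ _ _ => by simpa using l2 _ 0 _ 0 _ 0) fun t a b ht => by
      obtain ⟨d, hd⟩ := R.pm t
      have hd0 : d ≠ 0 := by rintro rfl; simp [ht.symm] at hd
      have := l3 (Units.mk0 _ (mul_ne_zero hd0 (R.s_ne hd0))) a 0 b 0
      rw [Units.val_mk0, R.wt_two hd0, mul_zero] at this
      rcases hd with rfl | rfl
      · exact this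
      · have e1 := l1 (d ^ 2 * a) 0 (-d ^ 2 * a) 0 (d ^ 2 * b) 0
        have e2 := l2 (-d ^ 2 * b) 0 (d ^ 2 * b) 0 (-d ^ 2 * a) 0
        simp only [neg_mul, add_neg_cancel, neg_add_cancel, add_zero, x_zero, E.c_one, E.c_swap _ 1, inv_one] at e1 e2 ⊢
        rw [← this, eq_inv_of_mul_eq_one_left e1.symm, eq_inv_of_mul_eq_one_left e2.symm]
  have e1 := l1 u 0 0 v u' v'
  have e2 := fun a b => l2 u' 0 0 v' a b
  simp only [add_zero, zero_add] at e1 e2
  rw [e1, e2, e2, k1, k2, k3, E.c_swap, k2]; simp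

theorem c03 (t u v v' : K) : E.c (R.x t u v) (R.x 0 0 v') = 1 := by
  have cc := fun t u v v' => E.c_central (R.x_comm3 t u v v')
  have h0 : y ≠ 0 := by rintro rfl; simp at hy
  have h0' : y + 1 ≠ 0 := fun e => hy (by linear_combination (y ^ 2 - y) * e)
  have := form_one (fun a b => E.c (R.x a 0 0) (R.x 0 0 b)) (fun b => R.s b / b ^ 2) (fun a a' b => by
      obtain ⟨u, v, e⟩ := R.x_add a a'
      rw [e, E.c_left' (R.c11 E hy ..), E.c_left, cc])
    (fun a b b' => by simpa [E.c_right, cc] using congrArg (E.c (R.x a 0 0)) (R.x_add1 0 b 0 b'))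
    (fun a b hb => by
      have := R.s_ne hb
      rw [← cc _ 0 0 1 (E.l (R.h (Units.mk0 b hb))), ← E.c_conj, h_x, h_x]
      congr 1
      · exact R.x_congr (by simp; field_simp) (by simp) (by simp)
      · simp) h0 h0' (fun e => by
      rw [map_add, map_one] at e
      field_simp at e
      have h1 : y - 1 ≠ 0 := fun e => hy (by linear_combination (y ^ 2 + y) * e)
      refine R.s_ne_self hy (R.s.injective (mul_left_cancel₀ h1 ?_))
      rw [R.ss]
      linear_combination -e + (-y * R.s y - y ^ 3) * R.three)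
  rw [x_split, ← x_add1, E.c_left' (R.c11 E hy ..), this]

theorem exists_norm [Fintype K] : ∃ N : Γ → Γ,
    (∀ w w', (∃ u v, π w = R.x 0 u v) → (∃ u v, π w' = R.x 0 u v) → N (w * w') = N w * N w') ∧
    (∀ s w, (∃ u v, π w = R.x 0 u v) → N (E.l (R.h s) * w * (E.l (R.h s))⁻¹) = N w) ∧
    ∀ z, π z = 1 → N z = z ^ (Fintype.card K - 1) := by
  classical
  let V : Subgroup Γ := ⟨⟨⟨{w | ∃ u v, π w = R.x 0 u v}, fun ⟨_, _, e⟩ ⟨_, _, e'⟩ => ⟨_, _, by
    rw [map_mul, e, e', ← x_add1]⟩⟩, 0, 0, by rw [map_one, x_zero]⟩, fun ⟨_, _, e⟩ => ⟨_, _, by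
    rw [map_inv, e, x_inv, neg_zero]⟩⟩
  have : IsMulCommutative V := ⟨⟨fun ⟨x, _, _, e⟩ ⟨x', _, _, e'⟩ => Subtype.ext
    (commutatorElement_eq_one_iff_mul_comm.1 (by rw [E.c_eq, e, e', R.c11 E hy]))⟩⟩
  have hV : ∀ s w, w ∈ V → E.l (R.h s) * w * (E.l (R.h s))⁻¹ ∈ V := fun s w ⟨_, _, e⟩ => ⟨_, _, by
    rw [map_mul, map_mul, map_inv, E.hl, e, h_x, mul_zero]⟩
  let ρ : Kˣ → V →* V := fun s => MonoidHom.mk' (fun x => ⟨_, hV s _ x.2⟩) fun x y => Subtype.ext (by simp)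
  have ρ_apply : ∀ s x, (ρ s x : Γ) = E.l (R.h s) * x * (E.l (R.h s))⁻¹ := fun _ _ => rfl
  have ρ_mul : ∀ s t x, ρ (s * t) x = ρ s (ρ t x) := fun s t x => Subtype.ext (by
    simp only [ρ_apply]
    rw [E.conj_eq, show ∀ a b c : Γ, a * (b * c * b⁻¹) * a⁻¹ = a * b * c * (a * b)⁻¹ from fun _ _ _ => by group,
      E.conj_eq (_ * _)]
    simp [E.hl])
  refine ⟨fun w => if h : w ∈ V then (∏ s, ρ s ⟨w, h⟩ : V) else 1, fun w w' h h' => ?_, fun t w h => ?_, fun z hz => ?_⟩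
  · beta_reduce
    rw [dif_pos (show w ∈ V from h), dif_pos (show w' ∈ V from h'), dif_pos (V.mul_mem h h'), ← coe_mul,
      ← Finset.prod_mul_distrib]
    exact congrArg _ (Finset.prod_congr rfl fun s _ => map_mul (ρ s) ⟨w, h⟩ ⟨w', h'⟩)
  · beta_reduce
    rw [dif_pos (show w ∈ V from h), dif_pos (hV t w h)]
    exact congrArg _ (Fintype.prod_equiv (Equiv.mulRight t) _ _ fun s => (ρ_mul s t ⟨w, h⟩).symm)
  · have h : z ∈ V := ⟨0, 0, by rw [hz, x_zero]⟩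
    have h2 : ∀ s, ρ s ⟨z, h⟩ = ⟨z, h⟩ := fun s => Subtype.ext (by
      rw [ρ_apply, mem_center_iff.1 (E.hc (x := z) hz), mul_inv_cancel_right])
    simp [h, h2, Fintype.card_units]

include E in
theorem pow_eq_one_of_comm [Fintype K] {z : Γ} (hz : π z = 1) (hz' : z ∈ ⁅R.U.comap π, R.U.comap π⁆) :
    z ^ (Fintype.card K - 1) = 1 := by
  obtain ⟨N, n1, n2, n3⟩ := R.exists_norm E hy
  have n0 : N 1 = 1 := by rw [n3 _ (map_one _), one_pow]
  have cm : ∀ t u v t' u' v', ∃ w, π (E.c (R.x t u v) (R.x t' u' v')) = R.x 0 (t' * R.s t - t * R.s t') w :=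
    fun t u v t' u' v' => ⟨_, by
      rw [E.π_c, commutatorElement_def, x_inv, x_inv, x_mul, x_mul, x_mul]
      exact R.x_congr (by ring) (by simp only [map_neg]; ring) rfl⟩
  have m1 : ∀ t u v t' u' v', ∃ a b, π (E.c (R.x t u v) (R.x t' u' v')) = R.x 0 a b := fun _ _ _ _ _ _ => ⟨_, cm ..⟩
  have k1 : ∀ t u v u' v', N (E.c (R.x t u v) (R.x 0 u' v')) = 1 := fun t u v u' v' => by
    rw [x_split, ← x_add1, E.c_left' (R.c11 E hy ..), x_split R 0, x_zero, one_mul, E.c_right' (R.c03 E hy ..)]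
    refine hom_one (fun t => N (E.c (R.x t 0 0) (R.x 0 u' 0))) R.two_ne (fun a a' => ?_) (fun a => ?_) t
    · obtain ⟨u, v, e⟩ := R.x_add a a'
      obtain ⟨w, hw⟩ := cm a 0 0 0 u' 0
      rw [e, E.c_left' (R.c11 E hy ..), E.c_left, E.conj_eq, E.hl, hw, map_zero, mul_zero, zero_mul, sub_zero,
        R.c03 E hy, one_mul, n1 _ _ (m1 ..) (m1 ..)]
    · rw [← n2 (-1) _ (m1 a 0 0 0 u' 0), ← E.c_conj, h_x, h_x]; simp
  have k2 : ∀ g w, π g ∈ R.U → (∃ u v, π w = R.x 0 u v) → N (g * w * g⁻¹) = N w := by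
    rintro g w ⟨t, u, v, e⟩ ⟨u', v', e'⟩
    rw [E.conj_eq, e, e', n1 _ _ (m1 ..) ⟨_, _, e'⟩, k1, one_mul]
  have m2 : ∀ g w, π g ∈ R.U → (∃ u v, π w = R.x 0 u v) → ∃ u v, π (g * w * g⁻¹) = R.x 0 u v := by
    rintro g w ⟨t, u, v, e⟩ ⟨u', v', e'⟩
    exact ⟨_, _, by rw [map_mul, map_mul, map_inv, e, e', x_inv, x_mul, x_mul, add_zero, add_neg_cancel]⟩
  have m3 : ∀ {g}, g ∈ R.U → π (E.l g) ∈ R.U := fun hg => by rwa [E.hl]
  have k3 : ∀ t u v u' v', N (E.c (R.x 0 u' v') (R.x t u v)) = 1 := fun t u v u' v' => by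
    have := n1 _ _ (m1 0 u' v' t u v) (m1 t u v 0 u' v')
    rwa [E.c_swap, inv_mul_cancel, n0, k1, mul_one, eq_comm, ← E.c_swap] at this
  have k4 : ∀ {g g'}, g ∈ R.U → g' ∈ R.U → ∀ t u v, N (E.c (g * g') (R.x t u v)) =
      N (E.c g' (R.x t u v)) * N (E.c g (R.x t u v)) := by
    rintro _ _ ⟨_, _, _, rfl⟩ ⟨_, _, _, rfl⟩ t u v
    rw [E.c_left, n1 _ _ (m2 _ _ (m3 (R.x_mem ..)) (m1 ..)) (m1 ..), k2 _ _ (m3 (R.x_mem ..)) (m1 ..)]
  have k5 : ∀ {g g'}, g ∈ R.U → g' ∈ R.U → ∀ t u v, N (E.c (R.x t u v) (g * g')) =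
      N (E.c (R.x t u v) g) * N (E.c (R.x t u v) g') := by
    rintro _ _ ⟨_, _, _, rfl⟩ ⟨_, _, _, rfl⟩ t u v
    rw [E.c_right, n1 _ _ (m1 ..) (m2 _ _ (m3 (R.x_mem ..)) (m1 ..)), k2 _ _ (m3 (R.x_mem ..)) (m1 ..)]
  have k6 := form_one' (fun a b => N (E.c (R.x a 0 0) (R.x b 0 0))) R.three hy (fun a a' b => by
      obtain ⟨u, v, e⟩ := R.x_add a a'
      rw [e, k4 (mul_mem (R.x_mem ..) (R.x_mem ..)) (R.x_mem ..), k3, one_mul, k4 (R.x_mem ..) (R.x_mem ..)])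
    (fun a b b' => by
      obtain ⟨u, v, e⟩ := R.x_add b' b
      rw [add_comm, e, k5 (mul_mem (R.x_mem ..) (R.x_mem ..)) (R.x_mem ..), k1, mul_one, k5 (R.x_mem ..) (R.x_mem ..)])
    fun t a b ht => by
      rw [← n2 (Units.mk0 _ (mul_ne_zero (pow_ne_zero 2 ht) (R.s_ne ht))) _ (m1 a 0 0 b 0 0), ← E.c_conj, h_x, h_x,
        Units.val_mk0, R.wt_one ht, mul_zero, mul_zero]
  let W : Subgroup Γ := ⟨⟨⟨{w | (∃ u v, π w = R.x 0 u v) ∧ N w = 1}, fun ⟨⟨_, _, e⟩, a⟩ ⟨⟨_, _, e'⟩, a'⟩ => ⟨⟨_, _, by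
    rw [map_mul, e, e', ← x_add1]⟩, by rw [n1 _ _ ⟨_, _, e⟩ ⟨_, _, e'⟩, a, a', mul_one]⟩⟩,
      ⟨0, 0, by rw [map_one, x_zero]⟩, n0⟩, fun {w} ⟨⟨_, _, e⟩, a⟩ => by
    have h : ∃ u v, π w⁻¹ = R.x 0 u v := ⟨_, _, by rw [map_inv, e, x_inv, neg_zero]⟩
    have := n1 _ _ h ⟨_, _, e⟩
    rw [inv_mul_cancel, n0, a, mul_one] at this
    exact ⟨h, this.symm⟩⟩
  have hle : ⁅R.U.comap π, R.U.comap π⁆ ≤ W := commutator_le.2 fun g ⟨t, u, v, e⟩ g' ⟨t', u', v', e'⟩ => by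
    rw [E.c_eq, e, e']
    refine ⟨m1 .., ?_⟩
    rw [x_split, ← x_add1, k4 (R.x_mem ..) (R.x_mem ..), k3, one_mul, x_split R t', ← x_add1,
      k5 (R.x_mem ..) (R.x_mem ..), k1, mul_one, k6]
  rw [← n3 z hz, (hle hz').2]

variable [Fintype K] [Finite G] {m q a b c d : ℕ} (N : ReeNum m q a b c d) (hK : Fintype.card K = q)
include N hK R E

theorem not_three_dvd {z : Γ} (hz : π z = 1) (hz' : z ∈ _root_.commutator Γ) : ¬ 3 ∣ orderOf z := fun h => by
  have hi : (R.U.comap π).index = R.U.index := R.U.index_comap_of_surjective fun g => ⟨_, E.hl g⟩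
  have : (R.U.comap π).FiniteIndex := ⟨hi ▸ index_ne_zero_of_finite⟩
  have h1 := R.pow_eq_one_of_comm E hy (by rw [map_pow, hz, one_pow])
    (H26.pow_index_mem_commutator (R.U.comap π) (E.hc hz) hz')
  rw [← pow_mul, hi, hK] at h1
  rcases (Nat.Prime.dvd_mul Nat.prime_three).1 (h.trans (orderOf_dvd_of_pow_eq_one h1)) with h2 | h2
  · exact absurd (Nat.eq_one_of_dvd_coprimes (R.hallU N hK) (R.three_dvd_U N hK) h2) (by decide)
  · have := N.three_dvd; have := N.ha; omega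

omit hy in
theorem not_two_dvd {z : Γ} (hz : π z = 1) (hz' : z ∈ _root_.commutator Γ) : ¬ 2 ∣ orderOf z := fun h => by
  obtain ⟨S⟩ : Nonempty (Sylow 2 G) := inferInstance
  have hi : (S.1.comap π).index = S.1.index := S.1.index_comap_of_surjective fun g => ⟨_, E.hl g⟩
  have : (S.1.comap π).FiniteIndex := ⟨hi ▸ index_ne_zero_of_finite⟩
  have h1 := H26.pow_index_mem_commutator (S.1.comap π) (E.hc hz) hz'
  have h2 := fun g => R.sq_of_pGroup N hK S.isPGroup' (g := g)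
  have hle : ⁅S.1.comap π, S.1.comap π⁆ ≤ ⊥ := commutator_le.2 fun g hg g' hg' => by
    rw [mem_bot, E.c_eq]
    by_cases h0 : π g = 1
    · rw [h0, E.c_one]
    obtain ⟨k, hk⟩ := R.conj_a N hK (h2 _ hg) h0
    have h3 : π g' * π g = π g * π g' := by
      rw [← inv_inj, mul_inv_rev, inv_eq_of_mul_eq_one_right (h2 _ hg), inv_eq_of_mul_eq_one_right (h2 _ hg'),
        inv_eq_of_mul_eq_one_right (h2 _ (mul_mem hg hg'))]
    have := E.c_conj k (π g) (π g')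
    rw [hk, R.c_a E (mem_centralizer_singleton_iff.2 (by rw [← hk]; simp [mul_assoc, ← mul_assoc (π g'), h3])),
      E.c_central h3.symm] at this
    exact this.symm
  exact S.not_dvd_index (hi ▸ h.trans (orderOf_dvd_of_pow_eq_one (hle h1)))

end Ree
end H24
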