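import Cfsg.Agent.H24.Ree6

/-! Groups of Ree type: degrees of complex representations. -/

set_option linter.unusedSectionVars false
set_option maxHeartbeats 400000

namespace H24
open Subgroup LinearMap

section
variable {V : Type*} [AddCommGroup V] [Module ℂ V] [Module.Finite ℂ V]

theorem trace_of_sq {T : Module.End ℂ V} {c : ℂ} (hc : c ≠ 0) (h : T * T = c • T) :
    ∃ n : ℕ, trace ℂ V T = c * n ∧ (n = 0 → T = 0) := by
  have e : IsIdempotentElem (c⁻¹ • T) := by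
    rw [IsIdempotentElem, smul_mul_smul_comm, h, smul_smul, inv_mul_cancel_right₀ hc]
  have := e.isProj_range.trace
  refine ⟨_, by rw [← this, map_smul, smul_eq_mul, mul_inv_cancel_left₀ hc], fun h0 => ?_⟩
  rw [h0, Nat.cast_zero, e.trace_eq_zero_iff] at this
  exact (smul_eq_zero.1 this).resolve_left (inv_ne_zero hc)

variable {K : Type*} [Field K] [Fintype K] [DecidableEq K] {ψ : AddChar K ℂ} (hψ : ψ.IsPrimitive)
include hψ

theorem sum_char2 (u v : K) :
    ∑ p : K × K, ψ (p.1 * u + p.2 * v) = if u = 0 ∧ v = 0 then (Fintype.card K : ℂ) ^ 2 else 0 := by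
  simp only [Fintype.sum_prod_type, AddChar.map_add_eq_mul, ← Finset.mul_sum, ← Finset.sum_mul,
    AddChar.sum_mulShift _ hψ]
  by_cases hu : u = 0 <;> by_cases hv : v = 0 <;> simp [hu, hv, sq]
end

namespace Ree
variable {K : Type*} [Field K] [Fintype K] [DecidableEq K] {G : Type*} [Group G] (R : Ree K G)
  {V : Type*} [AddCommGroup V] [Module ℂ V] [Module.Finite ℂ V] (ρ : Representation ℂ G V) (ψ : AddChar K ℂ)

/-- the (unnormalized) projections onto the weight spaces -/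
noncomputable def T (p : K × K) : Module.End ℂ V := ∑ w : K × K, ψ (p.1 * w.1 + p.2 * w.2) • ρ (R.x 0 w.1 w.2)

theorem x_mul_T (p : K × K) (u v : K) : ρ (R.x 0 u v) * R.T ρ ψ p = ψ (-(p.1 * u + p.2 * v)) • R.T ρ ψ p := by
  rw [T, Finset.mul_sum, Finset.smul_sum]
  refine Fintype.sum_equiv (Equiv.addLeft (u, v)) _ _ fun w => ?_
  rw [mul_smul_comm, ← map_mul, ← x_add1, smul_smul, ← AddChar.map_add_eq_mul]
  congr 2
  simp; ring

theorem conj_T (g : G) (p p' : K × K) (e : K × K ≃ K × K)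
    (h : ∀ w, g * R.x 0 w.1 w.2 = R.x 0 (e w).1 (e w).2 * g ∧
      p.1 * w.1 + p.2 * w.2 = p'.1 * (e w).1 + p'.2 * (e w).2) : ρ g * R.T ρ ψ p = R.T ρ ψ p' * ρ g := by
  rw [T, T, Finset.mul_sum, Finset.sum_mul]
  exact Fintype.sum_equiv e _ _ fun w => by rw [mul_smul_comm, smul_mul_assoc, ← map_mul, ← map_mul, (h w).1, (h w).2]

theorem trace_T {g : G} {p p' : K × K} (h : ρ g * R.T ρ ψ p = R.T ρ ψ p' * ρ g) :
    trace ℂ V (R.T ρ ψ p) = trace ℂ V (R.T ρ ψ p') := by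
  rw [← mul_one (R.T ρ ψ p'), ← map_one ρ, ← mul_inv_cancel g, ρ.map_mul, ← mul_assoc, ← h, trace_mul_comm, ← mul_assoc,
    ← ρ.map_mul, inv_mul_cancel, ρ.map_one, one_mul]

theorem trace_T_eq (α : K) {β : K} (hβ : β ≠ 0) : trace ℂ V (R.T ρ ψ (α, β)) = trace ℂ V (R.T ρ ψ (0, 1)) := by
  have h1 := R.s_ne hβ
  rw [R.trace_T ρ ψ (R.conj_T ρ ψ (R.x (α / β) 0 0) (α, β) (0, β)
    ⟨fun w => (w.1, w.2 + α / β * w.1), fun w => (w.1, w.2 - α / β * w.1), fun _ => by simp, fun _ => by simp⟩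
    fun w => ⟨by simp only [x_mul, map_zero, Equiv.coe_fn_mk]; exact R.x_congr (by ring) (by ring) (by ring), by
      simp; field_simp; ring⟩)]
  exact R.trace_T ρ ψ (R.conj_T ρ ψ (R.h (Units.mk0 β hβ)) (0, β) (0, 1)
    ((Equiv.mulLeft₀ _ (div_ne_zero h1 hβ)).prodCongr (Equiv.mulLeft₀ _ hβ)) fun w => ⟨by simp [hx], by simp⟩)

theorem a_T (α β : K) : ρ R.a * R.T ρ ψ (α, β) = R.T ρ ψ (α, -β) * ρ R.a :=
  R.conj_T ρ ψ _ _ _ ((Equiv.refl K).prodCongr (Equiv.neg K)) fun w => ⟨by simp [a, hx], by simp⟩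

variable {ψ} (hψ : ψ.IsPrimitive)
include hψ

theorem T_mul (p p' : K × K) :
    R.T ρ ψ p * R.T ρ ψ p' = (if p = p' then (Fintype.card K : ℂ) ^ 2 else 0) • R.T ρ ψ p' := by
  rw [T.eq_1 R ρ ψ p, Finset.sum_mul]
  simp only [smul_mul_assoc, x_mul_T, smul_smul, ← Finset.sum_smul, ← AddChar.map_add_eq_mul]
  congr 1
  refine Eq.trans (Finset.sum_congr rfl fun w _ => by congr 1; ring) ((sum_char2 hψ (p.1 - p'.1) (p.2 - p'.2)).trans ?_)
  simp only [sub_eq_zero, Prod.ext_iff]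

theorem sum_T : ∑ p, R.T ρ ψ p = (Fintype.card K : ℂ) ^ 2 • 1 := by
  simp only [T]
  rw [Finset.sum_comm]
  simp only [← Finset.sum_smul, sum_char2 hψ]
  rw [Fintype.sum_eq_single (0, 0) fun w hw => by rw [if_neg fun h => hw (Prod.ext h.1 h.2), zero_smul]]
  simp [x_zero]

variable [Finite G] {m q a b c d : ℕ} (N : ReeNum m q a b c d) (hK : Fintype.card K = q)
include N hK

omit hψ [DecidableEq K] in
theorem eight_dvd (h : trace ℂ V (ρ R.a) = 0) : 8 ∣ Module.finrank ℂ V := by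
  obtain ⟨S⟩ : Nonempty (Sylow 2 G) := inferInstance
  have := Fintype.ofFinite S
  have h8 := R.card_sylow2 N hK S
  rw [Nat.card_eq_fintype_card] at h8
  have h1 : ∀ s : S.1, ρ s * ∑ s : S.1, ρ s = ∑ s : S.1, ρ s := fun s => by
    rw [Finset.mul_sum]
    exact Fintype.sum_equiv (Equiv.mulLeft s) _ _ fun t => by simp
  obtain ⟨n, hn, -⟩ := trace_of_sq (T := ∑ s : S.1, ρ s) (c := 8) (by norm_num) (by
    rw [Finset.sum_mul, Finset.sum_congr rfl fun s _ => h1 s, Finset.sum_const, Finset.card_univ, h8,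
      ← Nat.cast_smul_eq_nsmul ℂ]; rfl)
  rw [map_sum, Fintype.sum_eq_single 1 fun s hs => by
    obtain ⟨k, hk⟩ := R.conj_a N hK (R.sq_of_pGroup N hK S.isPGroup' s.2) (fun e => hs (Subtype.ext e))
    rw [← h, ← hk, map_mul, trace_mul_comm, ← map_mul, inv_mul_cancel_left]] at hn
  exact ⟨n, by simpa using (Nat.cast_injective (R := ℂ) (by simpa using hn) : Module.finrank ℂ V = 8 * n)⟩

theorem finrank_ge (h : ∃ v, ρ (R.x 0 0 v) ≠ 1) : q ^ 2 - q + 1 ≤ Module.finrank ℂ V := by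
  have h0 : (Fintype.card K : ℂ) ^ 2 ≠ 0 := by simp
  choose n h1 h2 using fun p => trace_of_sq h0 (by simpa using R.T_mul ρ hψ p p)
  have h3 : ∀ α β, β ≠ 0 → n (α, β) = n (0, 1) := fun α β hβ => Nat.cast_injective (R := ℂ)
    (mul_left_cancel₀ h0 (by rw [← h1, ← h1, R.trace_T_eq ρ ψ α hβ]))
  have h4 : ∑ p, n p = Module.finrank ℂ V := Nat.cast_injective (R := ℂ) (mul_left_cancel₀ h0 (by
    have := congrArg (trace ℂ V) (R.sum_T ρ hψ)
    simpa [h1, ← Finset.mul_sum] using this))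
  have h5 : n (0, 1) ≠ 0 := fun e => by
    obtain ⟨v, hv⟩ := h
    refine hv (smul_right_injective _ h0 ?_)
    have := congrArg (ρ (R.x 0 0 v) * ·) (R.sum_T ρ hψ)
    simp only [mul_smul_comm, mul_one] at this ⊢
    rw [← this, ← R.sum_T ρ hψ, Finset.mul_sum]
    refine Finset.sum_congr rfl fun ⟨α, β⟩ _ => ?_
    by_cases hβ : β = 0
    · simp [x_mul_T, hβ]
    · simp [h2 _ ((h3 α β hβ).trans e)]
  have h6 : ∑ p, n p = ∑ α, n (α, 0) + q * (q - 1) * n (0, 1) := by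
    rw [Fintype.sum_prod_type, mul_assoc, ← hK, ← smul_eq_mul, ← Finset.card_univ, ← Finset.sum_const,
      ← Finset.sum_add_distrib]
    refine Finset.sum_congr rfl fun α _ => ?_
    rw [← Finset.add_sum_erase _ _ (Finset.mem_univ 0),
      Finset.sum_congr rfl fun β hβ => h3 α β (Finset.ne_of_mem_erase hβ)]
    simp
  by_contra hlt
  have h7 : q ^ 2 - q = q * (q - 1) := by rw [Nat.mul_sub, sq, mul_one]
  have h8 := Nat.mul_le_mul_left (q * (q - 1)) (Nat.pos_of_ne_zero h5)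
  have h9 : ∑ α, n (α, 0) = 0 := by omega
  have := R.eight_dvd ρ N hK (mul_left_cancel₀ h0 (by
    have := congrArg (fun f => trace ℂ V (ρ R.a * f)) (R.sum_T ρ hψ)
    simp only [mul_smul_comm, mul_one, map_smul, smul_eq_mul] at this
    rw [← this, Finset.mul_sum, map_sum, mul_zero]
    refine Finset.sum_eq_zero fun ⟨α, β⟩ _ => ?_
    by_cases hβ : β = 0
    · rw [hβ, h2 _ (Finset.sum_eq_zero_iff.1 h9 α (Finset.mem_univ _)), mul_zero, map_zero]
    · have e1 := R.T_mul ρ hψ (α, β) (α, β)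
      have e2 := R.T_mul ρ hψ (α, β) (α, -β)
      rw [if_pos rfl] at e1
      rw [if_neg fun e => hβ (mul_left_cancel₀ R.two_ne (by linear_combination (Prod.ext_iff.1 e).2)), zero_smul] at e2
      refine mul_left_cancel₀ h0 ?_
      rw [← smul_eq_mul, ← map_smul, ← mul_smul_comm, ← e1, ← mul_assoc, a_T, trace_mul_comm, ← mul_assoc, e2]
      simp))
  rw [show Module.finrank ℂ V = q * (q - 1) by omega, N.ha, Nat.add_sub_cancel] at this
  have h10 := N.a6
  have := (Nat.Coprime.pow_left 3 ((Nat.coprime_two_left).2 ⟨a, rfl⟩)).dvd_of_dvd_mul_left this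
  omega

end Ree
end H24
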