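import Cfsg.Agent.H24.LT6

/-! Intersections of Sylow `2`-subgroups in extensions of degree two of groups over the field with two elements. -/

set_option autoImplicit false
set_option linter.unusedSectionVars false
set_option maxHeartbeats 400000

namespace H24

open Subgroup
open scoped Pointwise

variable {ι Φ : Type} [Fintype ι] [DecidableEq ι] [Fintype Φ] [DecidableEq Φ] {R : CD ι Φ} {F : Type*} [Field F]
  {K : Type*} [Group K] (S : St R F K) [Fintype F]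

theorem St.exists_opp (hG : S.Gr = ⊤) {A : Subgroup K} (hA : Nat.card A = Nat.card S.U) (h : S.U ⊓ A = ⊥) :
    ∃ u ∈ S.U, S.V.map (MulAut.conj u).toMonoidHom = A := by
  obtain ⟨k, hk⟩ := S.exists_conj_U hG S.r3_of_finite hA
  obtain ⟨w, hw, hc⟩ := S.mem_Gr_iff.1 (hG ▸ Subgroup.mem_top k)
  obtain ⟨n, hn, hr⟩ := S.exists_N_rep hw
  obtain ⟨b, hb, u, hu, rfl⟩ := S.exists_canon hc hn hr
  have e : ∀ (A : Subgroup K) a b, A.map (MulAut.conj (a * b)).toMonoidHom =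
      (A.map (MulAut.conj b).toMonoidHom).map (MulAut.conj a).toMonoidHom := fun A a b => by
    rw [Subgroup.map_map, map_mul]; rfl
  rw [e, e] at hk
  erw [Subgroup.mem_normalizer_iff_map_conj_eq.1 (S.B_le_normalizer_U (S.U_le_B (S.Um_le_U _ hu)))] at hk
  obtain rfl : w = R.wL Set.univ := RS.eq_wL (R.WJ_univ ▸ hw) fun j _ hj => by
    obtain ⟨c, hc, h'⟩ := hr.exists_conj (R.sim j)
    have h2 : b * S.x (w (R.sim j)) (c * 1) * b⁻¹ ∈ S.U ⊓ A := by
      rw [← hk]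
      exact ⟨(Subgroup.mem_normalizer_iff.1 (S.B_le_normalizer_U hb) _).1 (S.x_mem_U hj _),
        ⟨_, ⟨_, S.x_mem_U (R.pos_sim j) 1, h' 1⟩, rfl⟩⟩
    simpa [h, S.x_eq_one_iff, hc] using h2
  rw [(S.conj_n0 hr).1] at hk
  obtain ⟨u, hu, h, hh, rfl⟩ := S.mem_B_iff.1 hb
  rw [e] at hk
  erw [Subgroup.mem_normalizer_iff_map_conj_eq.1 (S.H_le_normalizer _ hh)] at hk
  exact ⟨u, hu, hk⟩

theorem St.H_eq_one (hF : Fintype.card F = 2) {h : K} (hh : h ∈ S.H) : h = 1 := by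
  simpa [hF] using S.pow_card_H' hh

theorem St.sylow_inf (hG : S.Gr = ⊤) (hF : Fintype.card F = 2) {G : Type*} [Group G] [Finite G] {N : Subgroup G}
    (hi : N.index = 2) (e : N ≃* K) (H : Sylow 2 G) (x : G) : (H : Subgroup G) ⊓ MulAut.conj x • (H : Subgroup G) ≠ ⊥ := by
  have := normal_of_index_eq_two hi
  have := Finite.of_equiv _ e.toEquiv
  have : CharP F 2 := (CharP.charP_iff_prime_eq_zero Nat.prime_two).2 (by simpa [hF] using FiniteField.cast_card_eq_zero F)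
  let j : K →* G := N.subtype.comp e.symm.toMonoidHom
  have hj : Function.Injective j := N.subtype_injective.comp e.symm.injective
  let c : G →* MulAut K := (MulAut.congr e).toMonoidHom.comp MulAut.conjNormal
  have hc : ∀ x g, j (c x g) = x * j g * x⁻¹ := fun x g => by simp [j, c]
  have hc' : ∀ g, c (j g) = MulAut.conj g := fun g => MulEquiv.ext fun y => hj (by simp [hc])
  have e1 : ∀ (A : Subgroup K) a b, A.map (c (a * b)).toMonoidHom = (A.map (c b).toMonoidHom).map (c a).toMonoidHom :=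
    fun A a b => by rw [Subgroup.map_map, map_mul]; rfl
  have cd : ∀ g, Nat.card (S.U.map (c g).toMonoidHom) = Nat.card S.U := fun g => card_map_of_injective (c g).injective
  obtain ⟨Q, hQ⟩ := ((S.isPGroup_U 2).map j).exists_le_sylow
  have h1 : (Q : Subgroup G).comap j = S.U := (S.sylU hG S.r3_of_finite 2).is_maximal'
    (Q.isPGroup'.comap_of_injective _ hj) (map_le_iff_le_comap.1 hQ)
  let X : Subgroup G := (MulAction.stabilizer (MulAut K) S.U).comap c
  have hX : ∀ g, g ∈ X ↔ S.U.map (c g).toMonoidHom = S.U := fun g => Iff.rfl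
  have h2 : X = Q := Q.is_maximal' (fun g => by
    obtain ⟨k, hk⟩ : ∃ k, j k = g.1 ^ 2 := ⟨e ⟨_, hi ▸ N.pow_index_mem g.1⟩, by simp [j]⟩
    have a1 := (hX _).1 (hk ▸ pow_mem g.2 2)
    rw [hc'] at a1
    obtain ⟨u, hu, h, hh, rfl⟩ := S.mem_B_iff.1 ((S.normalizer_U' hG).le (mem_normalizer_iff_map_conj_eq.2 a1))
    obtain ⟨n, hn⟩ := S.isPGroup_U 2 ⟨u, hu⟩
    refine ⟨n + 1, Subtype.ext ?_⟩
    rw [coe_pow, pow_succ', pow_mul, ← hk, S.H_eq_one hF hh, mul_one, ← map_pow, show u ^ 2 ^ n = 1 from congrArg Subtype.val hn,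
      map_one, coe_one]) fun s hs => (hX s).2 (eq_of_le_of_card_ge (by
        rintro _ ⟨u, hu, rfl⟩
        rw [← h1] at hu ⊢
        exact (show j (c s u) ∈ _ from hc s u ▸ mul_mem (mul_mem hs hu) (inv_mem hs))) (cd s).ge)
  have key : ∀ x : G, ∃ y ∈ (Q : Subgroup G), x⁻¹ * y * x ∈ (Q : Subgroup G) ∧ y ≠ 1 := fun x => by
    by_cases h : S.U ⊓ S.U.map (c x).toMonoidHom = ⊥
    swap
    · obtain ⟨⟨_, a1, u, a2, rfl⟩, a3⟩ := ne_bot_iff_exists_ne_one.1 h
      refine ⟨_, hQ ⟨_, a1, rfl⟩, ?_, fun e => a3 (Subtype.ext (hj (e.trans j.map_one.symm)))⟩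
      rw [show j ((c x).toMonoidHom u) = _ from hc x u]
      simpa [mul_assoc] using hQ ⟨u, a2, rfl⟩
    obtain ⟨y, a1, a2⟩ := SetLike.not_le_iff_exists.1 fun h : (Q : Subgroup G) ≤ N => 
      Q.not_dvd_index (hi.symm.dvd.trans (index_dvd_of_le h))
    obtain ⟨u, hu, b1⟩ := S.exists_opp hG (cd x) h
    obtain ⟨v, hv, b2⟩ := S.exists_opp hG (cd (y * x)) (by
      rw [e1, ← (hX y).1 (h2.ge a1), ← map_inf _ _ _ (c y).injective, (hX y).1 (h2.ge a1), h, Subgroup.map_bot])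
    refine ⟨j (u * v⁻¹) * y, mul_mem (hQ ⟨_, mul_mem hu (inv_mem hv), rfl⟩) a1, h2.le ((hX _).2 ?_), fun h => a2 ?_⟩
    · rw [mul_assoc, mul_assoc, e1, e1, ← b2, ← hc', ← e1 _ _ (j v), ← map_mul, inv_mul_cancel_right, hc', b1, ← e1,
        inv_mul_cancel, map_one]
      exact map_id _
    · rw [eq_inv_of_mul_eq_one_right h]
      exact inv_mem (Subtype.prop _)
  obtain ⟨g, rfl⟩ := MulAction.exists_smul_eq G Q H
  obtain ⟨y, a1, a2, a3⟩ := key (g⁻¹ * x * g)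
  refine ne_bot_iff_exists_ne_one.2 ⟨⟨g * y * g⁻¹, ⟨y, a1, rfl⟩, ⟨_, ⟨_, a2, rfl⟩, ?_⟩⟩,
    fun h => a3 (by simpa using congrArg Subtype.val h)⟩
  simp [mul_assoc]

end H24
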